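import Cfsg.Statements.S2450
import Cfsg.Agent.SL2.Prod

set_option autoImplicit false
open Cfsg

namespace Cfsg.Agent.S2450

open Cfsg.Agent.SL2 Polynomial

/-- The Arad–Herzog conjecture for PSL(2,q): let F be a finite field with q ≥ 4 elements. For any two non-identity elements a, b of PSL(2,F), the set of products of a conjugate of a with a conjugate of b is not a single conjugacy class. -/
theorem result {F : Type*} [Field F] [Fintype F] (h4 : 4 ≤ Fintype.card F)
    (a b : Matrix.ProjectiveSpecialLinearGroup (Fin 2) F) (ha : a ≠ 1) (hb : b ≠ 1) (c : Matrix.ProjectiveSpecialLinearGroup (Fin 2) F) :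
    {g : Matrix.ProjectiveSpecialLinearGroup (Fin 2) F | ∃ u v : Matrix.ProjectiveSpecialLinearGroup (Fin 2) F, g = (u * a * u⁻¹) * (v * b * v⁻¹)} ≠ {g | IsConj c g} := by
  intro H
  obtain ⟨a, rfl⟩ := pr_surjective a
  obtain ⟨b, rfl⟩ := pr_surjective b
  obtain ⟨c, rfl⟩ := pr_surjective c
  obtain ⟨α, a', hα, ha', ea⟩ := exists_conj_normal (g := a) (fun e => ha (pr_eq_one_iff.2 e))
  obtain ⟨β, b', hβ, hb', eb⟩ := exists_conj_normal (g := b) (fun e => hb (pr_eq_one_iff.2 e))
  obtain ⟨u, hu⟩ := isConj_iff.1 ea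
  obtain ⟨v, hv⟩ := isConj_iff.1 eb
  set τ := c.1.trace with hτ
  let A := a.1.trace
  let B := b.1.trace
  have key : ∀ x : F, -(α * β) * x ^ 2 + (α * B - A * β) * x + (A * B - α / β - β / α) = τ ∨
      -(α * β) * x ^ 2 + (α * B - A * β) * x + (A * B - α / β - β / α) = -τ := by
    intro x
    have hmem : pr (a' * (upT x * b' * (upT x)⁻¹)) ∈ {g | IsConj (pr c) g} := by
      rw [← H]
      exact ⟨pr u, pr (upT x * v), by rw [← hu, ← hv]; simp [mul_assoc]⟩
    obtain ⟨w, hw⟩ := isConj_iff.1 hmem
    obtain ⟨w, rfl⟩ := pr_surjective w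
    rw [← map_inv, ← map_mul, ← map_mul, eq_comm, pr_eq_iff] at hw
    have ht : (a' * (upT x * b' * (upT x)⁻¹)).1.trace =
        -(α * β) * x ^ 2 + (α * B - A * β) * x + (A * B - α / β - β / α) := by
      rw [← upT_neg]
      simp [ha', hb', upT_val, Matrix.trace_fin_two, mul_ap, A, B]
      field_simp
      ring
    rw [← ht]
    rcases hw with h | h
    · left; rw [h, sl_trace_conj]
    · right; rw [h, sl_trace_neg, sl_trace_conj]
  have hαβ : -(α * β) ≠ 0 := neg_ne_zero.2 (mul_ne_zero hα hβ)
  have hquad : ∀ κ : F, (C (-(α * β)) * X ^ 2 + C (α * B - A * β) * X + C κ : F[X]).natDegree = 2 ∧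
      (C (-(α * β)) * X ^ 2 + C (α * B - A * β) * X + C κ : F[X]) ≠ 0 := fun κ => by
    have := natDegree_quadratic (b := α * B - A * β) (c := κ) hαβ
    refine ⟨this, fun e => ?_⟩
    rw [e] at this; simp at this
  by_cases h2 : (2 : F) = 0
  · have hneg : -τ = τ := by linear_combination (-τ) * h2
    obtain ⟨h1, h3⟩ := hquad (A * B - α / β - β / α - τ)
    apply h3
    apply eq_zero_of_natDegree_lt_card_of_eval_eq_zero _ Function.injective_id
    · intro x
      have := key x
      rw [hneg, or_self] at this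
      simp only [id, eval_add, eval_mul, eval_C, eval_pow, eval_X]
      linear_combination this
    · omega
  · have hodd := Nat.odd_iff.1 (odd_of_two_ne_zero h2)
    obtain ⟨h1, h3⟩ := hquad (A * B - α / β - β / α - τ)
    obtain ⟨h1', h3'⟩ := hquad (A * B - α / β - β / α + τ)
    apply mul_ne_zero h3 h3'
    apply eq_zero_of_natDegree_lt_card_of_eval_eq_zero _ Function.injective_id
    · intro x
      simp only [id, eval_add, eval_mul, eval_C, eval_pow, eval_X, mul_eq_zero]
      rcases key x with h | h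
      · left; linear_combination h
      · right; linear_combination h
    · rw [natDegree_mul h3 h3', h1, h1']; omega

end Cfsg.Agent.S2450
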