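import Cfsg.Statements.S2481
import Cfsg.Agent.Forms.UCount

set_option autoImplicit false
open Cfsg

namespace Cfsg.Agent.S2481

open Polynomial Finset Cfsg.Agent.GLn Cfsg.Agent.Forms

variable {F : Type*} [Field F] [Fintype F] {q : ℕ} (hF : Fintype.card F = q ^ 2)

theorem card_range_phiU : Nat.card (phiU (frobq hF)).range = q + 1 := by
  classical
  rw [← card_nrm_one hF, ← Fintype.card_subtype, ← Nat.card_eq_fintype_card]
  refine Nat.card_congr (Equiv.ofBijective (fun u => ⟨((u.1 : Fˣ) : F), ?_⟩) ⟨?_, ?_⟩)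
  · obtain ⟨_, t, rfl⟩ := u
    have : frobq hF t ≠ 0 := by simp
    have h2 : (t : F) ≠ 0 := t.ne_zero
    simp only [nrm_def, coe_phiU, map_div₀, frobq_frobq]
    field_simp
  · intro u v h
    exact Subtype.ext (Units.ext (congrArg Subtype.val h))
  · rintro ⟨x, hx⟩
    obtain ⟨t, ht⟩ := exists_div_tau (frobq_frobq hF) (exists_frobq_ne hF) hx
    exact ⟨⟨_, t, rfl⟩, Subtype.ext (by simp [coe_phiU, ht])⟩

theorem lev_finite (d : ℕ) : (Lev (uS (frobq hF)) natDegree d).Finite := by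
  have : Set.Finite {f : F[X] | f.Monic ∧ f.natDegree = d} := finite_monic F _
  exact this.subset fun f hf => ⟨hf.1.1, hf.2⟩

theorem lev_zero : (Lev (uS (frobq hF)) natDegree 0).ncard ≤ 1 := by
  have : Lev (uS (frobq hF)) natDegree 0 ⊆ {1} := fun f hf => hf.1.1.natDegree_eq_zero.1 hf.2
  simpa using Set.ncard_le_ncard this

theorem lev_succ (d : ℕ) : (Lev (uS (frobq hF)) natDegree (d + 1)).ncard ≤ (q + 1) * q ^ d := by
  classical
  have h1 : Lev (uS (frobq hF)) natDegree (d + 1) ⊆ ⋃ c ∈ (univ.filter fun x : F => nrm hF x = 1),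
      {f : F[X] | f.Monic ∧ f.natDegree = d + 1 ∧ f.coeff 0 = c ∧ SD (frobq hF) f} := by
    rintro f ⟨⟨h1, h2, h3⟩, h4⟩
    simp only [Set.mem_iUnion]
    exact ⟨f.coeff 0, mem_filter.2 ⟨mem_univ _, h3.norm h1⟩, h1, h4, rfl, h3⟩
  have hfin : ∀ c, Set.Finite
      {f : F[X] | f.Monic ∧ f.natDegree = d + 1 ∧ f.coeff 0 = c ∧ SD (frobq hF) f} := fun c => by
    have : Set.Finite {f : F[X] | f.Monic ∧ f.natDegree = d + 1} := finite_monic F _
    exact this.subset fun f hf => ⟨hf.1, hf.2.1⟩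
  refine ((Set.ncard_le_ncard h1 (Set.Finite.biUnion (finite_toSet _) fun c _ => hfin c)).trans
    (ncard_biUnion_le' _ _)).trans ?_
  rw [← card_nrm_one hF, ← smul_eq_mul]
  refine sum_le_card_nsmul _ _ _ fun c hc => le_of_eq ?_
  have h1 := card_sd_sq (frobq_frobq hF) (exists_frobq_ne hF) d (c := c) (mem_filter.1 hc).2
  rw [Nat.card_eq_fintype_card (α := F), hF, ← pow_mul, mul_comm, pow_mul] at h1
  rw [← Nat.pow_left_injective two_ne_zero h1, ← Nat.card_coe_set_eq]
  rfl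

theorem lev_le (d : ℕ) :
    ((Lev (uS (frobq hF)) natDegree d).ncard : ℝ) ≤ (1 + (q : ℝ)⁻¹) * q ^ d := by
  have hq : (0 : ℝ) < q := by have := two_le_q hF; positivity
  rcases d with _ | d
  · have : ((Lev (uS (frobq hF)) natDegree 0).ncard : ℝ) ≤ 1 := by exact_mod_cast lev_zero hF
    have := inv_pos.2 hq
    simp only [pow_zero]; linarith
  · have : ((Lev (uS (frobq hF)) natDegree (d + 1)).ncard : ℝ) ≤ (q + 1) * q ^ d := by
      exact_mod_cast lev_succ hF d
    refine this.trans_eq ?_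
    rw [pow_succ]; field_simp

theorem lev_sum {y : ℝ} (h0 : 0 ≤ y) (h1 : q * y < 1) (D : ℕ) :
    ∑ d ∈ range D, ((Lev (uS (frobq hF)) natDegree d).ncard : ℝ) * y ^ d ≤
      (1 + y) / (1 - q * y) := by
  have h2 : 0 < 1 - q * y := by linarith
  refine (sum_le_sum_of_subset_of_nonneg (range_mono (Nat.le_succ D))
    fun _ _ _ => by positivity).trans ?_
  rw [sum_range_succ']
  have e0 : ((Lev (uS (frobq hF)) natDegree 0).ncard : ℝ) ≤ 1 := by exact_mod_cast lev_zero hF
  have e1 : ∑ d ∈ range D, ((Lev (uS (frobq hF)) natDegree (d + 1)).ncard : ℝ) * y ^ (d + 1) ≤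
      (q + 1) * y * (1 - q * y)⁻¹ := by
    refine le_trans (sum_le_sum fun d _ => ?_) ((mul_sum _ _ _).symm.trans_le
      (mul_le_mul_of_nonneg_left (sum_range_geom_le (by positivity) h1 D) (by positivity)))
    have : ((Lev (uS (frobq hF)) natDegree (d + 1)).ncard : ℝ) ≤ (q + 1) * q ^ d := by
      exact_mod_cast lev_succ hF d
    refine (mul_le_mul_of_nonneg_right this (by positivity)).trans_eq ?_
    rw [mul_pow]; ring
  have e2 : (1 + y) / (1 - q * y) = (q + 1) * y * (1 - q * y)⁻¹ + 1 := by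
    rw [div_eq_iff h2.ne', add_mul, mul_assoc, inv_mul_cancel₀ h2.ne']; ring
  rw [e2]
  simp only [pow_zero, mul_one]
  linarith

theorem lev_phi (N : ℕ) (hN : 1 ≤ N) (D : ℕ) :
    ∑ d ∈ range D, ((Lev (uS (frobq hF)) natDegree d).ncard : ℝ) * (((q : ℝ)⁻¹) ^ (N + 1)) ^ d ≤
      (1 + (q : ℝ)⁻¹ ^ (N + 1)) / (1 - (q : ℝ)⁻¹ ^ N) := by
  have hq : (1 : ℝ) < q := by exact_mod_cast two_le_q hF
  have e : (q : ℝ) * (q : ℝ)⁻¹ ^ (N + 1) = (q : ℝ)⁻¹ ^ N := by rw [pow_succ]; field_simp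
  have := lev_sum hF (y := (q : ℝ)⁻¹ ^ (N + 1)) (by positivity) (by
    rw [e]; exact pow_lt_one₀ (by positivity) (inv_lt_one_of_one_lt₀ hq) (by omega)) D
  rwa [e] at this

theorem ty_one (m : ℕ) : ((TyU (frobq hF) 1 m).ncard : ℝ) ≤ (1 + (q : ℝ)⁻¹) * q ^ m :=
  (Nat.cast_le.2 (ncard_GT_one_le one_mem_uS (lev_finite hF) m)).trans (lev_le hF m)

theorem ty_two (m : ℕ) : ((TyU (frobq hF) 2 m).ncard : ℝ) ≤
    (1 + (q : ℝ)⁻¹) * ((1 + (q : ℝ)⁻¹ ^ 2) / (1 - (q : ℝ)⁻¹ ^ 1)) * q ^ m :=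
  ncard_GT_step one_mem_uS (lev_finite hF) (by have := two_le_q hF; positivity) (ty_one hF)
    (lev_phi hF 1 le_rfl) m

theorem step_ineq {x c : ℝ} (h0 : 0 < x) (h1 : x < 1) (hc : 1 + x ≤ c * (1 - x)) (N : ℕ)
    (hN : 1 ≤ N) : (1 - c * x ^ N) * ((1 + x ^ (N + 1)) / (1 - x ^ N)) ≤ 1 - c * x ^ (N + 1) := by
  have h2 : x ^ N < 1 := pow_lt_one₀ h0.le h1 (by omega)
  have h3 : 0 < x ^ N := by positivity
  have hc0 : 0 ≤ c := by nlinarith
  rw [← mul_div_assoc, div_le_iff₀ (by linarith), pow_succ]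
  have : 0 ≤ c * x * (x ^ N * x ^ N) := by positivity
  nlinarith [mul_le_mul_of_nonneg_right hc h3.le]

theorem ty_le_two (hq : q = 2) (N m : ℕ) : (TyU (frobq hF) N m).ncard ≤ 9 * 2 ^ m := by
  have h3 := ncard_GT_step one_mem_uS (lev_finite hF) (by have := two_le_q hF; positivity)
    (ty_two hF) (lev_phi hF 2 one_le_two)
  have := ncard_GT_le (q := q) (K := 9) (c := 3) (N0 := 3) one_mem_uS (lev_finite hF) natDegree_one
    (by have := two_le_q hF; positivity) (by norm_num) (by norm_num) _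
    (fun m => (h3 m).trans_eq (by subst hq; norm_num))
    (fun N hN => lev_phi hF N (by omega))
    (fun N hN => step_ineq (by subst hq; norm_num) (by subst hq; norm_num)
      (by subst hq; norm_num) N (by omega)) N m
  subst hq
  exact_mod_cast this

theorem ty_le_three (hq : 3 ≤ q) (N m : ℕ) : (TyU (frobq hF) N m).ncard ≤ 3 * q ^ m := by
  have hq' : (3 : ℝ) ≤ q := by exact_mod_cast hq
  have h0 : (0 : ℝ) < (q : ℝ)⁻¹ := by positivity
  have h1 : (q : ℝ)⁻¹ ≤ 1 / 3 := by rw [one_div]; exact inv_anti₀ (by norm_num) hq'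
  have := ncard_GT_le (q := q) (K := 3) (c := 2) (N0 := 2) one_mem_uS (lev_finite hF) natDegree_one
    (by positivity) (by norm_num) (by norm_num) _
    (fun m => (ty_two hF m).trans (mul_le_mul_of_nonneg_right (by
      rw [← mul_div_assoc, div_le_iff₀ (by linarith)]
      nlinarith [mul_pos h0 h0, mul_pos h0 (mul_pos h0 h0)]) (by positivity)))
    (fun N hN => lev_phi hF N (by omega))
    (fun N hN => step_ineq h0 (by linarith) (by linarith) N (by omega)) N m
  exact_mod_cast this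

theorem ty_small (N m : ℕ) : (TyU (frobq hF) N m).ncard ≤ (TyU (frobq hF) m m).ncard :=
  Set.ncard_le_ncard (GT_subset_of_le (fun _ ha h => ha.1.natDegree_eq_zero.1 h) natDegree_one N m)
    (TyU_finite _ _)

theorem cube_ineq (k : ℕ) (hk : 3 ≤ k) : 7200 * 2 ^ k ≤ 339 * 2 ^ (3 * k) := by
  obtain ⟨j, rfl⟩ := Nat.exists_eq_add_of_le hk
  have : 2 ^ (3 * (3 + j)) = 2 ^ (3 + j) * (64 * 2 ^ (2 * j)) := by ring
  rw [this]
  have : 1 ≤ 2 ^ (2 * j) := Nat.one_le_two_pow
  nlinarith [Nat.zero_le (2 ^ (3 + j))]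

theorem upper {n : ℕ} (hn : 2 ≤ n) : 100 * ((TyU (frobq hF) n n).ncard +
    ∑ r ∈ Icc 2 n, if r ∣ n ∧ r ∣ q + 1 then (r ^ 2 - 1) * (TyU (frobq hF) n (n / r)).ncard else 0)
      ≤ (q + 1) * (826 * q ^ (n - 1)) := by
  obtain ⟨n, rfl⟩ : ∃ m, n = m + 1 := ⟨n - 1, by omega⟩
  rw [Nat.add_sub_cancel]
  rcases (two_le_q hF).eq_or_lt with hq | hq
  · have h1 := ty_le_two hF hq.symm (n + 1) (n + 1)
    have h2 : (∑ r ∈ Icc 2 (n + 1), if r ∣ n + 1 ∧ r ∣ q + 1 then
        (r ^ 2 - 1) * (TyU (frobq hF) (n + 1) ((n + 1) / r)).ncard else 0) ≤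
        if 3 ∣ n + 1 then 8 * (TyU (frobq hF) (n + 1) ((n + 1) / 3)).ncard else 0 := by
      rw [sum_eq_single 3]
      · split_ifs with h h' h'
        · exact le_rfl
        · exact (h' h.1).elim
        · exact Nat.zero_le _
        · exact le_rfl
      · intro r hr hr3
        rw [if_neg]
        rintro ⟨-, h⟩
        rw [← hq] at h
        have := (Nat.dvd_prime Nat.prime_three).1 h
        have := (mem_Icc.1 hr).1
        omega
      · intro h
        rw [if_neg]
        rintro ⟨h', -⟩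
        exact h (mem_Icc.2 ⟨by norm_num, Nat.le_of_dvd (by omega) h'⟩)
    have e1 : ((TyU (frobq hF) 1 1).ncard : ℝ) ≤ 3 := (ty_one hF 1).trans_eq (by subst hq; norm_num)
    have e2 : ((TyU (frobq hF) 2 2).ncard : ℝ) ≤ 15 := (ty_two hF 2).trans_eq (by subst hq; norm_num)
    have e1' : (TyU (frobq hF) 1 1).ncard ≤ 3 := by exact_mod_cast e1
    have e2' : (TyU (frobq hF) 2 2).ncard ≤ 15 := by exact_mod_cast e2
    have h3 := ty_small hF (n + 1) ((n + 1) / 3)
    have h4 := ty_le_two hF hq.symm (n + 1) ((n + 1) / 3)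
    rw [pow_succ] at h1
    split_ifs at h2 with h
    · obtain ⟨k, hk⟩ := h
      have hk' : (n + 1) / 3 = k := by omega
      rw [hk'] at h2 h3 h4
      subst hq
      rcases (by omega : k = 1 ∨ k = 2 ∨ 3 ≤ k) with rfl | rfl | h5
      · obtain rfl : n = 2 := by omega
        omega
      · obtain rfl : n = 5 := by omega
        omega
      · have := cube_ineq k h5
        rw [← hk, pow_succ] at this
        omega
    · subst hq; omega
  · have h1 := ty_le_three hF hq (n + 1)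
    have h2 : (∑ r ∈ Icc 2 (n + 1), if r ∣ n + 1 ∧ r ∣ q + 1 then
        (r ^ 2 - 1) * (TyU (frobq hF) (n + 1) ((n + 1) / r)).ncard else 0) ≤
        3 * ∑ r ∈ Icc 2 (n + 1), if r ∣ n + 1 ∧ r ∣ q + 1 then
          (r ^ 2 - 1) * q ^ ((n + 1) / r) else 0 := by
      rw [mul_sum]
      refine sum_le_sum fun r _ => ?_
      split_ifs
      · rw [mul_left_comm]; exact Nat.mul_le_mul_left _ (h1 _)
      · simp
    have h3 : 4 * (∑ r ∈ Icc 2 (n + 1), if r ∣ n + 1 ∧ r ∣ q + 1 then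
          (r ^ 2 - 1) * q ^ ((n + 1) / r) else 0) ≤ 7 * q ^ (n + 1) := by
      by_cases h5 : 4 ≤ n
      · rw [← sum_filter]
        have := sum_le_card_nsmul ((Icc 2 (n + 1)).filter fun r => r ∣ n + 1 ∧ r ∣ q + 1)
          (fun r => (r ^ 2 - 1) * q ^ ((n + 1) / r)) ((q ^ 2 + 2 * q) * q ^ (n - 2)) fun r hr => by
            simp only [mem_filter, mem_Icc] at hr
            have e1 : (n + 1) / r ≤ n - 2 := by
              have := Nat.div_le_div_left (a := n + 1) hr.1.1 two_pos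
              omega
            have e2 := Nat.pow_le_pow_left (Nat.le_of_dvd (by omega) hr.2.2) 2
            refine Nat.mul_le_mul (by
              have : (q + 1) ^ 2 = q ^ 2 + 2 * q + 1 := by ring
              omega) (Nat.pow_le_pow_right (by omega) e1)
        have hc : #((Icc 2 (n + 1)).filter fun r => r ∣ n + 1 ∧ r ∣ q + 1) ≤ q := by
          refine (card_le_card (t := Icc 2 (q + 1)) fun r hr => ?_).trans (by simp)
          simp only [mem_filter, mem_Icc] at hr ⊢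
          exact ⟨hr.1.1, Nat.le_of_dvd (by omega) hr.2.2⟩
        rw [smul_eq_mul] at this
        refine (Nat.mul_le_mul_left 4 (this.trans (Nat.mul_le_mul_right _ hc))).trans ?_
        obtain ⟨k, rfl⟩ : ∃ k, n = k + 2 := ⟨n - 2, by omega⟩
        rw [Nat.add_sub_cancel]
        have e : 8 * q ≤ 3 * q ^ 2 := by nlinarith
        calc 4 * (q * ((q ^ 2 + 2 * q) * q ^ k)) = (4 * q ^ 2 + 8 * q) * (q * q ^ k) := by ring
          _ ≤ 7 * q ^ 2 * (q * q ^ k) := Nat.mul_le_mul_right _ (by omega)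
          _ = _ := by ring
      · obtain ⟨P, rfl⟩ : ∃ P, q = P + 3 := ⟨q - 3, by omega⟩
        interval_cases n
        · omega
        · simp [sum_Icc_succ_top]
          split_ifs <;> nlinarith
        · simp [sum_Icc_succ_top]
          split_ifs <;> ring_nf <;> omega
        · simp [sum_Icc_succ_top]
          split_ifs <;> ring_nf <;> omega
    have h4 := h1 (n + 1)
    rw [pow_succ] at h3 h4
    nlinarith [Nat.zero_le (q ^ n)]


/-- The number of conjugacy classes of SU(n,q): for n ≥ 2, q a prime power and F the field with q² elements, the number k of conjugacy classes of SU(n,q) (the determinant-one isometries of the standard Hermitian form on F^n) satisfies q^(n−1) ≤ k ≤ 8.26·q^(n−1). -/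
theorem result {F : Type*} [Field F] [Fintype F] (n q : ℕ) (hn : 2 ≤ n) (hF : Fintype.card F = q ^ 2) :
    q ^ (n - 1) ≤ Nat.card (ConjClasses (Cfsg.SU n F q)) ∧ 100 * Nat.card (ConjClasses (Cfsg.SU n F q)) ≤ 826 * q ^ (n - 1) := by
  obtain ⟨p, hp⟩ := CharP.exists F
  have : Fact p.Prime := ⟨CharP.char_is_prime F p⟩
  refine ⟨?_, ?_⟩
  · obtain ⟨n, rfl⟩ : ∃ m, n = m + 1 := ⟨n - 1, by omega⟩
    rw [Nat.add_sub_cancel, ← card_semisimple_SU hF p n]
    exact Finite.card_subtype_le _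
  · have h1 := card_conjClasses_SU_le (frobq_frobq hF) (exists_frobq_ne hF)
      (HForm.mem_SU_iff n (frobq_apply hF))
    have h2 := tyKU_mul_le (frobq_frobq hF) n n ((-1) ^ n)
    have h3 := tyWU_le (τ := frobq hF) (N := n) (by omega : 0 < n)
    have h4 := upper hF hn
    rw [card_range_phiU hF] at h2 h3
    refine Nat.le_of_mul_le_mul_left (le_trans ?_ h4) q.succ_pos
    rw [mul_left_comm]
    exact Nat.mul_le_mul_left _ (((Nat.mul_le_mul_left _ h1).trans h2).trans h3)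

end Cfsg.Agent.S2481
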