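import Cfsg.Statements.S2087
import Cfsg.Agent.Stein.SL2Mult
import Cfsg.Agent.Stein.SLBasic
import Cfsg.Agent.SL2.Elem

set_option autoImplicit false
open Cfsg

namespace Cfsg.Agent.S2087

open Matrix Subgroup Cfsg.Agent.Cover Cfsg.Agent.Stein

instance fact7 : Fact (Nat.Prime 7) := ⟨by norm_num⟩

def mA : Matrix (Fin 3) (Fin 3) (ZMod 2) := !![0, 0, 1; 0, 1, 1; 1, 1, 0]
def mB : Matrix (Fin 3) (Fin 3) (ZMod 2) := !![0, 0, 1; 1, 0, 1; 0, 1, 0]

def gA : SpecialLinearGroup (Fin 3) (ZMod 2) := ⟨mA, by decide +kernel⟩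
def gB : SpecialLinearGroup (Fin 3) (ZMod 2) := ⟨mB, by decide +kernel⟩

local notation "slM" => SpecialLinearGroup.coeMonoidHom

theorem gA_val : slM gA = mA := rfl
theorem gB_val : slM gB = mB := rfl

theorem inv7 {t : ZMod 7} (ht : t ≠ 0) : t⁻¹ = t ^ 5 := by
  apply inv_eq_of_mul_eq_one_right
  revert t; decide

theorem relA : ∀ t u : ZMod 7, mA ^ (t + u).val = mA ^ t.val * mA ^ u.val := by decide +kernel
theorem relB : ∀ t u : ZMod 7, mB ^ (t + u).val = mB ^ t.val * mB ^ u.val := by decide +kernel
theorem relC : ∀ t u : ZMod 7, t ≠ 0 → mA ^ t.val * mB ^ (-t ^ 5).val * mA ^ t.val * mA ^ u.val =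
    mB ^ (-((t ^ 5) ^ 2 * u)).val * (mA ^ t.val * mB ^ (-t ^ 5).val * mA ^ t.val) := by decide +kernel

def sys : SL2Sys (ZMod 7) (SpecialLinearGroup (Fin 3) (ZMod 2)) where
  x t := gA ^ t.val
  y t := gB ^ t.val
  x_add t u := by
    apply SpecialLinearGroup.coeMonoidHom_injective
    simp only [map_mul, map_pow, gA_val]; exact relA t u
  y_add t u := by
    apply SpecialLinearGroup.coeMonoidHom_injective
    simp only [map_mul, map_pow, gB_val]; exact relB t u
  conj t u ht := by
    rw [mul_inv_eq_iff_eq_mul, inv7 ht]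
    apply SpecialLinearGroup.coeMonoidHom_injective
    simp only [map_mul, map_pow, gA_val, gB_val]; exact relC t u ht

theorem h_neg : sys.h (-1) = 1 := by
  apply SpecialLinearGroup.coeMonoidHom_injective
  simp only [SL2Sys.h, SL2Sys.w, sys, inv7 (show (-1 : ZMod 7) ≠ 0 by decide), map_mul, map_pow,
    gA_val, gB_val, map_one]
  decide +kernel

theorem x_ne : sys.x 1 ≠ 1 := by
  intro h
  have := congrArg slM h
  simp only [sys, map_pow, gA_val, map_one] at this
  revert this
  decide +kernel

theorem perfect : commutator (SpecialLinearGroup (Fin 2) (ZMod 7)) = ⊤ :=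
  SL2.commutator_eq_top (a := 2) (by decide) (by decide)

theorem ker_eq : sys.fromSL2.ker = center _ := by
  apply le_antisymm
  · haveI := Matrix.ProjectiveSpecialLinearGroup.rank_two_simple (F := ZMod 7) (by simp)
    let π := QuotientGroup.mk' (center (SpecialLinearGroup (Fin 2) (ZMod 7)))
    rcases (Subgroup.Normal.map (inferInstance : sys.fromSL2.ker.Normal) π
      (QuotientGroup.mk'_surjective _)).eq_bot_or_eq_top with h | h
    · rw [Subgroup.map_eq_bot_iff, QuotientGroup.ker_mk'] at h; exact h
    · exfalso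
      have h1 := commutator_le_of_map_eq_top (π := π) (by rw [QuotientGroup.ker_mk'])
        sys.fromSL2.ker (fun e => by
          have : π e ∈ sys.fromSL2.ker.map π := by rw [h]; trivial
          exact this)
      rw [perfect] at h1
      have h2 : (sl2Std (ZMod 7)).x 1 ∈ sys.fromSL2.ker :=
        (commutator_le_left _ _) (h1 (mem_top _))
      rw [MonoidHom.mem_ker, sys.fromSL2_x] at h2
      exact x_ne h2
  · intro g hg
    rcases Cfsg.Agent.SL2.sl_mem_center_iff'.1 hg with rfl | rfl
    · exact one_mem _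
    · have : (-1 : SpecialLinearGroup (Fin 2) (ZMod 7)) = (sl2Std (ZMod 7)).h (-1) := by
        apply SpecialLinearGroup.coeMonoidHom_injective
        rw [sl2Std_h (by decide), inv7 (by decide)]
        decide +kernel
      rw [MonoidHom.mem_ker, this, ← h_neg]
      simp [SL2Sys.h, SL2Sys.w, sys.fromSL2_x, sys.fromSL2_y]

theorem card_ker : Nat.card sys.fromSL2.ker = 2 := by
  rw [ker_eq]; exact Cfsg.Agent.SL2.card_center_odd (by decide)

theorem surj : Function.Surjective sys.fromSL2 := by
  rw [← MonoidHom.range_eq_top]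
  apply eq_top_of_card_eq
  have h1 := sys.fromSL2.ker.card_mul_index
  rw [index_ker, card_ker, Cfsg.Agent.SL2.card_sl] at h1
  have h2 := card_sl_mul 3 (ZMod 2)
  rw [ZMod.card] at h1 h2
  rw [Fin.prod_univ_three] at h2
  norm_num [-Nat.card_eq_fintype_card] at h2
  have h3 : 2 * Nat.card sys.fromSL2.range = 336 := h1
  omega

theorem mult_sl : HasCyclicSchurMultiplier (SpecialLinearGroup (Fin 3) (ZMod 2)) 2 :=
  mult_of_cover perfect (sl2_closed (by simp) (by simp)) sys.fromSL2 surj ker_eq.le
    (mulEquivOfPrimeCardEq card_ker (by simp))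

/-- Exceptional Schur multiplier: over the field with 2 elements, PSL₃ has Schur multiplier cyclic of order 2 (here the Schur multiplier is described through stem extensions, as in the definitions). -/
theorem result {F : Type*} [Field F] [Fintype F] (hF : Fintype.card F = 2) : Cfsg.HasCyclicSchurMultiplier (Matrix.ProjectiveSpecialLinearGroup (Fin 3) F) 2 := by
  have h1 := mult_of_equiv (slEquiv (ZMod.ringEquivOfPrime F Nat.prime_two hF)) mult_sl
  have h2 : center (SpecialLinearGroup (Fin 3) F) = ⊥ := by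
    rw [eq_bot_iff]
    intro g hg
    obtain ⟨r, hr, hg'⟩ := Matrix.SpecialLinearGroup.mem_center_iff.1 hg
    have h0 : r ≠ 0 := by rintro rfl; simp at hr
    have h3 : r = 1 := by simpa [hF] using FiniteField.pow_card_sub_one_eq_one r h0
    rw [h3, map_one] at hg'
    exact Subtype.ext hg'.symm
  exact mult_of_equiv
    ((QuotientGroup.quotientBot.symm).trans (QuotientGroup.quotientMulEquivOfEq h2.symm)) h1

end Cfsg.Agent.S2087
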