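import Cfsg.Statements.S2109
import Cfsg.Agent.Cor.E6

set_option autoImplicit false
open Cfsg

namespace Cfsg.Agent.S2109

/-- Exceptional Schur multiplier: ²E₆(2), realised over the field with 4 elements, has Schur multiplier isomorphic to the product of cyclic groups of orders 3, 2 and 2 (order 12, not cyclic; here the Schur multiplier is described through stem extensions, as in the definitions). -/
theorem result {K : Type*} [Field K] [Fintype K] (hK : Fintype.card K = 4) : Cfsg.HasSchurMultiplier ↥(Cfsg.Lie.twistedE6 K 2) (Multiplicative (ZMod 3 × ZMod 2 × ZMod 2)) := by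
  have h : Nat.card K = 2 ^ 2 := by rw [Nat.card_eq_fintype_card, hK]; rfl
  obtain ⟨φ, hφ⟩ := Tw.exists_frob K h
  haveI : CharP K 2 := charP_of_card_eq_prime_pow (p := 2) (f := 2) hK
  have h3 := Tw.frob2 hφ h
  have hG := Tw.goodE6 hφ h3
  have hg := TwM.gen_le_sup (S := Chev.certE6.sys K) (W := Lie.e6Words K 2) (by
    rintro w (⟨t, -, r, hr, rfl⟩ | ⟨t, r, hr, rfl⟩) <;> simp only [List.mem_cons, List.not_mem_nil, or_false] at hr <;>
      rcases hr with rfl | rfl | rfl | rfl <;> exact Tw.wd_pos_or_neg (by simp only [List.map]; decide +kernel))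
  obtain ⟨⟨Z, _, h1, h2, h4⟩, h5, h6⟩ := Cor.two_part hφ h hG hg
  haveI : Finite Z := Nat.finite_of_card_ne_zero (by omega)
  haveI : Nontrivial Z := Finite.one_lt_card_iff_nontrivial.1 (by omega)
  haveI : IsKleinFour Z := ⟨h2, (Monoid.exponent_eq_prime_iff Nat.prime_two).2 fun z hz =>
    orderOf_eq_prime (by rw [pow_two, h4]) hz⟩
  refine Cover.mult_of_equiv (Tw.genEquiv Chev.certE6 _) (Mult.mult_of_card_le h6
    ((Cor.three_stem hφ h fun _ => Tw.fixE6 hG h3).prodM (h1.of_equiv (IsKleinFour.nonempty_mulEquiv).some) (by simpa using by decide))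
    fun Γ _ _ σ hσ => Nat.le_of_dvd Nat.card_pos (Mult.card_ker_dvd (fun p hp => ?_) Γ σ hσ))
  rw [show Nat.card (Multiplicative (ZMod 3 × ZMod 2 × ZMod 2)) = 12 by simp]
  by_cases e : p = 2
  · exact ⟨2, by norm_num [e], e ▸ h5⟩
  have a : ∀ k, ¬ p ^ k ∣ 3 → Mult.PBound (Tw.gen (Chev.certE6.sys K) (Lie.e6Words K 2)) p (k - 1) := fun k hk Γ _ _ σ hσ h7 => by
    obtain ⟨a, ha⟩ := Cor.odd_part hφ h hG hg hσ
    refine hk ((pow_dvd_pow p le_tsub_add).trans (Nat.Coprime.dvd_of_dvd_mul_left ?_ (h7.trans ha)))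
    exact Nat.Coprime.pow _ _ ((Nat.coprime_primes hp Nat.prime_two).2 e)
  by_cases e' : p = 3
  · exact ⟨1, by norm_num [e'], a 2 (by norm_num [e'])⟩
  · exact ⟨0, one_dvd _, a 1 (by rwa [pow_one, Nat.prime_dvd_prime_iff_eq hp Nat.prime_three])⟩

end Cfsg.Agent.S2109
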