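import Cfsg.Statements.S2132
import Cfsg.Agent.McLC.InvC
import Cfsg.Agent.McLC.InvP
import Cfsg.Agent.McLC.InvS
import Cfsg.Agent.Inv.A8

set_option autoImplicit false
open Cfsg

namespace Cfsg.Agent.S2132

set_option maxRecDepth 100000
open Cfsg.Agent.CGT Cfsg.Agent.Inv

open Cfsg.Agent.McLC


/-- The McLaughlin group (as a two-vector stabiliser in the automorphism group of the rank-24 lattice) has a single conjugacy class of involutions, and the centraliser of an involution is a non-split double cover of the alternating group of degree 8. -/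
theorem result : (∀ x y : ↥Cfsg.Spor.McL, orderOf x = 2 → orderOf y = 2 → IsConj x y) ∧ ∃ t : ↥Cfsg.Spor.McL, orderOf t = 2 ∧ Cfsg.IsNonsplitDoubleCover ↥(Subgroup.centralizer ({t} : Set ↥Cfsg.Spor.McL)) ↥(alternatingGroup (Fin 8)) := by
  obtain ⟨φ, C⟩ := McLC.cert
  obtain ⟨h1, δ, hδ, C2⟩ := cent_cert (x_cert C)
  obtain ⟨ψ, CK⟩ := a8_cert
  obtain ⟨f, hf, -⟩ := exists_surj C2 CK (R := qRR) (W := [[8, 3, 7, 0, 8, 5, 10, 6, 4], [], [5, 10, 9, 1, 6, 3, 11, 7], [3, 1, 8, 5, 6, 11, 6, 9], [5, 0, 8, 3]]) (U := [[6, 0, 8, 0, 4, 8, 4, 0, 8], [0, 6, 4, 0, 6, 0, 9, 0, 9, 4], [0, 8, 0, 9, 4, 0, 6, 8, 6, 4, 9, 0], [6, 0, 9, 0, 9, 4, 0, 9, 4], [6, 0, 4, 9, 4, 0, 9, 0, 8], [8, 4, 8, 0, 4, 8, 0, 8, 8]]) (fun h => qbd0 h) (by decide +kernel)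
  have := C2.fin
  obtain ⟨h2, h3⟩ := t_center (j := 1) (by decide) hδ
  exact ⟨s_conj (x_cert C), _, h1, nonsplit hf (alternatingGroup.center_eq_bot (by simp))
    (C2.card.trans (by rw [a8_card]; decide +kernel)) (x := ev (ext δ) [8, 4, 0, 9, 0, 6, 8, 0]) h2 (h3.trans h1)
    ((ev_app _ _ _).symm.trans (eqB_sound C2.M C2.base (by decide +kernel) trivial trivial (by decide +kernel)))⟩

end Cfsg.Agent.S2132
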