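import Cfsg.Statements.S2134
import Cfsg.Agent.HeC.InvC
import Cfsg.Agent.HeC.InvP
import Cfsg.Agent.L52C.Cert

set_option autoImplicit false
open Cfsg

namespace Cfsg.Agent.S2134

set_option maxRecDepth 100000
open Cfsg.Agent.CGT Cfsg.Agent.Inv

open Cfsg.Agent.HeC


/-- The Held group (presented on seven involutions, as in the definitions) has an involution whose centraliser is isomorphic to the centraliser of a transvection in SL(5, 2) (a group of shape 2^{1+6}:GL(3, 2)). -/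
theorem result (s : Matrix.SpecialLinearGroup (Fin 5) (ZMod 2)) (hs : (s : Matrix (Fin 5) (Fin 5) (ZMod 2)) = Matrix.transvection 0 1 1) : ∃ z : Cfsg.Spor.He, orderOf z = 2 ∧ Nonempty (↥(Subgroup.centralizer ({z} : Set Cfsg.Spor.He)) ≃* ↥(Subgroup.centralizer ({s} : Set (Matrix.SpecialLinearGroup (Fin 5) (ZMod 2))))) := by
  obtain ⟨φ, C⟩ := HeC.cert
  obtain ⟨h1, δ, -, C2⟩ := cent_cert (x_cert C)
  obtain ⟨y, ψ, CK⟩ := L52C.cert s hs
  obtain ⟨f, hf, -⟩ := exists_surj C2 CK (R := qRR) (W := [[0, 10, 0, 12, 4, 10, 12, 0], [2], [8, 10, 0, 10, 6, 8], [4, 6, 12, 4, 2, 12, 6], [8, 4, 12, 10, 4, 8, 2]]) (U := [[4, 8, 0, 8, 0, 8, 2, 0, 4], [2], [2, 0, 4, 0, 6, 0, 8, 0, 2, 6, 0, 4, 0, 8], [8, 2, 0, 8, 4, 8, 0, 8], [2, 0, 8, 0], [0, 4, 8, 4, 8, 0], [0, 8, 0, 8, 6, 0, 4, 0, 6, 8]]) (fun h => qbd0 h) (by decide +kernel)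
  have := C2.fin
  exact ⟨_, h1, equiv_of_surj hf (C2.card.trans (Eq.trans (by decide +kernel) CK.card.symm))⟩

end Cfsg.Agent.S2134
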