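import Cfsg.Statements.S2162
import Cfsg.Agent.Forms.SqZero

set_option autoImplicit false
open Cfsg

namespace Cfsg.Agent.S2162

/-- Conjugacy of involutions in the special linear group over a finite field of characteristic two, in dimension at least 3: two elements of order 2 of SL_n(F) are conjugate in SL_n(F) exactly when the matrices a − 1 and b − 1 have the same rank (the rank of a − 1 is the dimension of the commutator space [V, a]). -/
theorem result {F : Type*} [Field F] [Fintype F] [CharP F 2] {n : ℕ} (hn : 3 ≤ n) (a b : Matrix.SpecialLinearGroup (Fin n) F) (ha : orderOf a = 2) (hb : orderOf b = 2) :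
    IsConj a b ↔ ((a : Matrix (Fin n) (Fin n) F) - 1).rank = ((b : Matrix (Fin n) (Fin n) F) - 1).rank := by
  rw [← Forms.rk_sllin, ← Forms.rk_sllin]
  refine ⟨Forms.rk_sllin_eq_of_isConj, Forms.sl_isConj_of_rk_eq ?_ ?_ ?_⟩
  · rw [← sq, ← ha, pow_orderOf_eq_one]
  · rintro rfl; simp at ha
  · rw [← sq, ← hb, pow_orderOf_eq_one]

end Cfsg.Agent.S2162
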