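import Cfsg.Statements.S2163

set_option autoImplicit false
open Cfsg

namespace Cfsg.Agent.S2163

theorem card_lt_filter {n ℓ : ℕ} (h : ℓ ≤ n) :
    (Finset.univ.filter fun i : Fin n => i.val < ℓ).card = ℓ := by
  rw [Fin.card_filter_val_lt]; omega

/-- Over a finite field of characteristic two and for n ≥ 3: for every ℓ with 1 ≤ ℓ and 2ℓ ≤ n, the matrix j_ℓ that is the identity plus the entries 1 in positions (n − ℓ + i, i) for i < ℓ (an identity block of size ℓ in the lower left corner) lies in SL_n(F), has order 2, and j_ℓ − 1 has rank ℓ. Together with the conjugacy criterion by rank, these matrices represent the conjugacy classes of involutions of SL_n(F). -/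
theorem result {F : Type*} [Field F] [Fintype F] [CharP F 2] {n : ℕ} (hn : 3 ≤ n) (ℓ : ℕ) (h1 : 1 ≤ ℓ) (h2 : 2 * ℓ ≤ n) :
    ∃ a : Matrix.SpecialLinearGroup (Fin n) F, (a : Matrix (Fin n) (Fin n) F) = 1 + Matrix.of (fun i j : Fin n => if j.val < ℓ ∧ i.val = j.val + (n - ℓ) then (1 : F) else 0) ∧ orderOf a = 2 ∧ ((a : Matrix (Fin n) (Fin n) F) - 1).rank = ℓ := by
  set M : Matrix (Fin n) (Fin n) F :=
    Matrix.of (fun i j : Fin n => if j.val < ℓ ∧ i.val = j.val + (n - ℓ) then (1 : F) else 0) with hM
  have hMM : M * M = 0 := by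
    ext i j
    rw [Matrix.mul_apply, Matrix.zero_apply]
    refine Finset.sum_eq_zero fun k _ => ?_
    simp only [hM, Matrix.of_apply]
    split_ifs with a b
    · omega
    · simp
    · simp
    · simp
  have hsq : (1 + M) * (1 + M) = 1 := by
    rw [add_mul, mul_add, mul_add, hMM]
    simp only [one_mul, mul_one, add_zero]
    have : M + M = 0 := by
      ext i j; simp [CharTwo.add_self_eq_zero]
    rw [add_assoc, this, add_zero]
  have hdet : (1 + M).det = 1 := by
    have h3 : (1 + M).det ^ 2 = 1 ^ 2 := by rw [sq, ← Matrix.det_mul, hsq, Matrix.det_one, one_pow]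
    exact (sq_eq_sq_iff_eq_or_eq_neg.1 h3).elim id fun h => by rw [h, CharTwo.neg_eq]
  have hrank : M.rank = ℓ := by
    apply le_antisymm
    · rw [← Matrix.rank_transpose]
      refine (Matrix.rank_le_card_of_support_subset _
        (Finset.univ.filter fun i : Fin n => i.val < ℓ) ?_).trans (card_lt_filter (by omega)).le
      intro j hj
      simp only [Finset.coe_filter, Finset.mem_univ, true_and, Set.mem_ofPred_eq]
      by_contra h
      apply hj
      funext i
      simp [hM, h]
    · have h4 := Matrix.rank_submatrix_le M (fun k : Fin ℓ => (⟨k + (n - ℓ), by omega⟩ : Fin n))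
        (fun k : Fin ℓ => (⟨k, by omega⟩ : Fin n))
      have h5 : M.submatrix (fun k : Fin ℓ => (⟨k + (n - ℓ), by omega⟩ : Fin n))
          (fun k : Fin ℓ => (⟨k, by omega⟩ : Fin n)) = 1 := by
        ext i j
        simp [hM, Matrix.one_apply, Fin.ext_iff]
      rwa [h5, Matrix.rank_one, Fintype.card_fin] at h4
  refine ⟨⟨1 + M, hdet⟩, rfl, ?_, by simpa using hrank⟩
  refine orderOf_eq_prime ((sq _).trans (Subtype.ext hsq)) fun h => ?_
  have h6 : M = 0 := by simpa using congrArg Subtype.val h
  rw [h6, Matrix.rank_zero] at hrank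
  omega

end Cfsg.Agent.S2163
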