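import Cfsg.Statements.S2164
import Cfsg.Agent.Forms.UnitGroup

set_option autoImplicit false
open Cfsg

namespace Cfsg.Agent.S2164

/-- Conjugacy of involutions in the special unitary group SU_n(q), q even, n ≥ 3, realised over the field F with q² elements as the matrices of determinant 1 preserving the form Σ u_i v_i^q: for two elements of order 2 of SU_n(q) the following are equivalent — they are conjugate in SU_n(q); they are conjugate in SL_n(F); the matrices a − 1 and b − 1 have the same rank. -/
theorem result {F : Type*} [Field F] [Fintype F] [CharP F 2] {n q : ℕ} (hF : Fintype.card F = q ^ 2) (hn : 3 ≤ n) (a b : ↥(Cfsg.SU n F q)) (ha : orderOf a = 2) (hb : orderOf b = 2) :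
    (IsConj a b ↔ IsConj (a : Matrix.SpecialLinearGroup (Fin n) F) (b : Matrix.SpecialLinearGroup (Fin n) F)) ∧
    (IsConj a b ↔ (((a : Matrix.SpecialLinearGroup (Fin n) F) : Matrix (Fin n) (Fin n) F) - 1).rank = (((b : Matrix.SpecialLinearGroup (Fin n) F) : Matrix (Fin n) (Fin n) F) - 1).rank) := by
  rw [← Forms.rk_sllin, ← Forms.rk_sllin]
  have h1 : IsConj a b → IsConj (a : Matrix.SpecialLinearGroup (Fin n) F)
      (b : Matrix.SpecialLinearGroup (Fin n) F) := fun h => (Cfsg.SU n F q).subtype.map_isConj h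
  have h2 : Forms.rk (Forms.sulin a) = Forms.rk (Forms.sulin b) → IsConj a b := by
    refine Forms.su_isConj_of_rk_eq hF ?_ ?_ ?_
    · rw [← sq, ← ha, pow_orderOf_eq_one]
    · rintro rfl; simp at ha
    · rw [← sq, ← hb, pow_orderOf_eq_one]
  exact ⟨⟨h1, fun h => h2 (Forms.rk_sllin_eq_of_isConj h)⟩,
    ⟨fun h => Forms.rk_sllin_eq_of_isConj (h1 h), h2⟩⟩

end Cfsg.Agent.S2164
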