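import Cfsg.Statements.S2165

set_option autoImplicit false
open Cfsg

namespace Cfsg.Agent.S2165

theorem card_lt_filter {n ℓ : ℕ} (h : ℓ ≤ n) :
    (Finset.univ.filter fun i : Fin n => i.val < ℓ).card = ℓ := by
  rw [Fin.card_filter_val_lt]; omega

/-- The involution of `Fin n`. -/
def sw {n ℓ : ℕ} (h2 : 2 * ℓ ≤ n) (i : Fin n) : Fin n :=
  if h : i.val < ℓ then ⟨i + (n - ℓ), by omega⟩
  else if n - ℓ ≤ i.val then ⟨i - (n - ℓ), by omega⟩ else i

theorem sw_val {n ℓ : ℕ} (h2 : 2 * ℓ ≤ n) (i : Fin n) :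
    (sw h2 i).val = if i.val < ℓ then i + (n - ℓ) else if n - ℓ ≤ i.val then i - (n - ℓ) else i := by
  unfold sw
  split_ifs <;> rfl

theorem sw_sw {n ℓ : ℕ} (h2 : 2 * ℓ ≤ n) : Function.Involutive (sw h2) := by
  intro i
  apply Fin.ext
  have := i.2
  rw [sw_val, sw_val]
  split_ifs <;> omega

/-- In SU_n(q), q even, n ≥ 3 (matrices of determinant 1 over the field with q² elements preserving Σ u_i v_i^q): for every ℓ with 1 ≤ ℓ and 2ℓ ≤ n, the permutation matrix of the involution of {0, …, n−1} exchanging i and n − ℓ + i for each i < ℓ lies in SU_n(q), has order 2, and differs from the identity by a matrix of rank ℓ. So every rank between 1 and n/2 occurs for involutions of SU_n(q). -/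
theorem result {F : Type*} [Field F] [Fintype F] [CharP F 2] {n q : ℕ} (hF : Fintype.card F = q ^ 2) (hn : 3 ≤ n) (ℓ : ℕ) (h1 : 1 ≤ ℓ) (h2 : 2 * ℓ ≤ n) :
    ∃ a : ↥(Cfsg.SU n F q), (((a : Matrix.SpecialLinearGroup (Fin n) F) : Matrix (Fin n) (Fin n) F) = Matrix.of (fun i j : Fin n => if (j.val < ℓ ∧ i.val = j.val + (n - ℓ)) ∨ (i.val < ℓ ∧ j.val = i.val + (n - ℓ)) ∨ (i = j ∧ ℓ ≤ i.val ∧ i.val < n - ℓ) then (1 : F) else 0)) ∧ orderOf a = 2 ∧ ((((a : Matrix.SpecialLinearGroup (Fin n) F) : Matrix (Fin n) (Fin n) F)) - 1).rank = ℓ := by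
  set P : Matrix (Fin n) (Fin n) F := Matrix.of (fun i j : Fin n => if (j.val < ℓ ∧ i.val = j.val + (n - ℓ)) ∨ (i.val < ℓ ∧ j.val = i.val + (n - ℓ)) ∨ (i = j ∧ ℓ ≤ i.val ∧ i.val < n - ℓ) then (1 : F) else 0) with hP
  have hP' : ∀ i j, P i j = if j = sw h2 i then 1 else 0 := by
    intro i j
    simp only [hP, Matrix.of_apply, Fin.ext_iff, sw_val]
    have := i.2
    have := j.2
    congr 1
    apply propext
    split_ifs <;> omega
  have hmv : ∀ u : Fin n → F, P.mulVec u = fun i => u (sw h2 i) := by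
    intro u
    funext i
    simp [Matrix.mulVec, dotProduct, hP']
  have hsq : P * P = 1 := by
    ext i j
    rw [Matrix.mul_apply]
    simp only [hP', ite_mul, one_mul, zero_mul, Finset.sum_ite_eq', Finset.mem_univ, if_true,
      sw_sw h2 i, Matrix.one_apply, eq_comm]
  have hdet : P.det = 1 := by
    have h3 : P.det ^ 2 = 1 ^ 2 := by rw [sq, ← Matrix.det_mul, hsq, Matrix.det_one, one_pow]
    exact (sq_eq_sq_iff_eq_or_eq_neg.1 h3).elim id fun h => by rw [h, CharTwo.neg_eq]
  have hrank : (P - 1).rank = ℓ := by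
    apply le_antisymm
    · let E : Matrix (Fin n) (Fin n) F := Matrix.of fun i j =>
        if i.val < ℓ ∧ (j.val = i.val ∨ j.val = i.val + (n - ℓ)) then 1 else 0
      have h3 : P - 1 = E.submatrix
          (fun i : Fin n => if n - ℓ ≤ i.val then (⟨i - (n - ℓ), by omega⟩ : Fin n) else i) id := by
        ext i j
        have := i.2
        have := j.2
        simp only [Matrix.sub_apply, hP', Matrix.one_apply, Matrix.submatrix_apply, E,
          Matrix.of_apply, id, Fin.ext_iff, sw_val, apply_ite Fin.val, CharTwo.sub_eq_add]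
        split_ifs <;> first | omega | simp [CharTwo.add_self_eq_zero]
      rw [h3]
      refine (Matrix.rank_submatrix_le _ _ _).trans ?_
      refine (Matrix.rank_le_card_of_support_subset _
        (Finset.univ.filter fun i : Fin n => i.val < ℓ) ?_).trans (card_lt_filter (by omega)).le
      intro j hj
      simp only [Finset.coe_filter, Finset.mem_univ, true_and, Set.mem_ofPred_eq]
      by_contra h
      apply hj
      funext i
      simp [E, h]
    · have h4 := Matrix.rank_submatrix_le (P - 1)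
        (fun k : Fin ℓ => (⟨k + (n - ℓ), by omega⟩ : Fin n))
        (fun k : Fin ℓ => (⟨k, by omega⟩ : Fin n))
      have h5 : (P - 1).submatrix (fun k : Fin ℓ => (⟨k + (n - ℓ), by omega⟩ : Fin n))
          (fun k : Fin ℓ => (⟨k, by omega⟩ : Fin n)) = 1 := by
        ext i j
        have := i.2
        have := j.2
        simp only [Matrix.sub_apply, hP', Matrix.one_apply, Matrix.submatrix_apply, Fin.ext_iff,
          sw_val]
        split_ifs <;> first | omega | simp
      rwa [h5, Matrix.rank_one, Fintype.card_fin] at h4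
  have hmem : (⟨P, hdet⟩ : Matrix.SpecialLinearGroup (Fin n) F) ∈ Cfsg.SU n F q := by
    intro u v
    show Cfsg.hermForm n F q (P.mulVec u) (P.mulVec v) = _
    rw [hmv, hmv]
    exact Equiv.sum_comp (sw_sw h2).toPerm (fun i => u i * v i ^ q)
  refine ⟨⟨⟨P, hdet⟩, hmem⟩, rfl, ?_, hrank⟩
  refine orderOf_eq_prime (by rw [sq]; exact Subtype.ext (Subtype.ext hsq)) fun h => ?_
  have h6 : P = 1 := congrArg (fun x => x.1.1) h
  rw [h6, sub_self, Matrix.rank_zero] at hrank
  omega

end Cfsg.Agent.S2165
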