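import Cfsg.Statements.S2166
import Cfsg.Agent.Forms.SympGroup

set_option autoImplicit false
open Cfsg

namespace Cfsg.Agent.S2166

/-- Conjugacy of involutions in the symplectic group Sp_{2m}(F), F a finite field of characteristic two, m ≥ 2 (Sp taken as the matrices A with A J Aᵀ = J, acting on column vectors, with the alternating form f(u, v) = u ⬝ (J v)). For an involution t write V(t) for the set of vectors v with f(v, t v) = 0 (a subspace). Two involutions a, b are conjugate in Sp_{2m}(F) exactly when a − 1 and b − 1 have the same rank and, in case that rank is even, V(a) and V(b) have the same number of elements. -/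
theorem result {F : Type*} [Field F] [Fintype F] [CharP F 2] {m : ℕ} (hm : 2 ≤ m) (a b : ↥(Matrix.symplecticGroup (Fin m) F)) (ha : orderOf a = 2) (hb : orderOf b = 2) :
    IsConj a b ↔ ((((a : ↥(Matrix.symplecticGroup (Fin m) F)) : Matrix (Fin m ⊕ Fin m) (Fin m ⊕ Fin m) F) - 1).rank = (((b : ↥(Matrix.symplecticGroup (Fin m) F)) : Matrix (Fin m ⊕ Fin m) (Fin m ⊕ Fin m) F) - 1).rank ∧
      (Even (((a : ↥(Matrix.symplecticGroup (Fin m) F)) : Matrix (Fin m ⊕ Fin m) (Fin m ⊕ Fin m) F) - 1).rank → Nat.card {v : Fin m ⊕ Fin m → F // Cfsg.sympForm m F v (Matrix.mulVec ((a : ↥(Matrix.symplecticGroup (Fin m) F)) : Matrix (Fin m ⊕ Fin m) (Fin m ⊕ Fin m) F) v) = 0} = Nat.card {v : Fin m ⊕ Fin m → F // Cfsg.sympForm m F v (Matrix.mulVec ((b : ↥(Matrix.symplecticGroup (Fin m) F)) : Matrix (Fin m ⊕ Fin m) (Fin m ⊕ Fin m) F) v) = 0})) := by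
  simp only [← Forms.sympB_apply, ← Forms.slin_apply, ← Forms.rk_slin]
  have hB := Forms.sympB_nondegenerate (F := F) (m := m)
  have ha2 := Forms.slin_slin_of_orderOf ha
  have hb2 := Forms.slin_slin_of_orderOf hb
  constructor
  · intro h
    obtain ⟨c, hc⟩ := isConj_iff.1 h
    have h0 : ∀ x, Forms.slin c (Forms.slin a x) = Forms.slin b (Forms.slin c x) := by
      intro x
      rw [← Forms.slin_mul_apply, ← Forms.slin_mul_apply, ← hc, inv_mul_cancel_right]
    refine ⟨Forms.rk_eq_of_conj (Function.LeftInverse.injective (Forms.slin_inv_apply c))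
      (Function.RightInverse.surjective (Forms.slin_apply_inv c)) h0, fun _ => ?_⟩
    refine Nat.card_congr (Equiv.subtypeEquiv
      ⟨Forms.slin c, Forms.slin c⁻¹, Forms.slin_inv_apply c, Forms.slin_apply_inv c⟩ fun v => ?_)
    simp only [Equiv.coe_fn_mk]
    rw [← h0, Forms.slin_form]
  · rintro ⟨hr, hc⟩
    have hq : 1 < Fintype.card F := Fintype.one_lt_card
    have key : ∃ g : (Fin m ⊕ Fin m → F) →ₗ[F] (Fin m ⊕ Fin m → F),
        (∀ x y, Forms.sympB m F (g x) (g y) = Forms.sympB m F x y) ∧
          ∀ x, g (Forms.slin a x) = Forms.slin b (g x) := by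
      by_cases h1 : ∀ v, Forms.sympB m F v (Forms.slin a v) = 0
      · refine Forms.exists_conj_of_alt hB Forms.sympB_self (Forms.slin_form a) ha2 h1
          (Forms.slin_form b) hb2 ?_ hr
        by_contra h2
        push Not at h2
        have e1 := hc (Forms.even_rk_of_alt hB Forms.sympB_self (Forms.slin_form a) ha2 h1)
        have e2 := Forms.card_isotropic_of_not_alt hB Forms.sympB_self (Forms.slin_form b) hb2 h2
        rw [← e1, Forms.card_isotropic_of_alt h1] at e2
        have e3 : 0 < Fintype.card F ^ Module.finrank F (Fin m ⊕ Fin m → F) := by positivity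
        nlinarith
      · push Not at h1
        refine Forms.exists_conj_of_not_alt hB Forms.sympB_self Forms.isSquare_of_charTwo
          (Forms.slin_form a) ha2 h1 (Forms.slin_form b) hb2 ?_ hr
        by_contra h2
        push Not at h2
        have e1 := hc (hr ▸ Forms.even_rk_of_alt hB Forms.sympB_self (Forms.slin_form b) hb2 h2)
        have e2 := Forms.card_isotropic_of_not_alt hB Forms.sympB_self (Forms.slin_form a) ha2 h1
        rw [e1, Forms.card_isotropic_of_alt h2] at e2
        have e3 : 0 < Fintype.card F ^ Module.finrank F (Fin m ⊕ Fin m → F) := by positivity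
        nlinarith
    obtain ⟨g, hg, hg'⟩ := key
    obtain ⟨c, rfl⟩ := Forms.exists_slin_eq hg
    rw [isConj_iff]
    refine ⟨c, ?_⟩
    rw [mul_inv_eq_iff_eq_mul]
    apply Forms.slin_injective
    rw [Forms.slin_mul, Forms.slin_mul]
    exact LinearMap.ext hg'

end Cfsg.Agent.S2166
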