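import Cfsg.Statements.S2172
import Cfsg.Agent.Forms.StdQuad

set_option autoImplicit false
open Cfsg

namespace Cfsg.Agent.S2172

/-- Splitting of involution classes from O to Ω for the hyperbolic quadratic form Q = Σ x_i y_i in dimension 2m over a finite field F of characteristic two, m ≥ 4. Let t, s be involutions of the commutator subgroup Ω that are conjugate in the full isometry group O. If it is not the case that t − 1 has rank m and Q(v + t v) = 0 for every vector v, then t and s are conjugate by an element of Ω. If t − 1 has rank m and Q(v + t v) = 0 for all v, then t and s are conjugate by an element of Ω exactly when the intersection of the images of t − 1 and s − 1 has even dimension (so the class of t in O meets at most two classes of Ω). -/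
theorem result {F : Type*} [Field F] [Fintype F] [CharP F 2] {m : ℕ} (hm : 4 ≤ m) (t s : ↥(Cfsg.isometryGroup F (Cfsg.quadFormPlus m F))) (ht : orderOf t = 2) (hs : orderOf s = 2) (htO : t ∈ Cfsg.Omega F (Cfsg.quadFormPlus m F)) (hsO : s ∈ Cfsg.Omega F (Cfsg.quadFormPlus m F)) (hconj : IsConj t s) :
    (¬ (((((t : ↥(Cfsg.isometryGroup F (Cfsg.quadFormPlus m F))) : GL (Fin m ⊕ Fin m) F) : Matrix (Fin m ⊕ Fin m) (Fin m ⊕ Fin m) F) - 1).rank = m ∧ ∀ v : Fin m ⊕ Fin m → F, Cfsg.quadFormPlus m F (v + Matrix.mulVec (((t : ↥(Cfsg.isometryGroup F (Cfsg.quadFormPlus m F))) : GL (Fin m ⊕ Fin m) F) : Matrix (Fin m ⊕ Fin m) (Fin m ⊕ Fin m) F) v) = 0) →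
      ∃ g ∈ Cfsg.Omega F (Cfsg.quadFormPlus m F), g * t * g⁻¹ = s) ∧
    ((((((t : ↥(Cfsg.isometryGroup F (Cfsg.quadFormPlus m F))) : GL (Fin m ⊕ Fin m) F) : Matrix (Fin m ⊕ Fin m) (Fin m ⊕ Fin m) F) - 1).rank = m ∧ ∀ v : Fin m ⊕ Fin m → F, Cfsg.quadFormPlus m F (v + Matrix.mulVec (((t : ↥(Cfsg.isometryGroup F (Cfsg.quadFormPlus m F))) : GL (Fin m ⊕ Fin m) F) : Matrix (Fin m ⊕ Fin m) (Fin m ⊕ Fin m) F) v) = 0) →
      ((∃ g ∈ Cfsg.Omega F (Cfsg.quadFormPlus m F), g * t * g⁻¹ = s) ↔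
        Even (Module.finrank F ↥(LinearMap.range (Matrix.toLin' ((((t : ↥(Cfsg.isometryGroup F (Cfsg.quadFormPlus m F))) : GL (Fin m ⊕ Fin m) F) : Matrix (Fin m ⊕ Fin m) (Fin m ⊕ Fin m) F) - 1)) ⊓ LinearMap.range (Matrix.toLin' ((((s : ↥(Cfsg.isometryGroup F (Cfsg.quadFormPlus m F))) : GL (Fin m ⊕ Fin m) F) : Matrix (Fin m ⊕ Fin m) (Fin m ⊕ Fin m) F) - 1)))))) := by
  have hB := Forms.QPlus_nondegenerate (F := F) m
  have hdim : 5 ≤ Fintype.card (Fin m ⊕ Fin m) := by simp; omega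
  have hneg : ∀ v : Fin m ⊕ Fin m → F, v + Forms.olin t v = Forms.olin t v - v := by
    intro v
    funext i
    simp only [Pi.add_apply, Pi.sub_apply, CharTwo.sub_eq_add, add_comm]
  rw [← Forms.comS_olin, ← Forms.comS_olin]
  simp only [← Forms.rk_olin, ← Forms.olin_apply, hneg]
  constructor
  · intro h0
    refine Forms.exists_conj_mem_commutator (Q := Forms.QPlus m F) hB hdim
      Forms.isSquare_of_charTwo hconj ?_
    by_contra h
    push Not at h
    obtain ⟨h1, h2⟩ := Forms.fixS_singular (Q := Forms.QPlus m F) hB ht h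
    have h1' : 2 * Forms.rk (Forms.olin t) = m + m := h1.trans (by simp)
    exact h0 ⟨by omega, fun v => h2 _ (Forms.mem_comS.2 ⟨v, rfl⟩)⟩
  · rintro ⟨h1, h2⟩
    have h3 : ∀ v ∈ Forms.comS (Forms.olin t), Forms.QPlus m F v = 0 := by
      intro v hv
      obtain ⟨w, rfl⟩ := Forms.mem_comS.1 hv
      exact h2 w
    have h4 : 2 * Forms.rk (Forms.olin t) = Fintype.card (Fin m ⊕ Fin m) := by
      simp only [Fintype.card_sum, Fintype.card_fin]; omega
    constructor
    · rintro ⟨g, hg, hg'⟩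
      exact (Forms.conj_mem_commutator_iff (Q := Forms.QPlus m F) hB hdim
        Forms.isSquare_of_charTwo hg' htO h4 h3).1 hg
    · intro h
      obtain ⟨g, hg'⟩ := isConj_iff.1 hconj
      exact ⟨g, (Forms.conj_mem_commutator_iff (Q := Forms.QPlus m F) hB hdim
        Forms.isSquare_of_charTwo hg' htO h4 h3).2 h, hg'⟩

end Cfsg.Agent.S2172
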