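import Cfsg.Statements.S2174
import Cfsg.Agent.Tw.InvFin
import Cfsg.Agent.Tw.InvF4

set_option autoImplicit false
open Cfsg

namespace Cfsg.Agent.S2174

open Cfsg.Lie Cfsg.Agent.Chev Cfsg.Agent.Tw

/-- Conjugacy classes of involutions in the Chevalley group of type F₄ over a finite field F of characteristic two (the matrix group generated by the root elements x_r(t)). In this problem's root numbering for type F₄ (the Chevalley data module; fundamental roots p₁, p₂ short and p₃, p₄ long; roots indexed by their coefficient vectors in increasing order) let r = 47 be the highest root (2,4,3,2), s = 44 the highest short root (2,3,2,1), and α = 39 = (1,2,2,1), β = 45 = (2,4,2,1), an orthogonal short/long pair; consider the four elements x_r(1), x_s(1), x_r(1)x_s(1), x_α(1)x_β(1). Then: each invertible matrix equal to one of these four products lies in the group and has order 2; every element of order 2 of the group is conjugate in the group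 to one of them; and no two of them are conjugate in the group (so, the four matrices being distinct, the group has exactly four conjugacy classes of involutions). -/
theorem result {F : Type*} [Field F] [Fintype F] [CharP F 2] :
    (∀ y : GL Cfsg.Lie.chevF4.Idx F, ((y : GL Cfsg.Lie.chevF4.Idx F) : Matrix Cfsg.Lie.chevF4.Idx Cfsg.Lie.chevF4.Idx F) ∈ [Cfsg.Lie.chevF4.x F 47 1, Cfsg.Lie.chevF4.x F 44 1, Cfsg.Lie.chevF4.x F 47 1 * Cfsg.Lie.chevF4.x F 44 1, Cfsg.Lie.chevF4.x F 39 1 * Cfsg.Lie.chevF4.x F 45 1] → y ∈ Cfsg.Lie.chevF4.group F ∧ orderOf y = 2) ∧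
    (∀ g ∈ Cfsg.Lie.chevF4.group F, orderOf g = 2 → ∃ y ∈ Cfsg.Lie.chevF4.group F, ((y : GL Cfsg.Lie.chevF4.Idx F) : Matrix Cfsg.Lie.chevF4.Idx Cfsg.Lie.chevF4.Idx F) ∈ [Cfsg.Lie.chevF4.x F 47 1, Cfsg.Lie.chevF4.x F 44 1, Cfsg.Lie.chevF4.x F 47 1 * Cfsg.Lie.chevF4.x F 44 1, Cfsg.Lie.chevF4.x F 39 1 * Cfsg.Lie.chevF4.x F 45 1] ∧ ∃ h ∈ Cfsg.Lie.chevF4.group F, h * g * h⁻¹ = y) ∧
    (∀ y₁ ∈ Cfsg.Lie.chevF4.group F, ∀ y₂ ∈ Cfsg.Lie.chevF4.group F, ((y₁ : GL Cfsg.Lie.chevF4.Idx F) : Matrix Cfsg.Lie.chevF4.Idx Cfsg.Lie.chevF4.Idx F) ∈ [Cfsg.Lie.chevF4.x F 47 1, Cfsg.Lie.chevF4.x F 44 1, Cfsg.Lie.chevF4.x F 47 1 * Cfsg.Lie.chevF4.x F 44 1, Cfsg.Lie.chevF4.x F 39 1 * Cfsg.Lie.chevF4.x F 45 1] → ((y₂ : GL Cfsg.Lie.chevF4.Idx F) : Matrix Cfsg.Lie.chevF4.Idx Cfsg.Lie.chevF4.Idx F) ∈ [Cfsg.Lie.chevF4.x F 47 1, Cfsg.Lie.chevF4.x F 44 1, Cfsg.Lie.chevF4.x F 47 1 * Cfsg.Lie.chevF4.x F 44 1, Cfsg.Lie.chevF4.x F 39 1 * Cfsg.Lie.chevF4.x F 45 1] →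
      (∃ h ∈ Cfsg.Lie.chevF4.group F, h * y₁ * h⁻¹ = y₂) → ((y₁ : GL Cfsg.Lie.chevF4.Idx F) : Matrix Cfsg.Lie.chevF4.Idx Cfsg.Lie.chevF4.Idx F) = ((y₂ : GL Cfsg.Lie.chevF4.Idx F) : Matrix Cfsg.Lie.chevF4.Idx Cfsg.Lie.chevF4.Idx F)) := by
  have hf := fitF4 (S := certF4.sys F)
  have r0 := rkF4_0 hf
  have r1 := rkF4_1 hf
  have r2 := rkF4_2 hf
  have r3 := rkF4_3 hf
  refine classes_final (C := certF4) repsF4 _ ?_ ?_ (fun t h2 h1 => hf.reps (certF4.sys_φ_inj F) okCF4 okJF4 okRF4 trivial h2 h1) ?_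
  · simp only [repsF4, List.map, pw_cons, pw_nil, mul_one, map_mul, Matrix.mul_assoc, φ_xn (C := certF4) (F := F) 39 (by decide), φ_xn (C := certF4) (F := F) 44 (by decide), φ_xn (C := certF4) (F := F) 45 (by decide), φ_xn (C := certF4) (F := F) 47 (by decide)]
  · simp only [repsF4, List.forall_mem_cons, List.not_mem_nil, false_imp_iff, implies_true, and_true]
    exact ⟨orderOf_pw (by decide +kernel) r0, orderOf_pw (by decide +kernel) r1, orderOf_pw (by decide +kernel) r2, orderOf_pw (by decide +kernel) r3⟩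
  · have key : ∀ g, g * pw (certF4.sys F) [47] * g⁻¹ ≠ pw (certF4.sys F) [44] := fun g e => by
      have := len_eq_of_conj_top (S := certF4.sys F) (g := g) (s := ⟨44, by decide⟩) (by rw [Cert.pos_iff_val]; decide +kernel) (c := 1) one_ne_zero
        (by rw [← xn_val, ← xn_val]; simp only [pw_cons, pw_nil, mul_one] at e; exact e)
      revert this; decide +kernel
    intro y hy y' hy' g e
    have e2 := rk_conj (S := certF4.sys F) g (pw (certF4.sys F) y)
    rw [e] at e2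
    simp only [repsF4, List.mem_cons, List.not_mem_nil, or_false] at hy hy'
    rcases hy with rfl | rfl | rfl | rfl <;> rcases hy' with rfl | rfl | rfl | rfl <;>
      first | rfl | omega | skip
    · exact absurd e (key g)
    · exact absurd (by rw [← e]; group) (key g⁻¹)

end Cfsg.Agent.S2174
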