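import Cfsg.Statements.S2177
import Cfsg.Agent.Tw.InvFin
import Cfsg.Agent.Tw.InvG2

set_option autoImplicit false
open Cfsg

namespace Cfsg.Agent.S2177

open Cfsg.Lie Cfsg.Agent.Chev Cfsg.Agent.Tw

/-- Conjugacy classes of involutions in the Chevalley group of type G₂ over a finite field F of characteristic two with at least four elements (the matrix group generated by the root elements x_r(t)). In this problem's root numbering for type G₂ (the Chevalley data module; p₁ = a short, p₂ = b long; roots indexed by coefficient vectors in increasing order) let 11 be the highest root 3a + 2b (long) and 9 the short root 2a + b; consider x_{3a+2b}(1) and x_{2a+b}(1). Then: each invertible matrix equal to one of these two products lies in the group and has order 2; every element of order 2 of the group is conjugate in the group to one of them; and no two of them are conjugate in the group (so, the two matrices being distinct, the group has exactly two conjugacy classes of involutions).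 -/
theorem result {F : Type*} [Field F] [Fintype F] [CharP F 2] (hF : 4 ≤ Fintype.card F) :
    (∀ y : GL Cfsg.Lie.chevG2.Idx F, ((y : GL Cfsg.Lie.chevG2.Idx F) : Matrix Cfsg.Lie.chevG2.Idx Cfsg.Lie.chevG2.Idx F) ∈ [Cfsg.Lie.chevG2.x F 11 1, Cfsg.Lie.chevG2.x F 9 1] → y ∈ Cfsg.Lie.chevG2.group F ∧ orderOf y = 2) ∧
    (∀ g ∈ Cfsg.Lie.chevG2.group F, orderOf g = 2 → ∃ y ∈ Cfsg.Lie.chevG2.group F, ((y : GL Cfsg.Lie.chevG2.Idx F) : Matrix Cfsg.Lie.chevG2.Idx Cfsg.Lie.chevG2.Idx F) ∈ [Cfsg.Lie.chevG2.x F 11 1, Cfsg.Lie.chevG2.x F 9 1] ∧ ∃ h ∈ Cfsg.Lie.chevG2.group F, h * g * h⁻¹ = y) ∧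
    (∀ y₁ ∈ Cfsg.Lie.chevG2.group F, ∀ y₂ ∈ Cfsg.Lie.chevG2.group F, ((y₁ : GL Cfsg.Lie.chevG2.Idx F) : Matrix Cfsg.Lie.chevG2.Idx Cfsg.Lie.chevG2.Idx F) ∈ [Cfsg.Lie.chevG2.x F 11 1, Cfsg.Lie.chevG2.x F 9 1] → ((y₂ : GL Cfsg.Lie.chevG2.Idx F) : Matrix Cfsg.Lie.chevG2.Idx Cfsg.Lie.chevG2.Idx F) ∈ [Cfsg.Lie.chevG2.x F 11 1, Cfsg.Lie.chevG2.x F 9 1] →
      (∃ h ∈ Cfsg.Lie.chevG2.group F, h * y₁ * h⁻¹ = y₂) → ((y₁ : GL Cfsg.Lie.chevG2.Idx F) : Matrix Cfsg.Lie.chevG2.Idx Cfsg.Lie.chevG2.Idx F) = ((y₂ : GL Cfsg.Lie.chevG2.Idx F) : Matrix Cfsg.Lie.chevG2.Idx Cfsg.Lie.chevG2.Idx F)) := by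
  have hf := fitG2 (S := certG2.sys F)
  have r0 := rkG2_0 hf
  have r1 := rkG2_1 hf
  refine classes_final (C := certG2) repsG2 _ ?_ ?_ (fun t h2 h1 => hf.reps (certG2.sys_φ_inj F) okCG2 okJG2 okRG2 trivial h2 h1) ?_
  · simp only [repsG2, List.map, pw_cons, pw_nil, mul_one, map_mul, Matrix.mul_assoc, φ_xn (C := certG2) (F := F) 9 (by decide), φ_xn (C := certG2) (F := F) 11 (by decide)]
  · simp only [repsG2, List.forall_mem_cons, List.not_mem_nil, false_imp_iff, implies_true, and_true]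
    exact ⟨orderOf_pw (by decide +kernel) r0, orderOf_pw (by decide +kernel) r1⟩
  · have key : ∀ g, g * pw (certG2.sys F) [11] * g⁻¹ ≠ pw (certG2.sys F) [9] := fun g e => by
      have := len_eq_of_conj_top (S := certG2.sys F) (g := g) (s := ⟨9, by decide⟩) (by rw [Cert.pos_iff_val]; decide +kernel) (c := 1) one_ne_zero
        (by rw [← xn_val, ← xn_val]; simp only [pw_cons, pw_nil, mul_one] at e; exact e)
      revert this; decide +kernel
    intro y hy y' hy' g e
    have e2 := rk_conj (S := certG2.sys F) g (pw (certG2.sys F) y)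
    rw [e] at e2
    simp only [repsG2, List.mem_cons, List.not_mem_nil, or_false] at hy hy'
    rcases hy with rfl | rfl <;> rcases hy' with rfl | rfl <;>
      first | rfl | omega | skip
    · exact absurd e (key g)
    · exact absurd (by rw [← e]; group) (key g⁻¹)

end Cfsg.Agent.S2177
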