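import Cfsg.Statements.S2179
import Cfsg.Agent.Chev.Cent3

set_option autoImplicit false
open Cfsg Cfsg.Agent.Chev

namespace Cfsg.Agent.S2179

/-- Centralizers of the two remaining classes of involutions in the Chevalley group G of type F₄ over a finite field F of characteristic two (this problem's root numbering for type F₄, from the Chevalley data module: p₁, p₂ short, p₃, p₄ long with indices 33, 27, 25, 24 and negatives 14, 20, 22, 23; U generated by the positive root subgroups). For an element of G with matrix x_47(1)x_44(1) (highest root times highest short root): its centralizer in G is generated by U, X_{−p₂} and X_{−p₃}. For an element of G with matrix x_39(1)x_45(1) (roots (1,2,2,1) and (2,4,2,1), an orthogonal short/long pair): its centralizer in G is generated by X_{p₁}, X_{−p₁}, X_{p₄}, X_{−p₄} and the root subgroups of all positive roots other than p₂ (27), p₃ (25), p₁ + p₂ (34) and p₃ + p₄ (26). -/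
theorem result {F : Type*} [Field F] [Fintype F] [CharP F 2] (w v : GL Cfsg.Lie.chevF4.Idx F) (hw : (w : Matrix Cfsg.Lie.chevF4.Idx Cfsg.Lie.chevF4.Idx F) = Cfsg.Lie.chevF4.x F 47 1 * Cfsg.Lie.chevF4.x F 44 1) (hv : (v : Matrix Cfsg.Lie.chevF4.Idx Cfsg.Lie.chevF4.Idx F) = Cfsg.Lie.chevF4.x F 39 1 * Cfsg.Lie.chevF4.x F 45 1) :
    Cfsg.Lie.chevF4.group F ⊓ Subgroup.centralizer {w} = Cfsg.Lie.chevF4.posUnipotent F ⊔ Cfsg.Lie.chevF4.rootSubgroup F 20 ⊔ Cfsg.Lie.chevF4.rootSubgroup F 22 ∧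
    Cfsg.Lie.chevF4.group F ⊓ Subgroup.centralizer {v} = Cfsg.Lie.chevF4.rootSubgroup F 33 ⊔ Cfsg.Lie.chevF4.rootSubgroup F 14 ⊔ Cfsg.Lie.chevF4.rootSubgroup F 24 ⊔ Cfsg.Lie.chevF4.rootSubgroup F 23 ⊔
      Subgroup.closure {g : GL Cfsg.Lie.chevF4.Idx F | ∃ (r : ℕ) (c : F), Cfsg.Lie.chevF4.IsPosRoot r ∧ r ∉ [27, 25, 34, 26] ∧ (g : Matrix Cfsg.Lie.chevF4.Idx Cfsg.Lie.chevF4.Idx F) = Cfsg.Lie.chevF4.x F r c} := by
  have key : ∀ (g : GL Cfsg.Lie.chevF4.Idx F) (r s : Rt Cfsg.Lie.chevF4),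
      (g : Matrix Cfsg.Lie.chevF4.Idx Cfsg.Lie.chevF4.Idx F) = Cfsg.Lie.chevF4.x F r 1 * Cfsg.Lie.chevF4.x F s 1 →
      g = (((certF4.sys F).x r 1 * (certF4.sys F).x s 1 : Cfsg.Lie.chevF4.group F) : GL _ F) := fun g r s h =>
    Units.ext (by rw [h, Subgroup.coe_mul, Units.val_mul, certF4.sys_x_coe, certF4.sys_x_coe])
  constructor
  · rw [key w certF4.top (rF 44) hw, Cert.inf_centralizer_eq, F4_cent47_44 _ (certF4.sys_φ_inj F),
      certF4.UL_eq (J := {j | j ≠ nF 3 ∧ j ≠ nF 0}) (l := [20, 22]) (by simp only [Set.mem_ofPred_eq]; decide +kernel),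
      Cert.closure_cons, Cert.closure_cons, Cert.closure_nil]
    simp only [sup_assoc, sup_bot_eq]
  · rw [key v (rF 39) (rF 45) hv, Cert.inf_centralizer_eq, F4_cent39_45 _ (certF4.sys_φ_inj F)]
    have h := certF4.closure_x_eq (F := F) fun r => Cfsg.Lie.chevF4.IsPosRoot r ∧ r ∉ [27, 25, 34, 26]
    simp only [and_assoc, certF4.isPosRoot_iff] at h
    rw [h, Subgroup.map_sup, Subgroup.map_sup, Subgroup.map_sup, Subgroup.map_sup, ← certF4.rootSubgroup_eq,
      ← certF4.rootSubgroup_eq, ← certF4.rootSubgroup_eq, ← certF4.rootSubgroup_eq]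
    rfl

end Cfsg.Agent.S2179
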