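import Cfsg.Statements.S2180
import Cfsg.Agent.Chev.Cent3

set_option autoImplicit false
open Cfsg Cfsg.Agent.Chev

namespace Cfsg.Agent.S2180

/-- Centralizers of involutions in the Chevalley group G of type G₂ over a finite field F of characteristic two with at least four elements (this problem's root numbering for type G₂, from the Chevalley data module: a = p₁ short with index 7, b = p₂ long with index 6, −a = 4, −b = 5, 2a + b = 9, 3a + b = 10, 3a + 2b = 11; U generated by the positive root subgroups). For an element z of G with matrix x_{3a+2b}(1): the centralizer of z in G is generated by U and X_{−a}. For an element t of G with matrix x_{2a+b}(1): the centralizer of t in G is generated by X_{2a+b}, X_{3a+b}, X_{3a+2b}, X_b and X_{−b}. -/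
theorem result {F : Type*} [Field F] [Fintype F] [CharP F 2] (hF : 4 ≤ Fintype.card F) (z t : GL Cfsg.Lie.chevG2.Idx F) (hz : (z : Matrix Cfsg.Lie.chevG2.Idx Cfsg.Lie.chevG2.Idx F) = Cfsg.Lie.chevG2.x F 11 1) (ht : (t : Matrix Cfsg.Lie.chevG2.Idx Cfsg.Lie.chevG2.Idx F) = Cfsg.Lie.chevG2.x F 9 1) :
    Cfsg.Lie.chevG2.group F ⊓ Subgroup.centralizer {z} = Cfsg.Lie.chevG2.posUnipotent F ⊔ Cfsg.Lie.chevG2.rootSubgroup F 4 ∧
    Cfsg.Lie.chevG2.group F ⊓ Subgroup.centralizer {t} = Cfsg.Lie.chevG2.rootSubgroup F 9 ⊔ Cfsg.Lie.chevG2.rootSubgroup F 10 ⊔ Cfsg.Lie.chevG2.rootSubgroup F 11 ⊔ Cfsg.Lie.chevG2.rootSubgroup F 6 ⊔ Cfsg.Lie.chevG2.rootSubgroup F 5 := by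
  constructor
  · rw [certG2.cent_top_eq (nG 1) [4] (by decide +kernel) (by decide +kernel) (by decide +kernel) z hz,
      Cert.closure_cons, Cert.closure_nil]
    simp only [sup_bot_eq]
  · rw [certG2.gl_eq_sys_x (r := rG 9) ht, Cert.inf_centralizer_eq, G2_cent9 _ (certG2.sys_φ_inj F),
      Subgroup.map_sup, Subgroup.map_sup, Subgroup.map_sup, Subgroup.map_sup, ← certG2.rootSubgroup_eq,
      ← certG2.rootSubgroup_eq, ← certG2.rootSubgroup_eq, ← certG2.rootSubgroup_eq, ← certG2.rootSubgroup_eq]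
    rfl

end Cfsg.Agent.S2180
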