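import Cfsg.Statements.S2181
import Cfsg.Agent.Tw.InvFin
import Cfsg.Agent.Tw.InvE7

set_option autoImplicit false
open Cfsg

namespace Cfsg.Agent.S2181

open Cfsg.Lie Cfsg.Agent.Chev Cfsg.Agent.Tw

/-- The Chevalley group of type E₇ over a finite field of characteristic two (the matrix group generated by the root elements) has exactly five conjugacy classes of elements of order 2. -/
theorem result {F : Type*} [Field F] [Fintype F] [CharP F 2] :
    (ConjClasses.mk '' {g : ↥(Cfsg.Lie.chevE7.group F) | orderOf g = 2}).ncard = 5 := by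
  have hf := fitE7 (S := certE7.sys F)
  have r0 := rkE7_0 hf
  have r1 := rkE7_1 hf
  have r2 := rkE7_2 hf
  have r3 := rkE7_3 hf
  have r4 := rkE7_4 hf
  refine ncard_classes (fun i : Fin 5 => pw (certE7.sys F) (repsE7.getD i [])) ?_ ?_ ?_
  · intro i
    fin_cases i
    exacts [orderOf_pw (by decide +kernel) r0, orderOf_pw (by decide +kernel) r1, orderOf_pw (by decide +kernel) r2,
      orderOf_pw (by decide +kernel) r3, orderOf_pw (by decide +kernel) r4]
  · intro t ht
    obtain ⟨y, hy, g, -, e⟩ := hf.reps (certE7.sys_φ_inj F) okCE7 okJE7 okRE7 (t := t) trivial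
      (by rw [← pow_two, ← ht, pow_orderOf_eq_one]) (by rintro rfl; simp at ht)
    obtain ⟨i, hi, rfl⟩ := List.getElem_of_mem hy
    exact ⟨⟨i, hi⟩, isConj_iff.2 ⟨g, by rw [e, List.getD_eq_getElem]⟩⟩
  · intro i j h
    obtain ⟨g, e⟩ := isConj_iff.1 h
    have e2 := rk_conj (S := certE7.sys F) g (pw (certE7.sys F) (repsE7.getD i []))
    rw [e] at e2
    fin_cases i <;> fin_cases j <;> first | rfl | (simp only [repsE7, List.getD_cons_zero, List.getD_cons_succ] at e2; omega)

end Cfsg.Agent.S2181
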