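import Cfsg.Statements.S2182
import Cfsg.Agent.Tw.InvTE6

set_option autoImplicit false
open Cfsg

namespace Cfsg.Agent.S2182

open Cfsg.Lie Cfsg.Agent.Chev Cfsg.Agent.Tw

/-- The twisted group ²E₆(q), q even, realised inside the Chevalley group of type E₆ over the field K with q² elements, has exactly three conjugacy classes of elements of order 2. -/
theorem result {K : Type*} [Field K] [Fintype K] [CharP K 2] (q : ℕ) (hK : Fintype.card K = q ^ 2) :
    (ConjClasses.mk '' {g : ↥(Cfsg.Lie.twistedE6 K q) | orderOf g = 2}).ncard = 3 := by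
  have h : Nat.card K = q ^ 2 := by rw [Nat.card_eq_fintype_card, hK]
  obtain ⟨φ, hφ⟩ := exists_frob K h
  have hf := fitTE6 (goodE6 hφ (frob2 hφ h)) (frob2 hφ h) (exists_ne_frob (d := 0) hφ h)
  have r0 := rkTE6_0 hf
  have r1 := rkTE6_1 hf
  have r2 := rkTE6_2 hf
  refine (ncard_classes_congr (genEquiv certE6 (e6Words K q))).symm.trans (ncard_classes_sub (S := certE6.sys K)
    (fun i : Fin 3 => pw (certE6.sys K) (repsTE6.getD i [])) (fun i => hf.okZ_mem (by revert i; decide +kernel)) ?_ ?_ ?_)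
  · intro i
    fin_cases i
    exacts [orderOf_pw (by decide +kernel) r0, orderOf_pw (by decide +kernel) r1, orderOf_pw (by decide +kernel) r2]
  · intro t ht h2 h1
    obtain ⟨y, hy, g, hg, e⟩ := hf.reps (certE6.sys_φ_inj K) okCTE6 okJTE6 okRTE6 ht h2 h1
    obtain ⟨i, hi, rfl⟩ := List.getElem_of_mem hy
    exact ⟨⟨i, hi⟩, g, hg, by rw [e, List.getD_eq_getElem]⟩
  · intro i j e2
    fin_cases i <;> fin_cases j <;>
      first | rfl | (simp only [repsTE6, List.getD_cons_zero, List.getD_cons_succ] at e2; omega)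

end Cfsg.Agent.S2182
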