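import Cfsg.Statements.S2183
import Cfsg.Agent.Tw.InvTD4

set_option autoImplicit false
open Cfsg

namespace Cfsg.Agent.S2183

open Cfsg.Lie Cfsg.Agent.Chev Cfsg.Agent.Tw

/-- The twisted group ³D₄(q), q even, realised inside the Chevalley group of type D₄ over the field K with q³ elements, has exactly two conjugacy classes of elements of order 2. -/
theorem result {K : Type*} [Field K] [Fintype K] [CharP K 2] (q : ℕ) (hK : Fintype.card K = q ^ 3) :
    (ConjClasses.mk '' {g : ↥(Cfsg.Lie.twistedD4 K q) | orderOf g = 2}).ncard = 2 := by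
  have h : Nat.card K = q ^ 3 := by rw [Nat.card_eq_fintype_card, hK]
  obtain ⟨φ, hφ⟩ := exists_frob K h
  have hf := fitTD4 (goodD4 hφ (frob3 hφ h)) (frob3 hφ h)
  have r0 := rkTD4_0 hf
  have r1 := rkTD4_1 hf
  refine (ncard_classes_congr (genEquiv certD4 (d4Words K q))).symm.trans (ncard_classes_sub (S := certD4.sys K)
    (fun i : Fin 2 => pw (certD4.sys K) (repsTD4.getD i [])) (fun i => hf.okZ_mem (by revert i; decide +kernel)) ?_ ?_ ?_)
  · intro i
    fin_cases i
    exacts [orderOf_pw (by decide +kernel) r0, orderOf_pw (by decide +kernel) r1]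
  · intro t ht h2 h1
    obtain ⟨y, hy, g, hg, e⟩ := hf.reps (certD4.sys_φ_inj K) okCTD4 okJTD4 okRTD4 ht h2 h1
    obtain ⟨i, hi, rfl⟩ := List.getElem_of_mem hy
    exact ⟨⟨i, hi⟩, g, hg, by rw [e, List.getD_eq_getElem]⟩
  · intro i j e2
    fin_cases i <;> fin_cases j <;>
      first | rfl | (simp only [repsTD4, List.getD_cons_zero, List.getD_cons_succ] at e2; omega)

end Cfsg.Agent.S2183
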