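import Cfsg.Statements.S2184
import Cfsg.Agent.Tw.Tits

set_option autoImplicit false
open Cfsg

namespace Cfsg.Agent.S2184

open Cfsg.Lie Cfsg.Agent.Chev Cfsg.Agent.Tw

/-- The twisted group ²F₄(q), q = 2^(2m+1) with m ≥ 0 (realised inside the Chevalley group of type F₄ over the field K with q elements, θ the 2^m-th power map), has exactly two conjugacy classes of elements of order 2; and so does the Tits group, the commutator subgroup of ²F₄(2). -/
theorem result {K : Type*} [Field K] [Fintype K] (m : ℕ) (hK : Fintype.card K = 2 ^ (2 * m + 1)) :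
    (ConjClasses.mk '' {g : ↥(Cfsg.Lie.twistedF4 K (2 ^ m)) | orderOf g = 2}).ncard = 2 ∧ (ConjClasses.mk '' {g : Cfsg.Lie.TitsGroup | orderOf g = 2}).ncard = 2 := by
  have h : Nat.card K = 2 ^ (2 * m + 1) := by rw [Nat.card_eq_fintype_card, hK]
  have : CharP K 2 := charP_of_card_eq_prime_pow hK
  obtain ⟨φ, -, -, hg⟩ := goodTF4 h
  have hf := fitTF4 hg
  exact ⟨(ncard_classes_congr (genEquiv certF4 (f4Words K (2 ^ m)))).symm.trans (ncard_classes_sub (S := certF4.sys K)
    (fun i : Fin 2 => pw (certF4.sys K) ([[47, 44], [39, 45]].getD i []))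
    (fun i => hf.okZ_mem (by revert i; decide +kernel)) orderTF4 (fun t ht h2 h1 => invTF4 hf ht h2 h1) rkTF4),
    (tits_gen (ZMod 2) (by decide)).1⟩

end Cfsg.Agent.S2184
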