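import Cfsg.Statements.S2189
import Cfsg.Agent.Chev.Over3

set_option autoImplicit false
open Cfsg Cfsg.Agent.Chev

namespace Cfsg.Agent.S2189

/-- Finite subgroups of an adjoint Chevalley group over an algebraically closed field that contain the group over a finite subfield. Let k be an algebraically closed field of prime characteristic p, G the Chevalley group of type G₂, B₂, D₄, F₄, E₆, E₇ or E₈ over k (the matrix group generated by the root elements x_s(t), t ∈ k), and q = p^a with a ≥ 1. Let L be the subgroup generated by the root elements x_s(t) with t^q = t (the Chevalley group over the field of q elements inside G), and let M be a finite subgroup of G containing L. Then for some r ≥ 1, M contains every root element x_s(t) with t^(q^r) = t and every element of M is a matrix all of whose entries c satisfy c^(q^r) = c (so M lies between the Chevalley group over the field with q^r elements and the group of points of G fixed by the q^r-th power map). -/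
theorem result {k : Type*} [Field k] [IsAlgClosed k] (p : ℕ) [Fact p.Prime] [CharP k p] (D : Cfsg.Lie.ChevalleyDatum) (hD : D ∈ [Cfsg.Lie.chevG2, Cfsg.Lie.chevB2, Cfsg.Lie.chevD4, Cfsg.Lie.chevF4, Cfsg.Lie.chevE6, Cfsg.Lie.chevE7, Cfsg.Lie.chevE8]) (a : ℕ) (ha : 1 ≤ a) (M : Subgroup (GL D.Idx k)) (hMfin : Finite ↥M) (hMG : M ≤ D.group k)
    (hLM : Subgroup.closure {g : GL D.Idx k | ∃ (s : ℕ) (t : k), t ^ (p ^ a) = t ∧ (g : Matrix D.Idx D.Idx k) = D.x k s t} ≤ M) :
    ∃ r : ℕ, 1 ≤ r ∧ Subgroup.closure {g : GL D.Idx k | ∃ (s : ℕ) (t : k), t ^ ((p ^ a) ^ r) = t ∧ (g : Matrix D.Idx D.Idx k) = D.x k s t} ≤ M ∧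
      ∀ g ∈ M, ∀ i j : D.Idx, ((g : Matrix D.Idx D.Idx k) i j) ^ ((p ^ a) ^ r) = (g : Matrix D.Idx D.Idx k) i j := by
  obtain ⟨C, hC⟩ := exists_sand hD
  rw [C.closure_sub_eq fun t => t ^ (p ^ a) = t] at hLM
  have : Finite (M.subgroupOf (D.group k)) := Finite.of_equiv _ (Subgroup.subgroupOfEquivOfLe hMG).toEquiv.symm
  have hL : ∀ r t, t ^ p ^ a = t → (C.sys k).x r t ∈ M.subgroupOf (D.group k) := fun r t ht =>
    hLM ⟨_, (C.sys k).x_mem_sub r ht, rfl⟩
  obtain ⟨n, hn, h1, h2⟩ := hC k p (M.subgroupOf (D.group k)) fun r => hL r 1 (one_pow _)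
  obtain ⟨r, rfl⟩ := dvd_of_frob p k (by omega) fun t ht => (h1 C.top t).1 (hL _ t ht)
  refine ⟨r, Nat.pos_of_mul_pos_left hn, ?_, fun g hg => ?_⟩
  · rw [C.closure_sub_eq fun t => t ^ (p ^ a) ^ r = t, ← Subgroup.map_subgroupOf_eq_of_le hMG]
    exact Subgroup.map_mono ((C.sys k).sub_le.2 fun s t ht => (h1 s t).2 (pow_mul p a r ▸ ht))
  · rw [← pow_mul]
    exact (fieldHom_eq_iff C _ ⟨g, hMG hg⟩).1 (h2 _ (isFld_fieldHom C _) _ hg)

end Cfsg.Agent.S2189
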