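import Cfsg.Statements.S2190
import Cfsg.Agent.Chev.Over3

set_option autoImplicit false
open Cfsg Cfsg.Agent.Chev

namespace Cfsg.Agent.S2190

/-- Subfield subgroups of prime degree are maximal. Let K be a finite field with q^r elements, r a prime, q a power of the characteristic, and G the Chevalley group of type G₂, B₂, D₄, F₄, E₆, E₇ or E₈ over K (the matrix group generated by the root elements). Let M be the subgroup of G consisting of the matrices all of whose entries lie in the subfield with q elements (entries c with c^q = c). Then M is a proper subgroup of G and is maximal: every subgroup of G containing M is M or G. -/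
theorem result {K : Type*} [Field K] [Fintype K] (p : ℕ) [Fact p.Prime] [CharP K p] (D : Cfsg.Lie.ChevalleyDatum) (hD : D ∈ [Cfsg.Lie.chevG2, Cfsg.Lie.chevB2, Cfsg.Lie.chevD4, Cfsg.Lie.chevF4, Cfsg.Lie.chevE6, Cfsg.Lie.chevE7, Cfsg.Lie.chevE8]) (a r : ℕ) (ha : 1 ≤ a) (hr : r.Prime) (hK : Fintype.card K = (p ^ a) ^ r) (M : Subgroup (GL D.Idx K))
    (hM : ∀ g : GL D.Idx K, g ∈ M ↔ g ∈ D.group K ∧ ∀ i j : D.Idx, ((g : Matrix D.Idx D.Idx K) i j) ^ (p ^ a) = (g : Matrix D.Idx D.Idx K) i j) :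
    M ≠ D.group K ∧ ∀ H : Subgroup (GL D.Idx K), M ≤ H → H ≤ D.group K → H = M ∨ H = D.group K := by
  obtain ⟨C, hC⟩ := exists_sand hD
  let k := AlgebraicClosure K
  let ι : K →+* k := algebraMap K k
  have hι : ∀ t, (∃ s, ι s = t) ↔ t ^ p ^ (a * r) = t :=
    mem_range_iff_frob p ι (by rw [Nat.card_eq_fintype_card, hK, pow_mul])
  have hfix : ∀ g : D.group K, g.1 ∈ M ↔ Tw.fieldHom C (iterateFrobenius K p a) g = g := fun g =>
    (hM g).trans ((and_iff_right g.2).trans (fieldHom_eq_iff C (iterateFrobenius K p a) g).symm)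
  have hx : ∀ s t, ((C.sys K).x s t).1 ∈ M ↔ t ^ p ^ a = t := fun s t => by
    rw [hfix, Tw.fieldHom_x, ((C.sys K).x_inj _).eq_iff, iterateFrobenius_def]
  refine ⟨fun e => hr.not_dvd_one (Nat.dvd_of_mul_dvd_mul_left ha ?_), fun H h1 h2 => ?_⟩
  · rw [mul_one]
    refine dvd_of_frob p k (Nat.mul_pos ha hr.pos) fun t ht => ?_
    obtain ⟨s, rfl⟩ := (hι t).2 ht
    rw [← map_pow, (hx C.top s).1 (e ▸ ((C.sys K).x C.top s).2)]
  have : Finite (D.group K) := Finite.of_injective _ (C.sys_φ_inj K)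
  let H' := (H.subgroupOf (D.group K)).map (C.baseHom ι)
  have : Finite H' := Finite.of_surjective _ ((C.baseHom ι).subgroupMap_surjective _)
  have hH : ∀ g : D.group K, C.baseHom ι g ∈ H' ↔ g.1 ∈ H := fun g => Subgroup.mem_map_iff_mem (C.baseHom_inj ι)
  have h3 : ∀ s t, t ^ p ^ a = t → (C.sys k).x s t ∈ H' := fun s t ht => by
    obtain ⟨u, rfl⟩ := (hι t).2 (by
      rw [← iterateFrobenius_def, iterateFrobenius_mul_apply]; exact Function.iterate_fixed ht r)
    rw [← C.baseHom_x, hH]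
    exact h1 ((hx s u).2 (ι.injective (by rwa [map_pow])))
  obtain ⟨n, hn, h4, h5⟩ := hC k p H' fun s => h3 s 1 (one_pow _)
  obtain ⟨m, rfl⟩ := dvd_of_frob p k ha fun t ht => (h4 C.top t).1 (h3 _ t ht)
  have h6 : m ∣ r := Nat.dvd_of_mul_dvd_mul_left ha (dvd_of_frob p k hn fun t ht => by
    obtain ⟨g, -, e⟩ := (h4 C.top t).2 ht
    have h7 : Tw.fieldHom C (iterateFrobenius k p (a * r)) (C.baseHom ι g) = C.baseHom ι g :=
      (fieldHom_eq_iff C _ _).2 fun i j => by rw [C.baseHom_val]; exact (hι _).1 ⟨_, rfl⟩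
    rwa [e, Tw.fieldHom_x, ((C.sys k).x_inj _).eq_iff] at h7)
  rcases (Nat.dvd_prime hr).1 h6 with rfl | rfl
  · refine Or.inl (le_antisymm (fun g hg => (hM g).2 ⟨h2 hg, fun i j => ι.injective ?_⟩) h1)
    have := (fieldHom_eq_iff C _ _).1 (h5 _ (isFld_fieldHom C _) _ ((hH ⟨g, h2 hg⟩).2 hg)) i j
    rwa [C.baseHom_val, mul_one, iterateFrobenius_def, Matrix.map_apply, ← map_pow] at this
  · refine Or.inr (le_antisymm h2 fun g hg => ?_)
    lift g to D.group K using hg
    induction g using (C.sys K).induction with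
    | h1 => exact one_mem H
    | h2 s t g ih => exact mul_mem ((hH _).1 (C.baseHom_x ι s t ▸ (h4 s _).2 ((hι _).1 ⟨t, rfl⟩))) ih

end Cfsg.Agent.S2190
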