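import Cfsg.Statements.S2194
import Cfsg.Agent.R3.Par

set_option autoImplicit false
open Cfsg

namespace Cfsg.Agent.S2194

/-- Primitive rank 3 actions of the projective special linear groups in dimension at least 5. Let G ≅ PSL_n(F), n ≥ 5, F a finite field with q elements, act faithfully and primitively on a finite set X so that a point stabilizer has exactly three orbits on X. Then X has as many points as there are 2-dimensional subspaces of F^n: |X|·(q² − 1)(q − 1) = (q^n − 1)(q^(n−1) − 1). (The action is in fact the one on the lines of the projective space, or on its subspaces of dimension n − 2; only the number of points is asserted here.) -/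
theorem result {G X : Type*} [Group G] [Finite G] [MulAction G X] [FaithfulSMul G X] [Fintype X] {F : Type*} [Field F] [Fintype F] (n : ℕ) (hn : 5 ≤ n) (e : G ≃* Matrix.ProjectiveSpecialLinearGroup (Fin n) F) (hprim : MulAction.IsPreprimitive G X) (x : X) (h3 : Nat.card (MulAction.orbitRel.Quotient ↥(MulAction.stabilizer G x) X) = 3) :
    Fintype.card X * ((Fintype.card F ^ 2 - 1) * (Fintype.card F - 1)) = (Fintype.card F ^ n - 1) * (Fintype.card F ^ (n - 1) - 1) := by
  let f : Matrix.SpecialLinearGroup (Fin n) F →* G :=
    e.symm.toMonoidHom.comp (QuotientGroup.mk' _)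
  have hf : Function.Surjective f := e.symm.surjective.comp (QuotientGroup.mk'_surjective _)
  letI : MulAction (Matrix.SpecialLinearGroup (Fin n) F) X := MulAction.compHom X f
  have h1 : MulAction.IsPreprimitive (Matrix.SpecialLinearGroup (Fin n) F) X :=
    (MulAction.isPreprimitive_congr (φ := f) hf
      (f := ⟨id, fun _ _ => rfl⟩) Function.bijective_id).2 hprim
  have h2 : MulAction.orbitRel (Matrix.SpecialLinearGroup (Fin n) F) (X × X) =
      MulAction.orbitRel G (X × X) := by
    ext a b
    constructor
    · rintro ⟨g, rfl⟩; exact ⟨f g, rfl⟩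
    · rintro ⟨g, rfl⟩
      obtain ⟨g, rfl⟩ := hf g
      exact ⟨g, rfl⟩
  have h4 := R3.main_SL (F := F) hn X (by
    rw [← h3, ← R3.rank_eq x]
    exact congrArg (fun s : Setoid (X × X) => Nat.card (Quotient s)) h2)
  rw [← R3.θ_mul_sub R3.one_le_q, ← R3.θ_mul_sub R3.one_le_q, ← R3.θ_mul_sub R3.one_le_q,
    ← Nat.card_eq_fintype_card, ← mul_assoc, ← mul_assoc, h4]
  ring

end Cfsg.Agent.S2194
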