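import Cfsg.Statements.S2195
import Cfsg.Agent.SR.Main

set_option autoImplicit false
open Cfsg

namespace Cfsg.Agent.S2195

/-- Primitive rank 3 actions of the projective symplectic groups in dimension at least 6 over fields of odd order. Let G ≅ PSp_{2k}(F), k ≥ 3, F a finite field with q elements, q odd, act faithfully and primitively on a finite set X so that a point stabilizer has exactly three orbits. Then X has as many points as the projective space of F^{2k}: |X|·(q − 1) = q^{2k} − 1. (The action is in fact the one on the points of the projective space, all of which are isotropic for the symplectic form; only the number of points is asserted here.) -/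
theorem result {G X : Type*} [Group G] [Finite G] [MulAction G X] [FaithfulSMul G X] [Fintype X] {F : Type*} [Field F] [Fintype F] (k : ℕ) (hk : 3 ≤ k) (hq : Odd (Fintype.card F)) (e : G ≃* Cfsg.PSp k F) (hprim : MulAction.IsPreprimitive G X) (x : X) (h3 : Nat.card (MulAction.orbitRel.Quotient ↥(MulAction.stabilizer G x) X) = 3) :
    Fintype.card X * (Fintype.card F - 1) = Fintype.card F ^ (2 * k) - 1 := by
  classical
  let φ : (Polar.spStd F k).Iso →* G := (e.symm.toMonoidHom.comp (QuotientGroup.mk' _)).comp
    (Polar.spEquiv F k).symm.toMonoidHom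
  have hφ : Function.Surjective φ :=
    e.symm.surjective.comp ((QuotientGroup.mk'_surjective _).comp (Polar.spEquiv F k).symm.surjective)
  let _ := MulAction.compHom X φ
  have : MulAction.IsPretransitive (Polar.spStd F k).Iso X := ⟨fun a b => by
    obtain ⟨g, rfl⟩ := MulAction.exists_smul_eq G a b
    obtain ⟨g, rfl⟩ := hφ g
    exact ⟨g, rfl⟩⟩
  have h2 : (2 : F) ≠ 0 := fun h => by
    have := FiniteField.even_card_of_char_two (F := F)
      (CharP.ringChar_of_prime_eq_zero Nat.prime_two (by exact_mod_cast h))
    rw [Nat.odd_iff] at hq; omega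
  rw [← Nat.card_eq_fintype_card, ← Nat.card_eq_fintype_card]
  refine SR.sp_rank_three (Polar.spStd_nd k) h2 x ?_ (Polar.finrank_spStd k) hk
  rw [← h3]
  refine Nat.card_congr (Quotient.congr (Equiv.refl X) fun a b => ⟨?_, ?_⟩)
  · rintro ⟨g, rfl⟩
    exact ⟨⟨φ g.1, g.2⟩, rfl⟩
  · rintro ⟨⟨g, hg⟩, rfl⟩
    obtain ⟨g, rfl⟩ := hφ g
    exact ⟨⟨g, hg⟩, rfl⟩

end Cfsg.Agent.S2195
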