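import Cfsg.Statements.S2197
import Cfsg.Agent.TitsC.Cert

set_option autoImplicit false
open Cfsg

namespace Cfsg.Agent.S2197

open MulAction Cfsg.Agent.CGT Cfsg.Agent.TitsC

variable {G Ω : Type*} [Group G] [Fintype Ω] [MulAction G Ω]

theorem ncard_modEq {u : G} {p : ℕ} [Fact p.Prime] (hu : u ^ p = 1) {S : Set Ω}
    (hS : ∀ x ∈ S, u • x ∈ S) : S.ncard ≡ (S ∩ fixedBy Ω u).ncard [MOD p] := by
  classical
  let f : Function.End S := fun x => ⟨u • x.1, hS _ x.2⟩
  have e : ∀ (n : ℕ) (x : S), ((f ^ n) x).1 = u ^ n • x.1 := fun n => by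
    induction n with
    | zero => intro x; rw [pow_zero, pow_zero, one_smul]; rfl
    | succ n ih => intro x; rw [pow_succ, pow_succ, mul_smul]; exact ih (f x)
  have := Equiv.Perm.card_fixedPoints_modEq (f := f) (p := p) (n := 1)
    (funext fun x => Subtype.ext (by rw [pow_one, e, hu, one_smul]; rfl))
  rw [← Nat.card_eq_fintype_card, ← Nat.card_eq_fintype_card, Nat.card_coe_set_eq,
    Nat.card_coe_set_eq, ← Set.ncard_image_of_injective _ Subtype.val_injective] at this
  convert this using 2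
  ext x
  exact ⟨fun h => ⟨⟨x, h.1⟩, Subtype.ext h.2, rfl⟩, by
    rintro ⟨y, h, rfl⟩; exact ⟨y.2, congrArg Subtype.val h⟩⟩

theorem sixteen_dvd {g : G} (hg : g ^ 16 = 1) (h8 : g ^ 8 ≠ 1) :
    16 ∣ (fixedBy Ω (g ^ 8))ᶜ.ncard := by
  classical
  have ho : orderOf g = 2 ^ (3 + 1) := orderOf_eq_prime_pow h8 hg
  let M : SubMulAction (Subgroup.zpowers g) Ω := ⟨(fixedBy Ω (g ^ 8))ᶜ, by
    rintro ⟨_, k, rfl⟩ x hx h
    refine hx (MulAction.injective (g ^ k) ?_)
    change g ^ 8 • g ^ k • x = g ^ k • x at h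
    rwa [smul_smul, ((Commute.refl g).zpow_right k |>.pow_left 8).eq, mul_smul] at h⟩
  have h : ∀ x : M, stabilizer (Subgroup.zpowers g) x = ⊥ := fun x => by
    rw [eq_bot_iff]
    rintro ⟨u, hu⟩ h
    obtain ⟨k, hk, rfl⟩ := Finset.mem_image.1
      ((isOfFinOrder_iff_pow_eq_one.2 ⟨16, by decide, hg⟩).mem_zpowers_iff_mem_range_orderOf.1 hu)
    rw [ho, Finset.mem_range] at hk
    have h1 : g ^ k ∈ stabilizer G x.1 := congrArg Subtype.val h
    obtain rfl | ⟨m, -, hm⟩ := (by decide : ∀ k < 16, k = 0 ∨ ∃ m < 16, k * m % 16 = 8) k hk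
    · exact Subtype.ext (pow_zero g)
    · have := pow_mem h1 m
      rw [← pow_mul, pow_eq_pow_mod _ hg, hm] at this
      exact absurd this x.2
  have := Nat.card_congr (selfEquivOrbitsQuotientProd h)
  rw [Nat.card_prod, Nat.card_zpowers, ho] at this
  exact Dvd.intro_left _ this.symm

theorem abstract [Finite G] [FaithfulSMul G Ω] (hN : Nat.card G = 17971200) {a b g : G}
    (ha : a ^ 5 = 1) (hb : b ^ 5 = 1) (hab : Commute a b) (h1 : a ≠ 1)
    (hc : ∀ i < 5, ∀ j < 5, i = 0 ∧ j = 0 ∨ ∃ c, c * a = a ^ i * b ^ j * c) (hg : g ^ 16 = 1)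
    (h8 : g ^ 8 ≠ 1) (hga : Commute (g ^ 8) a) (hΩ : 3 ≤ Fintype.card Ω) :
    ¬ IsMultiplyPretransitive G Ω 2 := by
  classical
  intro h2
  haveI : Fact (Nat.Prime 5) := ⟨by norm_num⟩
  have mv : ∀ u : G, u ≠ 1 → (fixedBy Ω u).ncard < Fintype.card Ω := fun u hu => by
    rw [← Nat.card_eq_fintype_card, ← Set.ncard_univ]
    refine Set.ncard_lt_ncard (Set.ssubset_univ_iff.2 fun e => hu ?_)
    exact FaithfulSMul.eq_of_smul_eq_smul fun x : Ω => by
      rw [one_smul]; exact (e ▸ Set.mem_univ x : x ∈ fixedBy Ω u)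
  -- the degree
  obtain ⟨s, -, hs⟩ := Set.exists_subset_card_eq (s := (Set.univ : Set Ω)) (n := 2)
    (by rw [Set.ncard_univ, Nat.card_eq_fintype_card]; omega)
  have hd := (fixingSubgroup G s).index_dvd_card
  rw [IsMultiplyPretransitive.index_of_fixingSubgroup_eq s (hs ▸ h2), hs, hN,
    Nat.card_eq_fintype_card, Nat.choose_two_right, Nat.factorial_two,
    Nat.div_mul_cancel (Nat.even_mul_pred_self _).two_dvd] at hd
  haveI : IsPretransitive G Ω := is_one_pretransitive_iff.1 (isMultiplyPretransitive_of_le' (n := 2)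
    (by decide) (by simp only [ENat.card_eq_coe_fintype_card]; exact_mod_cast by omega))
  set n := Fintype.card Ω
  have hn : n ≤ 27 ∨ n = 40 ∨ n = 65 := by
    have h3 : n < 4241 := by
      by_contra h
      have := (Nat.mul_le_mul (not_lt.1 h) (show 4240 ≤ n - 1 by omega)).trans
        (Nat.le_of_dvd (by decide) hd)
      omega
    have := allLt_iff.1 (show allLt 4241 (fun n => decide (n * (n - 1) ∣ 17971200 →
      n ≤ 27 ∨ n = 40 ∨ n = 65)) = true by decide +kernel) n h3
    exact of_decide_eq_true this hd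
  -- the Sylow 5-subgroup
  let ρ : Multiplicative (ZMod 5 × ZMod 5) →* G := MonoidHom.mk'
    (fun p => a ^ p.toAdd.1.val * b ^ p.toAdd.2.val) fun p q => by
      simp only [toAdd_mul, Prod.fst_add, Prod.snd_add, ZMod.val_add, ← pow_eq_pow_mod _ ha,
        ← pow_eq_pow_mod _ hb, pow_add]
      exact (hab.pow_pow _ _).mul_mul_mul_comm _ _
  have hρ : ∀ p, p ≠ 1 → ∃ c, ρ p = c * a * c⁻¹ := fun p hp => by
    rcases hc _ p.toAdd.1.val_lt _ p.toAdd.2.val_lt with ⟨h3, h4⟩ | ⟨c, h⟩
    · exact absurd (Prod.ext ((ZMod.val_eq_zero _).1 h3) ((ZMod.val_eq_zero _).1 h4)) hp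
    · exact ⟨c, by rw [h, mul_inv_cancel_right]; rfl⟩
  letI := MulAction.compHom Ω ρ
  set f := (fixedBy Ω a).ncard
  have hf : f < n := mv a h1
  have hsum : ∑ p : Multiplicative (ZMod 5 × ZMod 5), Fintype.card (fixedBy Ω p) = n + 24 * f := by
    rw [← Finset.add_sum_erase _ _ (Finset.mem_univ 1), Finset.sum_const_nat (m := f)]
    · simp [n]
    · intro p hp
      obtain ⟨c, h⟩ := hρ p (Finset.ne_of_mem_erase hp)
      rw [← Nat.card_eq_fintype_card, Nat.card_coe_set_eq,
        show fixedBy Ω p = fixedBy Ω (ρ p) from rfl, h, ← smul_fixedBy, Set.ncard_smul_set]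
  have hB := sum_card_fixedBy_eq_card_orbits_mul_card_group (Multiplicative (ZMod 5 × ZMod 5)) Ω
  rw [hsum, show Fintype.card (Multiplicative (ZMod 5 × ZMod 5)) = 25 by simp] at hB
  rcases hn with hn | hn
  · set M := (fixedBy Ω (g ^ 8))ᶜ
    have h3 : (fixedBy Ω (g ^ 8)).ncard + M.ncard = n := by
      rw [Set.ncard_add_ncard_compl, Nat.card_eq_fintype_card]
    have h4 := mv _ h8
    have h5 : 16 ∣ M.ncard := sixteen_dvd hg h8
    have h6 := ncard_modEq ha (S := M) fun x hx h => hx (MulAction.injective a (by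
      change g ^ 8 • a • x = a • x at h
      rwa [smul_smul, hga.eq, mul_smul] at h))
    have h7 := ncard_modEq (p := 2) (u := g ^ 8) (by rw [← pow_mul, hg]) (S := M ∩ fixedBy Ω a)
      fun x hx => ⟨fun h => hx.1 (MulAction.injective _ h), by
        rw [mem_fixedBy, smul_smul, ← hga.eq, mul_smul, hx.2]⟩
    rw [show M ∩ fixedBy Ω a ∩ fixedBy Ω (g ^ 8) = ∅ from
      Set.eq_empty_of_forall_notMem fun x h => h.1.1 h.2, Set.ncard_empty] at h7
    have h9 : (M ∩ fixedBy Ω a).ncard ≤ f := Set.ncard_le_ncard Set.inter_subset_right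
    unfold Nat.ModEq at h6 h7
    omega
  · have h3 : ∀ x : Ω, Nat.card (stabilizer (Multiplicative (ZMod 5 × ZMod 5)) x) ≤ 5 := fun x => by
      have h4 := (stabilizer (Multiplicative (ZMod 5 × ZMod 5)) x).card_subgroup_dvd_card
      rw [show Nat.card (Multiplicative (ZMod 5 × ZMod 5)) = 5 ^ 2 by simp] at h4
      obtain ⟨i, hi, e⟩ := (Nat.dvd_prime_pow Fact.out).1 h4
      interval_cases i
      · omega
      · omega
      · have h5 := Subgroup.card_dvd_of_injective ((ρ.comp (Subgroup.subtype _)).codRestrict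
          (stabilizer G x) fun p : stabilizer (Multiplicative (ZMod 5 × ZMod 5)) x => p.2)
          ((injective_iff_map_eq_one _).2 fun p hp => by
            by_contra h
            obtain ⟨c, hc⟩ := hρ p fun e => h (Subtype.ext e)
            exact h1 (by simpa [mul_inv_eq_one] using hc.symm.trans (congrArg Subtype.val hp)))
        have h6 := (stabilizer G x).card_mul_index
        rw [index_stabilizer_of_transitive, hN, Nat.card_eq_fintype_card (α := Ω)] at h6
        rw [e] at h5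
        obtain ⟨t, ht⟩ := h5
        rw [ht] at h6
        rcases hn with hn | hn <;> simp only [n] at hn <;> rw [hn] at h6 <;> omega
    have h4 : n + 24 * f ≤ n * 5 := by
      rw [← hsum]
      simp only [Fintype.card_subtype, Finset.card_filter]
      rw [Finset.sum_comm, ← smul_eq_mul]
      refine Finset.sum_le_card_nsmul _ _ _ fun x _ => ?_
      have := h3 x
      rwa [Nat.card_eq_fintype_card, Fintype.card_subtype, Finset.card_filter] at this
    omega

noncomputable def ds : List (List ℕ) := [[8, 7, 2, 0, 14, 0, 2, 4, 10], [7, 7, 5, 5, 0, 11, 5, 10, 5], [10, 0, 4, 2, 4, 11, 5, 2, 14], [7, 11, 5, 0, 2, 0, 10, 5, 11], [11, 8, 0, 8, 11, 0, 8, 14]]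
noncomputable def cs : List (List ℕ) := [[], [3], [4, 4, 4, 3, 3, 3], [4, 4, 4, 3], [3, 3, 3], [], [4, 4, 3, 3, 3], [3, 4, 3, 3, 3], [3, 4, 3, 3], [3, 4, 4, 3], [4, 4, 4, 3, 3], [4], [3, 4, 4], [4, 4], [4, 3, 3, 3], [4, 4, 4], [4, 3], [4, 4, 3, 3], [3, 4, 4, 3, 3], [4, 3, 3], [3, 3], [4, 3, 4], [3, 4], [3, 4, 3], [4, 4, 3]]

theorem ev_replicate {G : Type*} [Monoid G] (g : ℕ → G) (n a : ℕ) :
    ev g (List.replicate n a) = g a ^ n := by simp [ev]

/-- The Tits group (the commutator subgroup of ²F₄(2)) has no faithful 2-transitive action on a finite set with more than two points. -/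
theorem result {Ω : Type*} [Fintype Ω] [MulAction Cfsg.Lie.TitsGroup Ω] [FaithfulSMul Cfsg.Lie.TitsGroup Ω] (hΩ : 3 ≤ Fintype.card Ω) :
    ¬ MulAction.IsMultiplyPretransitive Cfsg.Lie.TitsGroup Ω 2 := by
  obtain ⟨γ, φ, C, -⟩ := cert (ZMod.card 2)
  haveI := C.fin
  have E : ∀ u v, eqD 11 m_ts ds (chainBase [] c_ls) u v = true →
      ev (der (ext γ) ds) u = ev (der (ext γ) ds) v := fun u v h =>
    eqD_sound C.M C.base (by decide +kernel) h
  refine abstract (C.card.trans (by decide +kernel)) (a := der (ext γ) ds 0) (b := der (ext γ) ds 1)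
    (g := der (ext γ) ds 2) ((ev_replicate _ 5 0).symm.trans (E _ [] (by decide +kernel)))
    ((ev_replicate _ 5 1).symm.trans (E _ [] (by decide +kernel)))
    (by simpa [commute_iff_eq] using E [0, 1] [1, 0] (by decide +kernel))
    (by simpa using movesD_sound C.M (ds := ds) (b := 0) (u := [0]) (by decide +kernel))
    (fun i hi j hj => ?_) ((ev_replicate _ 16 2).symm.trans (E _ [] (by decide +kernel)))
    (by rw [← ev_replicate]; exact movesD_sound C.M (b := 0) (by decide +kernel))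
    (by
      have := E (List.replicate 8 2 ++ [0]) (0 :: List.replicate 8 2) (by decide +kernel)
      rwa [ev_append, ev_cons, ev_cons, ev_nil, mul_one, ev_replicate] at this) hΩ
  have : ∀ i < 5, ∀ j < 5, i = 0 ∧ j = 0 ∨ eqD 11 m_ts ds (chainBase [] c_ls)
      (nth [] cs (5 * i + j) ++ [0])
      (List.replicate i 0 ++ List.replicate j 1 ++ nth [] cs (5 * i + j)) = true := by decide +kernel
  exact (this i hi j hj).imp_right fun h => ⟨_, by
    have := E _ _ h
    rwa [ev_append, ev_append, ev_append, ev_singleton, ev_replicate, ev_replicate] at this⟩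

end Cfsg.Agent.S2197
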