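import Cfsg.Statements.S2205
import Cfsg.Agent.DT.Main

set_option autoImplicit false
open Cfsg

namespace Cfsg.Agent.S2205

open Cfsg.Agent.DT MulAction

/-- A finite group acting faithfully and 2-transitively on a set with p² + 1 points, p a prime, is doubly primitive — a point stabilizer acts primitively on the remaining p² points — unless p = 2 and the group is the Frobenius group of order 20. -/
theorem result {G Ω : Type*} [Group G] [Finite G] [Fintype Ω] [MulAction G Ω] [FaithfulSMul G Ω] (p : ℕ) (hp : p.Prime) (hΩ : Fintype.card Ω = p ^ 2 + 1) (h2 : MulAction.IsMultiplyPretransitive G Ω 2) (a : Ω) :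
    MulAction.IsPreprimitive ↥(MulAction.stabilizer G a) ↥(SubMulAction.ofStabilizer G a) ∨ (p = 2 ∧ Nat.card G = 20) := by
  refine or_iff_not_imp_left.2 fun h => ?_
  have h3 := @is_two_pretransitive_iff.1 h2
  have h4 : IsPretransitive (stabilizer G a) (SubMulAction.ofStabilizer G a) := ⟨fun x y => by
    obtain ⟨g, e, e'⟩ := h3 (Ne.symm x.2) (Ne.symm y.2)
    exact ⟨⟨g, e⟩, Subtype.ext e'⟩⟩
  obtain ⟨B, hB, h5⟩ : ∃ B : Set (SubMulAction.ofStabilizer G a), IsBlock (stabilizer G a) B ∧ ¬ IsTrivialBlock B := by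
    by_contra! e
    exact h ⟨fun {B} => e B⟩
  rw [IsTrivialBlock, not_or, Set.not_subsingleton_iff] at h5
  obtain ⟨b, hb⟩ := h5.1.nonempty
  have c : Ctx G p a b := ⟨hp, hΩ, h3, b.2⟩
  have h6 : ∀ g : G, g • a = a → g • (b : Ω) ∈ Subtype.val '' B → ∀ y ∈ Subtype.val '' B, g • y ∈ Subtype.val '' B := by
    rintro g hg ⟨z, hz, e⟩ _ ⟨y, hy, rfl⟩
    refine ⟨(⟨g, hg⟩ : stabilizer G a) • y, ?_, rfl⟩
    rw [← isBlock_iff_smul_eq_of_mem.1 hB (g := ⟨g, hg⟩) hb ((Subtype.ext e : z = (⟨g, hg⟩ : stabilizer G a) • b) ▸ hz)]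
    exact Set.smul_mem_smul_set hy
  have h7 : a ∉ Subtype.val '' B := SubMulAction.notMem_val_image G B
  refine c.main ⟨h7, ⟨b, hb, rfl⟩, ?_, h6⟩
  rcases (c.block_dvd (H := stabilizer G a) (fun _ h => h) (fun y hy => h3 (Ne.symm b.2) hy.symm) h7 ⟨b, hb, rfl⟩
    h6).2 with e | e | e
  · rw [Set.ncard_image_of_injective _ Subtype.val_injective] at e
    exact absurd (Set.ncard_le_one_iff_subsingleton.1 e.le) h5.1.not_subsingleton
  · exact e
  · exact absurd (Set.eq_univ_of_forall fun y => Subtype.val_injective.mem_set_image.1 (e y y.2)) h5.2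

end Cfsg.Agent.S2205
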