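import Cfsg.Statements.S2214
import Cfsg.Agent.Chev.Fix

set_option autoImplicit false
open Cfsg Cfsg.Agent.Chev

namespace Cfsg.Agent.S2214

/-- Let k be an algebraically closed field of prime characteristic p, G the adjoint Chevalley group of type G₂, B₂, D₄, F₄, E₆, E₇ or E₈ over k (the matrix group generated by the root elements x_s(t), t ∈ k, acting on the Lie algebra), q = p^a with a ≥ 1, and K a subgroup of G containing every root element x_s(t) with t^q = t and consisting of matrices all of whose entries c satisfy c^q = c. Then the centralizer of K in G is trivial, and the normalizer of K in G is exactly the set of elements of G all of whose entries c satisfy c^q = c. -/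
theorem result {k : Type*} [Field k] [IsAlgClosed k] (p : ℕ) [Fact p.Prime] [CharP k p] (D : Cfsg.Lie.ChevalleyDatum) (hD : D ∈ [Cfsg.Lie.chevG2, Cfsg.Lie.chevB2, Cfsg.Lie.chevD4, Cfsg.Lie.chevF4, Cfsg.Lie.chevE6, Cfsg.Lie.chevE7, Cfsg.Lie.chevE8]) (a : ℕ) (ha : 1 ≤ a) (K : Subgroup (GL D.Idx k)) (hKG : K ≤ D.group k)
    (hLK : Subgroup.closure {g : GL D.Idx k | ∃ (s : ℕ) (t : k), t ^ (p ^ a) = t ∧ (g : Matrix D.Idx D.Idx k) = D.x k s t} ≤ K)
    (hKfix : ∀ g ∈ K, ∀ i j : D.Idx, ((g : Matrix D.Idx D.Idx k) i j) ^ (p ^ a) = (g : Matrix D.Idx D.Idx k) i j) :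
    D.group k ⊓ Subgroup.centralizer (K : Set (GL D.Idx k)) = ⊥ ∧
    ∀ g : GL D.Idx k, g ∈ D.group k → (g ∈ Subgroup.normalizer (K : Set (GL D.Idx k)) ↔ ∀ i j : D.Idx, ((g : Matrix D.Idx D.Idx k) i j) ^ (p ^ a) = (g : Matrix D.Idx D.Idx k) i j) := by
  obtain ⟨C⟩ := cert_of_mem hD
  let σ : k →+* k := iterateFrobenius k p a
  have hσ := isFld_fieldHom C σ
  have hfix : ∀ g : D.group k, Tw.fieldHom C σ g = g ↔ ∀ i j : D.Idx,
      (((g : GL D.Idx k) : Matrix D.Idx D.Idx k) i j) ^ (p ^ a) = ((g : GL D.Idx k) : Matrix D.Idx D.Idx k) i j :=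
    fun g => fieldHom_eq_iff C σ g
  rw [C.closure_sub_eq fun t => t ^ (p ^ a) = t] at hLK
  have hL : (C.sys k).sub (σ.eqLocusField (RingHom.id k)) ≤ K.subgroupOf (D.group k) :=
    fun g hg => hLK ⟨g, hg, rfl⟩
  have hK' : ∀ g ∈ K.subgroupOf (D.group k), Tw.fieldHom C σ g = g := fun g hg => (hfix g).2 (hKfix g hg)
  have hc : ∀ g : D.group k, (∀ y ∈ K.subgroupOf (D.group k), g * y = y * g) → g = 1 := fun g h =>
    (C.sys k).eq_one_of_commute_sp (C.sys_φ_inj k) (fun i => h _ (hL ((C.sys k).x_mem_sub _ (one_mem _))))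
      fun i => h _ (hL ((C.sys k).x_mem_sub _ (one_mem _)))
  refine ⟨eq_bot_iff.2 ?_, fun g hg => ⟨fun h => ?_, fun h => ?_⟩⟩
  · rintro g ⟨hg, h⟩
    have := hc ⟨g, hg⟩ fun y hy => Subtype.ext (h y hy).symm
    exact congrArg Subtype.val this
  · lift g to D.group k using hg
    refine (hfix g).1 (inv_mul_eq_one.1 (hc _ fun y hy => ?_)).symm
    have h1 := hK' (g * y * g⁻¹) ((Subgroup.mem_normalizer_iff.1 h y).1 hy)
    rw [map_mul, map_mul, map_inv, hK' y hy] at h1
    rw [mul_assoc, eq_mul_of_mul_inv_eq h1]; group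
  · lift g to D.group k using hg
    have h1 := (hfix g).2 h
    refine Subgroup.mem_normalizer_iff.2 fun y => ⟨fun hy => ?_, fun hy => ?_⟩
    · exact hσ.conj_mem (C.sys_φ_inj k) hL hK' h1 (k := ⟨y, hKG hy⟩) hy
    · have h2 := hσ.conj_mem (C.sys_φ_inj k) hL hK' (g := g⁻¹) (by rw [map_inv, h1]) (k := ⟨_, hKG hy⟩) hy
      rw [Subgroup.mem_subgroupOf] at h2
      simpa [mul_assoc] using h2

end Cfsg.Agent.S2214
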