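import Cfsg.Statements.S2222
import Cfsg.Agent.SymAlt.TreeMax

set_option autoImplicit false
open Cfsg

namespace Cfsg.Agent.S2222

open Subgroup Equiv
open scoped Pointwise

theorem exists_sylow_le_of_odd_index {G : Type*} [Group G] [Finite G] (H : Subgroup G)
    (hH : Odd H.index) : ∃ S : Sylow 2 G, (S : Subgroup G) ≤ H := by
  obtain ⟨S0⟩ : Nonempty (Sylow 2 H) := inferInstance
  refine ⟨Sylow.ofCard ((S0 : Subgroup H).map H.subtype) ?_, map_subtype_le _⟩
  rw [card_map_of_injective H.subtype_injective]
  have h1 := S0.card_eq_multiplicity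
  change Nat.card S0 = _
  rw [h1, ← H.index_mul_card, Nat.factorization_mul hH.pos.ne' Nat.card_pos.ne', Finsupp.add_apply,
    Nat.factorization_eq_zero_of_not_dvd hH.not_two_dvd_nat, zero_add]

theorem pronormal_of_sylow {G : Type*} [Group G] [Finite G] {p : ℕ} [Fact p.Prime]
    (H : Subgroup G) (S : Sylow p G) (hS : (S : Subgroup G) ≤ H)
    (hN : normalizer (S : Set G) ≤ normalizer (H : Set G)) : IsPronormal H := by
  intro g
  set K := H ⊔ H.map (MulAut.conj g).toMonoidHom with hK
  have h1 : (S : Subgroup G) ≤ K := hS.trans le_sup_left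
  have h2 : ((g • S : Sylow p G) : Subgroup G) ≤ K :=
    le_trans (Subgroup.map_mono hS) le_sup_right
  obtain ⟨x, hx⟩ := MulAction.exists_smul_eq K (S.subtype h1) ((g • S).subtype h2)
  rw [Sylow.smul_subtype] at hx
  have h3 : (x : G) • S = g • S := Sylow.subtype_injective hx
  have h4 : (x : G)⁻¹ * g ∈ normalizer (S : Set G) := by
    rw [← Sylow.smul_eq_iff_mem_normalizer, mul_smul, ← h3, inv_smul_smul]
  have h5 := mem_normalizer_iff.1 (hN h4)
  refine ⟨x, x.2, ?_⟩
  ext y
  simp only [mem_map, MulEquiv.coe_toMonoidHom, MulAut.conj_apply]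
  constructor
  · rintro ⟨h, hh, rfl⟩
    exact ⟨_, (h5 h).1 hh, by group⟩
  · rintro ⟨h, hh, rfl⟩
    refine ⟨((x : G)⁻¹ * g)⁻¹ * h * ((x : G)⁻¹ * g), (h5 _).2 ?_, by group⟩
    convert hh using 1
    group

theorem five_aux (T : Sylow 2 (alternatingGroup (Fin 5))) (hT : (T : Subgroup _) = SymAlt.altTree 5)
    (H : Subgroup (alternatingGroup (Fin 5))) (hH : (T : Subgroup _) ≤ H) :
    normalizer (T : Set (alternatingGroup (Fin 5))) ≤
      normalizer (H : Set (alternatingGroup (Fin 5))) := by
  by_cases hmove : ∃ m ∈ H, (m : Perm (Fin 5)) 4 ≠ 4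
  · obtain ⟨m, hm, hm4⟩ := hmove
    have h1 := SymAlt.alt_le_of_moves_last (k := 2) le_rfl (by norm_num)
      (H.map (alternatingGroup (Fin 5)).subtype)
      (fun r hr hs => ⟨⟨r, hs⟩, hH (by rw [hT]; exact hr), rfl⟩) 4 rfl ⟨m, hm, rfl⟩ hm4
    have h2 : H = ⊤ := by
      rw [eq_top_iff]
      intro x _
      obtain ⟨y, hy, hy'⟩ := h1 x.2
      rwa [← Subtype.ext hy']
    rw [h2]
    intro x _
    rw [mem_normalizer_iff]
    simp
  · push Not at hmove
    set M := MulAction.stabilizer (alternatingGroup (Fin 5)) (4 : Fin 5) with hM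
    have hHM : H ≤ M := fun m hm => hmove m hm
    have hA : Nat.card (alternatingGroup (Fin 5)) = 60 := by
      rw [nat_card_alternatingGroup]; simp [Nat.factorial]
    have hTc : Nat.card (T : Subgroup (alternatingGroup (Fin 5))) = 4 := by
      have := T.card_eq_multiplicity
      rw [hA, show (60 : ℕ) = 2 ^ 2 * 15 by norm_num, Nat.factorization_mul (by norm_num) (by norm_num),
        Nat.prime_two.factorization_pow, Finsupp.add_apply, Finsupp.single_eq_same,
        Nat.factorization_eq_zero_of_not_dvd (by norm_num)] at this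
      exact this
    have hMc : Nat.card M = 12 := by
      have := alternatingGroup.isPretransitive_of_three_le_card (Fin 5) (by simp)
      have h1 := MulAction.index_stabilizer_of_transitive (alternatingGroup (Fin 5)) (4 : Fin 5)
      have h2 := M.index_mul_card
      rw [hM, h1, hA, Nat.card_fin, ← hM] at h2
      omega
    have hNM : normalizer (T : Set (alternatingGroup (Fin 5))) ≤ M := by
      intro g hg
      rw [hM, MulAction.mem_stabilizer_iff]
      by_contra hne
      set y : Fin 5 := (g : Perm (Fin 5)) 4 with hy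
      have hy4 : (y : ℕ) ≠ 4 := fun h => hne (Fin.ext h)
      have hy5 := y.is_lt
      obtain ⟨τ, hτ, hs, hτy⟩ := SymAlt.exists_even_tree_agree_one (n := 5) (by norm_num)
        (SymAlt.xorPerm_mem_tree (k := 2) (j := 0) (c := 1) (by norm_num) (by norm_num)) y
      have h1 : (⟨τ, hs⟩ : alternatingGroup (Fin 5)) ∈ T := by
        change _ ∈ (T : Subgroup (alternatingGroup (Fin 5)))
        rw [hT]; exact hτ
      have h2 : g⁻¹ * ⟨τ, hs⟩ * g ∈ (T : Subgroup (alternatingGroup (Fin 5))) :=
        (mem_normalizer_iff''.1 hg _).1 h1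
      rw [hT] at h2
      have h3 := SymAlt.tree_fix_last (by norm_num) h2 4 rfl
      have h4 : τ y = y := by
        have := congrArg (g : Perm (Fin 5)) h3
        simpa using this
      rw [h4] at hτy
      have h5 := congrArg Fin.val hτy
      rw [SymAlt.xorPerm_val_of_eq _ _ (by omega), SymAlt.xor_one_eq] at h5
      split_ifs at h5 <;> omega
    have d1 : 4 ∣ Nat.card H := hTc ▸ card_dvd_of_le hH
    have d2 : Nat.card H ∣ 12 := hMc ▸ card_dvd_of_le hHM
    have d3 : Nat.card H = 4 ∨ Nat.card H = 12 := by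
      have := Nat.le_of_dvd (by norm_num) d2
      generalize Nat.card H = c at *
      interval_cases c <;> omega
    rcases d3 with h | h
    · rw [← Subgroup.eq_of_le_of_card_ge hH (by omega)]
      exact le_rfl
    · rw [Subgroup.eq_of_le_of_card_ge hHM (by omega)]
      exact hNM.trans le_normalizer


/-- In the alternating group of degree n ≥ 5 every subgroup H of odd index is pronormal: for every element g, the subgroups H and gHg⁻¹ are conjugate by an element of the subgroup they generate. -/
theorem result (n : ℕ) (hn : 5 ≤ n)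
    (H : Subgroup (alternatingGroup (Fin n))) (hH : Odd H.index) : Cfsg.IsPronormal H := by
  obtain ⟨S, hS⟩ := exists_sylow_le_of_odd_index H hH
  apply pronormal_of_sylow H S hS
  rcases Nat.eq_or_lt_of_le hn with h | h
  · subst h
    obtain ⟨T, hT⟩ := SymAlt.exists_sylow_altTree 5
    obtain ⟨g, rfl⟩ := MulAction.exists_smul_eq (alternatingGroup (Fin 5)) T S
    have h1 : (T : Subgroup _) ≤ MulAut.conj g⁻¹ • H := by
      rw [Sylow.coe_subgroup_smul] at hS
      rwa [map_inv, subset_pointwise_smul_iff, inv_inv]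
    have h2 := five_aux T hT _ h1
    intro x hx
    have h3 : g⁻¹ * x * g ∈ normalizer (T : Set (alternatingGroup (Fin 5))) := by
      rw [← Sylow.smul_eq_iff_mem_normalizer] at hx ⊢
      rw [mul_smul, mul_smul, hx, inv_smul_smul]
    have h4 := mem_normalizer_iff.1 (h2 h3)
    rw [mem_normalizer_iff]
    intro y
    have h5 := h4 (g⁻¹ * y * g)
    simp only [mem_pointwise_smul_iff_inv_smul_mem, map_inv, inv_inv,
      MulAut.smul_def, MulAut.conj_apply] at h5
    convert h5 using 2 <;> group
  · rw [SymAlt.normalizer_sylow_two_alt h S]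
    exact hS.trans le_normalizer

end Cfsg.Agent.S2222
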