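import Cfsg.Statements.S2225
import Cfsg.Agent.GLn.PronTwo
import Cfsg.Agent.GLn.PronEven

set_option autoImplicit false
open Cfsg

namespace Cfsg.Agent.S2225

open Cfsg.Agent.GLn

/-- Let F be a finite field and d = 2^w ≥ 2 a power of 2 such that PSL_d(F) is simple. Then every subgroup H of PSL_d(F) of odd index is pronormal: for every g, H and gHg⁻¹ are conjugate by an element of the subgroup they generate. -/
theorem result {F : Type*} [Field F] [Fintype F]
    (w : ℕ) (hw : 1 ≤ w) (hs : IsSimpleGroup (Matrix.ProjectiveSpecialLinearGroup (Fin (2 ^ w)) F))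
    (H : Subgroup (Matrix.ProjectiveSpecialLinearGroup (Fin (2 ^ w)) F)) (hH : Odd H.index) : Cfsg.IsPronormal H := by
  have hi : Odd (H.comap (QuotientGroup.mk' _)).index := by
    rwa [Subgroup.index_comap_of_surjective _ (QuotientGroup.mk'_surjective _)]
  by_cases h2 : (2 : F) = 0
  · have : CharP F 2 := CharTwo.of_one_ne_zero_of_two_eq_zero one_ne_zero h2
    exact IsPronormal.of_comap _ (QuotientGroup.mk'_surjective _) (pronormal_SL_even _ hi)
  have hodd : Odd (Fintype.card F) := by
    rw [Nat.odd_iff]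
    refine FiniteField.odd_card_of_char_ne_two fun h => h2 ?_
    have := ringChar.Nat.cast_ringChar (R := F)
    rwa [h] at this
  rcases Nat.eq_or_lt_of_le hw with rfl | h
  · exact pronormal_PSL_two hodd H hH
  obtain ⟨k, rfl⟩ : ∃ k, w = k + 2 := ⟨w - 2, by omega⟩
  obtain ⟨W, hW, hd⟩ := exists_rigid_two_pow h2 k
  refine IsPronormal.of_comap _ (QuotientGroup.mk'_surjective _)
    (pronormal_SL_of_rigid hW hd _ (fun z hz => ?_) hi)
  rw [Subgroup.mem_comap, QuotientGroup.mk'_apply, (QuotientGroup.eq_one_iff z).2 hz]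
  exact H.one_mem

end Cfsg.Agent.S2225
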