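import Cfsg.Statements.S2226
import Cfsg.Agent.GLn.PronSU

set_option autoImplicit false
open Cfsg

namespace Cfsg.Agent.S2226

open Cfsg.Agent.GLn

/-- Let F be a finite field with q² elements and d = 2^w ≥ 4 a power of 2 such that the unitary group PSU_d(q) (realised over F) is simple. Then every subgroup H of PSU_d(q) of odd index is pronormal: for every g, H and gHg⁻¹ are conjugate by an element of the subgroup they generate. -/
theorem result {F : Type*} [Field F] [Fintype F] (q : ℕ)
    (hF : Fintype.card F = q ^ 2) (w : ℕ) (hw : 2 ≤ w) (hs : IsSimpleGroup (Cfsg.PSU (2 ^ w) F q))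
    (H : Subgroup (Cfsg.PSU (2 ^ w) F q)) (hH : Odd H.index) : Cfsg.IsPronormal H := by
  have hi : Odd (H.comap (QuotientGroup.mk' _)).index := by
    rwa [Subgroup.index_comap_of_surjective _ (QuotientGroup.mk'_surjective _)]
  obtain ⟨k, rfl⟩ : ∃ k, w = k + 2 := ⟨w - 2, by omega⟩
  refine IsPronormal.of_comap _ (QuotientGroup.mk'_surjective _) ?_
  by_cases h2 : (2 : F) = 0
  · have : CharP F 2 := CharTwo.of_one_ne_zero_of_two_eq_zero one_ne_zero h2
    obtain ⟨m, hm⟩ : ∃ m, 2 ^ (k + 2) = 2 * m + 2 :=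
      ⟨2 ^ (k + 1) - 1, by have := Nat.one_le_two_pow (n := k + 1); rw [pow_succ]; omega⟩
    have key : ∀ n, n = 2 * m + 2 → ∀ H : Subgroup (SU n F q), Odd H.index → IsPronormal H := by
      rintro _ rfl
      exact pronormal_SU_even hF m
    exact key _ hm _ hi
  refine pronormal_SU_odd hF h2 k _ (fun z hz => ?_) hi
  rw [Subgroup.mem_comap, QuotientGroup.mk'_apply, (QuotientGroup.eq_one_iff z).2 hz]
  exact H.one_mem

end Cfsg.Agent.S2226
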