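import Cfsg.Statements.S2231
import Cfsg.Agent.SL2.More

set_option autoImplicit false
open Cfsg

namespace Cfsg.Agent.S2231

open Cfsg.Agent.SL2

theorem trace_sq {p : ℕ} [Fact p.Prime] (hp : p ≠ 2) {K : Type*} [Field K] [CharP K p] {g : SLT K}
    {k : ℕ} (h : pr g ^ p ^ k = 1) : g.1.trace = 2 ∨ (-g).1.trace = 2 := by
  rw [← map_pow, pr_eq_one_iff'] at h
  rcases h with h | h
  · exact Or.inl (trace_det_of_pow_char_pow p (k := k) (congrArg Subtype.val h)).1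
  · right
    have ho : Odd (p ^ k) := ((Fact.out : p.Prime).odd_of_ne_two hp).pow
    have : (-g) ^ p ^ k = 1 := by rw [ho.neg_pow, h, neg_neg]
    exact (trace_det_of_pow_char_pow p (k := k) (congrArg Subtype.val this)).1

theorem comm_of_isPGroup {p : ℕ} [Fact p.Prime] (hp : p ≠ 2) {K : Type*} [Field K] [CharP K p]
    (Q : Subgroup (PSLT K)) (hQ : IsPGroup p Q) {a b : PSLT K} (ha : a ∈ Q) (hb : b ∈ Q) :
    a * b = b * a := by
  have h2 : (2 : K) ≠ 0 := two_ne_zero_of_char p hp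
  have key : ∀ g : SLT K, pr g ∈ Q → g.1.trace = 2 ∨ (-g).1.trace = 2 := fun g hg => by
    obtain ⟨k, hk⟩ := hQ ⟨_, hg⟩
    exact trace_sq hp (congrArg Subtype.val hk)
  have lift : ∀ a ∈ Q, ∃ g : SLT K, pr g = a ∧ g.1.trace = 2 := by
    intro a ha
    obtain ⟨g, rfl⟩ := pr_surjective a
    rcases key g ha with h | h
    · exact ⟨g, rfl, h⟩
    · exact ⟨-g, pr_neg g, h⟩
  obtain ⟨x, rfl, hx⟩ := lift a ha
  obtain ⟨y, rfl, hy⟩ := lift b hb
  have h1 := key (x * y) (by rw [map_mul]; exact Q.mul_mem ha hb)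
  have h3 := key (x * x * y) (by rw [map_mul, map_mul]; exact Q.mul_mem (Q.mul_mem ha ha) hb)
  have e3 : (x * x * y).1.trace = 2 * (x * y).1.trace - 2 := by
    rw [sl_mul_val, sl_mul_val, sl_cayley, hx, sub_mul, Matrix.trace_sub, smul_mul_assoc,
      Matrix.trace_smul, one_mul, hy]
    rfl
  rw [sl_trace_neg] at h1 h3
  rw [e3] at h3
  have h4 : (x * y).1.trace = 2 := by
    rcases h1 with h1 | h1
    · exact h1
    · exfalso
      rcases h3 with h3 | h3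
      · have : (2 : K) * 2 * 2 = 0 := by linear_combination -h3 - 2 * h1
        simp [h2] at this
      · have : (2 : K) * 2 = 0 := by linear_combination h3 - 2 * h1
        simp [h2] at this
  rw [← map_mul, ← map_mul]
  congr 1
  have dx := sl_det x
  have dy := sl_det y
  simp only [sl_mul_val, Matrix.trace_fin_two, mul_ap] at hx hy h4
  have ex : x.1 1 1 = 2 - x.1 0 0 := by linear_combination hx
  have ey : y.1 1 1 = 2 - y.1 0 0 := by linear_combination hy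
  rw [ex] at dx h4
  rw [ey] at dy h4
  have c1 : x.1 0 1 * y.1 1 0 - y.1 0 1 * x.1 1 0 = 0 := by
    apply pow_eq_zero_iff (two_ne_zero) |>.1
    linear_combination (x.1 0 1 * y.1 1 0 + y.1 0 1 * x.1 1 0 - 2 * (x.1 0 0 - 1) * (y.1 0 0 - 1)) * h4
      + 4 * y.1 0 1 * y.1 1 0 * dx - 4 * (x.1 0 0 - 1) ^ 2 * dy
  have c2 : (x.1 0 0 - 1) * y.1 0 1 - (y.1 0 0 - 1) * x.1 0 1 = 0 := by
    apply pow_eq_zero_iff (two_ne_zero) |>.1
    linear_combination (-x.1 0 1 * y.1 0 1) * h4 - y.1 0 1 ^ 2 * dx - x.1 0 1 ^ 2 * dy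
  have c3 : (x.1 0 0 - 1) * y.1 1 0 - (y.1 0 0 - 1) * x.1 1 0 = 0 := by
    apply pow_eq_zero_iff (two_ne_zero) |>.1
    linear_combination (-x.1 1 0 * y.1 1 0) * h4 - y.1 1 0 ^ 2 * dx - x.1 1 0 ^ 2 * dy
  apply sl_ext
  apply m2_ext <;> simp only [sl_mul_val, mul_ap, ex, ey]
  · linear_combination c1
  · linear_combination 2 * c2
  · linear_combination -2 * c3
  · linear_combination -c1

/-- The upper unitriangular subgroup of `SL₃`. -/
def uni (p : ℕ) : Subgroup (Matrix.SpecialLinearGroup (Fin 3) (ZMod p)) where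
  carrier := {g | g.1 1 0 = 0 ∧ g.1 2 0 = 0 ∧ g.1 2 1 = 0 ∧ g.1 0 0 = 1 ∧ g.1 1 1 = 1 ∧ g.1 2 2 = 1}
  mul_mem' := by
    rintro a b ⟨a1, a2, a3, a4, a5, a6⟩ ⟨b1, b2, b3, b4, b5, b6⟩
    simp [Matrix.mul_apply, Fin.sum_univ_three, *]
  one_mem' := by simp
  inv_mem' := by
    rintro a ⟨a1, a2, a3, a4, a5, a6⟩
    simp [Matrix.adjugate_fin_three, *]

theorem isPGroup_uni (p : ℕ) [Fact p.Prime] : IsPGroup p (uni p) := by
  rintro ⟨g, a1, a2, a3, a4, a5, a6⟩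
  refine ⟨2, Subtype.ext (Subtype.ext ?_)⟩
  change g.1 ^ p ^ 2 = 1
  have h3 : (g.1 - 1) ^ 3 = 0 := by
    ext i j
    fin_cases i <;> fin_cases j <;>
      simp [pow_succ, Matrix.mul_apply, Fin.sum_univ_three, Matrix.one_apply, *]
  have h4 : (g.1 - 1) ^ p ^ 2 = 0 := by
    have := (Fact.out : p.Prime).two_le
    exact pow_eq_zero_of_le (by nlinarith) h3
  rw [sub_pow_char_pow_of_commute _ _ (Commute.one_right g.1), one_pow, sub_eq_zero] at h4
  exact h4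

/-- Let p be an odd prime and K a finite field of characteristic p. Then Qd(p) (the natural semidirect product of an elementary abelian group of order p² by SL₂(p)) is not involved in the projective special linear group PSL₂(K). -/
theorem result {p : ℕ} [Fact p.Prime] (hp : p ≠ 2) {K : Type*} [Field K] [Fintype K] [CharP K p] : ¬ Cfsg.Involves ↥(Cfsg.qd p) (Matrix.ProjectiveSpecialLinearGroup (Fin 2) K) := by
  rintro ⟨L, R, hn, ⟨e⟩⟩
  let f : L →* qd p := e.toMonoidHom.comp (QuotientGroup.mk' _)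
  have hf : Function.Surjective f := e.surjective.comp (QuotientGroup.mk'_surjective _)
  obtain ⟨P, hP⟩ := ((isPGroup_uni p).comap_subtype (K := qd p)).exists_le_sylow
  obtain ⟨Q, hQ⟩ := Sylow.mapSurjective_surjective hf p P
  have hcomm : ∀ a ∈ (P : Subgroup (qd p)), ∀ b ∈ (P : Subgroup (qd p)), a * b = b * a := by
    rw [← hQ]
    rintro _ ⟨a, ha, rfl⟩ _ ⟨b, hb, rfl⟩
    rw [← map_mul, ← map_mul]
    congr 1
    exact Subtype.ext (comm_of_isPGroup hp _ (Q.isPGroup'.map L.subtype)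
      (Subgroup.mem_map_of_mem _ ha) (Subgroup.mem_map_of_mem _ hb))
  let x : Matrix.SpecialLinearGroup (Fin 3) (ZMod p) :=
    ⟨!![1, 1, 0; 0, 1, 0; 0, 0, 1], by simp [Matrix.det_fin_three]⟩
  let y : Matrix.SpecialLinearGroup (Fin 3) (ZMod p) :=
    ⟨!![1, 0, 0; 0, 1, 1; 0, 0, 1], by simp [Matrix.det_fin_three]⟩
  have hx : x ∈ qd p := Subgroup.subset_closure ⟨rfl, rfl, rfl⟩
  have hy : y ∈ qd p := Subgroup.subset_closure ⟨rfl, rfl, rfl⟩
  have := hcomm ⟨x, hx⟩ (hP ⟨rfl, rfl, rfl, rfl, rfl, rfl⟩) ⟨y, hy⟩ (hP ⟨rfl, rfl, rfl, rfl, rfl, rfl⟩)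
  have : (!![1, 1, 0; 0, 1, 0; 0, 0, 1] * !![1, 0, 0; 0, 1, 1; 0, 0, 1] : Matrix (Fin 3) (Fin 3) (ZMod p)) 0 2
      = (!![1, 0, 0; 0, 1, 1; 0, 0, 1] * !![1, 1, 0; 0, 1, 0; 0, 0, 1] : Matrix (Fin 3) (Fin 3) (ZMod p)) 0 2 :=
    congrArg (fun g : qd p => g.1.1 0 2) this
  simp [Matrix.mul_apply, Fin.sum_univ_three] at this

end Cfsg.Agent.S2231
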