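import Cfsg.Statements.S2232
import Cfsg.Agent.Forms.UnitGroup
import Cfsg.Agent.Forms.Reflect

set_option autoImplicit false
open Cfsg

namespace Cfsg.Agent.S2232

open Cfsg.Agent.Forms Module

section Geom

variable {p : ℕ} [Fact p.Prime] {K : Type*} [Field K] [CharP K p] {V : Type*} [AddCommGroup V]
  [Module K V]

theorem exists_fixed [Finite V] {G : Type*} [Group G] (hG : IsPGroup p G)
    (ρ : G →* Module.End K V) (W : Submodule K V) (hW : ∀ g, ∀ w ∈ W, ρ g w ∈ W) (hne : W ≠ ⊥) :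
    ∃ v ∈ W, v ≠ 0 ∧ ∀ g, ρ g v = v := by
  letI : MulAction G W :=
    { smul := fun g w => ⟨ρ g w, hW g w w.2⟩
      one_smul := fun w => Subtype.ext (by change ρ 1 w = w; rw [map_one]; rfl)
      mul_smul := fun g h w => Subtype.ext (by change ρ (g * h) w = ρ g (ρ h w); rw [map_mul]; rfl) }
  obtain ⟨w, hw, hw0⟩ := Submodule.exists_mem_ne_zero_of_ne_bot hne
  have h1 : addOrderOf (⟨w, hw⟩ : W) = p := addOrderOf_eq_prime
    (by rw [← Nat.cast_smul_eq_nsmul K, CharP.cast_eq_zero, zero_smul])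
    (fun h => hw0 (congrArg Subtype.val h))
  obtain ⟨b, hb, hb0⟩ := hG.exists_fixed_point_of_prime_dvd_card_of_fixed_point W
    (h1 ▸ addOrderOf_dvd_natCard _) (a := 0) (fun g => Subtype.ext (map_zero (ρ g)))
  exact ⟨b, b.2, fun h => hb0 (Subtype.ext h.symm), fun g => congrArg Subtype.val (hb g)⟩

theorem eq_one_of_pow {c : K} {k : ℕ} (h : c ^ p ^ k = 1) : c = 1 := by
  have := sub_pow_char_pow (p := p) (n := k) c 1
  rw [h, one_pow, sub_self] at this
  exact sub_eq_zero.1 (pow_eq_zero_iff (pow_pos (Fact.out : p.Prime).pos k).ne' |>.1 this)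

variable {σ : K →+* K} {B : V →ₗ[K] V →ₛₗ[σ] K}

omit [Fact p.Prime] [CharP K p] in
theorem exists_perp_basis [FiniteDimensional K V] (hB : Rep B) (hs : ∀ x y, B y x = σ (B x y))
    (hdim : finrank K V = 3) {v : V} (hv : v ≠ 0) (hvv : B v v = 0) :
    ∃ w, B w v = 0 ∧ B w w ≠ 0 ∧ ∀ x, B x v = 0 → ∃ a b : K, x = a • v + b • w := by
  have h0 : ¬ (⊤ : Submodule K V) ≤ LinearMap.ker (B.flip v) := by
    intro h
    exact hv (hB.sepLeft fun y => by rw [hs, show B y v = 0 from h Submodule.mem_top, map_zero])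
  have h1 := finrank_inf_ker_add_one ⊤ (B.flip v) h0
  rw [top_inf_eq, finrank_top, hdim] at h1
  obtain ⟨w, hw, hw'⟩ := exists_mem_notMem_span (W := LinearMap.ker (B.flip v)) (by omega) v
  have h2 : Submodule.span K {v, w} = LinearMap.ker (B.flip v) := by
    refine Submodule.eq_of_le_of_finrank_le ?_ ?_
    · rw [Submodule.span_le, Set.insert_subset_iff, Set.singleton_subset_iff]
      exact ⟨hvv, hw⟩
    · have h3 : Submodule.span K {v} < Submodule.span K {v, w} :=
        lt_of_le_of_ne (Submodule.span_mono (by simp)) fun h =>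
          hw' (h ▸ Submodule.subset_span (by simp))
      have := Submodule.finrank_lt_finrank_of_lt h3
      rw [finrank_span_singleton hv] at this
      omega
  have h3 : ∀ x, B x v = 0 → ∃ a b : K, x = a • v + b • w := by
    intro x hx
    have : x ∈ Submodule.span K {v, w} := h2 ▸ hx
    obtain ⟨a, b, e⟩ := Submodule.mem_span_pair.1 this
    exact ⟨a, b, e.symm⟩
  refine ⟨w, hw, fun hww => ?_, h3⟩
  obtain ⟨y, hy, hy'⟩ := hB.exists_perp _ hw'
  have h4 : B y v = 0 := by rw [hs, hy v (Submodule.mem_span_singleton_self v), map_zero]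
  obtain ⟨a, b, rfl⟩ := h3 y h4
  exact hy' (by rw [map_add, map_smulₛₗ, map_smulₛₗ, show B w v = 0 from hw, hww]; simp)

theorem geom [Finite V] [FiniteDimensional K V] (hp : p ≠ 2) (hB : Rep B)
    (hs : ∀ x y, B y x = σ (B x y)) (hdim : finrank K V = 3) {G : Type*} [Group G]
    (ρ : G →* Module.End K V) (hρ : Function.Injective ρ)
    (hρB : ∀ g x y, B (ρ g x) (ρ g y) = B x y) (P : Subgroup G) (hP : IsPGroup p P) (hP1 : P ≠ ⊥)
    {a b : G} (ha : a ∈ Subgroup.normalizer (P : Set G)) (hb : b ∈ Subgroup.normalizer (P : Set G))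
    {k l : ℕ} (ha' : a ^ p ^ k = 1) (hb' : b ^ p ^ l = 1) : (a * b) ^ p = 1 := by
  have hmul : ∀ g h x, ρ (g * h) x = ρ g (ρ h x) := fun g h x => by rw [map_mul]; rfl
  have hone : ∀ x, ρ 1 x = x := fun x => by rw [map_one]; rfl
  let W : Submodule K V :=
    { carrier := {w | ∀ c, (∀ g ∈ P, ρ g c = c) → B w c = 0}
      add_mem' := fun {x y} hx hy c hc => by
        rw [map_add, LinearMap.add_apply, hx c hc, hy c hc, add_zero]
      zero_mem' := fun c _ => by rw [map_zero, LinearMap.zero_apply]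
      smul_mem' := fun t x hx c hc => by rw [map_smul, LinearMap.smul_apply, hx c hc, smul_zero] }
  have hWn : ∀ n ∈ Subgroup.normalizer (P : Set G), ∀ c, (∀ g ∈ P, ρ g c = c) →
      ∀ g ∈ P, ρ g (ρ n c) = ρ n c := by
    intro n hn c hc g hg
    have := hc _ ((Subgroup.mem_normalizer_iff''.1 hn g).1 hg)
    conv_rhs => rw [← this, ← hmul]
    rw [← hmul]
    congr 2
    group
  have hWn' : ∀ n ∈ Subgroup.normalizer (P : Set G), ∀ w ∈ W, ρ n w ∈ W := by
    intro n hn w hw c hc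
    have := hw _ (hWn _ (Subgroup.inv_mem _ hn) c hc)
    rwa [← hρB n, ← hmul, mul_inv_cancel, hone] at this
  have hW : W ≠ ⊥ := by
    obtain ⟨⟨g, hg⟩, hg1⟩ := Subgroup.ne_bot_iff_exists_ne_one.1 hP1
    have h1 : ∃ x, ρ g x ≠ x := by
      by_contra h
      push Not at h
      exact hg1 (Subtype.ext (hρ (LinearMap.ext fun x => (h x).trans (hone x).symm)))
    obtain ⟨x, hx⟩ := h1
    refine (Submodule.ne_bot_iff _).2 ⟨ρ g x - x, fun c hc => ?_, sub_ne_zero.2 hx⟩
    rw [map_sub, LinearMap.sub_apply, ← hc g hg, hρB, hc g hg, sub_self]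
  obtain ⟨v, hvW, hv0, hv⟩ := exists_fixed hP (ρ.comp P.subtype) W
    (fun g w hw => hWn' g (Subgroup.le_normalizer g.2) w hw) hW
  have hv' : ∀ g ∈ P, ρ g v = v := fun g hg => hv ⟨g, hg⟩
  obtain ⟨w, hwv, hww, hw⟩ := exists_perp_basis hB hs hdim hv0 (hvW v hv')
  have hvw : B v w = 0 := by rw [hs, hwv, map_zero]
  have hind : ∀ c d : K, c • v + d • w = 0 → d = 0 := by
    intro c d h
    have := congrArg (fun x => B x w) h
    simpa [hvw, hww] using this
  have key : ∀ n ∈ Subgroup.normalizer (P : Set G), ∀ k : ℕ, n ^ p ^ k = 1 →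
      ρ n v = v ∧ ∃ e : K, ρ n w = w + e • v := by
    intro n hn k hk
    have h1 : ρ n v = v := by
      obtain ⟨c, d, e⟩ := hw (ρ n v) (hWn' n hn v hvW v hv')
      have h2 := hρB n v v
      rw [e, hvW v hv'] at h2
      simp only [map_add, map_smul, map_smulₛₗ, LinearMap.add_apply, LinearMap.smul_apply, hvw, hwv,
        hvW v hv', smul_eq_mul, mul_zero, zero_add, mul_eq_zero, hww, or_false,
        map_eq_zero, or_self, RingHom.id_apply] at h2
      rw [h2, zero_smul, add_zero] at e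
      have h3 : ∀ j : ℕ, ρ (n ^ j) v = c ^ j • v := by
        intro j
        induction j with
        | zero => rw [pow_zero, pow_zero, hone, one_smul]
        | succ j ih => rw [pow_succ, hmul, e, map_smul, ih, smul_smul, pow_succ']
      have h4 := h3 (p ^ k)
      rw [hk, hone] at h4
      have h5 : c ^ p ^ k = 1 := by
        rw [eq_comm, ← sub_eq_zero]
        refine (smul_eq_zero.1 ?_).resolve_right hv0
        rw [sub_smul, ← h4, one_smul, sub_self]
      rw [e, eq_one_of_pow h5, one_smul]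
    refine ⟨h1, ?_⟩
    obtain ⟨c, d, e⟩ := hw (ρ n w) (by rw [← h1, hρB, hwv])
    have h3 : ∀ j : ℕ, ∃ c' : K, ρ (n ^ j) w = c' • v + d ^ j • w := by
      intro j
      induction j with
      | zero => exact ⟨0, by rw [pow_zero, pow_zero, hone, one_smul, zero_smul, zero_add]⟩
      | succ j ih =>
        obtain ⟨c', ih⟩ := ih
        refine ⟨c' + d ^ j * c, ?_⟩
        rw [pow_succ', hmul, ih, map_add, map_smul, map_smul, h1, e]
        module
    obtain ⟨c', h4⟩ := h3 (p ^ k)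
    rw [hk, hone] at h4
    have h5 := hind c' (d ^ p ^ k - 1) (by rw [sub_smul, one_smul, ← add_sub_assoc, ← h4, sub_self])
    rw [eq_one_of_pow (sub_eq_zero.1 h5), one_smul, add_comm] at e
    exact ⟨c, e⟩
  obtain ⟨ha1, e, ha2⟩ := key a ha k ha'
  obtain ⟨hb1, f, hb2⟩ := key b hb l hb'
  have h1 : ρ (a * b) v = v := by rw [hmul, hb1, ha1]
  have h2 : ρ (a * b) w = w + (e + f) • v := by
    rw [hmul, hb2, map_add, map_smul, ha1, ha2]; module
  have h3 : (ρ (a * b) - 1) ^ 3 = 0 := by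
    ext x
    obtain ⟨c, d, h⟩ := hw (ρ (a * b) x - x) (by
      rw [map_sub, LinearMap.sub_apply, ← h1, hρB, h1, sub_self])
    have e1 : (ρ (a * b) - 1) x = c • v + d • w := h
    have e2 : (ρ (a * b) - 1) v = 0 := by rw [LinearMap.sub_apply, h1]; simp
    have e3 : (ρ (a * b) - 1) w = (e + f) • v := by rw [LinearMap.sub_apply, h2]; simp
    rw [pow_three, Module.End.mul_apply, Module.End.mul_apply, e1, map_add, map_smul, map_smul, e2,
      e3, smul_zero, zero_add, map_smul, map_smul, e2, smul_zero, smul_zero, LinearMap.zero_apply]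
  have : Nontrivial V := ⟨v, 0, hv0⟩
  have : CharP (Module.End K V) p := charP_of_injective_algebraMap (algebraMap K _).injective p
  have h4 : (ρ (a * b) - 1) ^ p = 0 := by
    have := (Fact.out : p.Prime).two_le
    exact pow_eq_zero_of_le (by omega) h3
  rw [sub_pow_char_of_commute _ (Commute.one_right _), one_pow, sub_eq_zero, ← map_pow] at h4
  exact hρ (h4.trans (map_one ρ).symm)

end Geom

theorem exists_lift {p : ℕ} [Fact p.Prime] {A B : Type*} [Group A] [Group B] [Finite A]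
    (f : A →* B) (hf : Function.Surjective f) {b : B} (hb : b ^ p = 1) :
    ∃ a, f a = b ∧ ∃ k, a ^ p ^ k = 1 := by
  have h1 : IsPGroup p (Subgroup.zpowers b) := by
    rintro ⟨_, n, rfl⟩
    refine ⟨1, Subtype.ext ?_⟩
    change (b ^ n) ^ p ^ 1 = 1
    rw [pow_one, ← zpow_natCast, ← zpow_mul, mul_comm, zpow_mul, zpow_natCast, hb, one_zpow]
  obtain ⟨Q, hQ⟩ := h1.exists_le_sylow
  obtain ⟨P, rfl⟩ := Sylow.mapSurjective_surjective hf p Q
  obtain ⟨a, ha, e⟩ := hQ (Subgroup.mem_zpowers b)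
  obtain ⟨k, hk⟩ := P.isPGroup' ⟨a, ha⟩
  exact ⟨a, e, k, congrArg Subtype.val hk⟩

theorem mem_qd {p : ℕ} {g : Matrix.SpecialLinearGroup (Fin 3) (ZMod p)} (hg : g ∈ qd p) :
    g.1 2 0 = 0 ∧ g.1 2 1 = 0 ∧ g.1 2 2 = 1 := by
  induction hg using Subgroup.closure_induction with
  | mem x hx => exact hx
  | one => simp
  | mul x y _ _ hx hy => simp [Matrix.mul_apply, Fin.sum_univ_three, hx, hy]
  | inv x _ hx =>
    have := x.det_coe
    rw [Matrix.det_fin_three] at this
    simp only [hx, mul_zero, mul_one, sub_zero, add_zero] at this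
    simp [Matrix.adjugate_fin_three, hx, this]

/-- The translation subgroup of `Qd(p)`. -/
def tr (p : ℕ) : Subgroup (qd p) where
  carrier := {g | g.1.1 0 0 = 1 ∧ g.1.1 0 1 = 0 ∧ g.1.1 1 0 = 0 ∧ g.1.1 1 1 = 1}
  mul_mem' := by
    rintro a b ⟨a1, a2, a3, a4⟩ ⟨b1, b2, b3, b4⟩
    simp [Matrix.mul_apply, Fin.sum_univ_three, mem_qd b.2, *]
  one_mem' := by simp
  inv_mem' := by
    rintro a ⟨a1, a2, a3, a4⟩
    simp [Matrix.adjugate_fin_three, mem_qd a.2, *]

instance tr_normal (p : ℕ) : (tr p).Normal := ⟨by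
  rintro a ⟨a1, a2, a3, a4⟩ g
  have := g.1.det_coe
  rw [Matrix.det_fin_three] at this
  simp only [mem_qd g.2, mul_zero, mul_one, sub_zero, add_zero] at this
  refine ⟨?_, ?_, ?_, ?_⟩ <;>
    simp [Matrix.mul_apply, Fin.sum_univ_three, Matrix.adjugate_fin_three, mem_qd g.2, mem_qd a.2, *]
  all_goals first | linear_combination this | ring⟩

theorem pow_eq_one_of_sq {p : ℕ} [Fact p.Prime] {g : qd p} (h : (g.1.1 - 1) ^ 2 = 0) :
    g ^ p = 1 := by
  refine Subtype.ext (Subtype.ext ?_)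
  change g.1.1 ^ p = 1
  have h4 : (g.1.1 - 1) ^ p = 0 := pow_eq_zero_of_le (Fact.out : p.Prime).two_le h
  rwa [sub_pow_char_of_commute _ (Commute.one_right _), one_pow, sub_eq_zero] at h4

theorem pow_eq_one_of_mem_tr {p : ℕ} [Fact p.Prime] {g : qd p} (h : g ∈ tr p) : g ^ p = 1 := by
  obtain ⟨a1, a2, a3, a4⟩ := h
  refine pow_eq_one_of_sq ?_
  ext i j
  fin_cases i <;> fin_cases j <;>
    simp [pow_succ, Matrix.mul_apply, Fin.sum_univ_three, Matrix.one_apply, mem_qd g.2, *]

theorem not_surj {p : ℕ} [Fact p.Prime] {G : Type*} [Group G] [Finite G]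
    (hG : ∀ (P : Subgroup G), IsPGroup p P → P ≠ ⊥ → ∀ a ∈ Subgroup.normalizer (P : Set G),
      ∀ b ∈ Subgroup.normalizer (P : Set G), ∀ k l : ℕ, a ^ p ^ k = 1 → b ^ p ^ l = 1 →
        (a * b) ^ p = 1) (f : G →* qd p) (hf : Function.Surjective f) : False := by
  let x : Matrix.SpecialLinearGroup (Fin 3) (ZMod p) :=
    ⟨!![1, 1, 0; 0, 1, 0; 0, 0, 1], by simp [Matrix.det_fin_three]⟩
  let y : Matrix.SpecialLinearGroup (Fin 3) (ZMod p) :=
    ⟨!![1, 0, 0; 1, 1, 0; 0, 0, 1], by simp [Matrix.det_fin_three]⟩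
  let z : Matrix.SpecialLinearGroup (Fin 3) (ZMod p) :=
    ⟨!![1, 0, 1; 0, 1, 0; 0, 0, 1], by simp [Matrix.det_fin_three]⟩
  have hx : x ∈ qd p := Subgroup.subset_closure ⟨rfl, rfl, rfl⟩
  have hy : y ∈ qd p := Subgroup.subset_closure ⟨rfl, rfl, rfl⟩
  have hz : z ∈ qd p := Subgroup.subset_closure ⟨rfl, rfl, rfl⟩
  have hzt : (⟨z, hz⟩ : qd p) ∈ tr p := ⟨rfl, rfl, rfl, rfl⟩
  obtain ⟨P⟩ : Nonempty (Sylow p ((tr p).comap f)) := inferInstance
  have hP : (P : Subgroup ((tr p).comap f)) ≠ ⊥ := by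
    refine P.ne_bot_of_dvd_card ?_
    obtain ⟨g, hg⟩ := hf ⟨z, hz⟩
    have h1 : orderOf (⟨z, hz⟩ : qd p) = p := orderOf_eq_prime (pow_eq_one_of_mem_tr hzt) fun h => by
      have := congrArg (fun g : qd p => g.1.1 0 2) h
      simp [z] at this
    have h2 := orderOf_map_dvd f g
    rw [hg, h1] at h2
    exact h2.trans (Subgroup.orderOf_dvd_natCard _ (by rw [Subgroup.mem_comap, hg]; exact hzt))
  have hN := P.normalizer_sup_eq_top
  set N := Subgroup.normalizer
    ((((P : Subgroup ((tr p).comap f)).map ((tr p).comap f).subtype : Subgroup G)) : Set G) with hNd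
  let φ : N →* qd p ⧸ tr p := ((QuotientGroup.mk' (tr p)).comp f).comp N.subtype
  have hφ : Function.Surjective φ := by
    intro u
    obtain ⟨u, rfl⟩ := QuotientGroup.mk'_surjective _ u
    obtain ⟨g, rfl⟩ := hf u
    have : g ∈ ((N ⊔ (tr p).comap f : Subgroup G) : Set G) := by rw [hN]; trivial
    rw [Subgroup.mul_normal] at this
    obtain ⟨n, hn, t, ht, rfl⟩ := this
    refine ⟨⟨n, hn⟩, ?_⟩
    change QuotientGroup.mk' (tr p) (f n) = _
    rw [map_mul, map_mul, show QuotientGroup.mk' (tr p) (f t) = 1 from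
      (QuotientGroup.eq_one_iff _).2 ht, mul_one]
  have hx1 : (⟨x, hx⟩ : qd p) ^ p = 1 := pow_eq_one_of_sq (by
    ext i j
    fin_cases i <;> fin_cases j <;> simp [x, pow_succ, Matrix.mul_apply, Fin.sum_univ_three])
  have hy1 : (⟨y, hy⟩ : qd p) ^ p = 1 := pow_eq_one_of_sq (by
    ext i j
    fin_cases i <;> fin_cases j <;> simp [y, pow_succ, Matrix.mul_apply, Fin.sum_univ_three])
  obtain ⟨a, ha, k, hk⟩ := exists_lift (p := p) φ hφ (b := QuotientGroup.mk' (tr p) ⟨x, hx⟩)
    (by rw [← map_pow, hx1, map_one])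
  obtain ⟨b, hb, l, hl⟩ := exists_lift (p := p) φ hφ (b := QuotientGroup.mk' (tr p) ⟨y, hy⟩)
    (by rw [← map_pow, hy1, map_one])
  have h1 := hG _ (P.isPGroup'.map _) (by
    rwa [Ne, Subgroup.map_eq_bot_iff_of_injective _ (Subgroup.subtype_injective _)])
    a a.2 b b.2 k l (congrArg Subtype.val hk) (congrArg Subtype.val hl)
  have h2 : (a * b) ^ p = 1 := Subtype.ext h1
  have h3 := congrArg φ h2
  rw [map_pow, map_mul, ha, hb, map_one, ← map_mul, ← map_pow] at h3
  have h4 := pow_eq_one_of_mem_tr ((QuotientGroup.eq_one_iff _).1 h3)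
  rw [← pow_mul, ← sq] at h4
  have h5 : (x.1 * y.1) ^ p ^ 2 = 1 := congrArg (fun g : qd p => g.1.1) h4
  have h6 := sub_pow_char_pow_of_commute (p := p) (n := 2) (Commute.one_right (x.1 * y.1))
  rw [h5, one_pow, sub_self] at h6
  have h7 := (Matrix.isNilpotent_trace_of_isNilpotent ⟨_, h6⟩).eq_zero
  simp [x, y, Matrix.trace_fin_three] at h7
  norm_num at h7

/-- Let p be an odd prime, q a power of p and K a finite field with q² elements. Then Qd(p) (the natural semidirect product of an elementary abelian group of order p² by SL₂(p)) is not involved in the projective special unitary group PSU₃(q) realised over K. -/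
theorem result {p : ℕ} [Fact p.Prime] (hp : p ≠ 2) {K : Type*} [Field K] [Fintype K] [CharP K p] (n : ℕ) (hn : 1 ≤ n) (hK : Fintype.card K = (p ^ n) ^ 2) : ¬ Cfsg.Involves ↥(Cfsg.qd p) (Cfsg.PSU 3 K (p ^ n)) := by
  rintro ⟨L, R, hn, ⟨e⟩⟩
  let π := QuotientGroup.mk' (Subgroup.center (SU 3 K (p ^ n)))
  let f : L.comap π →* qd p :=
    (e.toMonoidHom.comp (QuotientGroup.mk' _)).comp (π.subgroupComap L)
  have hf : Function.Surjective f := (e.surjective.comp (QuotientGroup.mk'_surjective _)).comp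
    (π.subgroupComap_surjective_of_surjective L (QuotientGroup.mk'_surjective _))
  let ρ : L.comap π →* Module.End K (Fin 3 → K) :=
    { toFun := fun g => sulin g.1
      map_one' := sulin_one
      map_mul' := fun g h => LinearMap.ext fun x => sulin_mul_apply _ _ x }
  exact not_surj (fun P hP hP1 a ha b hb k l ha' hb' => geom hp (hermB_rep (frobq_frobq hK))
    (hermB_symm (frobq_frobq hK)) (by simp) ρ (fun g h e => Subtype.ext (sulin_injective e))
    (fun g => sulin_form hK g.1) P hP hP1 ha hb ha' hb') f hf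

end Cfsg.Agent.S2232
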