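import Cfsg.Statements.S2239
import Cfsg.Agent.Sz.Sub
import Cfsg.Agent.Sz.Inst

set_option autoImplicit false
open Cfsg

namespace Cfsg.Agent.S2239

/-- Subfield subgroups of the Suzuki group: let q = 2^(2m+1) and s = 2^(2k+1) with m, k ≥ 1 and 2k+1 dividing 2m+1 (so q is a power of s), both groups realised as stabilisers in SL₄ of the Suzuki–Tits ovoid. Then Sz(q) has a subgroup isomorphic to Sz(s), and any two subgroups of Sz(q) isomorphic to Sz(s) are conjugate. -/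
theorem result {F : Type*} [Field F] [Fintype F] {m : ℕ} (hm : 1 ≤ m) (hF : Fintype.card F = 2 ^ (2 * m + 1)) {K : Type*} [Field K] [Fintype K] {k : ℕ} (hk : 1 ≤ k) (hK : Fintype.card K = 2 ^ (2 * k + 1)) (hdiv : 2 * k + 1 ∣ 2 * m + 1) :
    (∃ S : Subgroup ↥(Cfsg.Sz F m), Nonempty (↥S ≃* ↥(Cfsg.Sz K k))) ∧
    ∀ S₁ S₂ : Subgroup ↥(Cfsg.Sz F m), Nonempty (↥S₁ ≃* ↥(Cfsg.Sz K k)) → Nonempty (↥S₂ ≃* ↥(Cfsg.Sz K k)) →
      ∃ g : ↥(Cfsg.Sz F m), S₂ = S₁.map (MulAut.conj g).toMonoidHom := by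
  have N := Sz.ovoidModel (F := F) (m := m) hm (Nat.card_eq_fintype_card.trans hF)
  have N' := Sz.ovoidModel (F := K) (m := k) hk (Nat.card_eq_fintype_card.trans hK)
  haveI := N.finF
  obtain ⟨L, hL⟩ := Sz.exists_subfield_of_dvd (by omega) (by omega) N.card hdiv
  refine ⟨⟨_, N.exists_equiv_sub N' hdiv hL⟩, ?_⟩
  have key : ∀ S : Subgroup (Cfsg.Sz F m), Nonempty (S ≃* Cfsg.Sz K k) →
      ∃ t, S = (N.sub L).map (MulAut.conj t).toMonoidHom := by
    rintro S ⟨e⟩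
    rcases N.classify S with h | ⟨t, L', hL', rfl⟩
    · exact absurd (Group.isSolvable_of_surjective (f := e.toMonoidHom) e.surjective) N'.not_isSolvable
    · obtain ⟨j, hj, hd, hc⟩ := N.subfield_param hL'
      have N'' := Sz.lieModel hj hc
      obtain ⟨e'⟩ := N.exists_equiv_sub N'' hd hc
      have h1 := Nat.card_congr
        ((e'.symm.trans ((N.sub L').equivMapOfInjective _ (MulAut.conj t).injective)).trans e).toEquiv
      rw [N''.card_G, N'.card_G, ← (hL.trans N'.card.symm)] at h1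
      have mono : StrictMonoOn (fun a : ℕ => a ^ 2 * (a - 1) * (a ^ 2 + 1)) {a | 1 ≤ a} := by
        intro a ha b hb hab
        have h2 : a ^ 2 < b ^ 2 := Nat.pow_lt_pow_left hab two_ne_zero
        have h3 : a - 1 < b - 1 := by simp only [Set.mem_setOf_eq] at ha; omega
        exact Nat.mul_lt_mul_of_lt_of_lt (Nat.mul_lt_mul_of_lt_of_lt h2 h3) (by omega)
      have h2 := mono.injOn (Nat.card_pos (α := L')) (Nat.card_pos (α := L)) h1
      exact ⟨t, by rw [Sz.subfield_eq_of_card h2]⟩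
  intro S₁ S₂ h₁ h₂
  obtain ⟨s, rfl⟩ := key S₁ h₁
  obtain ⟨t, rfl⟩ := key S₂ h₂
  refine ⟨t * s⁻¹, ?_⟩
  rw [Subgroup.map_map]
  congr 1
  ext x : 1
  simp [mul_assoc]

end Cfsg.Agent.S2239
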