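import Cfsg.Statements.S2240
import Cfsg.Agent.Sz.Gen
import Cfsg.Agent.Sz.Inst

set_option autoImplicit false
open Cfsg

namespace Cfsg.Agent.S2240

open Cfsg.Agent.Sz in
theorem fwd {G : Type*} [Group G] {F : Type*} [Field F] {m : ℕ} (M : Model G F m) (n : ℕ) (hn : 2 ≤ n)
    (E : Subgroup G) (hE : E ≤ M.Z) (hc : Nat.card E = 2 ^ n)
    (hTI : ∀ x : G, E ⊓ E.map (MulAut.conj x).toMonoidHom ≠ ⊥ → x ∈ Subgroup.normalizer (E : Set G)) :
    n ∣ 2 * m + 1 := by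
  haveI := M.finF
  haveI := M.finG
  have hne : E ≠ ⊥ := by
    rintro rfl
    simp only [Subgroup.card_bot] at hc
    have : 2 ^ 2 ≤ 2 ^ n := Nat.pow_le_pow_right (by norm_num) hn
    omega
  obtain ⟨⟨e, he⟩, he1⟩ := Subgroup.ne_bot_iff_exists_ne_one.mp hne
  obtain ⟨a, rfl⟩ := hE he
  have ha : a ≠ 0 := by rintro rfl; apply he1; ext; simp
  let A : AddSubgroup F := (M.zpar E).comap (AddMonoidHom.mulRight a)
  have hA : ∀ c, c ∈ A ↔ M.u 0 (c * a) ∈ E := fun c => Iff.rfl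
  have hmul : ∀ c ∈ A, ∀ b ∈ A, c * b ∈ A := by
    intro c hc b hb
    by_cases hc0 : c = 0
    · subst hc0; simp
    obtain ⟨k, hk⟩ := M.mul_σ_surj c
    have hk0 : k ≠ 0 := by rintro rfl; simp at hk; exact hc0 hk.symm
    have h1 := hTI (M.h (Units.mk0 k hk0)) (by
      rw [Subgroup.ne_bot_iff_exists_ne_one]
      refine ⟨⟨M.u 0 (c * a), (hA c).mp hc, M.u 0 a, he, ?_⟩, ?_⟩
      · simp [M.h_conj_u, hk]
      · intro h
        have := congrArg Subtype.val h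
        simp [M.u_eq_one, hc0, ha] at this)
    have h2 := (Subgroup.mem_normalizer_iff.mp h1 _).mp ((hA b).mp hb)
    rw [M.h_conj_u, Units.val_mk0, hk, mul_zero, ← mul_assoc] at h2
    exact h2
  obtain ⟨d, hd, hcard⟩ := subfield_card M.card (subfieldOfAddSubgroup A (by simpa [hA] using he) hmul)
  have h3 : Nat.card A = Nat.card (M.zpar E) := by
    apply Nat.card_congr
    exact (Equiv.mulRight₀ a ha).subtypeEquiv (fun c => Iff.rfl)
  rw [M.card_zpar, inf_eq_left.mpr hE, hc] at h3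
  have h4 : 2 ^ d = 2 ^ n := hcard.symm.trans h3
  rw [← Nat.pow_right_injective (le_refl 2) h4]
  exact hd

open Cfsg.Agent.Sz in
theorem main {G : Type*} [Group G] {F : Type*} [Field F] {m : ℕ} (M : Model G F m) (n : ℕ) (hn : 2 ≤ n) :
    (∃ E : Subgroup G, Cfsg.IsElementaryAbelian 2 E ∧ Nat.card ↥E = 2 ^ n ∧
      ∀ x : G, E ⊓ E.map (MulAut.conj x).toMonoidHom ≠ ⊥ → x ∈ Subgroup.normalizer (E : Set G)) ↔ n ∣ 2 * m + 1 := by
  haveI := M.finF
  haveI := M.finG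
  constructor
  · rintro ⟨E, hE, hc, hTI⟩
    obtain ⟨t, ht⟩ := M.exists_le_Q (IsPGroup.of_card hc)
    refine fwd (M.conj t) n hn E (fun g hg => ?_) hc hTI
    exact (M.conj t).mem_Z_of_sq ((M.conj t).Q_le_B (ht hg)) (hE.2 g hg)
  · intro hd
    obtain ⟨K, hK⟩ := exists_subfield_of_dvd (by omega) (by omega) M.card hd
    let E : Subgroup G :=
      { carrier := {g | ∃ b ∈ K, g = M.u 0 b}
        mul_mem' := by
          rintro _ _ ⟨a, ha, rfl⟩ ⟨b, hb, rfl⟩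
          exact ⟨a + b, K.add_mem ha hb, M.z_mul _ _⟩
        one_mem' := ⟨0, K.zero_mem, by simp⟩
        inv_mem' := by
          rintro _ ⟨a, ha, rfl⟩
          exact ⟨a, ha, M.z_inv _⟩ }
    have hEm : ∀ b, M.u 0 b ∈ E ↔ b ∈ K := by
      intro b
      refine ⟨?_, fun h => ⟨b, h, rfl⟩⟩
      rintro ⟨c, hc, h⟩
      rw [(M.u_inj.mp h).2]; exact hc
    refine ⟨E, ⟨⟨⟨?_⟩⟩, ?_⟩, ?_, ?_⟩
    · rintro ⟨_, a, ha, rfl⟩ ⟨_, b, hb, rfl⟩
      exact Subtype.ext (M.z_comm _ _ _)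
    · rintro _ ⟨a, ha, rfl⟩; exact M.z_sq a
    · rw [← hK]
      symm
      apply Nat.card_congr (Equiv.ofBijective (fun q : K => (⟨M.u 0 q, q, q.2, rfl⟩ : E)) _)
      constructor
      · rintro x x' h
        exact Subtype.ext (M.u_inj.mp (Subtype.mk.inj h)).2
      · rintro ⟨_, y, h, rfl⟩; exact ⟨⟨y, h⟩, rfl⟩
    · intro x hx
      rw [Subgroup.ne_bot_iff_exists_ne_one] at hx
      obtain ⟨⟨_, ⟨a, ha, rfl⟩, _, ⟨b, hb, rfl⟩, hab⟩, h1⟩ := hx
      have ha0 : a ≠ 0 := by rintro rfl; apply h1; ext; simp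
      simp only [MulEquiv.toMonoidHom_eq_coe, MonoidHom.coe_coe, MulAut.conj_apply] at hab
      have hb0 : b ≠ 0 := by
        rintro rfl
        simp only [M.u_zero, mul_one, mul_inv_cancel] at hab
        exact ha0 (M.u_eq_one.mp hab.symm).2
      have hB := M.mem_B_of_conj_mem (M.u_mem_Q 0 b) (by simp [M.u_eq_one, hb0]) (t := x)
        (by rw [hab]; exact M.u_mem_B _ _)
      obtain ⟨c, d, k, rfl⟩ := M.mem_B'.mp hB
      rw [M.uh_conj_z, M.u_inj] at hab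
      have hk : (k : F) * M.σ k ∈ K := by
        have : (k : F) * M.σ k = a / b := by rw [← hab.2]; field_simp
        rw [this]; exact K.div_mem ha hb
      have hk0 : (k : F) * M.σ k ≠ 0 := mul_ne_zero k.ne_zero (M.σ_ne_zero k.ne_zero)
      apply Subgroup.mem_normalizer_fintype
      rintro _ ⟨e, he, rfl⟩
      rw [M.uh_conj_z]
      exact ⟨_, K.mul_mem hk he, rfl⟩


/-- Elementary abelian TI-subgroups of the Suzuki group: let q = 2^(2m+1) with m ≥ 1, the group realised as the stabiliser in SL₄ of the Suzuki–Tits ovoid, and n ≥ 2. There is an elementary abelian 2-subgroup E of order 2^n that is a TI-subgroup (every conjugate of E meeting E nontrivially is E itself) if and only if n divides 2m + 1. -/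
theorem result {F : Type*} [Field F] [Fintype F] {m : ℕ} (hm : 1 ≤ m) (hF : Fintype.card F = 2 ^ (2 * m + 1)) (n : ℕ) (hn : 2 ≤ n) :
    (∃ E : Subgroup ↥(Cfsg.Sz F m), Cfsg.IsElementaryAbelian 2 E ∧ Nat.card ↥E = 2 ^ n ∧
      ∀ x : ↥(Cfsg.Sz F m), E ⊓ E.map (MulAut.conj x).toMonoidHom ≠ ⊥ → x ∈ Subgroup.normalizer (E : Set ↥(Cfsg.Sz F m))) ↔ n ∣ 2 * m + 1 := by
  exact main (Sz.ovoidModel hm (Nat.card_eq_fintype_card.trans hF)) n hn

end Cfsg.Agent.S2240
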