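import Cfsg.Statements.S2244
import Cfsg.Agent.Chev.WClosed

set_option autoImplicit false
open Cfsg Cfsg.Agent.Chev

namespace Cfsg.Agent.S2244

/-- Weakly closed unipotent subgroups of Chevalley groups: let G be the Chevalley group of type G₂, B₂, D₄, F₄, E₆, E₇ or E₈ over a finite field F (the matrix group generated by the root elements), with |F| ≠ 2, and |F| ≠ 3 as well for the types G₂, B₂, D₄, F₄. Let U be the subgroup generated by the positive root subgroups. If X ≤ U is weakly closed in U with respect to G (every G-conjugate of X lying in U equals X), then X is the unipotent radical U_J of a standard parabolic subgroup for some set J of fundamental roots. -/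
theorem result {F : Type*} [Field F] [Fintype F] (D : Cfsg.Lie.ChevalleyDatum) (hD : D ∈ [Cfsg.Lie.chevG2, Cfsg.Lie.chevB2, Cfsg.Lie.chevD4, Cfsg.Lie.chevF4, Cfsg.Lie.chevE6, Cfsg.Lie.chevE7, Cfsg.Lie.chevE8])
    (h2 : Fintype.card F ≠ 2) (h3 : D ∈ [Cfsg.Lie.chevG2, Cfsg.Lie.chevB2, Cfsg.Lie.chevD4, Cfsg.Lie.chevF4] → Fintype.card F ≠ 3)
    (X : Subgroup (GL D.Idx F)) (hXU : X ≤ D.posUnipotent F)
    (hwc : ∀ g ∈ D.group F, X.map (MulAut.conj g).toMonoidHom ≤ D.posUnipotent F → X.map (MulAut.conj g).toMonoidHom = X) :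
    ∃ J : Set ℕ, (∀ j ∈ J, j < D.rank) ∧ X = D.unipotentRadical F J := by
  have hc : Nat.card F = Fintype.card F := Nat.card_eq_fintype_card
  have h1 : 1 < Fintype.card F := Fintype.one_lt_card
  have key : ∀ C : Cert D, (∀ {X : Subgroup ↥(D.group F)}, X ≤ (C.sys F).Up →
      (∀ g, (∀ y ∈ X, g * y * g⁻¹ ∈ (C.sys F).Up) → g ∈ Subgroup.normalizer (X : Set ↥(D.group F))) →
      ∃ J, X = (C.sys F).UJ J) → ∃ J : Set ℕ, (∀ j ∈ J, j < D.rank) ∧ X = D.unipotentRadical F J := by
    intro C H
    have hXG : X ≤ D.group F := by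
      refine hXU.trans ?_
      rw [C.posUnipotent_eq]; exact Subgroup.map_subtype_le _
    obtain ⟨J, hJ⟩ := H (X := X.subgroupOf (D.group F)) (by
      rw [← C.posUnipotent_of]; exact fun y hy => hXU hy) (by
      intro g hg
      have e := hwc g g.2 (by
        rintro _ ⟨y, hy, rfl⟩
        rw [C.posUnipotent_eq]
        exact ⟨_, hg ⟨y, hXG hy⟩ hy, rfl⟩)
      rw [Subgroup.mem_normalizer_iff]
      intro y
      constructor
      · intro hy
        have : (g : GL D.Idx F) * y * (g : GL D.Idx F)⁻¹ ∈ X := by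
          rw [← e]; exact ⟨y, hy, rfl⟩
        exact this
      · intro hy
        have h3 : (g : GL D.Idx F) * y * (g : GL D.Idx F)⁻¹ ∈ X := hy
        rw [← e] at h3
        obtain ⟨z, hz, ez⟩ := h3
        have : z = y := by simpa using ez
        rw [Subgroup.mem_subgroupOf, ← this]; exact hz)
    refine ⟨Fin.val '' J, ?_, ?_⟩
    · rintro _ ⟨j, -, rfl⟩; exact j.2
    · rw [C.unipotentRadical_eq, Cert.nodes_image, ← hJ, Subgroup.map_subgroupOf_eq_of_le hXG]
  simp only [List.mem_cons, List.not_mem_nil, or_false] at hD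
  rcases hD with rfl | rfl | rfl | rfl | rfl | rfl | rfl
  · have h3' := h3 (by simp)
    refine key certG2 fun hU hw => ?_
    by_cases h4 : Fintype.card F = 4
    · have : CharP F 2 := by
        have : Fact (Nat.Prime 2) := ⟨Nat.prime_two⟩
        exact charP_of_card_eq_prime_pow (f := 2) (by rw [h4]; rfl)
      exact G2_wclosed (by omega) _ hU hw
    · exact Sys.eq_UJ_of_sepZ _ sepG2 (by omega) decG2 hU hw
  · have h3' := h3 (by simp)
    exact key certB2 fun hU hw => Sys.eq_UJ_of_sepZ _ sepB2 (by omega) decB2 hU hw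
  · have h3' := h3 (by simp)
    exact key certD4 fun hU hw => Sys.eq_UJ_of_sepZ _ sepD4 (by omega) (fun r => certD4.dec_of_simplyLaced lenD4_eq) hU hw
  · have h3' := h3 (by simp)
    exact key certF4 fun hU hw => Sys.eq_UJ_of_sepZ _ sepF4 (by omega) decF4 hU hw
  · exact key certE6 fun hU hw => Sys.eq_UJ_of_sepZ _ sepE6 (by omega) (fun r => certE6.dec_of_simplyLaced lenE6_eq) hU hw
  · exact key certE7 fun hU hw => Sys.eq_UJ_of_sepZ _ sepE7 (by omega) (fun r => certE7.dec_of_simplyLaced lenE7_eq) hU hw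
  · exact key certE8 fun hU hw => Sys.eq_UJ_of_sepZ _ sepE8 (by omega) (fun r => certE8.dec_of_simplyLaced lenE8_eq) hU hw

end Cfsg.Agent.S2244
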