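import Cfsg.Statements.S2245
import Cfsg.Agent.SymAlt.TreeMax
import Mathlib.GroupTheory.SpecificGroups.Alternating.MaximalSubgroups

set_option autoImplicit false
open Cfsg

namespace Cfsg.Agent.S2245

open Subgroup Equiv Equiv.Perm SymAlt
open scoped Pointwise

theorem unique_transport {G : Type*} [Group G] (e : Subgroup G ≃o Subgroup G) (R : Subgroup G)
    (h : ∃! M : Subgroup G, IsCoatom M ∧ R ≤ M) : ∃! M : Subgroup G, IsCoatom M ∧ e R ≤ M := by
  obtain ⟨M, ⟨h1, h2⟩, h3⟩ := h
  refine ⟨e M, ⟨(e.isCoatom_iff M).2 h1, e.monotone h2⟩, fun M' ⟨h4, h5⟩ => ?_⟩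
  have := h3 (e.symm M') ⟨(e.symm.isCoatom_iff M').2 h4, e.le_symm_apply.2 h5⟩
  rw [← this, e.apply_symm_apply]

theorem unique_sylow_iff {G : Type*} [Group G] [Finite G] {p : ℕ} [Fact p.Prime] (R T : Sylow p G) :
    (∃! M : Subgroup G, IsCoatom M ∧ (R : Subgroup G) ≤ M) ↔
      (∃! M : Subgroup G, IsCoatom M ∧ (T : Subgroup G) ≤ M) := by
  have key : ∀ R T : Sylow p G, (∃! M : Subgroup G, IsCoatom M ∧ (R : Subgroup G) ≤ M) →
      (∃! M : Subgroup G, IsCoatom M ∧ (T : Subgroup G) ≤ M) := by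
    intro R T h
    obtain ⟨g, rfl⟩ := MulAction.exists_smul_eq G R T
    exact unique_transport (MulAut.conj g).mapSubgroup _ h
  exact ⟨key R T, key T R⟩

theorem le_of_unique {G : Type*} [Group G] [Finite G] {R : Subgroup G}
    (h : ∃! M : Subgroup G, IsCoatom M ∧ R ≤ M) :
    ∃ M : Subgroup G, M ≠ ⊤ ∧ R ≤ M ∧ ∀ H : Subgroup G, R ≤ H → H ≠ ⊤ → H ≤ M := by
  obtain ⟨M, ⟨h1, h2⟩, h3⟩ := h
  refine ⟨M, h1.1, h2, fun H hH hH' => ?_⟩
  obtain ⟨M', hM', hM''⟩ := (eq_top_or_exists_le_coatom H).resolve_left hH'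
  rwa [← h3 M' ⟨hM', hH.trans hM''⟩]

/-- The stabilizer of the level-`k` partition. -/
def levelStab (n k : ℕ) : Subgroup (Perm (Fin n)) where
  carrier := {σ | ∀ x y : Fin n, (σ x : ℕ) / 2 ^ k = (σ y : ℕ) / 2 ^ k ↔
    (x : ℕ) / 2 ^ k = (y : ℕ) / 2 ^ k}
  one_mem' := fun _ _ => Iff.rfl
  mul_mem' := fun {_ _} ha hb x y => (ha _ _).trans (hb x y)
  inv_mem' := fun {a} ha x y => by
    rw [← ha]
    simp

variable {n : ℕ}

theorem tree_le_levelStab (k : ℕ) : tree n ≤ levelStab n k := fun _ h => tree_rel h k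

theorem not_alt_le_levelStab {k : ℕ} (hk : 1 ≤ k) (hn : 2 ^ k < n) :
    ¬ alternatingGroup (Fin n) ≤ levelStab n k := by
  intro h
  have h2 : 2 ≤ 2 ^ k := by
    calc 2 = 2 ^ 1 := by norm_num
      _ ≤ 2 ^ k := Nat.pow_le_pow_right (by norm_num) hk
  set z : Fin n := ⟨0, by omega⟩ with hz
  set o : Fin n := ⟨1, by omega⟩ with ho
  set t : Fin n := ⟨2 ^ k, hn⟩ with ht
  have hzo : z ≠ o := by simp [hz, ho]
  have hzt : z ≠ t := by simp only [hz, ht, ne_eq, Fin.mk.injEq]; omega
  have hot : o ≠ t := by simp only [ho, ht, ne_eq, Fin.mk.injEq]; omega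
  have h3 := h (isThreeCycle_swap_mul_swap_same hzo hzt hot).mem_alternatingGroup z o
  rw [Perm.mul_apply, Perm.mul_apply, swap_apply_left, swap_apply_of_ne_of_ne hzt.symm hot.symm,
    swap_apply_of_ne_of_ne hzo.symm hot, swap_apply_right] at h3
  simp only [hz, ho, ht] at h3
  rw [Nat.div_self (by omega), Nat.zero_div, Nat.div_eq_of_lt (by omega : 1 < 2 ^ k)] at h3
  simp at h3

theorem swap_mem_levelStab {k : ℕ} {u v : Fin n} (h : (u : ℕ) / 2 ^ k = (v : ℕ) / 2 ^ k) :
    swap u v ∈ levelStab n k := by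
  have : ∀ x : Fin n, (swap u v x : ℕ) / 2 ^ k = (x : ℕ) / 2 ^ k := by
    intro x
    rw [swap_apply_def]
    split_ifs with h1 h2
    · rw [h1, h]
    · rw [h2, h]
    · rfl
  intro x y
  rw [this, this]

theorem swap_mul_swap_mem_levelStab {x x' y y' : Fin n} (hx : (x : ℕ) / 2 = (x' : ℕ) / 2)
    (hx' : (x : ℕ) ≠ x') (hy : (y : ℕ) / 2 = (y' : ℕ) / 2) (hy' : (y : ℕ) ≠ y')
    (hxy : (x : ℕ) / 2 ≠ (y : ℕ) / 2) : swap x y * swap x' y' ∈ levelStab n 1 := by
  have : ∀ p : Fin n, ((swap x y * swap x' y') p : ℕ) / 2 =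
      if (p : ℕ) / 2 = (x : ℕ) / 2 then (y : ℕ) / 2 else
      if (p : ℕ) / 2 = (y : ℕ) / 2 then (x : ℕ) / 2 else (p : ℕ) / 2 := by
    intro p
    simp only [Perm.mul_apply, swap_apply_def, Fin.ext_iff]
    split_ifs <;> omega
  intro p q
  rw [pow_one, this, this]
  split_ifs <;> omega

theorem core (hn : 5 ≤ n) (M : Subgroup (alternatingGroup (Fin n))) (hM : M ≠ ⊤)
    (h : ∀ H : Subgroup (Perm (Fin n)), tree n ≤ H → ¬ alternatingGroup (Fin n) ≤ H →
      H.subgroupOf (alternatingGroup (Fin n)) ≤ M) : ∃ k : ℕ, 2 ≤ k ∧ n = 2 ^ k + 1 := by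
  by_contra hne
  push Not at hne
  set a := Nat.log 2 n with ha
  have h1 : 2 ^ a ≤ n := Nat.pow_log_le_self 2 (by omega)
  have h2 : n < 2 ^ (a + 1) := Nat.lt_pow_succ_log_self (by norm_num) n
  have ha2 : 2 ≤ a := by
    by_contra hlt
    have : 2 ^ (a + 1) ≤ 2 ^ 2 := Nat.pow_le_pow_right (by norm_num) (by omega)
    omega
  have h3 := hne a ha2
  have hL1 := h _ (tree_le_levelStab 1) (not_alt_le_levelStab le_rfl (by omega))
  obtain ⟨b, hb⟩ : ∃ b, a = b + 1 := ⟨a - 1, by omega⟩
  have hpow : 2 ^ a = 2 * 2 ^ b := by rw [hb, pow_succ, mul_comm]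
  rw [pow_succ] at h2
  have hb2 : 2 ≤ 2 ^ b := by
    calc 2 = 2 ^ 1 := by norm_num
      _ ≤ 2 ^ b := Nat.pow_le_pow_right (by norm_num) (by omega)
  set z : Fin n := ⟨0, by omega⟩ with hz
  set o : Fin n := ⟨1, by omega⟩ with ho
  have hzv : (z : ℕ) = 0 := rfl
  have hov : (o : ℕ) = 1 := rfl
  rcases Nat.eq_or_lt_of_le h1 with h4 | h4
  · have hb4 : 4 ≤ 2 ^ b := by
      have : 2 ≤ b := by
        by_contra hlt
        have : 2 ^ b ≤ 2 ^ 1 := Nat.pow_le_pow_right (by norm_num) (by omega)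
        omega
      calc 4 = 2 ^ 2 := by norm_num
        _ ≤ 2 ^ b := Nat.pow_le_pow_right (by norm_num) this
    have hLb := h _ (tree_le_levelStab b) (not_alt_le_levelStab (by omega) (by omega))
    set c : Fin n := ⟨2, by omega⟩ with hc
    set d : Fin n := ⟨3, by omega⟩ with hd
    have hcv : (c : ℕ) = 2 := rfl
    have hdv : (d : ℕ) = 3 := rfl
    have hcd : c ≠ d := by simp [hc, hd]
    have hin : ∀ x : Fin n, x ≠ c → (x : ℕ) < 2 ^ b →
        swap c d * swap c x ∈ M.map (alternatingGroup (Fin n)).subtype := by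
      intro x hx hx'
      refine ⟨⟨swap c d * swap c x, ?_⟩, hLb ?_, rfl⟩
      · rw [mem_alternatingGroup, Perm.sign_mul, sign_swap hcd, sign_swap hx.symm]; rfl
      · apply (levelStab n b).mul_mem
        · apply swap_mem_levelStab
          rw [Nat.div_eq_of_lt (by omega), Nat.div_eq_of_lt (by omega)]
        · apply swap_mem_levelStab
          rw [Nat.div_eq_of_lt (by omega), Nat.div_eq_of_lt (by omega)]
    have hall := alt_le_of_swap_mul_swap_mem (M.map (alternatingGroup (Fin n)).subtype)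
      (a := c) (b := d) (by
        intro x hxc hxd
        rcases lt_or_ge (x : ℕ) (2 ^ b) with hx | hx
        · exact hin x hxc hx
        · have hxn := x.is_lt
          obtain ⟨x', hx1, hx2⟩ : ∃ x' : Fin n, (x : ℕ) / 2 = (x' : ℕ) / 2 ∧ (x : ℕ) ≠ x' := by
            rcases Nat.mod_two_eq_zero_or_one x with h5 | h5
            · exact ⟨⟨x + 1, by omega⟩, by simp only; omega, by simp only; omega⟩
            · exact ⟨⟨x - 1, by omega⟩, by simp only; omega, by simp only; omega⟩
          have hw : swap z x * swap o x' ∈ M.map (alternatingGroup (Fin n)).subtype := by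
            refine ⟨⟨swap z x * swap o x', ?_⟩, hL1 ?_, rfl⟩
            · rw [mem_alternatingGroup, Perm.sign_mul, sign_swap (fun h => by rw [h] at hzv; omega),
                sign_swap (fun h => by rw [h] at hov; omega)]
              rfl
            · exact swap_mul_swap_mem_levelStab (by omega) (by omega) hx1 hx2 (by omega)
          have := mul_mem (mul_mem hw (hin z (by simp [hz, hc]) (by omega))) (inv_mem hw)
          rw [conj_swap_mul_swap] at this
          have e1 : (swap z x * swap o x') c = c := by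
            apply Fin.ext
            rw [Perm.mul_apply, swap_apply_of_ne_of_ne (x := c) (a := o) (b := x')
              (fun h => by rw [h] at hcv; omega) (fun h => by rw [h] at hcv; omega),
              swap_apply_of_ne_of_ne (fun h => by rw [h] at hcv; omega) hxc.symm]
          have e2 : (swap z x * swap o x') d = d := by
            apply Fin.ext
            rw [Perm.mul_apply, swap_apply_of_ne_of_ne (x := d) (a := o) (b := x')
              (fun h => by rw [h] at hdv; omega) (fun h => by rw [h] at hdv; omega),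
              swap_apply_of_ne_of_ne (fun h => by rw [h] at hdv; omega) hxd.symm]
          have e3 : (swap z x * swap o x') z = x := by
            rw [Perm.mul_apply, swap_apply_of_ne_of_ne (x := z) (a := o) (b := x')
              (fun h => by rw [h] at hzv; omega) (fun h => by rw [h] at hzv; omega),
              swap_apply_left]
          rwa [e1, e2, e3] at this)
    apply hM
    rw [eq_top_iff]
    intro x _
    obtain ⟨y, hy, hy'⟩ := hall x.2
    rwa [← Subtype.ext hy']
  · set s : Set (Fin n) := {x | (x : ℕ) < 2 ^ a} with hs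
    have hsc : s.ncard = 2 ^ a := by
      have : s = Set.range (Fin.castLE h1) := by rw [Fin.range_castLE]
      rw [this, ← Set.image_univ, Set.ncard_image_of_injective _ (Fin.castLE_injective h1),
        Set.ncard_univ, Nat.card_fin]
    set t : Fin n := ⟨2 ^ a, h4⟩ with ht
    set t' : Fin n := ⟨2 ^ a + 1, by omega⟩ with ht'
    have htv : (t : ℕ) = 2 ^ a := rfl
    have htv' : (t' : ℕ) = 2 ^ a + 1 := rfl
    have hco : IsCoatom (MulAction.stabilizer (alternatingGroup (Fin n)) s) :=
      alternatingGroup.isCoatom_stabilizer ⟨z, by simp [hs, hz]⟩ ⟨t, by simp [hs, ht]⟩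
        (by rw [hsc, Nat.card_fin]; omega)
    have hts : tree n ≤ MulAction.stabilizer (Perm (Fin n)) s := by
      intro σ hσ
      rw [MulAction.mem_stabilizer_set]
      intro x
      have e1 := tree_last hσ a x
      have e2 : n / 2 ^ a = 1 := Nat.div_eq_of_lt_le (by omega) (by omega)
      have e3 : ∀ y : Fin n, (y : ℕ) / 2 ^ a = 1 ↔ ¬ (y : ℕ) < 2 ^ a := by
        intro y
        have := y.is_lt
        constructor
        · intro h5 h6
          rw [Nat.div_eq_of_lt h6] at h5
          omega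
        · intro h5
          exact Nat.div_eq_of_lt_le (by omega) (by omega)
      rw [e2, e3, e3, not_iff_not] at e1
      exact e1
    have hle : MulAction.stabilizer (alternatingGroup (Fin n)) s ≤ M := by
      apply h _ hts
      intro h5
      apply hco.1
      rw [eq_top_iff]
      intro x _
      exact h5 x.2
    have hMeq := (hco.le_iff.1 hle).resolve_left hM
    have hw : (⟨swap z t * swap o t', by
        rw [mem_alternatingGroup, Perm.sign_mul, sign_swap (fun h => by rw [h] at hzv; omega),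
          sign_swap (fun h => by rw [h] at hov; omega)]
        rfl⟩ : alternatingGroup (Fin n)) ∈ M :=
      hL1 (swap_mul_swap_mem_levelStab (by omega) (by omega) (by omega) (by omega) (by omega))
    rw [hMeq, MulAction.mem_stabilizer_set] at hw
    have := (hw z).2 (by simp [hs, hz])
    change ((swap z t * swap o t') z : ℕ) < 2 ^ a at this
    simp only [Perm.mul_apply, swap_apply_def, Fin.ext_iff] at this
    split_ifs at this <;> omega

theorem eq_top_of_alt_le (hn : 2 ≤ n) {M : Subgroup (Perm (Fin n))}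
    (h1 : alternatingGroup (Fin n) ≤ M) (h2 : tree n ≤ M) : M = ⊤ := by
  have p0 : 2 * 0 + 1 < n := by omega
  have h3 := h2 (pairSwap_mem_tree p0)
  rw [eq_top_iff]
  intro x _
  rcases Int.units_eq_one_or (sign x) with h | h
  · exact h1 h
  · have := M.mul_mem (h1 (show x * swap ⟨2 * 0, by omega⟩ ⟨2 * 0 + 1, p0⟩ ∈
      alternatingGroup (Fin n) by
        rw [mem_alternatingGroup, Perm.sign_mul, h, sign_pairSwap p0]; rfl)) h3
    rwa [mul_assoc, swap_mul_self, mul_one] at this

theorem odd_of_eq {k : ℕ} (hk : 2 ≤ k) (hn : n = 2 ^ k + 1) : n % 2 = 1 := by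
  obtain ⟨j, rfl⟩ : ∃ j, k = j + 1 := ⟨k - 1, by omega⟩
  rw [hn, pow_succ]
  omega


/-- For n ≥ 5 with n ≠ 6, a Sylow 2-subgroup of the alternating group A_n lies in exactly one maximal subgroup of A_n if and only if n = 2^k + 1 for some k ≥ 2; the same holds for the symmetric group S_n. -/
theorem result (n : ℕ) (hn : 5 ≤ n) (h6 : n ≠ 6) :
    ((∀ R : Sylow 2 ↥(alternatingGroup (Fin n)), (∃! M : Subgroup ↥(alternatingGroup (Fin n)), IsCoatom M ∧ (R : Subgroup ↥(alternatingGroup (Fin n))) ≤ M) ↔ ∃ k : ℕ, 2 ≤ k ∧ n = 2 ^ k + 1) ∧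
    (∀ R : Sylow 2 (Equiv.Perm (Fin n)), (∃! M : Subgroup (Equiv.Perm (Fin n)), IsCoatom M ∧ (R : Subgroup (Equiv.Perm (Fin n))) ≤ M) ↔ ∃ k : ℕ, 2 ≤ k ∧ n = 2 ^ k + 1)) := by
  have : Nontrivial (Fin n) := Fin.nontrivial_iff_two_le.2 (by omega)
  set u : Fin n := ⟨n - 1, by omega⟩ with hu
  have huv : (u : ℕ) + 1 = n := by simp only [hu]; omega
  constructor
  · intro R
    obtain ⟨T, hT⟩ := exists_sylow_altTree n
    rw [unique_sylow_iff R T, hT]
    constructor
    · intro h
      obtain ⟨M, hM, -, hM'⟩ := le_of_unique h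
      refine core hn M hM (fun H hH hH' => hM' _ (fun x hx => hH hx) (fun h5 => hH' ?_))
      rwa [subgroupOf_eq_top] at h5
    · rintro ⟨k, hk, hnk⟩
      have := alternatingGroup.isPreprimitive_of_three_le_card (Fin n) (by simp; omega)
      have hco := MulAction.IsPreprimitive.isCoatom_stabilizer_of_isPreprimitive
        (alternatingGroup (Fin n)) u
      refine ⟨_, ⟨hco, fun σ hσ => tree_fix_last (odd_of_eq hk hnk) hσ u huv⟩, ?_⟩
      rintro M ⟨hM1, hM2⟩
      by_cases hmove : ∃ m ∈ M, (m : Perm (Fin n)) u ≠ u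
      · obtain ⟨m, hm, hm'⟩ := hmove
        have h1 := alt_le_of_moves_last hk hnk (M.map (alternatingGroup (Fin n)).subtype)
          (fun r hr hs => ⟨⟨r, hs⟩, hM2 hr, rfl⟩) u huv ⟨m, hm, rfl⟩ hm'
        exfalso
        apply hM1.1
        rw [eq_top_iff]
        intro x _
        obtain ⟨y, hy, hy'⟩ := h1 x.2
        rwa [← Subtype.ext hy']
      · push Not at hmove
        exact ((hM1.le_iff.1 (fun m hm => hmove m hm)).resolve_left hco.1).symm
  · intro R
    rw [unique_sylow_iff R (treeSylow n), coe_treeSylow]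
    constructor
    · intro h
      obtain ⟨M, hM, hM0, hM'⟩ := le_of_unique h
      refine core hn (M.subgroupOf _) (fun h5 => hM ?_) (fun H hH hH' x hx => hM' H hH ?_ hx)
      · rw [subgroupOf_eq_top] at h5
        exact eq_top_of_alt_le (by omega) h5 hM0
      · rintro rfl
        exact hH' le_top
    · rintro ⟨k, hk, hnk⟩
      have hco := MulAction.IsPreprimitive.isCoatom_stabilizer_of_isPreprimitive
        (Perm (Fin n)) u
      refine ⟨_, ⟨hco, fun σ hσ => tree_fix_last (odd_of_eq hk hnk) hσ u huv⟩, ?_⟩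
      rintro M ⟨hM1, hM2⟩
      by_cases hmove : ∃ m ∈ M, m u ≠ u
      · obtain ⟨m, hm, hm'⟩ := hmove
        have h1 := alt_le_of_moves_last hk hnk M (fun r hr _ => hM2 hr) u huv hm hm'
        exact absurd (eq_top_of_alt_le (by omega) h1 hM2) hM1.1
      · push Not at hmove
        exact ((hM1.le_iff.1 (fun m hm => hmove m hm)).resolve_left hco.1).symm

end Cfsg.Agent.S2245
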