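import Cfsg.Statements.S2249
import Cfsg.Agent.Forms.NormRank

set_option autoImplicit false
open Cfsg

namespace Cfsg.Agent.S2249

/-- The normal 2-rank of the general linear group over a finite field of odd order q: for n ≥ 1 and S a Sylow 2-subgroup of GL_n(F), the largest rank of an elementary abelian subgroup of S that is normal in S equals n when q ≡ 1 (mod 4) and ⌊(n + 1)/2⌋ when q ≡ 3 (mod 4). -/
theorem result {F : Type*} [Field F] [Fintype F] {q : ℕ} (hF : Fintype.card F = q) (hodd : Odd q) (n : ℕ) (hn : 1 ≤ n) (S : Sylow 2 (Matrix.GeneralLinearGroup (Fin n) F)) :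
    (q % 4 = 1 → ((∃ E : Subgroup ↥(S : Subgroup (Matrix.GeneralLinearGroup (Fin n) F)), E.Normal ∧ Cfsg.IsElementaryAbelian 2 E ∧ 2 ^ (n) ≤ Nat.card ↥E) ∧
      ∀ E : Subgroup ↥(S : Subgroup (Matrix.GeneralLinearGroup (Fin n) F)), E.Normal → Cfsg.IsElementaryAbelian 2 E → Nat.card ↥E ≤ 2 ^ (n))) ∧
    (q % 4 = 3 → ((∃ E : Subgroup ↥(S : Subgroup (Matrix.GeneralLinearGroup (Fin n) F)), E.Normal ∧ Cfsg.IsElementaryAbelian 2 E ∧ 2 ^ ((n + 1) / 2) ≤ Nat.card ↥E) ∧
      ∀ E : Subgroup ↥(S : Subgroup (Matrix.GeneralLinearGroup (Fin n) F)), E.Normal → Cfsg.IsElementaryAbelian 2 E → Nat.card ↥E ≤ 2 ^ ((n + 1) / 2))) := by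
  subst hF
  let ρ := fun E : Subgroup S => (Forms.glEquiv (n := n) (.refl F _)).toMonoidHom.comp (S.1.subtype.comp E.subtype)
  have hρ : ∀ E, Function.Injective (ρ E) := fun E =>
    (Forms.glEquiv (n := n) (.refl F _)).injective.comp (S.1.subtype_injective.comp E.subtype_injective)
  have h1 := Forms.v2_GL hodd 1
  rw [Finset.prod_range_one, zero_add, pow_one] at h1
  refine ⟨fun h => ⟨Forms.gl_normal_elem hodd (d := 0) (m := n) (k := 0) (by simp) ?_ S, fun E _ hE => ?_⟩,
    fun h => ⟨?_, fun E hN hE => ?_⟩⟩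
  · rw [Forms.v2_GL hodd, Forms.v2_prod h Fintype.one_lt_card, h1]; simp
  · simpa using Forms.card_le_of_comm_invol (Forms.two_ne_zero_of_odd_card hodd) (fun a => (ρ E a : _ →ₗ[F] _))
      (fun a b x => congr($(map_mul (ρ E) a b) x)) (fun a e => hρ E (LinearEquiv.toLinearMap_injective
        (e.trans (by rw [map_one]; rfl)))) (fun x => congr($(map_one (ρ E)) x)) (Forms.sub_comm_of_isMulCommutative hE.1)
      (Forms.sub_sq_of_pow hE.2)
  · rw [show (n + 1) / 2 = n / 2 + n % 2 by omega]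
    refine Forms.gl_normal_elem hodd (d := 1) (by omega) ?_ S
    have h2 := Forms.v2_prod' h (n / 2)
    have h3 := Forms.v2_odd h 0
    have h4 := Forms.v2_prod' h 1
    rw [h1, Forms.v2_GL hodd, Forms.v2_GL hodd, h4]
    rcases Nat.mod_two_eq_zero_or_one n with e | e
    · rw [show 2 * (n / 2) = n by omega] at h2; simp [h2, e]
    · conv_lhs => rw [show n = 2 * (n / 2) + 1 by omega, Finset.prod_range_succ, padicValNat.mul
        (Forms.prod_pow_ne Fintype.one_lt_card _) (Nat.sub_ne_zero_of_lt (Nat.one_lt_pow (by omega) Fintype.one_lt_card)),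
        h2, Forms.v2_odd h]
      simp at h3; simp [e, h3]
  · simpa using Forms.card_le_half h (S.mapSurjective (f := (Forms.glEquiv (n := n) (.refl F _)).toMonoidHom)
      (MulEquiv.surjective _)) (ρ E) (hρ E) (Forms.sub_comm_of_isMulCommutative hE.1) (Forms.sub_sq_of_pow hE.2) (by
        rintro _ ⟨s, hs, rfl⟩ a
        exact ⟨⟨_, hN.conj_mem' _ a.2 ⟨s, hs⟩⟩, by simp [ρ, ← map_mul, mul_assoc]⟩)

end Cfsg.Agent.S2249
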