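import Cfsg.Statements.S2250
import Cfsg.Agent.Forms.NormRank
import Cfsg.Agent.Forms.SLPow
import Cfsg.Agent.Polar.Count

set_option autoImplicit false
open Cfsg

namespace Cfsg.Agent.S2250

/-- The normal 2-rank of the symplectic group over a finite field of odd order: for n ≥ 1 and S a Sylow 2-subgroup of Sp_{2n}(F), the largest rank of an elementary abelian subgroup of S that is normal in S equals n. -/
theorem result {F : Type*} [Field F] [Fintype F] (hF : Odd (Fintype.card F)) (n : ℕ) (hn : 1 ≤ n) (S : Sylow 2 ↥(Matrix.symplecticGroup (Fin n) F)) :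
    ((∃ E : Subgroup ↥(S : Subgroup ↥(Matrix.symplecticGroup (Fin n) F)), E.Normal ∧ Cfsg.IsElementaryAbelian 2 E ∧ 2 ^ (n) ≤ Nat.card ↥E) ∧
      ∀ E : Subgroup ↥(S : Subgroup ↥(Matrix.symplecticGroup (Fin n) F)), E.Normal → Cfsg.IsElementaryAbelian 2 E → Nat.card ↥E ≤ 2 ^ (n)) := by
  have h2 := Forms.two_ne_zero_of_odd_card hF
  refine ⟨?_, fun E _ hE => Forms.card_le_of_comm_invol_alt h2 (A := E) (fun a => Forms.slin (S.1.subtype a))
    (fun a b x => Forms.slin_mul_apply _ _ _)
    (fun a ha => Subtype.ext (Subtype.ext (Forms.slin_injective (ha.trans Forms.slin_one.symm))))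
    (fun x => LinearMap.congr_fun Forms.slin_one x) (Forms.sub_comm_of_isMulCommutative hE.1)
    (Forms.sub_sq_of_pow hE.2) Forms.sympB_nondegenerate Forms.sympB_self (fun a => Forms.slin_form _) (by simp [two_mul])⟩
  let t : ℤˣ →* Matrix.SpecialLinearGroup (Fin 2) F :=
    { toFun s := ⟨s • 1, by rcases Int.units_eq_one_or s with rfl | rfl <;> simp [Matrix.det_neg]⟩
      map_one' := Subtype.ext (one_smul _ _)
      map_mul' _ _ := Subtype.ext ((smul_mul_smul_comm ..).trans (by rw [mul_one])).symm }
  have t1 : ∀ s, (t s).1 = s • 1 := fun _ => rfl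
  have ht : Function.Injective t := (injective_iff_map_eq_one _).2 fun s h => (Int.units_eq_one_or s).resolve_right fun e =>
    Forms.ne_neg_self h2 (one_ne_zero' F) (by simpa [t1, e] using congr(($h).1 0 0).symm)
  let σ : Equiv.Perm (Fin n) →* Matrix.symplecticGroup (Fin n) F :=
    { toFun π := ⟨Matrix.fromBlocks (Matrix.permMatrixHom π) 0 0 (Matrix.permMatrixHom π), by
        simp [SymplecticGroup.fromBlocks_mem_iff, ← Matrix.permMatrix_mul]⟩
      map_one' := Subtype.ext (by simp)
      map_mul' _ _ := Subtype.ext (by simp [Matrix.fromBlocks_multiply]) }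
  have h1 : 1 < Fintype.card F ^ 2 := Nat.one_lt_pow two_ne_zero Fintype.one_lt_card
  simpa using Forms.exists_normal_elem ((Forms.slPow (Fin n) F).comp (t.compLeft _)) (Forms.slPow_injective.comp ht.comp_left)
    (fun d => by ext; simp [Int.units_sq]) _ Forms.slPow_injective (fun a d => by
      simp only [MonoidHom.comp_apply, ← map_mul]; congr 1; ext; simp [t1]) σ
    (fun b d => ⟨d ∘ b.symm, Subtype.ext (by
      ext (i | i) (j | j) <;> simp [σ, t1, Forms.slPow, Matrix.fromBlocks_multiply, Equiv.Perm.permMatrix,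
        PEquiv.toMatrix_apply, Equiv.symm_apply_eq] <;> split_ifs with h <;> simp [h])⟩)
    (fun b hb => Equiv.ext fun i => by_contra fun hi => by
      have := congr(($(hb (Pi.mulSingle i (-1)))).1 (.inl (b i)) (.inl i))
      simp [σ, t1, Forms.slPow, Matrix.fromBlocks_multiply, Pi.mulSingle_eq_of_ne (show b i ≠ i from hi)] at this
      exact h2 (by linear_combination this)) (by
      rw [Polar.card_symplecticGroup, Nat.card_fun, GLn.card_SL_eq, Nat.card_perm, ← Finset.Ico_add_one_right_eq_Icc,
        Finset.prod_Ico_eq_prod_range]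
      simp only [pow_mul, add_comm 1, Nat.add_sub_cancel, Finset.Icc_self, Finset.prod_singleton, Nat.card_eq_fintype_card,
        Fintype.card_fin]
      have h0 := padicValNat.eq_zero_of_not_dvd (Nat.two_dvd_ne_zero.2 (Nat.odd_iff.1 hF))
      rw [padicValNat.mul (by positivity) (Forms.prod_pow_ne h1 _), Forms.v2_prod (Forms.sq_mod_four (Nat.odd_iff.1 hF)) h1,
        padicValNat.mul (pow_ne_zero _ (mul_ne_zero (by positivity) (by omega))) n.factorial_ne_zero, padicValNat.pow,
        padicValNat.pow, padicValNat.mul (by positivity) (by omega), padicValNat.pow, h0]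
      simp) S

end Cfsg.Agent.S2250
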