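import Cfsg.Statements.S2251
import Cfsg.Agent.Sz.Sub
import Cfsg.Agent.Sz.Inst

set_option autoImplicit false
open Cfsg

namespace Cfsg.Agent.S2251

/-- The subgroups of the Suzuki group: with q = 2^(2m+1), m ≥ 1, r = 2^m and the group realised as the stabiliser in SL₄ of the Suzuki–Tits ovoid, every proper subgroup is contained in the normalizer of a Sylow 2-subgroup, or in the normalizer of a cyclic subgroup of order q − 1, q + 2r + 1 or q − 2r + 1, or in a subgroup isomorphic to a smaller Suzuki group Sz(s) with s = 2^(2k+1) ≥ 8 and 2k+1 a proper divisor of 2m+1. -/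
theorem result {F : Type*} [Field F] [Fintype F] {m : ℕ} (hm : 1 ≤ m) (hF : Fintype.card F = 2 ^ (2 * m + 1)) (M : Subgroup ↥(Cfsg.Sz F m)) (hM : M ≠ ⊤) :
    (∃ P : Sylow 2 ↥(Cfsg.Sz F m), M ≤ Subgroup.normalizer ((P : Subgroup ↥(Cfsg.Sz F m)) : Set ↥(Cfsg.Sz F m))) ∨
    (∃ U : Subgroup ↥(Cfsg.Sz F m), IsCyclic ↥U ∧ Nat.card ↥U ∈ ({2 ^ (2 * m + 1) - 1, 2 ^ (2 * m + 1) + 2 ^ (m + 1) + 1, 2 ^ (2 * m + 1) - 2 ^ (m + 1) + 1} : Set ℕ) ∧
      M ≤ Subgroup.normalizer (U : Set ↥(Cfsg.Sz F m))) ∨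
    (∃ (K : Type) (_ : Field K) (_ : Fintype K) (k : ℕ), 1 ≤ k ∧ k < m ∧ Fintype.card K = 2 ^ (2 * k + 1) ∧ 2 * k + 1 ∣ 2 * m + 1 ∧
      ∃ S : Subgroup ↥(Cfsg.Sz F m), Nonempty (↥S ≃* ↥(Cfsg.Sz K k)) ∧ M ≤ S) := by
  have N := Sz.ovoidModel (F := F) (m := m) hm (Nat.card_eq_fintype_card.trans hF)
  haveI := N.finF
  rcases N.classify M with h | ⟨t, K, hK, rfl⟩
  · rcases N.le_of_isSolvable h with ⟨t, ht⟩ | ⟨U, hU, h⟩
    · exact Or.inl ⟨(N.conj t).sylQ, by rwa [Sz.Model.coe_sylQ, Sz.Model.normalizer_Q]⟩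
    · exact Or.inr (Or.inl ⟨U, Sz.Model.IsTorus.isCyclic N hU, Sz.Model.IsTorus.card_mem N hU, h⟩)
  · obtain ⟨k, hk, hd, hc⟩ := N.subfield_param hK
    haveI : Fact (Nat.Prime 2) := ⟨Nat.prime_two⟩
    haveI := Fintype.ofFinite (GaloisField 2 (2 * k + 1))
    have h1 : Nat.card (GaloisField 2 (2 * k + 1)) = 2 ^ (2 * k + 1) := GaloisField.card 2 _ (by omega)
    obtain ⟨e⟩ := N.exists_equiv_sub (Sz.ovoidModel hk h1) hd hc
    refine Or.inr (Or.inr ⟨GaloisField 2 (2 * k + 1), inferInstance, inferInstance, k, hk, ?_,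
      Nat.card_eq_fintype_card.symm.trans h1, hd, _,
      ⟨((N.sub K).equivMapOfInjective _ (MulAut.conj t).injective).symm.trans e⟩, le_rfl⟩)
    have h2 := Nat.le_of_dvd (by omega) hd
    refine lt_of_le_of_ne (by omega) ?_
    rintro rfl
    have h3 : K = ⊤ := Sz.subfield_eq_of_card (by
      rw [hc, ← N.card]; exact (Nat.card_congr Subfield.topEquiv.toEquiv).symm)
    rw [h3, N.sub_top] at hM
    exact hM (Subgroup.map_top_of_surjective _ (MulAut.conj t).surjective)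

end Cfsg.Agent.S2251
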