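import Cfsg.Statements.S2254
import Cfsg.Agent.PermB.Nil

set_option autoImplicit false
open Cfsg

namespace Cfsg.Agent.S2254


/-- Let n ≡ 3 (mod 4). Then every nilpotent subgroup of the symmetric group on n letters has order at most 3 times the order of a Sylow 2-subgroup of the symmetric group on n − 3 letters; the bound is attained by a nilpotent subgroup isomorphic to the direct product of such a Sylow 2-subgroup with a cyclic group of order 3; and any two nilpotent subgroups attaining the bound are conjugate. -/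
theorem result  (n : ℕ) (hn : n % 4 = 3)
    (P : Sylow 2 (Equiv.Perm (Fin (n - 3)))) :
    (∀ N : Subgroup (Equiv.Perm (Fin n)), Group.IsNilpotent N → Nat.card N ≤ 3 * Nat.card P) ∧
    (∃ M : Subgroup (Equiv.Perm (Fin n)), Group.IsNilpotent M ∧ Nat.card M = 3 * Nat.card P ∧
      Nonempty (M ≃* (↥(P : Subgroup (Equiv.Perm (Fin (n - 3)))) × Multiplicative (ZMod 3)))) ∧
    (∀ N₁ N₂ : Subgroup (Equiv.Perm (Fin n)), Group.IsNilpotent N₁ → Group.IsNilpotent N₂ →
      Nat.card N₁ = 3 * Nat.card P → Nat.card N₂ = 3 * Nat.card P →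
      ∃ g : Equiv.Perm (Fin n), N₂ = N₁.map (MulAut.conj g).toMonoidHom) := by
  have hP : Nat.card P = 2 ^ PermB.vv (n - 3) := by rw [PermB.card_sylow_perm]; simp
  have hb := fun (N : Subgroup (Equiv.Perm (Fin n))) (hN : Group.IsNilpotent N) =>
    PermB.nil_le_S3 N (by simpa using hn)
  simp only [Fintype.card_fin] at hb
  refine ⟨fun N hN => hP ▸ (hb N hN).1, ?_, ?_⟩
  · obtain ⟨M, h1, h2, h3, -⟩ := PermB.exists_prod_three (by omega) P.toSubgroup P.isPGroup'
    exact ⟨M, h1, h2, h3⟩
  · rw [hP]
    exact PermB.nil_conj (fun N hN => (hb N hN).1) Equiv.Perm.IsThreeCycle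
      (fun N hN => (hb N hN).2)
      fun c d hc hd => Equiv.Perm.isConj_iff_cycleType_eq.2 (hc.trans hd.symm)

end Cfsg.Agent.S2254
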