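import Cfsg.Statements.S2255
import Cfsg.Agent.PermB.Nil

set_option autoImplicit false
open Cfsg

namespace Cfsg.Agent.S2255


/-- Let n be a natural number not congruent to 3 modulo 4, with n ∉ {5, 6, 9}. Then every nilpotent subgroup of the alternating group on n letters has order at most the order of a Sylow 2-subgroup of the alternating group (so the nilpotent subgroups of largest order are exactly the Sylow 2-subgroups). -/
theorem result  (n : ℕ) (hn : n % 4 ≠ 3)
    (h5 : n ≠ 5) (h6 : n ≠ 6) (h9 : n ≠ 9)
    (N : Subgroup (alternatingGroup (Fin n))) (hN : Group.IsNilpotent N)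
    (P : Sylow 2 (alternatingGroup (Fin n))) :
    Nat.card N ≤ Nat.card P := by
  have i := N.equivMapOfInjective _ (alternatingGroup (Fin n)).subtype_injective
  have := Group.nilpotent_of_mulEquiv i
  have := PermB.nil_le_A (N.map (alternatingGroup (Fin n)).subtype) (Subgroup.map_subtype_le _)
    (by simpa using hn) (by simpa using h5) (by simpa using h6) (by simpa using h9)
  rwa [PermB.card_sylow_alt, Nat.card_eq_fintype_card (α := Fin n), Nat.card_congr i.toEquiv]

end Cfsg.Agent.S2255
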