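import Cfsg.Statements.S2256
import Cfsg.Agent.PermB.Nil

set_option autoImplicit false
open Cfsg

namespace Cfsg.Agent.S2256


/-- Let n ≡ 3 (mod 4) with n ≥ 7. Then every nilpotent subgroup of the alternating group on n letters has order at most 3 times the order of a Sylow 2-subgroup of the alternating group on n − 3 letters; the bound is attained by a nilpotent subgroup isomorphic to the direct product of such a Sylow 2-subgroup with a cyclic group of order 3; and any two nilpotent subgroups of the alternating group attaining the bound are conjugate in it. -/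
theorem result  (n : ℕ) (hn : n % 4 = 3) (h7 : 7 ≤ n)
    (P : Sylow 2 (alternatingGroup (Fin (n - 3)))) :
    (∀ N : Subgroup (alternatingGroup (Fin n)), Group.IsNilpotent N → Nat.card N ≤ 3 * Nat.card P) ∧
    (∃ M : Subgroup (alternatingGroup (Fin n)), Group.IsNilpotent M ∧ Nat.card M = 3 * Nat.card P ∧
      Nonempty (M ≃* (↥(P : Subgroup (alternatingGroup (Fin (n - 3)))) × Multiplicative (ZMod 3)))) ∧
    (∀ N₁ N₂ : Subgroup (alternatingGroup (Fin n)), Group.IsNilpotent N₁ → Group.IsNilpotent N₂ →
      Nat.card N₁ = 3 * Nat.card P → Nat.card N₂ = 3 * Nat.card P →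
      ∃ g : alternatingGroup (Fin n), N₂ = N₁.map (MulAut.conj g).toMonoidHom) := by
  have hP : Nat.card P = 2 ^ (PermB.vv (n - 3) - 1) := by rw [PermB.card_sylow_alt]; simp
  have hb : ∀ (N : Subgroup (alternatingGroup (Fin n))) (hN : Group.IsNilpotent N),
      Nat.card N ≤ 3 * 2 ^ (PermB.vv (n - 3) - 1) ∧ (Nat.card N = 3 * 2 ^ (PermB.vv (n - 3) - 1) →
        ∀ c ∈ N, orderOf c = 3 → (c : Equiv.Perm (Fin n)).IsThreeCycle) := by
    intro N hN
    have i := N.equivMapOfInjective _ (alternatingGroup (Fin n)).subtype_injective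
    have := Group.nilpotent_of_mulEquiv i
    have := PermB.nil_le_A3 (N.map (alternatingGroup (Fin n)).subtype) (Subgroup.map_subtype_le _)
      (by simpa using hn) (by simpa using h7)
    rw [Fintype.card_fin, ← Nat.card_congr i.toEquiv] at this
    exact ⟨this.1, fun e c hc h3 => this.2 e c ⟨c, hc, rfl⟩ (by rwa [Subgroup.orderOf_coe])⟩
  refine ⟨fun N hN => hP ▸ (hb N hN).1, ?_, ?_⟩
  · have i := P.toSubgroup.equivMapOfInjective _ (alternatingGroup (Fin (n - 3))).subtype_injective
    obtain ⟨M, h1, h2, ⟨h3⟩, h4⟩ := PermB.exists_prod_three (by omega)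
      (P.toSubgroup.map (alternatingGroup (Fin (n - 3))).subtype) (P.isPGroup'.map _)
    have j := Subgroup.subgroupOfEquivOfLe (h4 (Subgroup.map_subtype_le _))
    refine ⟨M.subgroupOf _, Group.nilpotent_of_mulEquiv j.symm, ?_,
      ⟨j.trans (h3.trans (i.symm.prodCongr (MulEquiv.refl _)))⟩⟩
    rw [Nat.card_congr j.toEquiv, h2, Nat.card_congr i.toEquiv]
  · rw [hP]
    exact PermB.nil_conj (fun N hN => (hb N hN).1)
      (fun c => (c : Equiv.Perm (Fin n)).IsThreeCycle) (fun N hN => (hb N hN).2)
      fun c d hc hd => alternatingGroup.isThreeCycle_isConj (by simp; omega) hc hd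

end Cfsg.Agent.S2256
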