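import Cfsg.Statements.S2257
import Cfsg.Agent.SL2.SolvCount

set_option autoImplicit false
open Cfsg

namespace Cfsg.Agent.S2257

open Cfsg.Agent.SL2

/-- Let G = PSL_2(F) with F a field of order q = 2^p, p prime, and for x ∈ G call the solubilizer of x the set of y ∈ G such that x and y generate a solvable subgroup. Then the solubilizer of an involution has 3q(q − 1) elements; that of a non-identity element of order dividing q − 1 has 2q(q − 1) elements; and that of a non-identity element of order dividing q + 1 has 2(q + 1) elements. -/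
theorem result (p : ℕ) (hp : p.Prime) {F : Type*} [Field F] [Fintype F]
    (hF : Fintype.card F = 2 ^ p) (x : Matrix.ProjectiveSpecialLinearGroup (Fin 2) F) :
    (orderOf x = 2 → Nat.card {y : Matrix.ProjectiveSpecialLinearGroup (Fin 2) F // Group.IsSolvable ↥(Subgroup.closure ({x, y} : Set (Matrix.ProjectiveSpecialLinearGroup (Fin 2) F)))} = 3 * 2 ^ p * (2 ^ p - 1)) ∧
    (x ≠ 1 → orderOf x ∣ 2 ^ p - 1 → Nat.card {y : Matrix.ProjectiveSpecialLinearGroup (Fin 2) F // Group.IsSolvable ↥(Subgroup.closure ({x, y} : Set (Matrix.ProjectiveSpecialLinearGroup (Fin 2) F)))} = 2 * 2 ^ p * (2 ^ p - 1)) ∧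
    (x ≠ 1 → orderOf x ∣ 2 ^ p + 1 → Nat.card {y : Matrix.ProjectiveSpecialLinearGroup (Fin 2) F // Group.IsSolvable ↥(Subgroup.closure ({x, y} : Set (Matrix.ProjectiveSpecialLinearGroup (Fin 2) F)))} = 2 * (2 ^ p + 1)) := by
  have h2 : (2 : F) = 0 := two_eq_zero_of_even (hF ▸ dvd_pow_self 2 hp.ne_zero)
  have : CharP F 2 := (CharP.charP_iff_prime_eq_zero Nat.prime_two).2 h2
  obtain ⟨X, rfl⟩ := pr_surjective x
  have e := card_sv_pr X
  rw [Subgroup.card_eq_one.2 (center_eq_bot h2), mul_one] at e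
  have t : X.1.trace ^ 2 ≠ 4 → X.1.trace ≠ 0 := fun h e => h (by rw [e]; linear_combination -2 * h2)
  rw [← hF]
  refine ⟨fun h => e.trans ?_, fun h1 h => e.trans ?_, fun h1 h => e.trans ?_⟩
  · have hs : ¬ IsScal X.1 := fun hs => by rw [pr_eq_one_iff.2 hs] at h; simp at h
    exact card_sv_par_two h2 hs ((orderOf_pr_eq_two_iff hs).1 h)
  · have k := (type_of_order 2 h1 (Or.inr rfl)).1 h
    exact card_sv_spl (Or.inl h2) k (t k.disc_one) (Or.inl h2)
  · have k := (type_of_order 2 h1 (Or.inr rfl)).2.1 h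
    exact card_sv_ell (Or.inl h2) k (t k.disc_one) (Or.inl h2)

end Cfsg.Agent.S2257
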