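import Cfsg.Statements.S2258
import Cfsg.Agent.SL2.SolvCount

set_option autoImplicit false
open Cfsg

namespace Cfsg.Agent.S2258

open Cfsg.Agent.SL2

/-- Let G = PSL_2(F) with F a field of order q = 3^p, p an odd prime, and for x ∈ G call the solubilizer of x the set of y ∈ G such that x and y generate a solvable subgroup. Then the solubilizer of an involution has q(q + 1) elements; that of an element of order 3 has q(q + 5)/2 elements; that of an element of order neither 1 nor 2 dividing q − 1 has q(q − 1) elements; and that of an element of order neither 1 nor 2 dividing q + 1 has q + 1 elements. -/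
theorem result (p : ℕ) (hp : p.Prime) (hodd : Odd p) {F : Type*} [Field F] [Fintype F]
    (hF : Fintype.card F = 3 ^ p) (x : Matrix.ProjectiveSpecialLinearGroup (Fin 2) F) :
    (orderOf x = 2 → Nat.card {y : Matrix.ProjectiveSpecialLinearGroup (Fin 2) F // Group.IsSolvable ↥(Subgroup.closure ({x, y} : Set (Matrix.ProjectiveSpecialLinearGroup (Fin 2) F)))} = 3 ^ p * (3 ^ p + 1)) ∧
    (orderOf x = 3 → 2 * Nat.card {y : Matrix.ProjectiveSpecialLinearGroup (Fin 2) F // Group.IsSolvable ↥(Subgroup.closure ({x, y} : Set (Matrix.ProjectiveSpecialLinearGroup (Fin 2) F)))} = 3 ^ p * (3 ^ p + 5)) ∧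
    (x ≠ 1 → orderOf x ≠ 2 → orderOf x ∣ 3 ^ p - 1 → Nat.card {y : Matrix.ProjectiveSpecialLinearGroup (Fin 2) F // Group.IsSolvable ↥(Subgroup.closure ({x, y} : Set (Matrix.ProjectiveSpecialLinearGroup (Fin 2) F)))} = 3 ^ p * (3 ^ p - 1)) ∧
    (x ≠ 1 → orderOf x ≠ 2 → orderOf x ∣ 3 ^ p + 1 → Nat.card {y : Matrix.ProjectiveSpecialLinearGroup (Fin 2) F // Group.IsSolvable ↥(Subgroup.closure ({x, y} : Set (Matrix.ProjectiveSpecialLinearGroup (Fin 2) F)))} = 3 ^ p + 1) := by
  have h3 : (3 : F) = 0 := by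
    have := FiniteField.cast_card_eq_zero F
    rw [hF] at this; push_cast at this
    exact pow_eq_zero_iff hp.ne_zero |>.1 this
  have : Fact (Nat.Prime 3) := ⟨Nat.prime_three⟩
  have : CharP F 3 := (CharP.charP_iff_prime_eq_zero Nat.prime_three).2 h3
  have h2 : (2 : F) ≠ 0 := fun e => one_ne_zero (α := F) (by linear_combination h3 - e)
  have hns : ¬ IsSquare (2 : F) := by
    rw [show (2 : F) = -1 by linear_combination h3, FiniteField.isSquare_neg_one_iff, hF, not_not]
    obtain ⟨k, rfl⟩ := hodd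
    rw [pow_succ, pow_mul, Nat.mul_mod, Nat.pow_mod]; simp
  obtain ⟨X, rfl⟩ := pr_surjective x
  have e := card_sv_pr X
  rw [card_center_odd h2, mul_comm] at e
  have t : X.1.trace ^ 2 ≠ 4 → X.1.trace ^ 2 ≠ 1 := fun h e => h (by rw [e]; linear_combination -h3)
  have t0 : pr X ≠ 1 → orderOf (pr X) ≠ 2 → X.1.trace ≠ 0 := fun h1 h e =>
    h ((orderOf_pr_eq_two_iff (mt pr_eq_one_iff.2 h1)).2 e)
  rw [← hF]
  refine ⟨fun h => Nat.eq_of_mul_eq_mul_left two_pos (e.trans ?_), fun h => ?_,
    fun h1 h h' => Nat.eq_of_mul_eq_mul_left two_pos (e.trans ?_), fun h1 h h' => Nat.eq_of_mul_eq_mul_left two_pos (e.trans ?_)⟩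
  · have hs : ¬ IsScal X.1 := fun hs => by rw [pr_eq_one_iff.2 hs] at h; simp at h
    exact card_sv_inv_three h3 hns ((orderOf_pr_eq_two_iff hs).1 h)
  · have h1 : pr X ≠ 1 := fun h1 => by rw [h1] at h; simp at h
    have hs : ¬ IsScal X.1 := mt pr_eq_one_iff.2 h1
    rcases trace_eq_of_disc ((type_of_order 3 h1 (Or.inl (by omega))).2.2 h) with k | k
    · exact e.trans (card_sv_par_three h3 hns hs k)
    · have e' := card_sv_pr (-X)
      rw [card_center_odd h2, mul_comm, pr_eq_iff.2 (Or.inr rfl)] at e'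
      exact e'.trans (card_sv_par_three h3 hns (by simpa [isScal_neg] using hs) (by rw [sl_trace_neg, k, neg_neg]))
  · have k := (type_of_order 3 h1 (Or.inl h)).1 h'
    rw [card_sv_spl (Or.inr hns) k (t0 h1 h) (Or.inr (t k.disc_one)), mul_assoc]
  · have k := (type_of_order 3 h1 (Or.inl h)).2.1 h'
    exact card_sv_ell (Or.inr hns) k (t0 h1 h) (Or.inr (t k.disc_one))

end Cfsg.Agent.S2258
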