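import Cfsg.Statements.S2259
import Cfsg.Agent.Sz.Sol
import Cfsg.Agent.Sz.Inst

set_option autoImplicit false
open Cfsg

namespace Cfsg.Agent.S2259

/-- Let G be the Suzuki group Sz(q), q = 2^(2m+1) with 2m + 1 prime and m ≥ 1, realised inside Sp_4(F) for F the field of order q, write r = 2^(m+1) (so r² = 2q), and for x ∈ G call the solubilizer of x the set of y ∈ G such that x and y generate a solvable subgroup. Then the solubilizer of an involution has q²(4q − 3) elements; that of an element of order 4 has q²(q + 3) elements; that of a non-identity element of order dividing q − 1 has 2q²(q − 1) elements; that of a non-identity element of order dividing q + r + 1 has 4(q + r + 1) elements; and that of a non-identity element of order dividing q − r + 1 has 4(q − r + 1) elements. -/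
theorem result {F : Type*} [Field F] [Fintype F] {m : ℕ} (hm : 1 ≤ m)
    (hp : (2 * m + 1).Prime) (hF : Fintype.card F = 2 ^ (2 * m + 1)) (x : ↥(Cfsg.Lie.Sz F (2 ^ (m + 1)))) :
    (orderOf x = 2 → Nat.card {y : ↥(Cfsg.Lie.Sz F (2 ^ (m + 1))) // Group.IsSolvable ↥(Subgroup.closure ({x, y} : Set (↥(Cfsg.Lie.Sz F (2 ^ (m + 1))))))} = (2 ^ (2 * m + 1)) ^ 2 * (4 * 2 ^ (2 * m + 1) - 3)) ∧
    (orderOf x = 4 → Nat.card {y : ↥(Cfsg.Lie.Sz F (2 ^ (m + 1))) // Group.IsSolvable ↥(Subgroup.closure ({x, y} : Set (↥(Cfsg.Lie.Sz F (2 ^ (m + 1))))))} = (2 ^ (2 * m + 1)) ^ 2 * (2 ^ (2 * m + 1) + 3)) ∧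
    (x ≠ 1 → orderOf x ∣ 2 ^ (2 * m + 1) - 1 →
      Nat.card {y : ↥(Cfsg.Lie.Sz F (2 ^ (m + 1))) // Group.IsSolvable ↥(Subgroup.closure ({x, y} : Set (↥(Cfsg.Lie.Sz F (2 ^ (m + 1))))))} = 2 * (2 ^ (2 * m + 1)) ^ 2 * (2 ^ (2 * m + 1) - 1)) ∧
    (x ≠ 1 → orderOf x ∣ 2 ^ (2 * m + 1) + 2 ^ (m + 1) + 1 → Nat.card {y : ↥(Cfsg.Lie.Sz F (2 ^ (m + 1))) // Group.IsSolvable ↥(Subgroup.closure ({x, y} : Set (↥(Cfsg.Lie.Sz F (2 ^ (m + 1))))))} = 4 * (2 ^ (2 * m + 1) + 2 ^ (m + 1) + 1)) ∧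
    (x ≠ 1 → orderOf x ∣ 2 ^ (2 * m + 1) - 2 ^ (m + 1) + 1 → Nat.card {y : ↥(Cfsg.Lie.Sz F (2 ^ (m + 1))) // Group.IsSolvable ↥(Subgroup.closure ({x, y} : Set (↥(Cfsg.Lie.Sz F (2 ^ (m + 1))))))} = 4 * (2 ^ (2 * m + 1) - 2 ^ (m + 1) + 1)) := by
  have M := Sz.lieModel (F := F) (m := m) hm (Nat.card_eq_fintype_card.trans hF)
  have key : x ≠ 1 → orderOf x ∣ Nat.card F ^ 2 + 1 → Nat.card (Sz.Sol x) = 4 * Nat.card (Sz.Cen x) ∧
      orderOf x ∣ Nat.card (Sz.Cen x) ∧ (Nat.card (Sz.Cen x) = 2 ^ (2 * m + 1) + 2 ^ (m + 1) + 1 ∨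
        Nat.card (Sz.Cen x) = 2 ^ (2 * m + 1) - 2 ^ (m + 1) + 1) := fun h1 h =>
    ⟨M.card_Sol_der (M.der_of_coprime h1 h), Subgroup.orderOf_dvd_natCard _ (Sz.self_mem_Cen x),
      Sz.Model.Der.card_Cen M (M.der_of_coprime h1 h)⟩
  refine ⟨fun h => ?_, fun h => ?_, fun h1 h => ?_, fun h1 h => ?_, fun h1 h => ?_⟩
  · obtain ⟨t, a, b, rfl⟩ := M.exists_mem_Q (g := x) (n := 1) (orderOf_dvd_iff_pow_eq_one.mp h.dvd)
    obtain rfl : a = 0 := (M.conj t).u_sq_eq_one.mp (orderOf_dvd_iff_pow_eq_one.mp h.dvd)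
    rw [← M.card]
    exact (M.conj t).card_Sol_z (by rintro rfl; simp at h)
  · obtain ⟨t, a, b, rfl⟩ := M.exists_mem_Q (g := x) (n := 2)
      (orderOf_dvd_iff_pow_eq_one.mp h.dvd)
    rw [← M.card]
    refine (M.conj t).card_Sol_u ?_ b
    rintro rfl
    have := orderOf_dvd_of_pow_eq_one ((M.conj t).z_sq b)
    rw [h] at this
    omega
  · rw [← M.card] at h ⊢
    rcases M.trichotomy x with ⟨t, ht⟩ | ⟨t, k, hk, rfl⟩ | hg
    · exact absurd (M.eq_one_of_odd (Odd.of_dvd_nat M.odd_pred h) ((M.conj t).pow_four_of_mem_Q ht)) h1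
    · exact (M.conj t).card_Sol_h hk
    · exact absurd (orderOf_eq_one_iff.mp (Nat.eq_one_of_dvd_coprimes M.coprime_pred_sq h
        (orderOf_dvd_of_pow_eq_one (Sz.Model.Der.pow_eq_one M hg)))) h1
  · obtain ⟨h2, h3, h4 | h4⟩ := key h1 (h.trans (Dvd.intro _ M.tp_mul_tm))
    · rw [← h4]; exact h2
    · exact absurd (orderOf_eq_one_iff.mp (Nat.eq_one_of_dvd_coprimes M.coprime_tp_tm h (h4 ▸ h3))) h1
  · obtain ⟨h2, h3, h4 | h4⟩ := key h1 (h.trans (Dvd.intro_left _ M.tp_mul_tm))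
    · exact absurd (orderOf_eq_one_iff.mp (Nat.eq_one_of_dvd_coprimes M.coprime_tp_tm (h4 ▸ h3) h)) h1
    · rw [← h4]; exact h2

end Cfsg.Agent.S2259
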