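import Cfsg.Statements.S2268

set_option autoImplicit false
open Cfsg

namespace Cfsg.Agent.S2268

open scoped Pointwise

theorem decomp {G : Type*} [Group G] [Finite G] {p : ℕ} [Fact p.Prime]
    (P : Sylow p G) (hP : IsMulCommutative (P : Subgroup G)) (Q : Subgroup G) (hQ : Q ≤ (P : Subgroup G))
    (g : G) (hg : g ∈ Subgroup.normalizer (Q : Set G)) :
    ∃ c ∈ Subgroup.centralizer (Q : Set G), c * g ∈ Subgroup.normalizer ((P : Subgroup G) : Set G) := by
  have h1 : (P : Subgroup G) ≤ Subgroup.centralizer (Q : Set G) := by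
    intro x hx y hy
    have := hP.is_comm.comm ⟨y, hQ hy⟩ ⟨x, hx⟩
    exact congrArg Subtype.val this
  have h2 : ((g • P : Sylow p G) : Subgroup G) ≤ Subgroup.centralizer (Q : Set G) := by
    rintro - ⟨z, hz, rfl⟩ y hy
    have hy' : g⁻¹ * y * g ∈ Q := by
      have := (Subgroup.mem_normalizer_iff''.mp hg y).mp hy
      simpa using this
    have := h1 hz _ hy'
    simp only [MulDistribMulAction.toMonoidEnd_apply, MulDistribMulAction.toMonoidHom_apply,
      MulAut.smul_def, MulAut.conj_apply]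
    calc y * (g * z * g⁻¹) = g * ((g⁻¹ * y * g) * z) * g⁻¹ := by group
      _ = g * (z * (g⁻¹ * y * g)) * g⁻¹ := by rw [this]
      _ = _ := by group
  obtain ⟨h, hh⟩ :=
    MulAction.exists_smul_eq (Subgroup.centralizer (Q : Set G)) ((g • P).subtype h2) (P.subtype h1)
  simp_rw [Sylow.smul_subtype, Subgroup.smul_def, smul_smul] at hh
  exact ⟨h, h.2, Sylow.smul_eq_iff_mem_normalizer.mp (Sylow.subtype_injective hh)⟩

/-- Let G be a finite group with an abelian Sylow p-subgroup P and let Q ≤ P. Then N_G(Q) = (N_G(Q) ∩ N_G(P))·C_G(Q), so that N_G(Q)/C_G(Q) is a homomorphic image of the subgroup (N_G(Q) ∩ N_G(P))/C_G(P) of N_G(P)/C_G(P); in particular the order of N_G(Q)/C_G(Q) divides the order of N_G(P)/C_G(P). -/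
theorem result {G : Type*} [Group G] [Finite G] {p : ℕ} [Fact p.Prime]
    (P : Sylow p G) (hP : IsMulCommutative (P : Subgroup G)) (Q : Subgroup G) (hQ : Q ≤ (P : Subgroup G)) :
    Subgroup.normalizer (Q : Set G) =
      (Subgroup.normalizer (Q : Set G) ⊓ Subgroup.normalizer ((P : Subgroup G) : Set G)) ⊔ Subgroup.centralizer (Q : Set G) ∧
    ((Subgroup.centralizer (Q : Set G)).subgroupOf (Subgroup.normalizer (Q : Set G))).index ∣ ((Subgroup.centralizer ((P : Subgroup G) : Set G)).subgroupOf (Subgroup.normalizer ((P : Subgroup G) : Set G))).index := by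
  set NQ := Subgroup.normalizer (Q : Set G)
  set NP := Subgroup.normalizer ((P : Subgroup G) : Set G)
  set CQ := Subgroup.centralizer (Q : Set G)
  set CP := Subgroup.centralizer ((P : Subgroup G) : Set G)
  have hCN : CQ ≤ NQ := Subgroup.centralizer_le_normalizer _
  have hCNP : CP ≤ NP := Subgroup.centralizer_le_normalizer _
  have hCC : CP ≤ CQ := Subgroup.centralizer_le hQ
  have key : NQ = (NQ ⊓ NP) ⊔ CQ := by
    apply le_antisymm
    · intro g hg
      obtain ⟨c, hc, hcg⟩ := decomp P hP Q hQ g hg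
      have : g = c⁻¹ * (c * g) := by group
      rw [this, sup_comm]
      exact Subgroup.mul_mem_sup (CQ.inv_mem hc) ⟨NQ.mul_mem (hCN hc) hg, hcg⟩
    · exact sup_le inf_le_left hCN
  refine ⟨key, ?_⟩
  change CQ.relIndex NQ ∣ CP.relIndex NP
  have h1 : CQ.relIndex NQ = CQ.relIndex (NQ ⊓ NP) := by
    haveI : (CQ.subgroupOf NQ).Normal := Subgroup.normal_subgroupOf_centralizer_normalizer _
    have h3 : (NQ ⊓ NP).subgroupOf NQ ⊔ CQ.subgroupOf NQ = ⊤ := by
      rw [← Subgroup.subgroupOf_sup inf_le_left hCN, ← key]; simp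
    have h4 := Subgroup.relIndex_sup_right ((NQ ⊓ NP).subgroupOf NQ) (CQ.subgroupOf NQ)
    rw [h3, Subgroup.relIndex_top_right, Subgroup.relIndex_subgroupOf inf_le_left] at h4
    exact h4
  rw [h1]
  have h5 : CQ.relIndex (NQ ⊓ NP) ∣ CP.relIndex (NQ ⊓ NP) := Subgroup.relIndex_dvd_of_le_left _ hCC
  refine h5.trans ?_
  exact Dvd.intro _ (Subgroup.relIndex_mul_relIndex CP (NQ ⊓ NP) NP (le_inf (hCC.trans hCN) hCNP) inf_le_right)

end Cfsg.Agent.S2268
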