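import Cfsg.Statements.S2269
import Cfsg.Agent.SymAlt.TreeAlt
import Cfsg.Agent.SymAlt.Automizer
import Cfsg.Agent.SymAlt.Orders
import Mathlib.GroupTheory.Transfer
import Mathlib.GroupTheory.SpecificGroups.Alternating.Simple

set_option autoImplicit false
open Cfsg

namespace Cfsg.Agent.S2269

open Subgroup Equiv Equiv.Perm SymAlt
open scoped Pointwise

theorem not_comm_two {n : ℕ} (hn : 6 ≤ n) (P : Sylow 2 (alternatingGroup (Fin n))) :
    ¬ IsMulCommutative (P : Subgroup (alternatingGroup (Fin n))) := by
  intro hP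
  obtain ⟨T, hT⟩ := exists_sylow_altTree n
  have e : T ≃* P := Sylow.equiv T P
  have hcomm : ∀ x y : T, x * y = y * x := by
    intro x y
    apply e.injective
    rw [map_mul, map_mul]
    exact hP.is_comm.comm (e x) (e y)
  have p0 : 2 * 0 + 1 < n := by omega
  have p2 : 2 * 2 + 1 < n := by omega
  set z : Fin n := ⟨2 * 0, by omega⟩ with hz
  set t : Fin n := ⟨2, by omega⟩ with ht
  have hzv : (z : ℕ) = 0 := rfl
  have htv : (t : ℕ) = 2 := rfl
  obtain ⟨τ, hτ, hs, hτz, hτt⟩ := exists_even_tree_agree hn
    (xorPerm_mem_tree (n := n) (k := 2) (j := 0) (c := 2) (by omega) (by norm_num)) z t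
  have e1 : τ z = t := by
    apply Fin.ext
    rw [hτz, xorPerm_val_of_eq _ _ (by omega), hzv, htv]
    rfl
  have hs' : swap z ⟨2 * 0 + 1, p0⟩ * swap ⟨2 * 2, by omega⟩ ⟨2 * 2 + 1, p2⟩ ∈
      alternatingGroup (Fin n) := by
    rw [mem_alternatingGroup, Perm.sign_mul, sign_pairSwap p0, sign_pairSwap p2]; rfl
  have h1 : (⟨τ, hs⟩ : alternatingGroup (Fin n)) ∈ T := by
    change _ ∈ (T : Subgroup (alternatingGroup (Fin n)))
    rw [hT]; exact hτ
  have h2 : (⟨_, hs'⟩ : alternatingGroup (Fin n)) ∈ T := by
    change _ ∈ (T : Subgroup (alternatingGroup (Fin n)))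
    rw [hT]; exact (tree n).mul_mem (pairSwap_mem_tree p0) (pairSwap_mem_tree p2)
  have h3 := congrArg (fun w : T => (w.1 : Perm (Fin n)) z) (hcomm ⟨_, h1⟩ ⟨_, h2⟩)
  change τ ((swap z ⟨2 * 0 + 1, p0⟩ * swap ⟨2 * 2, by omega⟩ ⟨2 * 2 + 1, p2⟩ : Perm (Fin n)) z) =
    (swap z ⟨2 * 0 + 1, p0⟩ * swap ⟨2 * 2, by omega⟩ ⟨2 * 2 + 1, p2⟩ : Perm (Fin n)) (τ z) at h3
  rw [e1, Perm.mul_apply, Perm.mul_apply,
    swap_apply_of_ne_of_ne (x := z) (by simp [hz]) (by simp [hz]), swap_apply_left,
    swap_apply_of_ne_of_ne (x := t) (by simp [ht]) (by simp [ht]),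
    swap_apply_of_ne_of_ne (x := t) (by simp [ht, hz]) (by simp [ht]), ← e1] at h3
  have := τ.injective h3
  simp [hz] at this

theorem five_sq : ∀ x : Perm (Fin 5), sign x = 1 → x ^ 4 = 1 → x ^ 2 = 1 := by
  intro x hs h4
  by_contra h2
  have h5 : orderOf x = 4 := by
    have : Fact (Nat.Prime 2) := ⟨Nat.prime_two⟩
    exact orderOf_eq_prime_pow (p := 2) (n := 1) h2 h4
  have h6 : 4 ∈ Set.range (orderOf : alternatingGroup (Fin 5) → ℕ) :=
    ⟨⟨x, mem_alternatingGroup.2 hs⟩, by rw [Subgroup.orderOf_mk, h5]⟩
  rw [mem_range_orderOf_alt_iff] at h6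
  obtain ⟨c, h1, h2, h3, h4⟩ := h6
  have key : ∀ c : Multiset ℕ, c.sum ≤ 5 → (∀ a ∈ c, 2 ≤ a) →
      (c.sum, c.card % 2, c.lcm) ∈ [(0, 0, 1), (2, 1, 2), (3, 1, 3), (4, 0, 2), (4, 1, 4),
        (5, 0, 6), (5, 1, 5)] := by
    intro c h1 h2
    induction c using Multiset.induction_on with
    | empty => decide
    | cons a s ih =>
      rw [Multiset.sum_cons] at h1
      have h3 := ih (by omega) (fun x hx => h2 x (Multiset.mem_cons_of_mem hx))
      have h4 : ∀ t ∈ [(0, 0, 1), (2, 1, 2), (3, 1, 3), (4, 0, 2), (4, 1, 4),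
        (5, 0, 6), (5, 1, 5)], ∀ a ∈ List.range 6, 2 ≤ a → a + t.1 ≤ 5 →
          (a + t.1, (t.2.1 + 1) % 2, Nat.lcm a t.2.2) ∈ [(0, 0, 1), (2, 1, 2), (3, 1, 3), (4, 0, 2),
            (4, 1, 4), (5, 0, 6), (5, 1, 5)] := by decide +kernel
      have h5 := h4 _ h3 a (List.mem_range.2 (by omega)) (h2 a (Multiset.mem_cons_self _ _)) h1
      rw [Multiset.sum_cons, Multiset.card_cons, Multiset.lcm_cons]
      simp only at h5
      rw [show (s.card % 2 + 1) % 2 = (s.card + 1) % 2 by omega] at h5
      exact h5
  have := key c h1 h2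
  rw [h4] at this
  rw [Nat.even_iff] at h3
  simp only [List.mem_cons, Prod.mk.injEq, List.not_mem_nil, or_false] at this
  omega

theorem five (P : Sylow 2 (alternatingGroup (Fin 5)))
    (hP : IsMulCommutative (P : Subgroup (alternatingGroup (Fin 5)))) :
    ((Subgroup.centralizer ((P : Subgroup (alternatingGroup (Fin 5))) : Set (alternatingGroup (Fin 5)))).subgroupOf (Subgroup.normalizer ((P : Subgroup (alternatingGroup (Fin 5))) : Set (alternatingGroup (Fin 5))))).index = 3 ∧ IsKleinFour (P : Subgroup (alternatingGroup (Fin 5))) := by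
  have hA : Nat.card (alternatingGroup (Fin 5)) = 60 := by
    rw [nat_card_alternatingGroup]; simp [Nat.factorial]
  have hTc : Nat.card (P : Subgroup (alternatingGroup (Fin 5))) = 4 := by
    have := P.card_eq_multiplicity
    rw [hA, show (60 : ℕ) = 2 ^ 2 * 15 by norm_num, Nat.factorization_mul (by norm_num) (by norm_num),
      Nat.prime_two.factorization_pow, Finsupp.add_apply, Finsupp.single_eq_same,
      Nat.factorization_eq_zero_of_not_dvd (by norm_num)] at this
    exact this
  constructor
  · set N := normalizer ((P : Subgroup (alternatingGroup (Fin 5))) : Set (alternatingGroup (Fin 5)))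
      with hN
    set C := centralizer ((P : Subgroup (alternatingGroup (Fin 5))) : Set (alternatingGroup (Fin 5)))
      with hC
    have d1 : (C.subgroupOf N).index ∣ 24 := by
      have key := card_dvd_of_injective _ (QuotientGroup.kerLift_injective
        (P : Subgroup (alternatingGroup (Fin 5))).normalizerMonoidHom)
      rw [normalizerMonoidHom_ker] at key
      have key2 := card_dvd_of_injective (MulAut.toPerm (P : Subgroup (alternatingGroup (Fin 5))))
        (fun a b h => MulEquiv.toEquiv_injective h)
      rw [Nat.card_perm, hTc] at key2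
      exact key.trans key2
    have d2 : (C.subgroupOf N).index ∣ 15 := by
      have a1 : (P : Subgroup (alternatingGroup (Fin 5))) ≤ C := le_centralizer _
      have a2 : C.relIndex N ∣ (P : Subgroup (alternatingGroup (Fin 5))).relIndex N :=
        relIndex_dvd_of_le_left N a1
      have a3 : (P : Subgroup (alternatingGroup (Fin 5))).relIndex N ∣
          (P : Subgroup (alternatingGroup (Fin 5))).index := relIndex_dvd_index_of_le le_normalizer
      have a4 := (P : Subgroup (alternatingGroup (Fin 5))).index_mul_card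
      rw [hTc, hA] at a4
      have a5 : (P : Subgroup (alternatingGroup (Fin 5))).index = 15 := by omega
      rw [a5] at a3
      exact a2.trans a3
    have d3 : (C.subgroupOf N).index ∣ 3 := by simpa using Nat.dvd_gcd d1 d2
    rcases (Nat.dvd_prime Nat.prime_three).1 d3 with h | h
    · exfalso
      rw [index_eq_one, subgroupOf_eq_top] at h
      have h1 := MonoidHom.ker_transferSylow_isComplement' P h
      rcases (MonoidHom.normal_ker (MonoidHom.transferSylow P h)).eq_bot_or_eq_top with h2 | h2
      · have := h1.card_mul_card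
        rw [h2, card_bot, hTc, hA] at this
        omega
      · have := h1.card_mul_card
        rw [h2, card_top, hTc, hA] at this
        omega
    · exact h
  · refine ⟨hTc, ?_⟩
    have : Nontrivial (P : Subgroup (alternatingGroup (Fin 5))) := by
      rw [← Finite.one_lt_card_iff_nontrivial, hTc]; norm_num
    apply (Monoid.exponent_eq_prime_iff Nat.prime_two).2
    intro g hg
    have : Fact (Nat.Prime 2) := ⟨Nat.prime_two⟩
    apply orderOf_eq_prime _ hg
    have h4 : g ^ 4 = 1 := by rw [← hTc]; exact pow_card_eq_one'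
    apply Subtype.ext
    apply Subtype.ext
    exact five_sq _ g.1.2 (congrArg (fun w => (w.1.1 : Perm (Fin 5))) h4)


/-- Let n ≥ 5 and let P be an abelian Sylow p-subgroup of the alternating group A_n. Then N(P)/C(P) (taken in A_n) has even order, or P is cyclic, except when n = 5 and p = 2, where P is a four-group and N(P)/C(P) has order 3. -/
theorem result (n : ℕ) (hn : 5 ≤ n) {p : ℕ} [Fact p.Prime]
    (P : Sylow p (alternatingGroup (Fin n))) (hP : IsMulCommutative (P : Subgroup (alternatingGroup (Fin n)))) :
    (¬ (n = 5 ∧ p = 2) → 2 ∣ ((Subgroup.centralizer ((P : Subgroup (alternatingGroup (Fin n))) : Set (alternatingGroup (Fin n)))).subgroupOf (Subgroup.normalizer ((P : Subgroup (alternatingGroup (Fin n))) : Set (alternatingGroup (Fin n))))).index ∨ IsCyclic (P : Subgroup (alternatingGroup (Fin n)))) ∧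
    ((n = 5 ∧ p = 2) → ((Subgroup.centralizer ((P : Subgroup (alternatingGroup (Fin n))) : Set (alternatingGroup (Fin n)))).subgroupOf (Subgroup.normalizer ((P : Subgroup (alternatingGroup (Fin n))) : Set (alternatingGroup (Fin n))))).index = 3 ∧ IsKleinFour (P : Subgroup (alternatingGroup (Fin n)))) := by
  have hpp : p.Prime := Fact.out
  constructor
  · intro h
    by_cases hp2 : p = 2
    · subst hp2
      exact absurd hP (not_comm_two (by omega) P)
    · by_cases hpn : p + 2 ≤ n
      · left
        obtain ⟨c, hc⟩ := (Equiv.Perm.exists_with_cycleType_iff (α := Fin n) (m := {p})).2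
          ⟨by simp; omega, by simpa using hpp.two_le⟩
        have hodd := hpp.odd_of_ne_two hp2
        have hcs : c ∈ alternatingGroup (Fin n) := by
          rw [mem_alternatingGroup, sign_of_cycleType, hc]
          simp only [Multiset.sum_singleton, Multiset.card_singleton]
          exact hodd.add_one.neg_one_pow
        have hco : orderOf c = p := by rw [← lcm_cycleType, hc]; simp
        obtain ⟨g, hg⟩ := exists_conj_mem_sylow P ⟨c, hcs⟩ 1 (by
          apply Subtype.ext
          simp [← hco])
        have hct : (↑(g * ⟨c, hcs⟩ * g⁻¹) : Perm (Fin n)).cycleType = {p} := by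
          rw [← hc]; exact cycleType_conj
        refine two_dvd_automizer P hP _ hg (inv_ne_self_of_orderOf_eq hpp hp2 ?_) ?_
        · rw [← Subgroup.orderOf_coe, ← lcm_cycleType, hct]; simp
        · apply alternatingGroup.isConj_of
          · rw [isConj_iff_cycleType_eq]
            exact (cycleType_inv _).symm
          · rw [← sum_cycleType, hct]; simpa using hpn
      · right
        have hp3 : 3 ≤ p := by have := hpp.two_le; omega
        have : Nontrivial (Fin n) := Fin.nontrivial_iff_two_le.2 (by omega)
        have h1 := P.card_eq_multiplicity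
        have h2 : (Nat.card (alternatingGroup (Fin n))).factorization p ≤ 1 := by
          have a1 : Nat.card (alternatingGroup (Fin n)) ∣ n.factorial := by
            have := card_subgroup_dvd_card (alternatingGroup (Fin n))
            rwa [Nat.card_perm, Nat.card_fin] at this
          have a2 := (Nat.factorization_le_iff_dvd Nat.card_pos.ne' (Nat.factorial_ne_zero n)).2 a1 p
          have hlog : Nat.log p n < 2 := by
            apply Nat.log_lt_of_lt_pow (by omega)
            nlinarith
          rw [Nat.factorization_factorial hpp hlog] at a2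
          simp only [Nat.Ico_succ_singleton, Finset.sum_singleton, pow_one] at a2
          have : n / p < 2 := (Nat.div_lt_iff_lt_mul hpp.pos).2 (by omega)
          omega
        apply isCyclic_of_card_dvd_prime (p := p)
        change Nat.card P ∣ p
        rw [h1]
        exact (pow_dvd_pow p h2).trans (by simp)
  · rintro ⟨rfl, rfl⟩
    exact five P hP

end Cfsg.Agent.S2269
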