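import Cfsg.Statements.S2270
import Cfsg.Agent.SymAlt.Automizer

set_option autoImplicit false
open Cfsg

namespace Cfsg.Agent.S2270


/-- Let n ≥ 3, p an odd prime, and P an abelian Sylow p-subgroup of the symmetric group S_n (with p dividing n!, so that P ≠ 1). Then N(P)/C(P) has even order. -/
theorem result (n : ℕ) (hn : 3 ≤ n) {p : ℕ} [Fact p.Prime] (hp : p ≠ 2) (hpn : p ≤ n)
    (P : Sylow p (Equiv.Perm (Fin n))) (hP : IsMulCommutative (P : Subgroup (Equiv.Perm (Fin n)))) :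
    2 ∣ ((Subgroup.centralizer ((P : Subgroup (Equiv.Perm (Fin n))) : Set (Equiv.Perm (Fin n)))).subgroupOf (Subgroup.normalizer ((P : Subgroup (Equiv.Perm (Fin n))) : Set (Equiv.Perm (Fin n))))).index := by
  have hpp : p.Prime := Fact.out
  have h1 : p ∣ Nat.card (Equiv.Perm (Fin n)) := by
    rw [Nat.card_perm, Nat.card_fin]
    exact Nat.dvd_factorial hpp.pos hpn
  obtain ⟨⟨x, hx⟩, hx'⟩ := exists_prime_orderOf_dvd_card' p (P.dvd_card_of_dvd_card h1)
  rw [Subgroup.orderOf_mk] at hx'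
  refine SymAlt.two_dvd_automizer P hP x hx (SymAlt.inv_ne_self_of_orderOf_eq hpp hp hx') ?_
  rw [Equiv.Perm.isConj_iff_cycleType_eq, Equiv.Perm.cycleType_inv]

end Cfsg.Agent.S2270
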