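import Cfsg.Statements.S2281
import Cfsg.Agent.Forms.RegSp

set_option autoImplicit false
open Cfsg

namespace Cfsg.Agent.S2281

/-- Let F be a finite field and n ≥ 2, excluding the case n = 2 with F of two elements (where the group is not quasisimple). Then the symplectic group Sp_2n(F) is generated by three conjugate regular unipotent elements: there are u ∈ Sp_2n(F) with u − 1 nilpotent and (u − 1)^(2n−1) ≠ 0, and g, h ∈ Sp_2n(F), such that u, g u g⁻¹ and h u h⁻¹ generate Sp_2n(F). -/
theorem result {F : Type*} [Field F] [Fintype F] (n : ℕ) (hn : 2 ≤ n) (h22 : ¬ (n = 2 ∧ Fintype.card F = 2)) :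
    ∃ u g h : Matrix.symplecticGroup (Fin n) F,
      IsNilpotent ((u : Matrix (Fin n ⊕ Fin n) (Fin n ⊕ Fin n) F) - 1) ∧
      ((u : Matrix (Fin n ⊕ Fin n) (Fin n ⊕ Fin n) F) - 1) ^ (2 * n - 1) ≠ 0 ∧
      Subgroup.closure ({u, g * u * g⁻¹, h * u * h⁻¹} : Set (Matrix.symplecticGroup (Fin n) F)) = ⊤ := by
  have : Nonempty (Fin n) := ⟨⟨0, by omega⟩⟩
  obtain ⟨u, g, h, h1, h2⟩ := (Forms.RegCl.sp_gen3 (Polar.spStd_nd (F := F) n)
    (by rw [Polar.finrank_spStd]; omega) (fun h4 => by
      rw [Polar.finrank_spStd] at h4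
      classical
      by_contra! hh
      have h3 : (Finset.univ : Finset F) ⊆ {0, 1} := fun w _ => by
        by_cases h0 : w = 0 <;> simp [h0, hh]
      have h5 := (Finset.card_le_card h3).trans Finset.card_le_two
      have h6 := Fintype.one_lt_card (α := F)
      rw [Finset.card_univ] at h5
      exact h22 ⟨by omega, by omega⟩)).out (Polar.spEquivEG n) (fun g => g.1)
    fun g x => Polar.spEquiv_smul g x
  refine ⟨u, g, h, h1.1, ?_, h2⟩
  simpa [two_mul] using h1.2

end Cfsg.Agent.S2281
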