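import Cfsg.Statements.S2284
import Cfsg.Agent.SymAlt.PresFinal

set_option autoImplicit false
open Cfsg

namespace Cfsg.Agent.S2284

open Subgroup Equiv Equiv.Perm SymAlt
open FreeGroup (of lift_apply_of)

theorem fin {H : Type*} [Group H] {f : Fin 2 → H} {r : ℕ} (h1 : HasRels f r) (hr : r ≤ 8)
    (h2 : closure (Set.range f) = ⊤) : ∃ rels : Finset (FreeGroup (Fin 2)), rels.card ≤ 8 ∧
      Nonempty (PresentedGroup (↑rels : Set (FreeGroup (Fin 2))) ≃* H) := by
  obtain ⟨r1, a1, e1, -⟩ := (h1.mono hr).exists_equiv h2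
  exact ⟨r1, a1, ⟨e1⟩⟩

theorem triv (H : Type*) [Group H] [Subsingleton H] :
    ∃ rels : Finset (FreeGroup (Fin 2)), rels.card ≤ 8 ∧
      Nonempty (PresentedGroup (↑rels : Set (FreeGroup (Fin 2))) ≃* H) := by
  refine fin (f := fun _ => 1) (hasRels_of_injective _ [of 0, of 1]
    (fun _ _ => Subsingleton.elim _ _) ?_) (by simp) (Subsingleton.elim _ _)
  intro π _ g _
  refine mem_bot.1 (PresentedGroup.generated_by _ ⊥ ?_ g)
  intro j
  fin_cases j
  · exact PresentedGroup.one_of_mem (x := of 0) (by simp)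
  · exact PresentedGroup.one_of_mem (x := of 1) (by simp)

theorem sym2 : ∃ rels : Finset (FreeGroup (Fin 2)), rels.card ≤ 8 ∧
    Nonempty (PresentedGroup (↑rels : Set (FreeGroup (Fin 2))) ≃* Perm (Fin 2)) := by
  let rels : List (FreeGroup (Fin 2)) := [of 0 * of 0, of 1]
  refine fin (f := ![swap 0 1, 1]) (hasRels_of_injective _ rels ?_ ?_) (by decide) ?_
  · intro w hw
    simp only [rels, List.mem_cons, List.not_mem_nil, or_false] at hw
    rcases hw with rfl | rfl <;> simp only [map_mul, lift_apply_of] <;> decide +kernel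
  · intro π hπ g hg
    have r1 := PresentedGroup.one_of_mem (rels := {w | w ∈ rels})
      (List.getElem_mem (l := rels) (n := 0) (by decide))
    have r2 := PresentedGroup.one_of_mem (rels := {w | w ∈ rels})
      (List.getElem_mem (l := rels) (n := 1) (by decide))
    refine inj_of_index_two π ⊥ (PresentedGroup.of 0) r1 (by simp)
      ((congrArg sign (hπ 0)).trans (by decide)) (by simp) (by simp) _
      (PresentedGroup.closure_range_of _) ?_ g hg
    rintro _ ⟨j, rfl⟩
    fin_cases j
    · exact Or.inr r1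
    · exact Or.inl r2
  · refine eq_top_of_alt_le_of_odd ?_ (subset_closure ⟨0, rfl⟩) (by decide)
    rw [alternatingGroup.eq_bot_of_card_le_two (by simp)]
    exact bot_le

theorem three {G : Type*} [Group G] (π : G →* Perm (Fin 3)) (z : G) (R1 : z ^ 3 = 1)
    (hz : π z = c3 1 2 0) : (∀ g ∈ zpowers z, π g = 1 → g = 1) ∧
      (∀ g ∈ zpowers z, sign (π g) = 1) := by
  have e : zpowers z = closure ((fun _ => z) '' ({0} : Set (Fin 3))) := by
    rw [Set.image_singleton, zpowers_eq_closure]
  have hπ : ∀ i ∈ ({0} : Set (Fin 3)), π z = c3 1 2 i := by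
    rintro i rfl; exact hz
  rw [e]
  exact ⟨fun g hg h1 => carmichael π (by decide) _ _ (Set.toFinite _) (by decide) (by decide) hπ
    (fun _ _ => R1) (by rintro i rfl j rfl h; exact absurd rfl h) hg h1,
    fun g hg => carm_sign π (by decide) _ _ (by decide) hπ hg⟩

theorem gen3 (H : Subgroup (Perm (Fin 3))) (h : c3 1 2 0 ∈ H) : alternatingGroup (Fin 3) ≤ H := by
  intro σ hσ
  refine mem_of_c3_mem _ (u := 1) (v := 2) (by decide) Set.univ (fun i _ h1 h2 => ?_) σ hσ
    (fun _ _ _ h => absurd trivial h)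
  fin_cases i
  · exact h
  · exact absurd rfl h1
  · exact absurd rfl h2

theorem sym3 : ∃ rels : Finset (FreeGroup (Fin 2)), rels.card ≤ 8 ∧
    Nonempty (PresentedGroup (↑rels : Set (FreeGroup (Fin 2))) ≃* Perm (Fin 3)) := by
  let rels : List (FreeGroup (Fin 2)) :=
    [of 0 ^ 3 * 1⁻¹, of 1 * of 1 * 1⁻¹, of 1 * of 0 * (of 1)⁻¹ * ((of 0)⁻¹)⁻¹]
  refine fin (f := ![c3 1 2 0, swap 1 2]) (hasRels_of_injective _ rels ?_ ?_) (by decide) ?_
  · intro w hw
    simp only [rels, List.mem_cons, List.not_mem_nil, or_false] at hw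
    rcases hw with rfl | rfl | rfl <;>
      simp only [map_mul, map_inv, map_pow, map_one, lift_apply_of] <;> decide +kernel
  · intro π hπ g hg
    have hrel : ∀ l r : FreeGroup (Fin 2), l * r⁻¹ ∈ rels →
        PresentedGroup.mk {w | w ∈ rels} l = PresentedGroup.mk {w | w ∈ rels} r :=
      fun l r h => PresentedGroup.mk_eq_mk_of_mul_inv_mem h
    have r1 := hrel _ _ (List.getElem_mem (l := rels) (n := 0) (by decide))
    have r2 := hrel _ _ (List.getElem_mem (l := rels) (n := 1) (by decide))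
    have r3 := hrel _ _ (List.getElem_mem (l := rels) (n := 2) (by decide))
    simp only [map_mul, map_inv, map_pow, map_one] at r1 r2 r3
    obtain ⟨n1, n2⟩ := three π _ r1 (hπ 0)
    refine inj_of_index_two π _ (PresentedGroup.mk _ (of 1)) (r2 ▸ one_mem _) ?_
      ((congrArg sign (hπ 1)).trans (by decide)) n2 n1 _
      (PresentedGroup.closure_range_of _) ?_ g hg
    · rintro _ ⟨k, rfl⟩
      rw [← conj_zpow, r3]
      exact zpow_mem (inv_mem (mem_zpowers _)) k
    · rintro _ ⟨j, rfl⟩
      fin_cases j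
      · exact Or.inl (mem_zpowers _)
      · exact Or.inr ((congrArg (· ∈ _) r2).mpr (one_mem _))
  · exact eq_top_of_alt_le_of_odd (gen3 _ (subset_closure ⟨0, rfl⟩)) (subset_closure ⟨1, rfl⟩)
      (by decide)

theorem alt3 : ∃ rels : Finset (FreeGroup (Fin 2)), rels.card ≤ 8 ∧
    Nonempty (PresentedGroup (↑rels : Set (FreeGroup (Fin 2))) ≃* alternatingGroup (Fin 3)) := by
  let rels : List (FreeGroup (Fin 2)) := [of 0 ^ 3 * 1⁻¹, of 1 * (of 0)⁻¹]
  refine fin (f := fun _ => ⟨c3 1 2 0, mem_alternatingGroup.2 (by decide)⟩)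
    (HasRels.of_comp (alternatingGroup (Fin 3)).subtype (subtype_injective _)
    (hasRels_of_injective _ rels ?_ ?_)) (by decide) ?_
  · intro w hw
    simp only [rels, List.mem_cons, List.not_mem_nil, or_false] at hw
    rcases hw with rfl | rfl <;>
      simp only [map_mul, map_inv, map_pow, map_one, lift_apply_of] <;> decide +kernel
  · intro π hπ g hg
    have hrel : ∀ l r : FreeGroup (Fin 2), l * r⁻¹ ∈ rels →
        PresentedGroup.mk {w | w ∈ rels} l = PresentedGroup.mk {w | w ∈ rels} r :=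
      fun l r h => PresentedGroup.mk_eq_mk_of_mul_inv_mem h
    have r1 := hrel _ _ (List.getElem_mem (l := rels) (n := 0) (by decide))
    have r2 := hrel _ _ (List.getElem_mem (l := rels) (n := 1) (by decide))
    simp only [map_pow, map_one] at r1 r2
    obtain ⟨n1, n2⟩ := three π _ r1 (hπ 0)
    refine n1 g (PresentedGroup.generated_by _ _ ?_ g) hg
    intro j
    fin_cases j
    · exact mem_zpowers _
    · exact (congrArg (· ∈ _) r2).mpr (mem_zpowers _)
  · exact closure_range_alt_eq_top _ (gen3 _ (subset_closure ⟨0, rfl⟩))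

theorem four {G : Type*} [Group G] (π : G →* Perm (Fin 4)) (z w : G) (R1 : z ^ 3 = 1)
    (R2 : w ^ 3 = 1) (R3 : (z * w) ^ 2 = 1) (hz : π z = c3 2 3 0) (hw : π w = c3 2 3 1) :
    (∀ g ∈ closure {z, w}, π g = 1 → g = 1) ∧ (∀ g ∈ closure {z, w}, sign (π g) = 1) := by
  have e : ({z, w} : Set G) = (![z, w, 1, 1] : Fin 4 → G) '' ({0, 1} : Set (Fin 4)) := by
    rw [Set.image_pair]; rfl
  have hπ : ∀ i ∈ ({0, 1} : Set (Fin 4)), π ((![z, w, 1, 1] : Fin 4 → G) i) = c3 2 3 i := by
    rintro i (rfl | rfl)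
    · exact hz
    · exact hw
  rw [e]
  refine ⟨fun g hg h1 => carmichael π (by decide) _ _ (Set.toFinite _) (by decide) (by decide) hπ
    ?_ ?_ hg h1, fun g hg => carm_sign π (by decide) _ _ (by decide) hπ hg⟩
  · rintro i (rfl | rfl)
    · exact R1
    · exact R2
  · rintro i (rfl | rfl) j (rfl | rfl) h
    · exact absurd rfl h
    · exact R3
    · exact sq_comm R3
    · exact absurd rfl h

theorem gen4 (H : Subgroup (Perm (Fin 4))) (h : c3 2 3 0 ∈ H) (h' : c3 2 3 1 ∈ H) :
    alternatingGroup (Fin 4) ≤ H := by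
  intro σ hσ
  refine mem_of_c3_mem _ (u := 2) (v := 3) (by decide) Set.univ (fun i _ h1 h2 => ?_) σ hσ
    (fun _ _ _ h => absurd trivial h)
  fin_cases i
  · exact h
  · exact h'
  · exact absurd rfl h1
  · exact absurd rfl h2

theorem sym4 : ∃ rels : Finset (FreeGroup (Fin 2)), rels.card ≤ 8 ∧
    Nonempty (PresentedGroup (↑rels : Set (FreeGroup (Fin 2))) ≃* Perm (Fin 4)) := by
  let rels : List (FreeGroup (Fin 2)) :=
    [of 0 ^ 3 * 1⁻¹, of 1 * of 1 * 1⁻¹, (of 0 * (of 1 * of 0 * (of 1)⁻¹)) ^ 2 * 1⁻¹]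
  refine fin (f := ![c3 2 3 0, swap 0 1]) (hasRels_of_injective _ rels ?_ ?_) (by decide) ?_
  · intro w hw
    simp only [rels, List.mem_cons, List.not_mem_nil, or_false] at hw
    rcases hw with rfl | rfl | rfl <;>
      simp only [map_mul, map_inv, map_pow, map_one, lift_apply_of] <;> decide +kernel
  · intro π hπ g hg
    have hrel : ∀ l r : FreeGroup (Fin 2), l * r⁻¹ ∈ rels →
        PresentedGroup.mk {w | w ∈ rels} l = PresentedGroup.mk {w | w ∈ rels} r :=
      fun l r h => PresentedGroup.mk_eq_mk_of_mul_inv_mem h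
    have r1 := hrel _ _ (List.getElem_mem (l := rels) (n := 0) (by decide))
    have r2 := hrel _ _ (List.getElem_mem (l := rels) (n := 1) (by decide))
    have r3 := hrel _ _ (List.getElem_mem (l := rels) (n := 2) (by decide))
    simp only [map_mul, map_inv, map_pow, map_one] at r1 r2 r3
    have p0 : π (PresentedGroup.mk _ (of 0)) = c3 2 3 0 := hπ 0
    have p1 : π (PresentedGroup.mk _ (of 1)) = swap 0 1 := hπ 1
    obtain ⟨n1, n2⟩ := four π _ _ r1 (by rw [conj_pow, r1]; group) r3 p0 (by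
      simp only [map_mul, map_inv, p0, p1]; decide)
    refine inj_of_index_two π _ (PresentedGroup.mk _ (of 1)) (r2 ▸ one_mem _) ?_
      ((congrArg sign (hπ 1)).trans (by decide)) n2 n1 _
      (PresentedGroup.closure_range_of _) ?_ g hg
    · intro g hg
      refine conj_mem_closure _ ?_ hg
      rintro _ (rfl | rfl)
      · exact subset_closure (Or.inr rfl)
      · refine subset_closure (Or.inl ?_)
        rw [← mul_assoc, ← mul_assoc, r2, one_mul, mul_assoc, ← mul_inv_rev, r2, inv_one, mul_one]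
    · rintro _ ⟨j, rfl⟩
      fin_cases j
      · exact Or.inl (subset_closure (Or.inl rfl))
      · exact Or.inr ((congrArg (· ∈ _) r2).mpr (one_mem _))
  · have m0 : c3 2 3 0 ∈ closure (Set.range (![c3 2 3 0, swap 0 1] : Fin 2 → Perm (Fin 4))) :=
      subset_closure ⟨0, rfl⟩
    have m1 : swap 0 1 ∈ closure (Set.range (![c3 2 3 0, swap 0 1] : Fin 2 → Perm (Fin 4))) :=
      subset_closure ⟨1, rfl⟩
    refine eq_top_of_alt_le_of_odd (gen4 _ m0 ?_) m1 (by decide)
    convert mul_mem (mul_mem m1 m0) (inv_mem m1) using 1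
    decide

theorem alt4 : ∃ rels : Finset (FreeGroup (Fin 2)), rels.card ≤ 8 ∧
    Nonempty (PresentedGroup (↑rels : Set (FreeGroup (Fin 2))) ≃* alternatingGroup (Fin 4)) := by
  let rels : List (FreeGroup (Fin 2)) :=
    [of 0 ^ 3 * 1⁻¹, of 1 ^ 3 * 1⁻¹, (of 0 * of 1) ^ 2 * 1⁻¹]
  refine fin (f := ![⟨c3 2 3 0, mem_alternatingGroup.2 (by decide)⟩, ⟨c3 2 3 1, mem_alternatingGroup.2 (by decide)⟩])
    (HasRels.of_comp (alternatingGroup (Fin 4)).subtype (subtype_injective _)
    (hasRels_of_injective _ rels ?_ ?_)) (by decide) ?_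
  · intro w hw
    simp only [rels, List.mem_cons, List.not_mem_nil, or_false] at hw
    rcases hw with rfl | rfl | rfl <;>
      simp only [map_mul, map_inv, map_pow, map_one, lift_apply_of] <;> decide +kernel
  · intro π hπ g hg
    have hrel : ∀ l r : FreeGroup (Fin 2), l * r⁻¹ ∈ rels →
        PresentedGroup.mk {w | w ∈ rels} l = PresentedGroup.mk {w | w ∈ rels} r :=
      fun l r h => PresentedGroup.mk_eq_mk_of_mul_inv_mem h
    have r1 := hrel _ _ (List.getElem_mem (l := rels) (n := 0) (by decide))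
    have r2 := hrel _ _ (List.getElem_mem (l := rels) (n := 1) (by decide))
    have r3 := hrel _ _ (List.getElem_mem (l := rels) (n := 2) (by decide))
    simp only [map_mul, map_pow, map_one] at r1 r2 r3
    obtain ⟨n1, n2⟩ := four π _ _ r1 r2 r3 (hπ 0) (hπ 1)
    refine n1 g (PresentedGroup.generated_by _ _ ?_ g) hg
    intro j
    fin_cases j
    · exact subset_closure (Or.inl rfl)
    · exact subset_closure (Or.inr rfl)
  · exact closure_range_alt_eq_top _ (gen4 _ (subset_closure ⟨0, rfl⟩) (subset_closure ⟨1, rfl⟩))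


/-- For every n, the symmetric group S_n and the alternating group A_n each have a presentation with 2 generators and at most 8 relations. -/
theorem result (n : ℕ) : (∃ rels : Finset (FreeGroup (Fin 2)), rels.card ≤ 8 ∧ Nonempty (PresentedGroup (↑rels : Set (FreeGroup (Fin 2))) ≃* Equiv.Perm (Fin n))) ∧ (∃ rels : Finset (FreeGroup (Fin 2)), rels.card ≤ 8 ∧ Nonempty (PresentedGroup (↑rels : Set (FreeGroup (Fin 2))) ≃* ↥(alternatingGroup (Fin n)))) := by
  rcases lt_or_ge n 5 with hn | hn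
  · have hA : n ≤ 2 → Subsingleton (alternatingGroup (Fin n)) := by
      intro h
      rw [alternatingGroup.eq_bot_of_card_le_two (by simpa using h)]
      infer_instance
    interval_cases n
    · exact ⟨triv _, triv _⟩
    · exact ⟨triv _, triv _⟩
    · have := hA le_rfl
      exact ⟨sym2, triv _⟩
    · exact ⟨sym3, alt3⟩
    · exact ⟨sym4, alt4⟩
  · obtain ⟨f, h1, h2, i, g, h5⟩ := sym_three n hn
    obtain ⟨f', h3, h4, i', g', h6⟩ := alt_three n hn
    exact ⟨fin (h1.tietze_shared (g := ![f i, g]) (h2.trans h5.symm) i 0 rfl) (by simp) h5,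
      fin (h3.tietze_shared (g := ![f' i', g']) (h4.trans h6.symm) i' 0 rfl) (by simp) h6⟩

end Cfsg.Agent.S2284
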