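import Cfsg.Statements.S2286
import Cfsg.Agent.SL2.Pres2

set_option autoImplicit false
open Cfsg

namespace Cfsg.Agent.S2286

open Cfsg.Agent.SL2 Cfsg.Agent.SL2Pres

/-- For every finite field F, SL_2(F) and PSL_2(F) have presentations with 3 generators and at most 9 relations; when F has characteristic 2, PSL_2(F) has a presentation with 3 generators and at most 5 relations. -/
theorem result {F : Type*} [Field F] [Fintype F] :
    (∃ rels : Finset (FreeGroup (Fin 3)), rels.card ≤ 9 ∧ Nonempty (PresentedGroup (↑rels : Set (FreeGroup (Fin 3))) ≃* Matrix.SpecialLinearGroup (Fin 2) F)) ∧ (∃ rels : Finset (FreeGroup (Fin 3)), rels.card ≤ 9 ∧ Nonempty (PresentedGroup (↑rels : Set (FreeGroup (Fin 3))) ≃* Matrix.ProjectiveSpecialLinearGroup (Fin 2) F)) ∧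
    (CharP F 2 → ∃ rels : Finset (FreeGroup (Fin 3)), rels.card ≤ 5 ∧ Nonempty (PresentedGroup (↑rels : Set (FreeGroup (Fin 3))) ≃* Matrix.ProjectiveSpecialLinearGroup (Fin 2) F)) := by
  by_cases h2 : (2 : F) = 0
  · obtain ⟨r1, a1, b1⟩ := main_even h2 (MonoidHom.id (SLT F)) Function.bijective_id
    obtain ⟨r2, a2, b2⟩ := main_even h2 pr ⟨pr_injective h2, pr_surjective⟩
    exact ⟨⟨r1, by omega, b1⟩, ⟨r2, by omega, b2⟩, fun _ => ⟨r2, a2, b2⟩⟩
  · exact ⟨(main_odd h2).1, (main_odd h2).2,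
      fun _ => absurd (by exact_mod_cast CharP.cast_eq_zero F 2) h2⟩

end Cfsg.Agent.S2286
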