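import Cfsg.Statements.S2288
import Cfsg.Agent.Pres.TypeA4

set_option autoImplicit false
open Cfsg

namespace Cfsg.Agent.S2288

/-- For every finite field F and n ≥ 4: SL_n(F) has a presentation with 7 generators and at most 25 relations, and PSL_n(F) one with 7 generators and at most 26 relations; moreover SL_4(F) has one with 6 generators and at most 21 relations and SL_5(F) one with 6 generators and at most 22 relations. -/
theorem result {F : Type*} [Field F] [Fintype F] (n : ℕ) (hn : 4 ≤ n) :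
    (∃ rels : Finset (FreeGroup (Fin 7)), rels.card ≤ 25 ∧ Nonempty (PresentedGroup (↑rels : Set (FreeGroup (Fin 7))) ≃* Matrix.SpecialLinearGroup (Fin n) F)) ∧ (∃ rels : Finset (FreeGroup (Fin 7)), rels.card ≤ 26 ∧ Nonempty (PresentedGroup (↑rels : Set (FreeGroup (Fin 7))) ≃* Matrix.ProjectiveSpecialLinearGroup (Fin n) F)) ∧
    (∃ rels : Finset (FreeGroup (Fin 6)), rels.card ≤ 21 ∧ Nonempty (PresentedGroup (↑rels : Set (FreeGroup (Fin 6))) ≃* Matrix.SpecialLinearGroup (Fin 4) F)) ∧ (∃ rels : Finset (FreeGroup (Fin 6)), rels.card ≤ 22 ∧ Nonempty (PresentedGroup (↑rels : Set (FreeGroup (Fin 6))) ≃* Matrix.SpecialLinearGroup (Fin 5) F)) := by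
  obtain ⟨f, h1, h2⟩ := Pres.sl_seven (K := F) (n := n) (by omega)
  refine ⟨Pres.hasRels_out h1 h2, Pres.hasRels_out
    (Pres.hasRels_center h1 h2 (Pres.isCyclic_center_sl n))
    (Pres.closure_range_comp h2 _ (QuotientGroup.mk'_surjective _)), ?_, ?_⟩
  · obtain ⟨f, h1, h2⟩ := Pres.sl_four (K := F)
    obtain ⟨g, k1, k2⟩ := Pres.hasRels_fin h1 h2 (d := 6) (s := 21) (by simp) (by simp)
    exact Pres.hasRels_out k1 k2
  · obtain ⟨f, h1, h2⟩ := Pres.sl_big (K := F) (m := 4) le_rfl
    obtain ⟨g, k1, k2⟩ := Pres.hasRels_fin h1 h2 (d := 6) (s := 22) (by simp) (by simp)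
    exact Pres.hasRels_out k1 k2

end Cfsg.Agent.S2288
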