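import Cfsg.Statements.S2402
import Cfsg.Agent.GLn.Transv

set_option autoImplicit false
open Cfsg

namespace Cfsg.Agent.S2402

open Cfsg.Agent.GLn

/-- Explicit two-element generation of `PSL_{n+1}(K)` for a finite field `K` with more than three elements: let `k` generate the multiplicative group of `K`, `h = diag(k, k⁻¹, 1, …, 1)`, `x = 1 + E₁₂` (the elementary transvection) and `w` the monomial matrix with entries `1` in positions `(i, i+1)` and `(−1)^n` in position `(n+1, 1)`. Then `h` and `x·w` generate `SL_{n+1}(K)` modulo its centre: the subgroup they generate together with the centre is everything. -/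
theorem result {K : Type*} [Field K] [Fintype K] (hK : 3 < Fintype.card K) (n : ℕ) (hn : 1 ≤ n)
    (k : Kˣ) (hk : ∀ u : Kˣ, u ∈ Subgroup.zpowers k)
    (h x w : Matrix.SpecialLinearGroup (Fin (n + 1)) K)
    (hh : (h : Matrix (Fin (n + 1)) (Fin (n + 1)) K) =
      Matrix.diagonal (fun i => if i.val = 0 then (k : K) else if i.val = 1 then ((k⁻¹ : Kˣ) : K) else 1))
    (hx : (x : Matrix (Fin (n + 1)) (Fin (n + 1)) K) = Matrix.transvection (0 : Fin (n + 1)) (1 : Fin (n + 1)) 1)
    (hw : (w : Matrix (Fin (n + 1)) (Fin (n + 1)) K) =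
      Matrix.of (fun i j => if j.val = i.val + 1 then 1 else if i.val = n ∧ j.val = 0 then (-1) ^ n else 0)) :
    Subgroup.closure ({h, x * w} : Set (Matrix.SpecialLinearGroup (Fin (n + 1)) K)) ⊔
      Subgroup.center (Matrix.SpecialLinearGroup (Fin (n + 1)) K) = ⊤ := by
  have h01 : (0 : Fin (n + 1)) ≠ 1 := by
    intro h; have := congrArg Fin.val h; simp at this; omega
  have hv1 : (1 : Fin (n + 1)).val = 1 := by
    rw [Fin.val_one', Nat.mod_eq_of_lt (by omega)]
  have hx' : x = Matrix.SpecialLinearGroup.transvection h01 1 := Subtype.ext hx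
  set H := Subgroup.closure ({h, x * w} : Set _) ⊔ Subgroup.center
    (Matrix.SpecialLinearGroup (Fin (n + 1)) K)
  have hH : h ∈ H := Subgroup.mem_sup_left (Subgroup.subset_closure (by simp))
  have hy : x * w ∈ H := Subgroup.mem_sup_left (Subgroup.subset_closure (by simp))
  have hk2 : (k : K) ^ 2 ≠ 1 := by
    intro e
    have e1 : orderOf k ∣ 2 := orderOf_dvd_of_pow_eq_one (Units.ext (by simpa using e))
    rw [orderOf_eq_card_of_forall_mem_zpowers hk, Nat.card_units, Nat.card_eq_fintype_card] at e1
    have := Nat.le_of_dvd two_pos e1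
    omega
  have hk1 : (k : K) ≠ 1 := fun e => hk2 (by rw [e, one_pow])
  have hk0 : (k : K) ≠ 0 := k.ne_zero
  set d : Fin (n + 1) → K :=
    fun i => if i.val = 0 then (k : K) else if i.val = 1 then ((k⁻¹ : Kˣ) : K) else 1 with hd
  have hconj : ∀ a : K, h * Matrix.SpecialLinearGroup.transvection h01 a * h⁻¹ =
      Matrix.SpecialLinearGroup.transvection h01 (a * k ^ 2) := fun a => by
    have := diagonal_conj_tv d hh h01 (a * k)
    simp only [hd, hv1, Fin.val_zero, if_true, one_ne_zero, if_false] at this
    rw [Units.mul_inv_cancel_right] at this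
    rw [this, mul_inv_cancel_right]; congr 1; ring
  have hw' : w.1 = Matrix.of fun i j => if j = Equiv.addRight (1 : Fin (n + 1)) i then
      (if i.val = n then (-1) ^ n else 1) else 0 := by
    rw [hw]
    ext i j
    simp only [Matrix.of_apply, Equiv.coe_addRight, Fin.ext_iff, Fin.val_add_one, Fin.val_last]
    have := j.2
    split_ifs <;> first | rfl | omega
  have hh1 : (w * h * w⁻¹).1 = Matrix.diagonal fun i => d (i + 1) := by
    have : w.1 * h.1 = (Matrix.diagonal fun i => d (i + 1)) * w.1 := by
      rw [hh, hw']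
      ext i j
      simp only [Matrix.mul_diagonal, Matrix.diagonal_mul, Matrix.of_apply, Equiv.coe_addRight]
      by_cases e : j = i + 1
      · simp [e, mul_comm]
      · simp [e]
    rw [Matrix.SpecialLinearGroup.coe_mul, Matrix.SpecialLinearGroup.coe_mul, this, mul_assoc,
      ← Matrix.SpecialLinearGroup.coe_mul, mul_inv_cancel, Matrix.SpecialLinearGroup.coe_one,
      mul_one]
  have hcomm : Commute h (w * h * w⁻¹) := Subtype.ext (by
    rw [Matrix.SpecialLinearGroup.coe_mul, Matrix.SpecialLinearGroup.coe_mul (w * h * w⁻¹), hh1, hh,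
      Matrix.diagonal_mul_diagonal, Matrix.diagonal_mul_diagonal]
    simp only [mul_comm])
  obtain ⟨c, hc0, hc⟩ : ∃ c : K, c ≠ 0 ∧ x * (w * h * w⁻¹) * x⁻¹ =
      Matrix.SpecialLinearGroup.transvection h01 c * (w * h * w⁻¹) := by
    have hd2 : d (1 + 1) ≠ 0 := by simp only [hd]; split_ifs <;> simp
    have := diagonal_conj_tv _ hh1 h01 (-1 / d (1 + 1))
    rw [div_mul_cancel₀ _ hd2] at this
    refine ⟨1 + d (0 + 1) * (-1 / d (1 + 1)), ?_, ?_⟩
    · have e1 : d (0 + 1) = (k : K)⁻¹ := by
        simp only [hd, zero_add, hv1]; simp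
      rw [e1]
      intro e
      field_simp at e
      by_cases h1 : n = 1
      · subst h1
        have : d (1 + 1) = k := by simp [hd]
        rw [this] at e
        exact hk2 (by linear_combination e)
      · have : d (1 + 1) = 1 := by
          have : (1 + 1 : Fin (n + 1)).val = 2 := by
            rw [Fin.val_add, hv1, Nat.mod_eq_of_lt (by omega)]
          simp only [hd, this]; simp
        rw [this] at e
        exact hk1 (by linear_combination e)
    · rw [hx', Matrix.SpecialLinearGroup.transvection_inv, mul_assoc, this, ← mul_assoc,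
        ← Matrix.SpecialLinearGroup.transvection_add]
  have h1 : c * (k ^ 2 - 1) ∈ rootCoeffs H h01 := by
    have e1 : x * (w * h * w⁻¹) * x⁻¹ ∈ H := by
      have := H.mul_mem (H.mul_mem hy hH) (H.inv_mem hy)
      convert this using 1; group
    have e2 := H.mul_mem (H.mul_mem (H.mul_mem hH e1) (H.inv_mem hH)) (H.inv_mem e1)
    rw [hc] at e2
    rw [mem_rootCoeffs, mul_sub, mul_one, sub_eq_add_neg, Matrix.SpecialLinearGroup.transvection_add,
      ← hconj, ← Matrix.SpecialLinearGroup.transvection_inv]
    convert e2 using 1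
    set t := Matrix.SpecialLinearGroup.transvection h01 c
    set u := w * h * w⁻¹
    have : u * h⁻¹ * u⁻¹ = h⁻¹ := by rw [← hcomm.inv_left.eq]; group
    calc _ = h * t * (u * h⁻¹ * u⁻¹) * t⁻¹ := by rw [this]
      _ = _ := by group
  have h2 : ∀ m : ℕ, c * (k ^ 2 - 1) * (k ^ m) ^ 2 ∈ rootCoeffs H h01 := fun m => by
    induction m with
    | zero => simpa using h1
    | succ m ih =>
      rw [mem_rootCoeffs, pow_succ _ m, mul_pow, ← mul_assoc, ← hconj]
      exact H.mul_mem (H.mul_mem hH ih) (H.inv_mem hH)
  have h3 : RootIn H 0 1 := fun _ a => by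
    refine addSubgroup_eq_top_of_sq (A := rootCoeffs H h01)
      (mul_ne_zero hc0 (sub_ne_zero.mpr hk2)) (fun t => ?_) a
    by_cases ht : t = 0
    · simp [ht]
    · obtain ⟨m, hm⟩ := (mem_powers_iff_mem_zpowers.mpr (hk (Units.mk0 t ht)))
      have := h2 m
      rwa [show (k : K) ^ m = t by simpa using congrArg Units.val hm] at this
  refine eq_top_of_cyclic_monomial hn ?_ hw h3
  have := H.mul_mem (H.inv_mem (hx' ▸ h3 h01 1 : x ∈ H)) hy
  simpa using this

end Cfsg.Agent.S2402
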