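import Cfsg.Statements.S2403
import Cfsg.Agent.GLn.Transv

set_option autoImplicit false
open Cfsg

namespace Cfsg.Agent.S2403

open Cfsg.Agent.GLn

/-- Explicit two-element generation of `PSL_{n+1}(K)` over the fields with two or three elements: with `x = 1 + E₁₂` and `w` the monomial matrix with entries `1` in positions `(i, i+1)` and `(−1)^n` in position `(n+1, 1)`, the elements `x` and `w` generate `SL_{n+1}(K)` modulo its centre. -/
theorem result {K : Type*} [Field K] [Fintype K] (hK : Fintype.card K ≤ 3) (n : ℕ) (hn : 1 ≤ n)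
    (x w : Matrix.SpecialLinearGroup (Fin (n + 1)) K)
    (hx : (x : Matrix (Fin (n + 1)) (Fin (n + 1)) K) = Matrix.transvection (0 : Fin (n + 1)) (1 : Fin (n + 1)) 1)
    (hw : (w : Matrix (Fin (n + 1)) (Fin (n + 1)) K) =
      Matrix.of (fun i j => if j.val = i.val + 1 then 1 else if i.val = n ∧ j.val = 0 then (-1) ^ n else 0)) :
    Subgroup.closure ({x, w} : Set (Matrix.SpecialLinearGroup (Fin (n + 1)) K)) ⊔
      Subgroup.center (Matrix.SpecialLinearGroup (Fin (n + 1)) K) = ⊤ := by
  have h01 : (0 : Fin (n + 1)) ≠ 1 := by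
    intro h; have := congrArg Fin.val h; simp at this; omega
  have hx' : x = Matrix.SpecialLinearGroup.transvection h01 1 := Subtype.ext hx
  refine eq_top_of_cyclic_monomial hn
    (Subgroup.mem_sup_left (Subgroup.subset_closure (by simp))) hw fun h a => ?_
  have h1 : (1 : K) ∈ rootCoeffs (Subgroup.closure ({x, w} : Set _) ⊔ Subgroup.center _) h01 :=
    hx' ▸ Subgroup.mem_sup_left (Subgroup.subset_closure (by simp [hx']))
  have h2 : rootCoeffs (Subgroup.closure ({x, w} : Set _) ⊔ Subgroup.center _) h01 = ⊤ := by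
    have hp : (Nat.card K).Prime := by
      have := Fintype.one_lt_card (α := K)
      rw [Nat.card_eq_fintype_card]
      interval_cases Fintype.card K <;> norm_num
    have := Fact.mk hp
    refine (AddSubgroup.eq_bot_or_eq_top_of_prime_card _).resolve_left fun h => ?_
    rw [h, AddSubgroup.mem_bot] at h1
    exact one_ne_zero h1
  exact mem_rootCoeffs.mp (h2 ▸ AddSubgroup.mem_top a)

end Cfsg.Agent.S2403
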