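import Cfsg.Statements.S2290
import Cfsg.Agent.Pres.TypeA4
import Cfsg.Agent.Pres.Two
import Cfsg.Agent.S2286
import Cfsg.Agent.S2402
import Cfsg.Agent.S2403

set_option autoImplicit false
open Cfsg

namespace Cfsg.Agent.S2290

open Cfsg.Agent.RGD Matrix in
theorem two_gen {K : Type*} [Field K] [Fintype K] (n : ℕ) (hn : 1 ≤ n) :
    ∃ a b : Matrix.SpecialLinearGroup (Fin (n + 1)) K, Subgroup.closure {a, b} ⊔
      Subgroup.center (Matrix.SpecialLinearGroup (Fin (n + 1)) K) = ⊤ := by
  have h01 : (0 : Fin (n + 1)) ≠ 1 := by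
    intro h; have := congrArg Fin.val h; simp at this; omega
  have hv1 : (1 : Fin (n + 1)).val = 1 := by
    rw [Fin.val_one', Nat.mod_eq_of_lt (by omega)]
  have hw : (Matrix.of (fun i j : Fin (n + 1) => if j.val = i.val + 1 then (1 : K) else
      if i.val = n ∧ j.val = 0 then (-1) ^ n else 0)).det = 1 := by
    have : Matrix.of (fun i j : Fin (n + 1) => if j.val = i.val + 1 then (1 : K) else
        if i.val = n ∧ j.val = 0 then (-1) ^ n else 0) =
        mono (finRotate (n + 1))⁻¹ fun j => if j = 0 then (-1) ^ n else 1 := by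
      ext i j
      rw [mono_apply, of_apply]
      simp only [Equiv.Perm.eq_inv_iff_eq, finRotate_apply, Fin.ext_iff, Fin.val_add_one,
        Fin.val_last, Fin.val_zero]
      have := j.2
      split_ifs <;> first | rfl | omega
    rw [this, Pres.det_mono, Equiv.Perm.sign_inv, sign_finRotate, Finset.prod_ite_eq']
    simp [← mul_pow]
  by_cases hK : Fintype.card K ≤ 3
  · exact ⟨_, _, S2403.result hK n hn (SpecialLinearGroup.transvection h01 1) ⟨_, hw⟩ rfl rfl⟩
  · obtain ⟨k, hk⟩ := IsCyclic.exists_generator (α := Kˣ)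
    refine ⟨_, _, S2402.result (not_le.1 hK) n hn k hk (SpecialLinearGroup.diag2n h01 (k : K) k.ne_zero)
      (SpecialLinearGroup.transvection h01 1) ⟨_, hw⟩ ?_ rfl rfl⟩
    rw [SpecialLinearGroup.diag2n_coe]
    congr 1; ext i
    simp only [Fin.ext_iff, hv1, Fin.val_zero, Units.val_inv_eq_inv_val]


/-- For every finite field F with q elements and n ≥ 2, with q ≥ 4 when n = 2, the simple group PSL_n(F) has a presentation with 2 generators and at most 80 relations. -/
theorem result {F : Type*} [Field F] [Fintype F] (n : ℕ) (hn : 2 ≤ n) (h2 : n = 2 → 4 ≤ Fintype.card F) :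
    ∃ rels : Finset (FreeGroup (Fin 2)), rels.card ≤ 80 ∧ Nonempty (PresentedGroup (↑rels : Set (FreeGroup (Fin 2))) ≃* Matrix.ProjectiveSpecialLinearGroup (Fin n) F) := by
  obtain ⟨m, rfl⟩ : ∃ m, n = m + 1 := ⟨n - 1, by omega⟩
  obtain ⟨a, b, hab⟩ := two_gen (K := F) m (by omega)
  rcases hn.eq_or_lt with h | h
  · obtain rfl : m = 1 := by omega
    obtain ⟨g, k1, k2⟩ := Pres.hasRels_in (S2286.result (F := F)).2.1
    exact Pres.two_gen_out k1 k2 (Pres.closure_pair_quot hab) (by norm_num)
  · obtain ⟨f, h1, h2⟩ := Pres.sl_seven (K := F) (n := m + 1) h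
    exact Pres.two_gen_out (Pres.hasRels_center h1 h2 (Pres.isCyclic_center_sl _))
      (Pres.closure_range_comp h2 _ (QuotientGroup.mk'_surjective _))
      (Pres.closure_pair_quot hab) (by norm_num)

end Cfsg.Agent.S2290
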