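import Cfsg.Statements.S2292
import Cfsg.Agent.CP.Gen2

set_option autoImplicit false
open Cfsg

namespace Cfsg.Agent.S2292

/-- Let F be a finite field with q elements and m ≥ 2 with (m, q) ≠ (2, 2). Then the simple group PSp_2m(F) has a presentation with 2 generators and at most 80 relations. -/
theorem result {F : Type*} [Field F] [Fintype F] (m : ℕ) (hm : 2 ≤ m) (h22 : ¬ (m = 2 ∧ Fintype.card F = 2)) :
    ∃ rels : Finset (FreeGroup (Fin 2)), rels.card ≤ 80 ∧ Nonempty (PresentedGroup (↑rels : Set (FreeGroup (Fin 2))) ≃* Cfsg.PSp m F) := by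
  obtain ⟨a, b, hab⟩ := CP.psp_gen2 F hm fun h => by
    have := Fintype.one_lt_card (α := F); omega
  obtain ⟨n, rfl⟩ : ∃ k, m = k + 1 := ⟨m - 1, by omega⟩
  obtain rfl | rfl | rfl | h : n = 1 ∨ n = 2 ∨ n = 3 ∨ 5 ≤ n + 1 := by omega
  · exact (CP.pr_sp2.center (CP.sp_center 1)).two hab (by omega)
  · exact (CP.pr_sp3.center (CP.sp_center 2)).two hab (by omega)
  · exact (CP.pr_sp4.center (CP.sp_center 3)).two hab (by omega)
  · exact ((CP.pr_sp5 h).center (CP.sp_center n)).two hab (by omega)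

end Cfsg.Agent.S2292
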