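import Cfsg.Statements.S2297
import Cfsg.Agent.SymAlt.PresFinal

set_option autoImplicit false
open Cfsg

namespace Cfsg.Agent.S2297

theorem aux {H : Type*} [Group H] {f : Fin 3 → H} (h1 : SymAlt.HasRels f 7)
    (h2 : Subgroup.closure (Set.range f) = ⊤) (a b : H)
    (h : Subgroup.closure ({a, b} : Set H) = ⊤) :
    ∃ rels : Finset (FreeGroup (Fin 2)), rels.card ≤ 9 ∧
      ∃ e : PresentedGroup (↑rels : Set (FreeGroup (Fin 2))) ≃* H,
        e (PresentedGroup.of 0) = a ∧ e (PresentedGroup.of 1) = b := by
  have h3 : Subgroup.closure (Set.range ![a, b]) = ⊤ := by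
    rw [← h]
    congr 1
    ext x
    simp [or_comm]
  obtain ⟨r, a1, e, he⟩ := (h1.tietze (g := ![a, b]) (h2.trans h3.symm)).exists_equiv h3
  exact ⟨r, a1, e, he 0, he 1⟩


/-- Let n ≥ 5 and let G be the symmetric group S_n or the alternating group A_n. If a and b generate G, then G has a presentation on two generators mapping to a and b with at most 9 relations: there is a set of at most 9 relators in the free group on two letters and an isomorphism from the presented group onto G sending the two letters to a and b. -/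
theorem result (n : ℕ) (hn : 5 ≤ n) :
    (∀ a b : Equiv.Perm (Fin n), Subgroup.closure ({a, b} : Set (Equiv.Perm (Fin n))) = ⊤ →
      ∃ rels : Finset (FreeGroup (Fin 2)), rels.card ≤ 9 ∧
        ∃ e : PresentedGroup (↑rels : Set (FreeGroup (Fin 2))) ≃* Equiv.Perm (Fin n),
          e (PresentedGroup.of 0) = a ∧ e (PresentedGroup.of 1) = b) ∧
    (∀ a b : ↥(alternatingGroup (Fin n)), Subgroup.closure ({a, b} : Set ↥(alternatingGroup (Fin n))) = ⊤ →
      ∃ rels : Finset (FreeGroup (Fin 2)), rels.card ≤ 9 ∧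
        ∃ e : PresentedGroup (↑rels : Set (FreeGroup (Fin 2))) ≃* ↥(alternatingGroup (Fin n)),
          e (PresentedGroup.of 0) = a ∧ e (PresentedGroup.of 1) = b) := by
  obtain ⟨f, h1, h2, -⟩ := SymAlt.sym_three n hn
  obtain ⟨g, h3, h4, -⟩ := SymAlt.alt_three n hn
  exact ⟨aux h1 h2, aux h3 h4⟩

end Cfsg.Agent.S2297
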