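import Cfsg.Statements.S2332
import Cfsg.Agent.GLn.LowDim
import Cfsg.Agent.GLn.TwoTrans
import Cfsg.Agent.GLn.Spectrum

set_option autoImplicit false
open Cfsg

namespace Cfsg.Agent.S2332

open Cfsg.Agent.GLn Finset
open scoped LinearAlgebra.Projectivization

theorem exists_pow_ne_one {F : Type*} [Field F] [Fintype F] {k : ℕ}
    (h : ¬ Fintype.card F - 1 ∣ k) : ∃ c : F, c ≠ 0 ∧ c ^ k ≠ 1 := by
  rw [← FiniteField.forall_pow_eq_one_iff] at h
  push Not at h
  obtain ⟨c, hc⟩ := h
  exact ⟨c, c.ne_zero, fun e => hc (Units.ext (by simpa using e))⟩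

theorem div_eq (q n : ℕ) (hq : 1 < q) :
    (q ^ (n + 1) - q) / (q - 1) = ∑ i ∈ range (n + 1), q ^ i - 1 := by
  have h := pred_mul_geom q (n + 1) hq.le
  have h1 : q ≤ q ^ (n + 1) := Nat.le_self_pow (by omega) q
  refine Nat.div_eq_of_eq_mul_right (by omega) ?_
  rw [Nat.mul_sub_one, h]; omega

/-- Smallest degree of a non-linear irreducible complex representation of SL_n over a finite field with q elements, for n ≥ 3 and (n, q) not one of (3, 2), (3, 4), (4, 2), (4, 3): every irreducible complex representation of SL_n(F) of degree at least 2 has degree at least (q^n − q)/(q − 1), and there is an irreducible complex representation of exactly that degree. -/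
theorem result {F : Type*} [Field F] [Fintype F] [DecidableEq F] (n : ℕ) (hn : 3 ≤ n)
    (hex : (n, Fintype.card F) ≠ (3, 2) ∧ (n, Fintype.card F) ≠ (3, 4) ∧ (n, Fintype.card F) ≠ (4, 2) ∧ (n, Fintype.card F) ≠ (4, 3)) :
    (∀ (k : ℕ) (ρ : Representation ℂ (Matrix.SpecialLinearGroup (Fin n) F) (Fin k → ℂ)), ρ.IsIrreducible → 2 ≤ k → (Fintype.card F ^ n - Fintype.card F) / (Fintype.card F - 1) ≤ k) ∧
    (∃ ρ : Representation ℂ (Matrix.SpecialLinearGroup (Fin n) F) (Fin ((Fintype.card F ^ n - Fintype.card F) / (Fintype.card F - 1)) → ℂ), ρ.IsIrreducible) := by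
  obtain ⟨m, rfl⟩ : ∃ m, n = m + 3 := ⟨n - 3, by omega⟩
  have hq : 1 < Fintype.card F := Fintype.one_lt_card
  rw [div_eq _ (m + 2) hq, ← Nat.card_eq_fintype_card, show m + 2 + 1 = m + 3 from rfl]
  refine ⟨fun k ρ hρ hk => ?_, ?_⟩
  · obtain ⟨d, e, he⟩ := exists_unitary_equiv ρ
    have hu : IsUni (CharLib.transport ρ e) := fun g x y => by
      simp only [CharLib.transport_apply, he, LinearEquiv.apply_symm_apply]
    have hirr := CharLib.irreducible_transport ρ e
    have hd : Module.finrank ℂ (EuclideanSpace ℂ (Fin d)) = k := by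
      rw [← e.finrank_eq]; simp
    have hψ : AddChar.FiniteField.primitiveChar_to_Complex F ≠ 1 := by
      have := AddChar.FiniteField.primitiveChar_to_Complex_isPrimitive F (a := 1) one_ne_zero
      rwa [AddChar.mulShift_one] at this
    rw [← hd]
    by_contra! hlt
    obtain ⟨x, hx⟩ := (Module.finrank_pos_iff_exists_ne_zero (R := ℂ)).mp (hd ▸ (by omega : 0 < k))
    refine absurd (hu.le_finrank_of_muTriv hψ (muTriv_of_finrank (finrank_wt_le_one hψ hlt)
      (fun hm => exists_pow_ne_one fun h => ?_) fun hm => exists_pow_ne_one fun h => ?_)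
      (fun y hy => ?_) hx) hlt.not_ge
    · subst hm
      have := (Nat.dvd_prime Nat.prime_three).mp h
      simp at hex
      omega
    · subst hm
      have := (Nat.dvd_prime Nat.prime_two).mp h
      simp at hex
      omega
    · let W : Subrepresentation (CharLib.transport ρ e) := ⟨Submodule.span ℂ {y}, fun g v hv => by
        obtain ⟨c, rfl⟩ := Submodule.mem_span_singleton.mp hv
        rw [map_smul, mem_fixSub.mp (hy ▸ Subgroup.mem_top g)]
        exact hv⟩
      rcases hirr.eq_bot_or_eq_top W with h | h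
      · exact Submodule.span_singleton_eq_bot.mp (congrArg Subrepresentation.toSubmodule h)
      · have h1 : Submodule.span ℂ {y} = ⊤ := congrArg Subrepresentation.toSubmodule h
        have h2 := finrank_span_le_card (R := ℂ) ({y} : Set _)
        rw [h1, finrank_top, hd] at h2
        simp at h2; omega
  · have h1 := card_proj (F := F) (m + 3)
    have h2 : 2 ≤ ∑ i ∈ range (m + 3), Nat.card F ^ i := by
      rw [sum_range_succ', sum_range_succ']
      have : 1 < Nat.card F := Finite.one_lt_card
      simp only [zero_add, pow_one, pow_zero]; omega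
    have : Nontrivial (ℙ F (Fin (m + 3) → F)) := Finite.one_lt_card_iff_nontrivial.mp (by omega)
    exact exists_irreducible_of_two_trans _ (ℙ F (Fin (m + 3) → F)) (by omega)

end Cfsg.Agent.S2332
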