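import Cfsg.Statements.S2334
import Cfsg.Agent.Forms.MinDeg2

set_option autoImplicit false
open Cfsg

namespace Cfsg.Agent.S2334

open Cfsg.Agent.Forms Module

/-- For odd n ≥ 3 and a finite field F with q² elements, (n, q) ≠ (3, 2), every irreducible complex representation of the special unitary group SU_n(q) (the determinant-one isometries of the standard Hermitian form over F) of degree at least 2 has degree at least (q^n − q)/(q + 1). -/
theorem result {F : Type*} [Field F] [Fintype F] [DecidableEq F] (n q : ℕ) (hn : 3 ≤ n) (hodd : Odd n) (hF : Fintype.card F = q ^ 2) (hex : (n, q) ≠ (3, 2)) :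
    (∀ (k : ℕ) (ρ : Representation ℂ (Cfsg.SU n F q) (Fin k → ℂ)), ρ.IsIrreducible → 2 ≤ k → (q ^ n - q) / (q + 1) ≤ k) := by
  intro k ρ hρ hk
  have hB := hermB_isEHerm (n := n) hF
  have hne := exists_frobq_ne hF
  obtain ⟨g, hg⟩ := exists_ne_one_of_irreducible ρ (by simpa using hk)
  obtain ⟨M₀, -, hM, h1⟩ := exists_max_isotropic hB hne (exists_norm_eq hF) ⊤ (hermB_nd hF)
  rw [finrank_top, finrank_fin_fun] at h1
  obtain ⟨h2, e, -, he, he'⟩ := h1.resolve_left (by
    obtain ⟨r, hr⟩ := hodd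
    omega)
  have h3 : ∃ g a c, hermB (frobq hF) (Fin n) a a = 0 ∧ frobq hF c + 1 * c = 0 ∧
      sulin g = qrefl (hermB (frobq hF) (Fin n)) a c ∧ ρ g ≠ 1 := by
    by_contra h
    push Not at h
    refine hg (su_mem_of_transvection hF ?_ (N := MonoidHom.ker ρ) h g)
    by_cases h4 : n = 3
    · exact Or.inr fun h => hex (by rw [h4, h])
    · exact Or.inl (by omega)
  obtain ⟨g, a, c, ha, hc, hg, hg'⟩ := h3
  obtain ⟨a, c, h4⟩ := IsoGrp.exists_trv_ne_one (Γ := suGrp hF n) hM hB (hermB_nd hF) (hB.hval hne)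
    (hB.hs0 hne) (by rintro rfl; rw [finrank_bot] at h2; omega) ρ ha hc hg hg'
  obtain ⟨p, hp, hp'⟩ := exists_char_cast (F := F)
  have htrans : ∀ v ∈ M₀, ∀ a ∈ M₀, v ≠ 0 → a ≠ 0 →
      ∃ g, (∀ x ∈ M₀, (suGrp hF n).act g x ∈ M₀) ∧ (suGrp hF n).act g v = a := by
    by_cases h5 : 2 ≤ finrank F M₀
    · exact IsoGrp.trans_of_two_le hM hB (hermB_rep hB.invol) (hB.hval hne) h5
    intro v hv a ha hv0 ha0
    obtain ⟨f, hf, hf'⟩ := witt_herm_family (hermB_rep hB.invol) hB.invol hne (hermB_symm hB.invol)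
      (r := 1) (fun _ => v) (fun _ => a) (linearIndependent_unique_iff.2 hv0)
      (linearIndependent_unique_iff.2 ha0) (fun _ _ => by rw [hM v hv v hv, hM a ha a ha])
    have hd := det_mul_conj_det hf
    have hd0 : LinearMap.det f ≠ 0 := left_ne_zero_of_mul_eq_one hd
    have hd1 : frobq hF (LinearMap.det f) ≠ 0 := right_ne_zero_of_mul_eq_one hd
    obtain ⟨g, hg⟩ := exists_sulin_eq hF (f := f ∘ₗ qrefl (hermB (frobq hF) (Fin n)) e
      (((LinearMap.det f)⁻¹ - 1) / hermB (frobq hF) (Fin n) e e)) (by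
        have : qrefl (hermB (frobq hF) (Fin n)) e
            (((LinearMap.det f)⁻¹ - 1) / hermB (frobq hF) (Fin n) e e) =
            LinearMap.transvection ((((LinearMap.det f)⁻¹ - 1) / hermB (frobq hF) (Fin n) e e) •
              (hermB (frobq hF) (Fin n)).flip e) e := by
          refine LinearMap.ext fun z => ?_
          rw [qrefl_apply, LinearMap.transvection.apply]
          rfl
        rw [LinearMap.det_comp, this, LinearMap.transvection.det, LinearMap.smul_apply,
          LinearMap.flip_apply, smul_eq_mul, div_mul_cancel₀ _ he, add_sub_cancel,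
          mul_inv_cancel₀ hd0]) (fun x y => by
        rw [LinearMap.comp_apply, LinearMap.comp_apply, hf, qrefl_isometry hB.symm]
        rw [map_div₀, hB.fix_self, map_sub, map_inv₀, map_one]
        field_simp
        linear_combination -hd)
    have h6 : sulin g v = a := by
      rw [hg, LinearMap.comp_apply, qrefl_apply, hB.eq_zero_comm.1 (he' v hv), mul_zero, zero_smul,
        add_zero, hf' 0]
    refine ⟨g, fun x hx => ?_, h6⟩
    have h7 : Submodule.span F {v} = M₀ := Submodule.eq_of_le_of_finrank_le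
      (Submodule.span_le.2 (Set.singleton_subset_iff.2 hv))
      (by rw [finrank_span_singleton hv0]; omega)
    obtain ⟨t, rfl⟩ := Submodule.mem_span_singleton.1 (h7.ge hx)
    rw [map_smul, suGrp_act, h6]
    exact M₀.smul_mem t ha
  obtain ⟨χ, h5, h7, h6⟩ := IsoGrp.exists_weight_bound hM hB (hermB_rep hB.invol) (hB.hval hne)
    ((exists_trace_eq hB.invol hne (map_one _)).imp fun _ h => h.2) (card_mul_frobq_le hF)
    htrans ρ hp hp' h4
  have h8 := le_finrank_wsp_of_heisenberg hM hB (hermB_nd hF) hne ρ he he' h5 h7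
  rw [card_frobq_fixed] at h8
  rw [natCard_eq_pow_finrank (K := F), Nat.card_eq_fintype_card, hF, ← pow_mul,
    finrank_fin_fun] at h6
  refine Nat.div_le_of_le_mul (le_trans ?_ ((Nat.mul_le_mul_left _ h8).trans h6))
  rw [Nat.sub_mul, one_mul, ← pow_succ, ← h2]

end Cfsg.Agent.S2334
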