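import Cfsg.Statements.S2335
import Cfsg.Agent.Forms.MinDeg2

set_option autoImplicit false
open Cfsg

namespace Cfsg.Agent.S2335

open Cfsg.Agent.Forms Module

/-- For even n ≥ 4 and a finite field F with q² elements, (n, q) not (4, 2) or (4, 3), every irreducible complex representation of the special unitary group SU_n(q) (the determinant-one isometries of the standard Hermitian form over F) of degree at least 2 has degree at least (q^n − 1)/(q + 1). -/
theorem result {F : Type*} [Field F] [Fintype F] [DecidableEq F] (n q : ℕ) (hn : 4 ≤ n) (heven : Even n) (hF : Fintype.card F = q ^ 2) (hex : (n, q) ≠ (4, 2) ∧ (n, q) ≠ (4, 3)) :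
    (∀ (k : ℕ) (ρ : Representation ℂ (Cfsg.SU n F q) (Fin k → ℂ)), ρ.IsIrreducible → 2 ≤ k → (q ^ n - 1) / (q + 1) ≤ k) := by
  intro k ρ hρ hk
  have hB := hermB_isEHerm (n := n) hF
  have hne := exists_frobq_ne hF
  obtain ⟨g, hg⟩ := exists_ne_one_of_irreducible ρ (by simpa using hk)
  obtain ⟨M₀, -, hM, h1⟩ := exists_max_isotropic hB hne (exists_norm_eq hF) ⊤ (hermB_nd hF)
  rw [finrank_top, finrank_fin_fun] at h1
  have h2 : n = 2 * finrank F M₀ := by
    obtain ⟨r, hr⟩ := heven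
    omega
  have h3 : ∃ g a c, hermB (frobq hF) (Fin n) a a = 0 ∧ frobq hF c + 1 * c = 0 ∧
      sulin g = qrefl (hermB (frobq hF) (Fin n)) a c ∧ ρ g ≠ 1 := by
    by_contra h
    push Not at h
    exact hg (su_mem_of_transvection hF (Or.inl hn) (N := MonoidHom.ker ρ) h g)
  obtain ⟨g, a, c, ha, hc, hg, hg'⟩ := h3
  obtain ⟨a, c, h4⟩ := IsoGrp.exists_trv_ne_one (Γ := suGrp hF n) hM hB (hermB_nd hF) (hB.hval hne)
    (hB.hs0 hne) (by rintro rfl; rw [finrank_bot] at h2; omega) ρ ha hc hg hg'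
  obtain ⟨p, hp, hp'⟩ := exists_char_cast (F := F)
  obtain ⟨χ, h5, -, h6⟩ := IsoGrp.exists_weight_bound hM hB (hermB_rep hB.invol) (hB.hval hne)
    ((exists_trace_eq hB.invol hne (map_one _)).imp fun _ h => h.2) (card_mul_frobq_le hF)
    (IsoGrp.trans_of_two_le hM hB (hermB_rep hB.invol) (hB.hval hne) (by omega)) ρ hp hp' h4
  rw [natCard_eq_pow_finrank (K := F), Nat.card_eq_fintype_card, hF, ← pow_mul, ← h2,
    finrank_fin_fun] at h6
  refine Nat.div_le_of_le_mul (le_trans (Nat.le_mul_of_pos_right _ ?_) h6)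
  rwa [Nat.pos_iff_ne_zero, Ne, Submodule.finrank_eq_zero]

end Cfsg.Agent.S2335
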