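import Cfsg.Statements.S2336
import Cfsg.Agent.Forms.PermNorm
import Cfsg.Agent.GLn.Frames

set_option autoImplicit false
open Cfsg

namespace Cfsg.Agent.S2336

open Cfsg.Agent.Forms Cfsg.Agent.CharLib Cfsg.Agent.GLn Finset Matrix

variable {F : Type*} [Field F] {n : ℕ}

/-- Non-zero vectors. -/
def NZ (n : ℕ) (F : Type*) [Field F] : Type _ := {v : Fin n → F // v ≠ 0}

instance [Finite F] : Finite (NZ n F) := Subtype.finite

instance : MulAction (SpecialLinearGroup (Fin n) F) (NZ n F) where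
  smul g v := ⟨g.1 *ᵥ v.1, fun h => v.2 (by
    simpa [mulVec_mulVec, adjugate_mul] using congrArg (g⁻¹.1 *ᵥ ·) h)⟩
  one_smul v := Subtype.ext (one_mulVec _)
  mul_smul g h v := Subtype.ext (mulVec_mulVec v.1 g.1 h.1).symm

instance : MulAction (SpecialLinearGroup (Fin n) F × Fˣ) (NZ n F) where
  smul g v := ⟨g.2 • (g.1 • v).1, (smul_ne_zero_iff_ne _).2 (g.1 • v).2⟩
  one_smul v := Subtype.ext (by
    change (1 : Fˣ) • ((1 : SpecialLinearGroup (Fin n) F) • v).1 = _
    rw [one_smul, one_smul])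
  mul_smul g h v := Subtype.ext (by
    change (g.2 * h.2) • (g.1 * h.1).1 *ᵥ v.1 = g.2 • g.1.1 *ᵥ (h.2 • h.1.1 *ᵥ v.1)
    rw [mulVec_smul, mulVec_mulVec, mul_smul]
    rfl)

theorem card_orbits_le [Fintype F] (hn : 3 ≤ n) : Nat.card (MulAction.orbitRel.Quotient
    (SpecialLinearGroup (Fin n) F) (NZ n F × NZ n F)) ≤ Nat.card (Option Fˣ) := by
  obtain ⟨u, hu, -⟩ := exists_extend_linearIndependent (F := F) (n := n) ![] linearIndependent_empty_type
    (Nat.zero_le 2) (by omega)
  have hu' : LinearIndependent F ![u 0, u 1] := by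
    convert hu
    ext i j
    fin_cases i <;> rfl
  refine Nat.card_le_card_of_surjective (fun t : Option Fˣ => Quotient.mk _ (⟨u 0, hu.ne_zero 0⟩,
    t.elim ⟨u 1, hu.ne_zero 1⟩ fun t => ⟨t • u 0, (smul_ne_zero_iff_ne _).2 (hu.ne_zero 0)⟩)) ?_
  rintro ⟨v, w⟩
  by_cases h : LinearIndependent F ![v.1, w.1]
  · obtain ⟨g, h1, h2⟩ := exists_sl_pair hn h hu'
    exact ⟨none, Quotient.sound ⟨g, Prod.ext (Subtype.ext h1) (Subtype.ext h2)⟩⟩
  · rw [LinearIndependent.pair_iff' v.2] at h
    push Not at h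
    obtain ⟨a, ha⟩ := h
    have ha0 : a ≠ 0 := by rintro rfl; exact w.2 (by rw [← ha, zero_smul])
    obtain ⟨g, h1⟩ := exists_sl_single (by omega) v.2 (hu.ne_zero 0)
    refine ⟨some (Units.mk0 a ha0), Quotient.sound ⟨g, Prod.ext (Subtype.ext h1) (Subtype.ext ?_)⟩⟩
    change g.1 *ᵥ w.1 = a • u 0
    rw [← ha, mulVec_smul, h1]

/-- Let F be a finite field with q elements and n ≥ 3. The permutation character of SL_n(F) on the non-zero vectors of F^n (the function sending a matrix to the number of non-zero vectors it fixes) is the sum of the principal character and q − 1 pairwise distinct irreducible complex characters. -/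
theorem result {F : Type*} [Field F] [Fintype F] [DecidableEq F] (n : ℕ) (hn : 3 ≤ n) :
    ∃ χ : Fin (Fintype.card F - 1) → (Matrix.SpecialLinearGroup (Fin n) F → ℂ),
      (∀ i, Cfsg.IsIrrCharacter (Matrix.SpecialLinearGroup (Fin n) F) (χ i)) ∧ Function.Injective χ ∧
      ∀ g : Matrix.SpecialLinearGroup (Fin n) F,
        (Nat.card {v : Fin n → F // v ≠ 0 ∧ (g : Matrix (Fin n) (Fin n) F).mulVec v = v} : ℂ) = 1 + ∑ i, χ i g := by
  let Φ : SpecialLinearGroup (Fin n) F × Fˣ → ℕ := fun x => Nat.card (MulAction.fixedBy (NZ n F) x)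
  let π : AddChar (Additive Fˣ) ℂ → SpecialLinearGroup (Fin n) F → ℂ := fun θ g =>
    (Nat.card Fˣ : ℂ)⁻¹ * ∑ t : Fˣ, Φ (g, t) * θ (.ofMul t)
  have hc : (Nat.card Fˣ : ℂ) ≠ 0 := card_ne_zero
  have h1 : ∀ θ, IsCharacter _ (π θ) := fun θ => isChar_average (isChar_mul
    (isChar_fixedBy (G := SpecialLinearGroup (Fin n) F × Fˣ) (NZ n F))
    (isChar_of_irr (isIrr_of_mul (l := fun x => θ (.ofMul x.2)) θ.map_zero_eq_one
      fun x y => θ.map_add_eq_mul (.ofMul x.2) (.ofMul y.2))))
  have h2 : ∀ g, ∑ θ, π θ g = Nat.card (MulAction.fixedBy (NZ n F) g) := by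
    intro g
    simp only [π, ← mul_sum]
    rw [sum_comm]
    simp only [← mul_sum, AddChar.sum_apply_eq_ite, ofMul_eq_zero, mul_ite, mul_zero, sum_ite_eq',
      mem_univ, if_true, Fintype.card_additive]
    rw [← Nat.card_eq_fintype_card, mul_comm, mul_inv_cancel_right₀ hc]
    refine congrArg Nat.cast (Nat.card_congr (Equiv.setCongr (Set.ext fun v => ?_)))
    have : ((g, (1 : Fˣ)) • v) = g • v := Subtype.ext (one_smul Fˣ (g • v).1)
    rw [MulAction.mem_fixedBy, MulAction.mem_fixedBy, this]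
  have hΦ : ∀ t : Fˣ, Φ (1, t) = if t = 1 then Nat.card (NZ n F) else 0 := by
    intro t
    split_ifs with h
    · subst h
      exact Nat.card_congr ((Equiv.setCongr (MulAction.fixedBy_one_eq_univ _ _)).trans
        (Equiv.Set.univ _))
    · refine Nat.card_eq_zero.2 (Or.inl ⟨fun v => h ?_⟩)
      have h3 : (t : F) • (1 : Matrix _ _ F) *ᵥ v.1.1 = v.1.1 := congrArg Subtype.val v.2
      rw [one_mulVec] at h3
      exact Units.ext (smul_left_injective F v.1.2 (h3.trans (one_smul _ _).symm))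
  have h3 : ∀ θ, π θ 1 = (Nat.card Fˣ : ℂ)⁻¹ * Nat.card (NZ n F) := fun θ => by simp [π, hΦ]
  have h4 : Nat.card Fˣ < Nat.card (NZ n F) := by
    have h5 : Nat.card (NZ n F) = Nat.card F ^ n - 1 := by
      rw [NZ, Nat.card_eq_fintype_card, Fintype.card_subtype_compl]
      simp
    have h6 := Nat.pow_lt_pow_right (Finite.one_lt_card (α := F)) (show 1 < n by omega)
    have h7 := Finite.one_lt_card (α := F)
    rw [h5, Nat.card_units]
    rw [pow_one] at h6
    omega
  have h5 : IsCharacter _ (π 0 - fun _ => 1) := by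
    refine isChar_sub_of_inner_ne_zero (h1 0) isIrr_one ?_
    simp only [classInner, map_one, mul_one, π, AddChar.zero_apply, ← mul_sum]
    refine mul_ne_zero (inv_ne_zero card_ne_zero) (mul_ne_zero (inv_ne_zero hc) ?_)
    norm_cast
    rw [sum_eq_zero_iff]
    intro h
    have := sum_eq_zero_iff.1 (h 1 (mem_univ _)) 1 (mem_univ _)
    rw [hΦ, if_pos rfl] at this
    omega
  let χ : AddChar (Additive Fˣ) ℂ → SpecialLinearGroup (Fin n) F → ℂ :=
    Function.update π 0 (π 0 - fun _ => 1)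
  have h6 : ∀ g, (Nat.card (MulAction.fixedBy (NZ n F) g) : ℂ) = 1 + ∑ θ, χ θ g := by
    intro g
    rw [← h2, ← add_sum_erase _ _ (mem_univ 0), ← add_sum_erase _ _ (mem_univ 0),
      sum_congr rfl (f := fun θ => χ θ g) fun θ hθ =>
        congrFun (Function.update_of_ne (ne_of_mem_erase hθ) _ _) g]
    simp [χ]
  obtain ⟨h7, h8⟩ := irr_of_norm_le (fun i : Option (AddChar (Additive Fˣ) ℂ) =>
    i.elim (fun _ => 1) χ) (by
      rintro (_ | θ)
      · exact isChar_one
      · by_cases h : θ = 0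
        · subst h
          simpa [χ] using h5
        · simpa [χ, h] using h1 θ)
    (by
      rintro (_ | θ) h
      · exact one_ne_zero (congrFun h 1)
      · have h := congrFun h 1
        by_cases h' : θ = 0
        · subst h'
          simp only [χ, Option.elim, Function.update_self, Pi.sub_apply, h3, Pi.zero_apply,
            sub_eq_zero, inv_mul_eq_one₀ hc, Nat.cast_inj] at h
          omega
        · simp only [χ, Option.elim, Function.update_of_ne h', h3, Pi.zero_apply, mul_eq_zero,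
            inv_eq_zero, Nat.cast_eq_zero] at h
          have := Nat.card_pos (α := Fˣ)
          omega)
    (by
      rw [← inner_fixedBy (NZ n F) (NZ n F)]
      congr 1 <;> (funext g; rw [h6]; simp))
    ((card_orbits_le hn).trans (by simp))
  let e : Fin (Fintype.card F - 1) ≃ AddChar (Additive Fˣ) ℂ :=
    Fintype.equivOfCardEq (by simp [Fintype.card_units])
  refine ⟨fun i => χ (e i), fun i => h7 (some (e i)), fun i j h => e.injective
    (Option.some_injective _ (h8 h)), fun g => ?_⟩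
  rw [Equiv.sum_comp e fun θ => χ θ g, ← h6]
  congr 1
  exact Nat.card_congr
    { toFun := fun v => ⟨⟨v.1, v.2.1⟩, Subtype.ext v.2.2⟩
      invFun := fun v => ⟨v.1.1, v.1.2, congrArg Subtype.val v.2⟩ }

end Cfsg.Agent.S2336
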