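import Cfsg.Statements.S2338
import Cfsg.Agent.Forms.LieG2b
import Cfsg.Agent.Chev.Order

set_option autoImplicit false
open Cfsg

namespace Cfsg.Agent.S2338

theorem arith {x : ℤ} {k : ℤ} (hx : 81 ≤ x) (h : k ∣ x ^ 3 * ((x - 1) * (x ^ 3 - 1))) (h' : x ^ 2 + x ≤ k + 2) :
    x ^ 2 + x + 1 ≤ k := by
  by_contra h0
  obtain rfl | rfl | rfl : k = (x - 1) * (x + 2) ∨ k = x ^ 2 + x - 1 ∨ k = (x + 1) * x := by
    clear h; ring_nf; omega
  · rw [mul_left_comm, mul_dvd_mul_iff_left (by omega), show x ^ 3 * (x ^ 3 - 1) =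
      (x + 2) * (x ^ 5 - 2 * x ^ 4 + 4 * x ^ 3 - 9 * x ^ 2 + 18 * x - 36) + 72 by ring, dvd_add_right (dvd_mul_right _ _)] at h
    have := Int.le_of_dvd (by norm_num) h
    omega
  · rw [show x ^ 3 * ((x - 1) * (x ^ 3 - 1)) = (x ^ 2 + x - 1) * (x ^ 5 - 2 * x ^ 4 + 3 * x ^ 3 - 6 * x ^ 2 + 10 * x - 16) +
      (26 * x - 16) by ring, dvd_add_right (dvd_mul_right _ _)] at h
    have := Int.le_of_dvd (by omega) h
    nlinarith
  · replace h := (dvd_mul_right _ _).trans h
    rw [show x ^ 3 * ((x - 1) * (x ^ 3 - 1)) = (x + 1) * (x ^ 6 - 2 * x ^ 5 + 2 * x ^ 4 - 3 * x ^ 3 + 4 * x ^ 2 - 4 * x + 4) +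
      -4 by ring, dvd_add_right (dvd_mul_right _ _), dvd_neg] at h
    have := Int.le_of_dvd (by norm_num) h
    omega

/-- Lower bounds for the degrees of non-linear irreducible complex representations of the Chevalley group of type G₂ over a finite field with q elements: the degree is at least q³ + 1 when q ≡ 1 (mod 3) and q > 4, at least q³ − 1 when q ≡ 2 (mod 3) and q > 2, and at least q⁴ + q² + 1 when q ≡ 0 (mod 3) and q > 3. -/
theorem result {F : Type*} [Field F] [Fintype F] (k : ℕ) (ρ : Representation ℂ (Cfsg.Lie.chevG2.group F) (Fin k → ℂ)) (hρ : ρ.IsIrreducible) (hk : 2 ≤ k) :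
    (Fintype.card F % 3 = 1 → 4 < Fintype.card F → Fintype.card F ^ 3 + 1 ≤ k) ∧
    (Fintype.card F % 3 = 2 → 2 < Fintype.card F → Fintype.card F ^ 3 - 1 ≤ k) ∧
    (Fintype.card F % 3 = 0 → 3 < Fintype.card F → Fintype.card F ^ 4 + Fintype.card F ^ 2 + 1 ≤ k) := by
  classical
  obtain ⟨π, hπ, hd, -, hnc⟩ := Forms.exists_uni (MulEquiv.refl _) ρ hρ hk
  have hψ := Forms.psi_ne_one F
  have h3 : (3 : F) = 0 ↔ Fintype.card F % 3 = 0 := by
    have : Fact (Nat.Prime 3) := ⟨by norm_num⟩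
    rw [← Nat.dvd_iff_mod_eq_zero, ← prime_dvd_char_iff_dvd_card, ← Nat.cast_ofNat, ringChar.spec,
      Nat.prime_dvd_prime_iff_eq (CharP.char_is_prime F _) this.out,
      Nat.prime_dvd_prime_iff_eq this.out (CharP.char_is_prime F _), eq_comm]
  refine ⟨fun h hq => ?_, fun h hq => ?_, fun h hq => ?_⟩
  · simpa using (Forms.bound_G2 (Chev.certG2.sys F) hπ hψ (mt h3.1 (by omega)) hq hnc).2 h
  · simpa using (Forms.bound_G2 (Chev.certG2.sys F) hπ hψ (mt h3.1 (by omega)) (by omega) hnc).1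
  have : CharP F 3 := (CharP.charP_iff_prime_eq_zero (by norm_num)).2 (h3.2 h)
  have hq' : 9 ≤ Fintype.card F := by
    obtain ⟨n, -, hn⟩ := FiniteField.card F 3
    rw [hn] at hq ⊢
    exact Nat.pow_le_pow_right (n := 3) (i := 2) (by norm_num) ((Nat.pow_lt_pow_iff_right (a := 3) (n := 1) (by norm_num)).1 hq)
  have h1 := Forms.bound_G23 hψ hq' (Forms.pos_G2 (Chev.certG2.sys F) hψ (by omega) hnc)
  have h2 := Chev.card_group_of_mem (c := (Lie.chevG2, [2, 6])) (by simp [Chev.degList]) F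
  replace h2 := hd.trans (Dvd.intro _ h2)
  rw [Nat.card_eq_fintype_card] at h2
  rw [finrank_euclideanSpace, Fintype.card_fin] at h1
  generalize Fintype.card F = q at *
  have := arith (x := (q : ℤ) ^ 2) (k := k) (by nlinarith) (by
    convert Int.natCast_dvd_natCast.2 h2 using 1
    simp [show Lie.chevG2.nroots / 2 = 6 by decide +kernel, Nat.one_le_pow _ q (by omega), ← pow_mul]) (by
    rw [← pow_mul]; exact_mod_cast h1)
  rw [← pow_mul] at this
  exact_mod_cast this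

end Cfsg.Agent.S2338
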