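import Cfsg.Statements.S2341
import Cfsg.Agent.Forms.LieTE

set_option autoImplicit false
open Cfsg

namespace Cfsg.Agent.S2341

/-- For the twisted group ²E₆(q), realised over the field with q² elements (q a prime power), every irreducible complex representation of degree at least 2 has degree at least q(q⁶ − q³ + 1)(q⁴ + 1). -/
theorem result {K : Type*} [Field K] [Fintype K] (q : ℕ) (hq : IsPrimePow q) (hK : Fintype.card K = q ^ 2) :
    (∀ (k : ℕ) (ρ : Representation ℂ (Cfsg.Lie.twistedE6 K q) (Fin k → ℂ)), ρ.IsIrreducible → 2 ≤ k → q * (q ^ 6 - q ^ 3 + 1) * (q ^ 4 + 1) ≤ k) := by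
  intro k ρ hρ hk
  have h := Forms.boundT6 hK ρ hρ hk
  have h2 : 2 ≤ q := hq.two_le
  obtain ⟨n, rfl⟩ : ∃ n, q = n + 1 := ⟨q - 1, by omega⟩
  have h3 : (n + 1) ^ 6 - (n + 1) ^ 3 = (n + 1) ^ 3 * (n ^ 3 + 3 * n ^ 2 + 3 * n) :=
    Nat.sub_eq_of_eq_add (by ring)
  rw [h3]
  simp only [List.map, List.sum_cons, List.sum_nil, Nat.add_sub_cancel] at h
  rcases h with h | h
  · refine Nat.le_of_mul_le_mul_left (le_trans ?_ h) (Nat.succ_pos n)
    obtain ⟨m, rfl⟩ : ∃ m, n = m + 1 := ⟨n - 1, by omega⟩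
    ring_nf
    omega
  · exact le_trans (le_of_eq (by ring)) h

end Cfsg.Agent.S2341
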