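import Cfsg.Statements.S2343
import Cfsg.Agent.Forms.LieRee

set_option autoImplicit false
open Cfsg

namespace Cfsg.Agent.S2343

/-- For the Ree group ²G₂(q), q = 3^(2m+1) with m ≥ 1 (realised over the field with q elements), every irreducible complex representation of degree at least 2 has degree at least q² − q + 1. -/
theorem result {K : Type*} [Field K] [Fintype K] (m : ℕ) (hm : 1 ≤ m) (hK : Fintype.card K = 3 ^ (2 * m + 1)) :
    (∀ (k : ℕ) (ρ : Representation ℂ (Cfsg.Lie.twistedG2 K (3 ^ m)) (Fin k → ℂ)), ρ.IsIrreducible → 2 ≤ k → (3 ^ (2 * m + 1)) ^ 2 - 3 ^ (2 * m + 1) + 1 ≤ k) := by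
  intro k ρ hρ hk
  have h : Nat.card K = 3 ^ (2 * m + 1) := by rw [Nat.card_eq_fintype_card, hK]
  have := charP_of_card_eq_prime_pow hK
  obtain ⟨P⟩ := Tw.exists_rbn h
  obtain ⟨π, -, -, -, a2⟩ := Forms.exists_uni (MulEquiv.refl _) ρ hρ hk
  have h1 := Forms.ree_bound P (Tw.exists_pow_ne K (by norm_num) (h ▸ lt_self_pow₀ (by norm_num) (by omega)))
    (by
      have : (3 ^ 2) ^ m % 4 = 1 := by simp [Nat.pow_mod]
      rw [hK, pow_succ, pow_mul]
      obtain ⟨n, hn⟩ : ∃ n, (3 ^ 2) ^ m = 4 * n + 1 := ⟨(3 ^ 2) ^ m / 4, by omega⟩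
      rw [hn, show (4 * n + 1) * 3 - 1 = 12 * n + 2 by omega]
      ring_nf; omega)
    (fun a b => Forms.ree_conj h) a2
  rwa [finrank_euclideanSpace_fin, hK, Nat.mul_sub_one, ← sq] at h1

end Cfsg.Agent.S2343
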