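import Cfsg.Statements.S2344
import Cfsg.Agent.Forms.OMain
import Cfsg.Agent.Cl.OStd

set_option autoImplicit false
open Cfsg

namespace Cfsg.Agent.S2344

/-- For a finite field F of odd order q > 3 and n ≥ 3, every irreducible complex representation of degree at least 2 of Ω_{2n+1}(F) (the commutator subgroup of the isometry group of the quadratic form x₀² + x₁y₁ + ⋯ + x_ny_n) has degree at least (q^{2n} − 1)/(q² − 1). -/
theorem result {F : Type*} [Field F] [Fintype F] (n : ℕ) (hn : 3 ≤ n) (hodd : Odd (Fintype.card F)) (h3 : 3 < Fintype.card F) :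
    (∀ (k : ℕ) (ρ : Representation ℂ (Cfsg.Omega F (Cfsg.quadFormOdd n F)) (Fin k → ℂ)), ρ.IsIrreducible → 2 ≤ k → (Fintype.card F ^ (2 * n) - 1) / (Fintype.card F ^ 2 - 1) ≤ k) := by
  intro k ρ hρ hk
  obtain ⟨N, rfl⟩ : ∃ N, n = N + 3 := ⟨n - 3, by omega⟩
  have h2 : ringChar F ≠ 2 := fun e => by
    have := FiniteField.even_card_iff_char_two.1 e
    have := Nat.odd_iff.1 hodd
    omega
  have hQ := Forms.QOdd_nondegenerate (F := F) (N + 3) (Ring.two_ne_zero h2)
  obtain ⟨π, a1, -, -, a2⟩ := Forms.exists_uni (Polar.omegaEquiv hQ (by simp; omega)).symm ρ hρ hk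
  have h := Forms.odd_bound a1 (Polar.ofQuad_nd hQ) a2 (.of (Cl.hsO F (N + 3))) (by simp; omega) (fun x hx e => by
    have h := Cl.mem_hsO.1 (Forms.OFr.of_W _ hx)
    have e' : x (.inl ()) = 0 := by simpa [Polar.PQ.ofQuad, Forms.QOdd_apply, h] using e
    funext i; rcases i with _ | i; exacts [e', h i]) (by rw [Nat.card_eq_fintype_card]; omega) h2
  rw [finrank_euclideanSpace_fin, Nat.card_eq_fintype_card] at h
  refine Nat.div_le_of_le_mul ?_
  zify [Nat.one_le_pow _ _ (show 0 < Fintype.card F by omega)]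
  exact h

end Cfsg.Agent.S2344
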