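import Cfsg.Statements.S2346
import Cfsg.Agent.Forms.OMain
import Cfsg.Agent.Cl.OStd

set_option autoImplicit false
open Cfsg

namespace Cfsg.Agent.S2346

/-- For a finite field F with q elements, n ≥ 4, and a, b ∈ F with z₁² + a z₁z₂ + b z₂² anisotropic, every irreducible complex representation of degree at least 2 of Ω⁻_{2n}(F) (the commutator subgroup of the isometry group of x₁y₁ + ⋯ + x_{n−1}y_{n−1} + z₁² + a z₁z₂ + b z₂²) has degree at least (q^n + 1)(q^{n−1} − q)/(q² − 1). -/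
theorem result {F : Type*} [Field F] [Fintype F] (n : ℕ) (hn : 4 ≤ n) (a b : F) (hab : ∀ z₁ z₂ : F, z₁ ^ 2 + a * z₁ * z₂ + b * z₂ ^ 2 = 0 → z₁ = 0 ∧ z₂ = 0) :
    (∀ (k : ℕ) (ρ : Representation ℂ (Cfsg.Omega F (Cfsg.quadFormMinus (n - 1) F a b)) (Fin k → ℂ)), ρ.IsIrreducible → 2 ≤ k → (Fintype.card F ^ n + 1) * (Fintype.card F ^ (n - 1) - Fintype.card F) / (Fintype.card F ^ 2 - 1) ≤ k) := by
  obtain ⟨N, rfl⟩ : ∃ N, n = N + 4 := ⟨n - 4, by omega⟩
  rw [show N + 4 - 1 = N + 3 from rfl]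
  intro k ρ hρ hk
  have hQ := Forms.QMinus_nondegenerate (F := F) (N + 3) hab
  obtain ⟨π, a1, -, -, a2⟩ := Forms.exists_uni (Polar.omegaEquiv hQ (by simp; omega)).symm ρ hρ hk
  have h := Forms.minus_bound a1 (Polar.ofQuad_nd hQ) a2 (.of (Cl.hsM F (N + 3) a b)) (by simp; omega) (fun x hx e => by
    have h := Cl.mem_hsM.1 (Forms.OFr.of_W _ hx)
    have e' := hab (x (.inr 0)) (x (.inr 1)) (by simpa [Polar.PQ.ofQuad, Forms.QMinus_apply, h] using e)
    funext i; rcases i with i | i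
    · exact h i
    · fin_cases i; exacts [e'.1, e'.2]) fun U hU =>
      Forms.finrank_le_of_singular_QMinus _ hab fun x hx => Polar.PQ.o_sing_iff.1 (hU.sing x hx)
  rw [finrank_euclideanSpace_fin, Nat.card_eq_fintype_card] at h
  refine Nat.div_le_of_le_mul ?_
  zify [Nat.one_le_pow _ _ (Fintype.card_pos (α := F)), Nat.le_self_pow (show N + 3 ≠ 0 by omega) (Fintype.card F)]
  exact h

end Cfsg.Agent.S2346
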