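import Cfsg.Statements.S2347
import Cfsg.Agent.Forms.Weil

set_option autoImplicit false
open Cfsg

namespace Cfsg.Agent.S2347

open Cfsg.Agent.Forms Module

/-- Smallest degree of a non-linear irreducible complex representation of the symplectic group Sp_{2n} over a finite field of odd order q, n ≥ 2: every irreducible complex representation of degree at least 2 has degree at least (q^n − 1)/2, and there is an irreducible complex representation of exactly that degree (a Weil representation). -/
theorem result {F : Type*} [Field F] [Fintype F] [DecidableEq F] (n : ℕ) (hn : 2 ≤ n) (hodd : Odd (Fintype.card F)) :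
    (∀ (k : ℕ) (ρ : Representation ℂ (Matrix.symplecticGroup (Fin n) F) (Fin k → ℂ)), ρ.IsIrreducible → 2 ≤ k → (Fintype.card F ^ n - 1) / 2 ≤ k) ∧
    (∃ ρ : Representation ℂ (Matrix.symplecticGroup (Fin n) F) (Fin ((Fintype.card F ^ n - 1) / 2) → ℂ), ρ.IsIrreducible) := by
  have h2 := two_ne_zero_of_odd_card hodd
  refine ⟨fun k ρ hρ hk => ?_, ?_⟩
  · obtain ⟨g, hg⟩ := exists_ne_one_of_irreducible ρ (by simpa using hk)
    have h3 : ∃ g a c, slin g = qrefl (σ := RingHom.id F) (sympB n F) a c ∧ ρ g ≠ 1 := by
      by_contra h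
      push Not at h
      exact hg (sp_mem_of_transvection (N := MonoidHom.ker ρ) h g)
    obtain ⟨g, a, c, hg, hg'⟩ := h3
    obtain ⟨p, hp, hp'⟩ := exists_char_cast (F := F)
    have := sp_degree_bound hn h2 ρ hp hp' hg hg'
    rw [finrank_fin_fun] at this
    exact Nat.div_le_of_le_mul this
  · obtain ⟨ψ, hψ⟩ := exists_addChar_ne_one (F := F)
    obtain ⟨ω, hω, hJ⟩ := exists_weil (n := n) h2 hψ
    obtain ⟨k, ρ, hρ, h⟩ := (weil_irreducible (by omega) h2 hψ hω hJ).2
    have h1 := congrFun h 1
    rw [Representation.char_one, Representation.char_one, finrank_fin_fun] at h1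
    have h3 := h1.trans (finrank_parSp (n := n) h2 (ε := -1) (by simp))
    have h4 : ((Fintype.card F ^ n : ℕ) : ℂ) = (2 * k + 1 : ℕ) := by
      push_cast
      linear_combination -2 * h3
    obtain rfl : k = (Fintype.card F ^ n - 1) / 2 := by
      have := Nat.cast_injective h4
      omega
    exact ⟨ρ, hρ⟩

end Cfsg.Agent.S2347
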