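import Cfsg.Statements.S2352
import Cfsg.Agent.Law.Emb

set_option autoImplicit false
open Cfsg

namespace Cfsg.Agent.S2352

open Cfsg.Agent.SL2 Cfsg.Agent.Law

/-- A non-trivial law holds in only finitely many alternating groups: for every non-trivial element w of the free group on countably many generators there is N such that for all n ≥ N some substitution of elements of the alternating group of degree n into w is not the identity. -/
theorem result (w : FreeGroup ℕ) (hw : w ≠ 1) :
    ∃ N : ℕ, ∀ n : ℕ, N ≤ n → ∃ f : ℕ → alternatingGroup (Fin n), FreeGroup.lift f w ≠ 1 := by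
  obtain ⟨N, hN⟩ := exists_not_isScal.{0} w hw
  obtain ⟨p, hp1, hp⟩ := Nat.exists_infinite_primes (N + 5)
  have : Fact p.Prime := ⟨hp⟩
  have hcp : Nat.card (ZMod p) = p := Nat.card_zmod p
  have hL : commutator (SLT (ZMod p)) = ⊤ := sl_perfect _ (by omega)
  refine ⟨Nat.card (SLT (ZMod p)), fun n hn => ?_⟩
  by_contra! hlaw
  have hc := cLaw_of_law hlaw (MulEquiv.refl _)
  obtain ⟨φ, hφ⟩ := exists_perm_emb (SLT (ZMod p)) hn
  obtain ⟨f, hf⟩ := hN (ZMod p) (by omega)
  refine hf (sl_mem_center_iff.1 (hc.of_injective (φ.codRestrict _ fun x => ?_)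
    (fun _ _ h => hφ (congrArg Subtype.val h)) f))
  exact Equiv.Perm.mem_alternatingGroup.2 (map_eq_one_of_perfect hL (Equiv.Perm.sign.comp φ) x)

end Cfsg.Agent.S2352
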