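import Cfsg.Statements.S2353
import Cfsg.Agent.Law.SL2

set_option autoImplicit false
open Cfsg

namespace Cfsg.Agent.S2353

open Cfsg.Agent.SL2 Cfsg.Agent.Law

/-- A non-trivial law holds in PSL_2 over only finitely many finite fields: for every non-trivial element w of the free group on countably many generators there is N such that over every finite field with at least N elements some substitution of elements of PSL_2 into w is not the identity. -/
theorem result (w : FreeGroup ℕ) (hw : w ≠ 1) :
    ∃ N : ℕ, ∀ (F : Type*) [Field F] [Fintype F], N ≤ Fintype.card F →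
      ∃ f : ℕ → Matrix.ProjectiveSpecialLinearGroup (Fin 2) F, FreeGroup.lift f w ≠ 1 := by
  obtain ⟨N, hN⟩ := exists_not_isScal w hw
  refine ⟨N, fun F _ _ hF => ?_⟩
  obtain ⟨f, hf⟩ := hN F (by rwa [Nat.card_eq_fintype_card])
  refine ⟨fun i => pr (f i), fun e => hf (pr_eq_one_iff.1 ?_)⟩
  rw [← e]
  exact FreeGroup.lift_unique (pr.comp (FreeGroup.lift f)) (fun x => by simp)

end Cfsg.Agent.S2353
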