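import Cfsg.Statements.S2354
import Cfsg.Agent.Sz.Law
import Cfsg.Agent.Sz.Inst

set_option autoImplicit false
open Cfsg

namespace Cfsg.Agent.S2354

/-- A non-trivial law holds in only finitely many Suzuki groups: for every non-trivial element w of the free group on countably many generators there is N such that for q = 2^(2m+1) with m ≥ N some substitution of elements of the Suzuki group over the field with q elements into w is not the identity. -/
theorem result (w : FreeGroup ℕ) (hw : w ≠ 1) :
    ∃ N : ℕ, ∀ (F : Type*) [Field F] [Fintype F] (m : ℕ), 1 ≤ m → N ≤ m →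
      Fintype.card F = 2 ^ (2 * m + 1) →
      ∃ f : ℕ → ↥(Cfsg.Lie.Sz F (2 ^ (m + 1))), FreeGroup.lift f w ≠ 1 := by
  obtain ⟨N, hN⟩ := Sz.exists_law_bound w hw
  exact ⟨N, fun F _ _ m hm hNm hF =>
    hN (Sz.lieModel (F := F) (m := m) hm (Nat.card_eq_fintype_card.trans hF)) hNm⟩

end Cfsg.Agent.S2354
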