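import Cfsg.Statements.S2355
import Cfsg.Agent.Law.Emb

set_option autoImplicit false
open Cfsg

namespace Cfsg.Agent.S2355

open Cfsg.Agent.SL2 Cfsg.Agent.Law

/-- A non-trivial law is satisfied by only finitely many finite simple groups that are alternating or classical, up to isomorphism: for every non-trivial element w of the free group on countably many generators there is a bound N such that every alternating group of degree ≥ 5 and every simple classical group (linear, symplectic, unitary or orthogonal, in this problem's sense) in which w is a law has order at most N. -/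
theorem result (w : FreeGroup ℕ) (hw : w ≠ 1) :
    ∃ N : ℕ, ∀ (G : Type*) [Group G] [Finite G],
      (Cfsg.IsAlternating G ∨ Cfsg.IsPSL G ∨ Cfsg.IsPSp G ∨ Cfsg.IsPSU G ∨ Cfsg.IsPOmegaOdd G ∨
          Cfsg.IsPOmegaPlus G ∨ Cfsg.IsPOmegaMinus G) →
      (∀ f : ℕ → G, FreeGroup.lift f w = 1) → Nat.card G ≤ N := by
  obtain ⟨N, hN⟩ := exists_not_isScal.{0} w hw
  have hN' : ∀ (K : Type) [Field K] [Finite K],
      (commutator (SLT K) = ⊤ → CLaw w (SLT K)) → Nat.card K ≤ N + 4 := by
    intro K _ _ h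
    by_contra hlt
    obtain ⟨f, hf⟩ := hN K (by omega)
    exact hf (sl_mem_center_iff.1 (h (sl_perfect K (by omega)) f))
  obtain ⟨p, hp1, hp⟩ := Nat.exists_infinite_primes (N + 5)
  have : Fact p.Prime := ⟨hp⟩
  have hcp : Nat.card (ZMod p) = p := Nat.card_zmod p
  have hL : commutator (SLT (ZMod p)) = ⊤ := sl_perfect _ (by omega)
  have hL' : ¬ CLaw w (SLT (ZMod p)) := fun h => by
    have := hN' (ZMod p) (fun _ => h)
    omega
  set n0 := Nat.card (SLT (ZMod p)) with hn0
  set a := (N + 4) ^ 2 with ha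
  have hNa : N + 4 ≤ a := Nat.le_self_pow two_ne_zero _
  refine ⟨a ^ ((2 * n0 + 2) * (2 * n0 + 2)) + n0.factorial, fun G _ _ hG hlaw => ?_⟩
  have gen : ∀ (F : Type) [Field F] [Finite F] (m : ℕ), 2 ≤ m →
      (∀ (L : Type) [Group L], commutator L = ⊤ → ∀ ψ : L →* GL (Fin m) F, Function.Injective ψ →
        CLaw w L) → Nat.card F ≤ a ∧ m ≤ n0 := by
    intro F _ _ m hm H
    constructor
    · refine le_trans (hN' F fun hF => ?_) hNa
      obtain ⟨ψ, hψ, -⟩ := exists_ext_gl (Matrix.SpecialLinearGroup.coeMonoidHom : SLT F →* M2 F)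
        Matrix.SpecialLinearGroup.coeMonoidHom_injective hm
      exact H _ hF ψ hψ
    · by_contra hlt
      obtain ⟨ψ, hψ, -⟩ := exists_perm_gl (F := F) (SLT (ZMod p)) (m := m) (by omega)
      exact hL' (H _ hL ψ hψ)
  rcases hG with ⟨n, -, ⟨e⟩⟩ | ⟨F, _, _, n, hn, -, ⟨e⟩⟩ | ⟨F, _, _, n, hn, -, ⟨e⟩⟩ |
    ⟨F, _, _, n, q, hq, hn, -, ⟨e⟩⟩ | ⟨F, _, _, n, hn, -, ⟨e⟩⟩ | ⟨F, _, _, n, hn, ⟨e⟩⟩ |
    ⟨F, _, _, n, c, d, hn, -, ⟨e⟩⟩
  · have hc := cLaw_of_law hlaw e
    have : n ≤ n0 := by
      by_contra hlt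
      obtain ⟨φ, hφ⟩ := exists_perm_emb (SLT (ZMod p)) (m := n) (by omega)
      refine hL' (hc.of_injective (φ.codRestrict _ fun x => ?_) fun _ _ h => hφ (congrArg Subtype.val h))
      exact Equiv.Perm.mem_alternatingGroup.2 (map_eq_one_of_perfect hL (Equiv.Perm.sign.comp φ) x)
    calc Nat.card G = Nat.card (alternatingGroup (Fin n)) := Nat.card_congr e.toEquiv
      _ ≤ Nat.card (Equiv.Perm (Fin n)) := Nat.card_le_card_of_injective _ Subtype.val_injective
      _ = n.factorial := by rw [Nat.card_perm, Nat.card_eq_fintype_card, Fintype.card_fin]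
      _ ≤ n0.factorial := Nat.factorial_le this
      _ ≤ _ := Nat.le_add_left _ _
  · obtain ⟨h1, h2⟩ := gen F n hn fun L _ hL ψ hψ => cLaw_of_SL hL ψ hψ (cLaw_of_quot hlaw e)
    exact le_trans (card_le_of_inj e Subtype.val Subtype.val_injective h1 (by simp; omega))
      (Nat.le_add_right _ _)
  · obtain ⟨h1, h2⟩ := gen F n hn fun L _ _ ψ hψ => cLaw_of_Sp ψ hψ (cLaw_of_quot hlaw e)
    exact le_trans (card_le_of_inj e Subtype.val Subtype.val_injective h1 (by simp; omega))
      (Nat.le_add_right _ _)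
  · have hc := cLaw_of_quot hlaw e
    have h1 : Nat.card F ≤ a := by
      obtain ⟨K, hK, ψ, hψ, hf⟩ := exists_su_two hq
      refine hK.trans (Nat.pow_le_pow_left (hN' K fun hKp => ?_) 2)
      obtain ⟨ψ', hψ', hf'⟩ := exists_ext_gl ψ hψ (m := n) (by omega)
      exact cLaw_of_SU hKp ψ' hψ' (hf' q hf) hc
    have h2 : n ≤ n0 := by
      by_contra hlt
      obtain ⟨ψ, hψ, hf⟩ := exists_perm_gl (F := F) (SLT (ZMod p)) (m := n) (by omega)
      refine hL' (cLaw_of_SU hL ψ hψ (fun x u v => ?_) hc)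
      obtain ⟨σ, hσ⟩ := hf x
      rw [hσ, hσ]
      exact Equiv.sum_comp σ (fun i => u i * v i ^ q)
    exact le_trans (card_le_of_inj e (fun x => x.1.1)
      (Subtype.val_injective.comp Subtype.val_injective) h1 (by simp; omega)) (Nat.le_add_right _ _)
  · obtain ⟨h1, h2⟩ := gen F n (by omega) fun L _ hL ψ hψ => cLaw_of_odd hL ψ hψ (cLaw_of_quot hlaw e)
    exact le_trans (card_le_of_inj e (fun x => x.1.1.1)
      (Units.val_injective.comp (Subtype.val_injective.comp Subtype.val_injective)) h1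
      (by simp; omega)) (Nat.le_add_right _ _)
  · obtain ⟨h1, h2⟩ := gen F n (by omega) fun L _ hL ψ hψ => cLaw_of_plus hL ψ hψ (cLaw_of_quot hlaw e)
    exact le_trans (card_le_of_inj e (fun x => x.1.1.1)
      (Units.val_injective.comp (Subtype.val_injective.comp Subtype.val_injective)) h1
      (by simp; omega)) (Nat.le_add_right _ _)
  · obtain ⟨h1, h2⟩ := gen F (n - 1) (by omega) fun L _ hL ψ hψ =>
      cLaw_of_minus hL ψ hψ (cLaw_of_quot hlaw e)
    exact le_trans (card_le_of_inj e (fun x => x.1.1.1)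
      (Units.val_injective.comp (Subtype.val_injective.comp Subtype.val_injective)) h1
      (by simp; omega)) (Nat.le_add_right _ _)

end Cfsg.Agent.S2355
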