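import Cfsg.Statements.S2356
import Cfsg.Agent.Forms.SU3Inv

set_option autoImplicit false
open Cfsg

namespace Cfsg.Agent.S2356

open Cfsg.Agent.Forms Finset

/-- The statement, for an element of any group. -/
def Stmt {G : Type*} [Group G] (a b c : ℕ) (t : G) : Prop :=
    Nat.card {x : G // x ≠ 1 ∧ x * x = 1 ∧ x ≠ t ∧ Commute t x} = a ∧
    Nat.card {x : G // x ≠ 1 ∧ x * x = 1 ∧ ¬ Commute t x ∧
        ∃ y : G, y ≠ 1 ∧ y * y = 1 ∧ Commute t y ∧ Commute y x} = b ∧
    Nat.card {x : G // x ≠ 1 ∧ x * x = 1 ∧ ¬ Commute t x ∧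
        ∀ y : G, y ≠ 1 → y * y = 1 → ¬ (Commute t y ∧ Commute y x)} = c ∧
    ∀ x : G, x ≠ 1 → x * x = 1 →
      ∃ y z : G, y ≠ 1 ∧ y * y = 1 ∧ z ≠ 1 ∧ z * z = 1 ∧
        Commute t y ∧ Commute y z ∧ Commute z x

theorem Stmt.map {G : Type*} [Group G] {a b c : ℕ} {t : G} (h : Stmt a b c t) (φ : G ≃* G) :
    Stmt a b c (φ t) := by
  obtain ⟨h1, h2, h3, h4⟩ := h
  have e1 : ∀ x, φ x = 1 ↔ x = 1 := fun x => map_eq_one_iff φ φ.injective
  have e2 : ∀ x, φ x * φ x = 1 ↔ x * x = 1 := fun x => by rw [← map_mul, e1]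
  have e3 : ∀ x y, Commute (φ x) (φ y) ↔ Commute x y := fun x y => commute_map_iff φ.injective
  refine ⟨h1 ▸ (Nat.card_congr (φ.toEquiv.subtypeEquiv fun x => ?_)).symm,
    h2 ▸ (Nat.card_congr (φ.toEquiv.subtypeEquiv fun x => ?_)).symm,
    h3 ▸ (Nat.card_congr (φ.toEquiv.subtypeEquiv fun x => ?_)).symm, ?_⟩
  · simp only [MulEquiv.toEquiv_eq_coe, EquivLike.coe_coe, Ne, e1, e2, e3,
      EmbeddingLike.apply_eq_iff_eq]
  · rw [φ.surjective.exists (p := fun y => y ≠ 1 ∧ y * y = 1 ∧ Commute (φ t) y ∧ _)]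
    simp only [MulEquiv.toEquiv_eq_coe, EquivLike.coe_coe, Ne, e1, e2, e3]
  · rw [φ.surjective.forall (p := fun y => y ≠ 1 → y * y = 1 → ¬ (Commute (φ t) y ∧ _))]
    simp only [MulEquiv.toEquiv_eq_coe, EquivLike.coe_coe, Ne, e1, e2, e3]
  · intro x hx hx2
    obtain ⟨x, rfl⟩ := φ.surjective x
    obtain ⟨y, z, k⟩ := h4 x ((e1 x).not.1 hx) ((e2 x).1 hx2)
    exact ⟨φ y, φ z, by simpa only [Ne, e1, e2, e3] using k⟩

variable {F : Type*} [Field F] [Fintype F] {q : ℕ}

theorem card_ne_ne [DecidableEq F] (hF : Fintype.card F = q ^ 2) {s : F} (hs0 : s ≠ 0)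
    (hs : frobq hF s = s) :
    #{a : F | a ≠ 0 ∧ nrm hF a + s ≠ 0} + (q + 2) = q ^ 2 := by
  have h1 := card_nrm_eq hF (s := -s) (by rw [map_neg, hs])
  rw [if_neg (neg_ne_zero.2 hs0)] at h1
  have h2 := card_filter_add_card_filter_not (s := univ) (fun a : F => a ≠ 0 ∧ nrm hF a + s ≠ 0)
  have h3 : ({a : F | ¬ (a ≠ 0 ∧ nrm hF a + s ≠ 0)} : Finset F) =
      insert 0 ({a : F | nrm hF a = -s} : Finset F) := by
    ext a
    simp only [mem_filter, mem_univ, true_and, mem_insert, not_and_or, not_not,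
      add_eq_zero_iff_eq_neg]
  rw [h3, card_insert_of_notMem (by simp [nrm_zero, hs0]), h1, card_univ, hF] at h2
  omega

theorem stmt_e0 (hq : Odd q) (hF : Fintype.card F = q ^ 2) :
    Stmt (q * (q - 1)) (q * (q - 2) * (q ^ 2 - 1)) ((q + 1) * (q ^ 2 - 1)) (su3inv hF (e0 F)) := by
  classical
  have h2 := two_ne_zero_of_odd_q hF hq
  have hq2 := two_le_q hF
  have hpos : 0 < q ^ 2 - 1 := by
    have : 2 ^ 2 ≤ q ^ 2 := Nat.pow_le_pow_left hq2 2
    omega
  have n0 := card_nrm_add_nrm hF (s := 0) (map_zero _)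
  rw [if_pos rfl] at n0
  have hcard : Fintype.card (F × F) = q ^ 2 * q ^ 2 := by rw [Fintype.card_prod, hF]
  obtain ⟨r, rfl⟩ : ∃ r, q = r + 2 := ⟨q - 2, by omega⟩
  have e1 : (r + 2) ^ 2 - 1 = r ^ 2 + 4 * r + 3 := Nat.sub_eq_of_eq_add (by ring)
  have e2 : (r + 2) ^ 2 * (r + 2) ^ 2 - (1 + (r ^ 2 + 4 * r + 3) * (r + 2 + 1)) =
      (r ^ 2 + 4 * r + 3) * ((r + 2) * (r + 1)) := Nat.sub_eq_of_eq_add (by ring)
  rw [e1] at n0
  refine ⟨Nat.eq_of_mul_eq_mul_right hpos ?_, Nat.eq_of_mul_eq_mul_right hpos ?_,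
    Nat.eq_of_mul_eq_mul_right hpos ?_, ?_⟩
  · rw [card_invol (hF := hF) h2 (fun x => x ≠ su3inv hF (e0 F) ∧ Commute (su3inv hF (e0 F)) x)
      (fun p a => a = 0 ∧ nrm hF p.1 + nrm hF p.2 ≠ 0) (fun w => ?_)]
    · have : ∀ p : F × F, #{a : F | a = 0 ∧ nrm hF p.1 + nrm hF p.2 ≠ 0} =
          if nrm hF p.1 + nrm hF p.2 = 0 then 0 else 1 := by
        intro p
        split_ifs with h
        · simp [h]
        · exact card_eq_one.2 ⟨0, by ext; simp [h]⟩
      simp only [this]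
      rw [sum_ite_card, n0, hcard, e1, e2, show r + 2 - 1 = r + 1 from rfl]
      ring
    · constructor
      · rintro ⟨hw, h3, h4⟩
        rw [Ne, su3inv_eq_e0_iff h2 hw] at h3
        rw [commute_e0_iff h2 hw, or_iff_right h3] at h4
        rw [hm_self, h4, nrm_zero, zero_add] at hw
        exact ⟨h4, hw⟩
      · rintro ⟨h3, h4⟩
        have hw : hm hF w w ≠ 0 := by rwa [hm_self, h3, nrm_zero, zero_add]
        refine ⟨hw, ?_, (commute_e0_iff h2 hw).2 (Or.inr h3)⟩
        rw [Ne, su3inv_eq_e0_iff h2 hw]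
        rintro ⟨h5, h6⟩
        exact h4 (by simp only [h5, h6, nrm_zero, add_zero])
  · rw [card_invol (hF := hF) h2 (fun x => ¬ Commute (su3inv hF (e0 F)) x ∧
        ∃ y : SU 3 F (r + 2), y ≠ 1 ∧ y * y = 1 ∧ Commute (su3inv hF (e0 F)) y ∧ Commute y x)
      (fun p a => nrm hF p.1 + nrm hF p.2 ≠ 0 ∧ a ≠ 0 ∧ nrm hF a + (nrm hF p.1 + nrm hF p.2) ≠ 0)
      (fun w => ?_)]
    · have : ∀ p : F × F, #{a : F | nrm hF p.1 + nrm hF p.2 ≠ 0 ∧ a ≠ 0 ∧
            nrm hF a + (nrm hF p.1 + nrm hF p.2) ≠ 0} =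
          if nrm hF p.1 + nrm hF p.2 = 0 then 0 else r * (r + 3) := by
        intro p
        split_ifs with h
        · simp [h]
        · have := card_ne_ne hF h (by rw [map_add, frobq_nrm, frobq_nrm])
          simp only [Ne, h, not_false_eq_true, true_and] at this ⊢
          nlinarith
      simp only [this]
      rw [sum_ite_card, n0, hcard, e1, e2, show r + 2 - 2 = r from rfl]
      ring
    · constructor
      · rintro ⟨hw, h3, h4⟩
        rw [exists_common_iff h2 hw h3] at h4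
        rw [commute_e0_iff h2 hw, not_or] at h3
        rw [hm_self, add_assoc] at hw
        exact ⟨h4, h3.2, hw⟩
      · rintro ⟨h3, h4, h5⟩
        have hw : hm hF w w ≠ 0 := by rwa [hm_self, add_assoc]
        have h6 : ¬ Commute (su3inv hF (e0 F)) (su3inv hF w) := by
          rw [commute_e0_iff h2 hw, not_or]
          refine ⟨?_, h4⟩
          rintro ⟨h5, h6⟩
          exact h3 (by simp only [h5, h6, nrm_zero, add_zero])
        exact ⟨hw, h6, (exists_common_iff h2 hw h6).2 h3⟩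
  · rw [card_invol (hF := hF) h2 (fun x => ¬ Commute (su3inv hF (e0 F)) x ∧
        ∀ y : SU 3 F (r + 2), y ≠ 1 → y * y = 1 → ¬ (Commute (su3inv hF (e0 F)) y ∧ Commute y x))
      (fun p a => (p ≠ 0 ∧ nrm hF p.1 + nrm hF p.2 = 0) ∧ a ≠ 0)
      (fun w => ?_)]
    · have : ∀ p : F × F, #{a : F | (p ≠ 0 ∧ nrm hF p.1 + nrm hF p.2 = 0) ∧ a ≠ 0} =
          if p ≠ 0 ∧ nrm hF p.1 + nrm hF p.2 = 0 then r ^ 2 + 4 * r + 3 else 0 := by
        intro p
        split_ifs with h
        · simp only [h, Ne, not_false_eq_true, true_and]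
          rw [filter_ne', card_erase_of_mem (mem_univ _), card_univ, hF, e1]
        · simp only [h, false_and, filter_false, card_empty]
      simp only [this]
      have h3 : ({p : F × F | p ≠ 0 ∧ nrm hF p.1 + nrm hF p.2 = 0} : Finset (F × F)) =
          erase {p : F × F | nrm hF p.1 + nrm hF p.2 = 0} 0 := by
        ext p
        simp
      rw [sum_ite_card, h3, card_erase_of_mem (by simp [nrm_zero]), n0, e1,
        Nat.add_sub_cancel_left]
      ring
    · have key : ∀ hw : hm hF w w ≠ 0, ¬ Commute (su3inv hF (e0 F)) (su3inv hF w) →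
          ((∀ y : SU 3 F (r + 2), y ≠ 1 → y * y = 1 →
            ¬ (Commute (su3inv hF (e0 F)) y ∧ Commute y (su3inv hF w))) ↔
            nrm hF (w 1) + nrm hF (w 2) = 0) := by
        intro hw h3
        rw [← not_iff_not, ← Ne, ← exists_common_iff h2 hw h3]
        push Not
        rfl
      constructor
      · rintro ⟨hw, h3, h4⟩
        rw [key hw h3] at h4
        rw [commute_e0_iff h2 hw, not_or] at h3
        exact ⟨⟨fun h => h3.1 (Prod.mk_eq_zero.1 h), h4⟩, h3.2⟩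
      · rintro ⟨⟨h3, h4⟩, h5⟩
        have hw : hm hF w w ≠ 0 := by
          rw [hm_self, add_assoc, h4, add_zero]
          exact (nrm_eq_zero hF).not.2 h5
        have h6 : ¬ Commute (su3inv hF (e0 F)) (su3inv hF w) := by
          rw [commute_e0_iff h2 hw, not_or]
          exact ⟨fun h => h3 (Prod.mk_eq_zero.2 h), h5⟩
        exact ⟨hw, h6, (key hw h6).2 h4⟩
  · intro x hx hx2
    obtain ⟨w, hw, rfl⟩ := exists_eq_su3inv (hF := hF) h2 hx hx2
    have main : ∀ u u' : Fin 3 → F, hm hF u u ≠ 0 → hm hF u' u' ≠ 0 → u 0 = 0 →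
        (u' = u ∨ hm hF u' u = 0) → hm hF u' w = 0 →
        ∃ y z : SU 3 F (r + 2), y ≠ 1 ∧ y * y = 1 ∧ z ≠ 1 ∧ z * z = 1 ∧
          Commute (su3inv hF (e0 F)) y ∧ Commute y z ∧ Commute z (su3inv hF w) := by
      intro u u' hu hu' k1 k2 k3
      exact ⟨_, _, su3inv_ne_one h2 hu, su3inv_mul_self hu, su3inv_ne_one h2 hu',
        su3inv_mul_self hu', (commute_e0_iff h2 hu).2 (Or.inr k1),
        (commute_su3inv_iff h2 hu hu').2 (k2.imp_left (congrArg _)),
        ((commute_su3inv_iff h2 hw hu').2 (Or.inr k3)).symm⟩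
    by_cases k1 : nrm hF (w 1) + nrm hF (w 2) = 0
    swap
    · rw [← hm_perpV_self] at k1
      exact main _ _ k1 k1 rfl (Or.inl rfl) (hm_perpV w)
    by_cases k2 : nrm hF (w 0) + nrm hF (w 1) = 0
    swap
    · refine main ![0, 0, 1] ![frobq hF (w 1), -frobq hF (w 0), 0] ?_ ?_ rfl (Or.inr ?_) ?_
      · rw [hm_apply]; simp
      · rw [hm_apply]
        intro h
        apply k2
        simp only [Matrix.cons_val, frobq_frobq, map_neg, zero_mul, add_zero] at h
        rw [nrm, nrm]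
        linear_combination h
      · rw [hm_apply]; simp
      · rw [hm_apply]; simp [mul_comm]
    · refine main ![0, 1, 0] ![frobq hF (w 2), 0, -frobq hF (w 0)] ?_ ?_ rfl (Or.inr ?_) ?_
      · rw [hm_apply]; simp
      · rw [hm_apply]
        intro h
        apply hw
        simp only [Matrix.cons_val, frobq_frobq, map_neg, zero_mul, add_zero] at h
        apply mul_left_cancel₀ h2
        rw [hm_self]
        simp only [nrm] at k1 k2 ⊢
        linear_combination h + k1 + k2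
      · rw [hm_apply]; simp
      · rw [hm_apply]; simp [mul_comm]

/-- Let q be odd, F the field with q² elements, S = SU_3(F) (determinant-one isometries of the standard Hermitian form) and t an involution of S. Then: exactly q(q−1) involutions other than t commute with t; exactly q(q−2)(q²−1) involutions do not commute with t but commute with some involution commuting with t; exactly (q+1)(q²−1) involutions x do not commute with t and admit no involution commuting with both t and x; and every involution can be reached from t in at most three steps, each step going to an involution that commutes with the previous one (the commuting involution graph is connected of diameter 3). -/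
theorem result {F : Type*} [Field F] [Fintype F] {q : ℕ} (hq : Odd q)
    (hF : Fintype.card F = q ^ 2) (t : ↥(Cfsg.SU 3 F q)) (ht : t ≠ 1) (ht2 : t * t = 1) :
    Nat.card {x : ↥(Cfsg.SU 3 F q) // x ≠ 1 ∧ x * x = 1 ∧ x ≠ t ∧ Commute t x} = q * (q - 1) ∧
    Nat.card {x : ↥(Cfsg.SU 3 F q) // x ≠ 1 ∧ x * x = 1 ∧ ¬ Commute t x ∧
        ∃ y : ↥(Cfsg.SU 3 F q), y ≠ 1 ∧ y * y = 1 ∧ Commute t y ∧ Commute y x} = q * (q - 2) * (q ^ 2 - 1) ∧
    Nat.card {x : ↥(Cfsg.SU 3 F q) // x ≠ 1 ∧ x * x = 1 ∧ ¬ Commute t x ∧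
        ∀ y : ↥(Cfsg.SU 3 F q), y ≠ 1 → y * y = 1 → ¬ (Commute t y ∧ Commute y x)} = (q + 1) * (q ^ 2 - 1) ∧
    ∀ x : ↥(Cfsg.SU 3 F q), x ≠ 1 → x * x = 1 →
      ∃ y z : ↥(Cfsg.SU 3 F q), y ≠ 1 ∧ y * y = 1 ∧ z ≠ 1 ∧ z * z = 1 ∧
        Commute t y ∧ Commute y z ∧ Commute z x := by
  obtain ⟨v, hv, rfl⟩ := exists_eq_su3inv (hF := hF) (two_ne_zero_of_odd_q hF hq) ht ht2
  obtain ⟨g, hg⟩ := exists_conj_e0 hv
  rw [← hg]
  exact (stmt_e0 hq hF).map (MulAut.conj g)

end Cfsg.Agent.S2356
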