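import Cfsg.Statements.S2357
import Cfsg.Agent.Tw.Ree5

set_option autoImplicit false
open Cfsg

namespace Cfsg.Agent.S2357

open Cfsg.Lie Cfsg.Agent.Chev Cfsg.Agent.Tw

/-- Let R be the small Ree group over the field with q = 3^(2m+1) ≥ 27 elements and write φ for Euler's totient function. Then R has exactly q²(q²−q+1) involutions, (q²−1)(q³+1) elements of order 3, and q²(q−1)(q³+1) elements of order 6 and as many of order 9; for i > 2 dividing q−1 it has φ(i)q³(q³+1)/2 elements of order i; for i > 1 dividing (q+1)/4 it has φ(i)q³(q−1)(q²−q+1)/6 elements of order i and φ(i)q³(q−1)(q²−q+1)/2 elements of order 2i; and for i > 1 dividing q − 3^(m+1) + 1 (respectively q + 3^(m+1) + 1) it has φ(i)q³(q²−1)(q + 3^(m+1) + 1)/6 (respectively φ(i)q³(q²−1)(q − 3^(m+1) + 1)/6) elements of order i. -/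
theorem result {K : Type*} [Field K] [Fintype K] {m : ℕ} (hm : 1 ≤ m)
    (hK : Fintype.card K = 3 ^ (2 * m + 1)) :
    Nat.card {g : ↥(Cfsg.Lie.twistedG2 K (3 ^ m)) // orderOf g = 2} = (3 ^ (2 * m + 1)) ^ 2 * ((3 ^ (2 * m + 1)) ^ 2 - 3 ^ (2 * m + 1) + 1) ∧
    Nat.card {g : ↥(Cfsg.Lie.twistedG2 K (3 ^ m)) // orderOf g = 3} = ((3 ^ (2 * m + 1)) ^ 2 - 1) * ((3 ^ (2 * m + 1)) ^ 3 + 1) ∧
    Nat.card {g : ↥(Cfsg.Lie.twistedG2 K (3 ^ m)) // orderOf g = 6} = (3 ^ (2 * m + 1)) ^ 2 * (3 ^ (2 * m + 1) - 1) * ((3 ^ (2 * m + 1)) ^ 3 + 1) ∧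
    Nat.card {g : ↥(Cfsg.Lie.twistedG2 K (3 ^ m)) // orderOf g = 9} = (3 ^ (2 * m + 1)) ^ 2 * (3 ^ (2 * m + 1) - 1) * ((3 ^ (2 * m + 1)) ^ 3 + 1) ∧
    (∀ i : ℕ, 2 < i → i ∣ 3 ^ (2 * m + 1) - 1 →
      2 * Nat.card {g : ↥(Cfsg.Lie.twistedG2 K (3 ^ m)) // orderOf g = i} = Nat.totient i * (3 ^ (2 * m + 1)) ^ 3 * ((3 ^ (2 * m + 1)) ^ 3 + 1)) ∧
    (∀ i : ℕ, 1 < i → i ∣ (3 ^ (2 * m + 1) + 1) / 4 →
      6 * Nat.card {g : ↥(Cfsg.Lie.twistedG2 K (3 ^ m)) // orderOf g = i} =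
          Nat.totient i * (3 ^ (2 * m + 1)) ^ 3 * (3 ^ (2 * m + 1) - 1) * ((3 ^ (2 * m + 1)) ^ 2 - 3 ^ (2 * m + 1) + 1) ∧
        2 * Nat.card {g : ↥(Cfsg.Lie.twistedG2 K (3 ^ m)) // orderOf g = 2 * i} =
          Nat.totient i * (3 ^ (2 * m + 1)) ^ 3 * (3 ^ (2 * m + 1) - 1) * ((3 ^ (2 * m + 1)) ^ 2 - 3 ^ (2 * m + 1) + 1)) ∧
    (∀ i : ℕ, 1 < i → i ∣ 3 ^ (2 * m + 1) - 3 ^ (m + 1) + 1 →
      6 * Nat.card {g : ↥(Cfsg.Lie.twistedG2 K (3 ^ m)) // orderOf g = i} =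
        Nat.totient i * (3 ^ (2 * m + 1)) ^ 3 * ((3 ^ (2 * m + 1)) ^ 2 - 1) * (3 ^ (2 * m + 1) + 3 ^ (m + 1) + 1)) ∧
    (∀ i : ℕ, 1 < i → i ∣ 3 ^ (2 * m + 1) + 3 ^ (m + 1) + 1 →
      6 * Nat.card {g : ↥(Cfsg.Lie.twistedG2 K (3 ^ m)) // orderOf g = i} =
        Nat.totient i * (3 ^ (2 * m + 1)) ^ 3 * ((3 ^ (2 * m + 1)) ^ 2 - 1) * (3 ^ (2 * m + 1) - 3 ^ (m + 1) + 1)) := by
  obtain ⟨c, _, P, Q, h0, h1, h2, h3, h4, h5⟩ := exists_ree hK
  have h6 : Nat.card K ^ 2 - Nat.card K + 1 = nT c 2 * nT c 3 := by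
    rw [Nat.sub_eq_of_eq_add (show Nat.card K ^ 2 = Nat.card K * (2 * nT c 0) + Nat.card K by rw [h0]; simp [nT]; ring)]
    rw [h0]; simp [nT]; ring
  have h7 : Nat.card K ^ 2 - 1 = 8 * nT c 0 * nT c 1 := Nat.sub_eq_of_eq_add (by rw [h0]; simp [nT]; ring)
  have h8 : Nat.card K ^ 3 + 1 = 4 * nT c 1 * nT c 2 * nT c 3 := by rw [h0]; simp [nT]; ring
  have h9 : ∀ {i d}, 1 < d → d ∣ nT c i → ¬ d ∣ 2 := fun h h' e => by
    rcases (Nat.dvd_prime Nat.prime_two).1 e with rfl | rfl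
    exacts [lt_irrefl _ h, (nT_odd c _).not_two_dvd_nat h']
  have k := fun i d h h' => Q.count (i := i) (d := d) h h'
  simp only [Q.card_N, Q.card_T, RTor.card_R P h0] at k
  rw [h1, h3, h4, h5, P.count2, P.count3, P.count6, P.count9]
  refine ⟨?_, rfl, rfl, rfl, fun i h h' => ?_, fun i h h' => ⟨?_, ?_⟩, fun i h h' => ?_, fun i h h' => ?_⟩
  · rw [h6, h2, h0]; simp [nT]; ring
  · have := k 0 i (h2 ▸ h') (Nat.not_dvd_of_pos_of_lt two_pos h)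
    rw [card_orderOf_cyclic Q.cyc0.1 (Q.cyc0.2 ▸ h2 ▸ h')] at this
    refine Nat.eq_of_mul_eq_mul_right (nT_odd c 0).pos (Nat.eq_of_mul_eq_mul_left two_pos ?_)
    rw [h8]; simp only [Matrix.cons_val] at this; linear_combination this
  · have := k 1 i (h'.mul_left _) (h9 h h')
    rw [Q.card_ord h'] at this
    refine Nat.eq_of_mul_eq_mul_right (nT_odd c 1).pos (Nat.eq_of_mul_eq_mul_left four_pos ?_)
    rw [h2, h6]; simp only [Matrix.cons_val] at this; linear_combination this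
  · have := k 1 (2 * i) (mul_dvd_mul_left _ h') (Nat.not_dvd_of_pos_of_lt two_pos (by omega))
    rw [Q.card_ord2 h'] at this
    refine Nat.eq_of_mul_eq_mul_right (nT_odd c 1).pos (Nat.eq_of_mul_eq_mul_left (show 0 < 12 by norm_num) ?_)
    rw [h2, h6]; simp only [Matrix.cons_val] at this; linear_combination this
  · have := k 2 i (h'.mul_left _) (h9 h h')
    rw [Q.card_ord h'] at this
    refine Nat.eq_of_mul_eq_mul_right (nT_odd c 2).pos ?_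
    rw [h7]; simp only [Matrix.cons_val] at this; linear_combination this
  · have := k 3 i (h'.mul_left _) (h9 h h')
    rw [Q.card_ord h'] at this
    refine Nat.eq_of_mul_eq_mul_right (nT_odd c 3).pos ?_
    rw [h7]; simp only [Matrix.cons_val] at this; linear_combination this

end Cfsg.Agent.S2357
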