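import Cfsg.Statements.S2359
import Cfsg.Agent.Tw.Ree5

set_option autoImplicit false
open Cfsg

namespace Cfsg.Agent.S2359

open Cfsg.Lie Cfsg.Agent.Chev Cfsg.Agent.Tw

/-- Let R be the small Ree group over the field with q = 3^(2m+1) ≥ 27 elements. If H is a cyclic subgroup of R of order (q−1)/2, then the centralizer of H in R is cyclic of order q−1, and every non-trivial subgroup of H has the same centralizer as H. If H is a cyclic subgroup of order (q+1)/4, then the centralizer of H is abelian of order q+1 with no element of order 4 (so it is the direct product of H and a group of order 4 whose non-identity elements all have order 2), and every non-trivial subgroup of H has the same centralizer as H. -/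
theorem result {K : Type*} [Field K] [Fintype K] {m : ℕ} (hm : 1 ≤ m)
    (hK : Fintype.card K = 3 ^ (2 * m + 1)) (H : Subgroup ↥(Cfsg.Lie.twistedG2 K (3 ^ m))) (hH : IsCyclic H) :
    (Nat.card H = (3 ^ (2 * m + 1) - 1) / 2 →
      IsCyclic ↥(Subgroup.centralizer (H : Set ↥(Cfsg.Lie.twistedG2 K (3 ^ m)))) ∧
        Nat.card ↥(Subgroup.centralizer (H : Set ↥(Cfsg.Lie.twistedG2 K (3 ^ m)))) = 3 ^ (2 * m + 1) - 1 ∧
        ∀ A : Subgroup ↥(Cfsg.Lie.twistedG2 K (3 ^ m)), A ≤ H → A ≠ ⊥ →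
          Subgroup.centralizer (A : Set ↥(Cfsg.Lie.twistedG2 K (3 ^ m))) = Subgroup.centralizer (H : Set ↥(Cfsg.Lie.twistedG2 K (3 ^ m)))) ∧
    (Nat.card H = (3 ^ (2 * m + 1) + 1) / 4 →
      IsMulCommutative ↥(Subgroup.centralizer (H : Set ↥(Cfsg.Lie.twistedG2 K (3 ^ m)))) ∧
        Nat.card ↥(Subgroup.centralizer (H : Set ↥(Cfsg.Lie.twistedG2 K (3 ^ m)))) = 3 ^ (2 * m + 1) + 1 ∧
        (∀ x ∈ Subgroup.centralizer (H : Set ↥(Cfsg.Lie.twistedG2 K (3 ^ m))), orderOf x ≠ 4) ∧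
        ∀ A : Subgroup ↥(Cfsg.Lie.twistedG2 K (3 ^ m)), A ≤ H → A ≠ ⊥ →
          Subgroup.centralizer (A : Set ↥(Cfsg.Lie.twistedG2 K (3 ^ m))) = Subgroup.centralizer (H : Set ↥(Cfsg.Lie.twistedG2 K (3 ^ m)))) := by
  obtain ⟨c, _, P, Q, h0, h1, h2, h3, -⟩ := exists_ree hK
  rw [h1, h2, h3, Nat.mul_div_cancel_left _ two_pos]
  have key : ∀ i, Nat.card H = nT c i → ∃ g, Subgroup.centralizer (H : Set _) = (Q.T i).comap (MulAut.conj g).toMonoidHom ∧
      ∀ A ≤ H, A ≠ ⊥ → Subgroup.centralizer (A : Set _) = Subgroup.centralizer (H : Set ↥(twistedG2 K (3 ^ m))) := fun i e => by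
    obtain ⟨g, hg⟩ := Q.exists_centralizer hH e
    exact ⟨g, hg H le_rfl fun h => by
      have : 3 ^ 3 ≤ 3 ^ (2 * m + 1) := Nat.pow_le_pow_right (by norm_num) (by omega)
      rw [h, Subgroup.card_bot] at e
      obtain rfl : c = 0 := by fin_cases i <;> simp only [nT, Matrix.cons_val] at e <;> simp at e <;> omega
      omega, fun A h h' => (hg A h h').trans (hg H le_rfl fun e => h' (eq_bot_mono h e)).symm⟩
  have k2 : ∀ i g, Nonempty ((Q.T i).comap (MulAut.conj g).toMonoidHom ≃* Q.T i) := fun i g =>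
    ⟨((MulAut.conj g).subgroupMap _).trans (MulEquiv.subgroupCongr
      (Subgroup.map_comap_eq_self_of_surjective (MulAut.conj g).surjective _))⟩
  refine ⟨fun e => ?_, fun e => ?_⟩ <;> obtain ⟨g, h4, h5⟩ := key _ e <;> rw [h4] at h5 ⊢
  · obtain ⟨f⟩ := k2 0 g
    exact ⟨f.isCyclic.2 Q.cyc0.1, (Nat.card_congr f.toEquiv).trans Q.cyc0.2, h5⟩
  · obtain ⟨f⟩ := k2 1 g
    refine ⟨⟨⟨fun a b => f.injective (by rw [map_mul, map_mul]; exact Subtype.ext (Q.comm (f a).2 (f b).2))⟩⟩,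
      (Nat.card_congr f.toEquiv).trans ((Q.card_T 1).trans (by rw [h0]; simp [nT]; ring)), fun x _ h => ?_, h5⟩
    exact absurd (h ▸ orderOf_dvd_of_pow_eq_one (Q.sq_eq_one (k := 2) (h ▸ pow_orderOf_eq_one x :))) (by norm_num)

end Cfsg.Agent.S2359
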