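import Cfsg.Statements.S2360
import Cfsg.Agent.Forms.SU3Inv

set_option autoImplicit false
open Cfsg

namespace Cfsg.Agent.S2360

open Cfsg.Agent.Forms Finset Matrix

/-- The last two parts of the statement, for an element of any group. -/
def Stmt {G : Type*} [Group G] (a : ℕ) (t : G) : Prop :=
    Nat.card {x : G // Commute x t} = a ∧
    ∀ x : G, x ≠ 1 → x * x = 1 → x ≠ t → Commute t x →
      Nat.card {y : G // y ≠ 1 ∧ y * y = 1 ∧ y ≠ t ∧ y ≠ x ∧ Commute t y ∧ Commute x y} = 1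

theorem Stmt.map {G : Type*} [Group G] {a : ℕ} {t : G} (h : Stmt a t) (φ : G ≃* G) :
    Stmt a (φ t) := by
  obtain ⟨h1, h2⟩ := h
  have e1 : ∀ x, φ x = 1 ↔ x = 1 := fun x => map_eq_one_iff φ φ.injective
  have e2 : ∀ x, φ x * φ x = 1 ↔ x * x = 1 := fun x => by rw [← map_mul, e1]
  have e3 : ∀ x y, Commute (φ x) (φ y) ↔ Commute x y := fun x y => commute_map_iff φ.injective
  refine ⟨h1 ▸ (Nat.card_congr (φ.toEquiv.subtypeEquiv fun x => (e3 x t).symm)).symm, ?_⟩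
  intro x hx hx2 hxt hc
  obtain ⟨x, rfl⟩ := φ.surjective x
  rw [← h2 x ((e1 x).not.1 hx) ((e2 x).1 hx2) (fun h => hxt (congrArg φ h)) ((e3 t x).1 hc)]
  refine (Nat.card_congr (φ.toEquiv.subtypeEquiv fun y => ?_)).symm
  simp only [MulEquiv.toEquiv_eq_coe, EquivLike.coe_coe, Ne, e1, e2, e3,
    EmbeddingLike.apply_eq_iff_eq]

variable {F : Type*} [Field F] [Fintype F] {q : ℕ}

theorem sulin_single (g : SU 3 F q) (i j : Fin 3) : sulin g (Pi.single j 1) i = g.1.1 i j := by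
  rw [sulin, sllin_apply]
  simp

theorem facts (hF : Fintype.card F = q ^ 2) (h2 : (2 : F) ≠ 0) {g : SU 3 F q}
    (hg : Commute g (su3inv hF (e0 F))) :
    g.1.1 1 0 = 0 ∧ g.1.1 2 0 = 0 ∧ g.1.1 0 1 = 0 ∧ g.1.1 0 2 = 0 ∧ nrm hF (g.1.1 0 0) = 1 ∧
      nrm hF (g.1.1 1 1) + nrm hF (g.1.1 2 1) = 1 ∧
      g.1.1 1 2 = -frobq hF (g.1.1 2 1) * frobq hF (g.1.1 0 0) ∧
      g.1.1 2 2 = frobq hF (g.1.1 1 1) * frobq hF (g.1.1 0 0) := by
  obtain ⟨c, hc⟩ := (commute_su3inv_iff' h2 g hm_e0_ne).1 hg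
  have h0 : e0 F = Pi.single 0 1 := by
    ext i; fin_cases i <;> simp
  have k1 : g.1.1 1 0 = 0 := by rw [← sulin_single, ← h0, hc]; simp
  have k2 : g.1.1 2 0 = 0 := by rw [← sulin_single, ← h0, hc]; simp
  have hh : ∀ i j : Fin 3, g.1.1 0 i * frobq hF (g.1.1 0 j) + g.1.1 1 i * frobq hF (g.1.1 1 j) +
      g.1.1 2 i * frobq hF (g.1.1 2 j) = hm hF (Pi.single i 1) (Pi.single j 1) := by
    intro i j
    rw [← sulin_form hF g, hm_apply]
    simp only [sulin_single]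
  have k3 := hh 0 0
  have k4 := hh 1 0
  have k5 := hh 2 0
  have k6 := hh 1 1
  have k7 := hh 2 1
  have k8 := g.1.det_coe
  rw [det_fin_three] at k8
  rw [hm_apply] at k3 k4 k5 k6 k7
  simp only [k1, k2, map_zero, mul_zero, add_zero, Pi.single_eq_same, map_one, mul_one,
    Pi.single_eq_of_ne, ne_eq, one_ne_zero, not_false_eq_true, zero_ne_one, Fin.reduceEq,
    zero_mul, zero_add, sub_zero] at k3 k4 k5 k6 k7 k8
  have h3 : frobq hF (g.1.1 0 0) ≠ 0 := right_ne_zero_of_mul_eq_one k3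
  have k9 : g.1.1 0 1 = 0 := (mul_eq_zero.1 k4).resolve_right h3
  have k10 : g.1.1 0 2 = 0 := (mul_eq_zero.1 k5).resolve_right h3
  simp only [k9, k10, zero_mul, zero_add] at k6 k7
  refine ⟨k1, k2, k9, k10, k3, k6, ?_, ?_⟩
  · linear_combination (-g.1.1 1 2) * k6 + g.1.1 1 1 * k7 -
      frobq hF (g.1.1 2 1) * frobq hF (g.1.1 0 0) * k8 +
      frobq hF (g.1.1 2 1) * (g.1.1 1 1 * g.1.1 2 2 - g.1.1 1 2 * g.1.1 2 1) * k3
  · linear_combination (-g.1.1 2 2) * k6 + g.1.1 2 1 * k7 +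
      frobq hF (g.1.1 1 1) * frobq hF (g.1.1 0 0) * k8 -
      frobq hF (g.1.1 1 1) * (g.1.1 1 1 * g.1.1 2 2 - g.1.1 1 2 * g.1.1 2 1) * k3

theorem card_cent [DecidableEq F] (hF : Fintype.card F = q ^ 2) (h2 : (2 : F) ≠ 0) :
    Nat.card {x : SU 3 F q // Commute x (su3inv hF (e0 F))} =
      #{p : F × F | nrm hF p.1 + nrm hF p.2 = 1} * #{d : F | nrm hF d = 1} := by
  rw [← Fintype.card_subtype, ← Fintype.card_subtype, ← Fintype.card_prod,
    ← Nat.card_eq_fintype_card]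
  refine Nat.card_congr (Equiv.ofBijective (fun g =>
    (⟨(g.1.1.1 1 1, g.1.1.1 2 1), (facts hF h2 g.2).2.2.2.2.2.1⟩,
      ⟨g.1.1.1 0 0, (facts hF h2 g.2).2.2.2.2.1⟩)) ⟨?_, ?_⟩)
  · intro g g' h
    simp only [Prod.mk.injEq, Subtype.mk.injEq] at h
    obtain ⟨⟨e1, e2⟩, e3⟩ := h
    obtain ⟨a1, a2, a3, a4, -, -, a5, a6⟩ := facts hF h2 g.2
    obtain ⟨b1, b2, b3, b4, -, -, b5, b6⟩ := facts hF h2 g'.2
    refine Subtype.ext (Subtype.ext (Subtype.ext ?_))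
    ext i j
    fin_cases i <;> fin_cases j <;> simp [*]
  · rintro ⟨⟨⟨b, c⟩, hbc⟩, ⟨d, hd⟩⟩
    simp only [nrm] at hbc hd
    let M : SpecialLinearGroup (Fin 3) F :=
      ⟨!![d, 0, 0; 0, b, -frobq hF c * frobq hF d; 0, c, frobq hF b * frobq hF d], by
        rw [det_fin_three]
        simp only [of_apply, cons_val', Matrix.cons_val, cons_val_fin_one]
        linear_combination d * frobq hF d * hbc + hd⟩
    have hM : M ∈ SU 3 F q := (mem_SU_iff hF).2 fun x y => by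
      rw [hm_apply, hm_apply, sllin_apply, sllin_apply]
      simp only [M, mulVec, dotProduct, Fin.sum_univ_three, of_apply, cons_val',
        Matrix.cons_val, cons_val_fin_one, map_add, map_mul, map_zero, map_neg, frobq_frobq]
      linear_combination (x 0 * frobq hF (y 0) + x 2 * frobq hF (y 2)) * hd +
        (x 1 * frobq hF (y 1) + x 2 * frobq hF (y 2) * d * frobq hF d) * hbc
    refine ⟨⟨⟨M, hM⟩, (commute_su3inv_iff' h2 _ hm_e0_ne).2 ⟨d, ?_⟩⟩, rfl⟩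
    ext i
    rw [sulin, sllin_apply]
    fin_cases i <;> simp [M, mulVec, dotProduct, Fin.sum_univ_three]

theorem stmt_e0 (hq : Odd q) (hF : Fintype.card F = q ^ 2) :
    Stmt (q * (q + 1) * (q ^ 2 - 1)) (su3inv hF (e0 F)) := by
  classical
  have h2 := two_ne_zero_of_odd_q hF hq
  constructor
  · rw [card_cent hF h2, card_nrm_add_nrm hF (map_one _), if_neg one_ne_zero, card_nrm_one hF]
    have hq2 := two_le_q hF
    obtain ⟨r, rfl⟩ : ∃ r, q = r + 2 := ⟨q - 2, by omega⟩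
    rw [show (r + 2) ^ 2 - 1 = r ^ 2 + 4 * r + 3 from Nat.sub_eq_of_eq_add (by ring),
      show (r + 2) ^ 2 - (r + 2 + 1) = r ^ 2 + 3 * r + 1 from Nat.sub_eq_of_eq_add (by ring)]
    ring
  · intro x hx hx2 hxt hc
    obtain ⟨w, hw, rfl⟩ := exists_eq_su3inv (hF := hF) h2 hx hx2
    have h3 := (su3inv_eq_e0_iff h2 hw).not.1 hxt
    have h4 : w 0 = 0 := ((commute_e0_iff h2 hw).1 hc).resolve_left h3
    have h5 : hm hF (perpV hF w) (perpV hF w) ≠ 0 := by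
      rw [hm_self, h4, nrm_zero, zero_add] at hw
      rwa [hm_perpV_self]
    have h6 : ∀ u v : Fin 3 → F, hm hF u u ≠ 0 → hm hF v v ≠ 0 → hm hF u v = 0 →
        su3inv hF u ≠ su3inv hF v := by
      intro u v hu hv huv h
      obtain ⟨c, rfl⟩ := (su3inv_eq_iff h2 hv hu).1 h
      rw [map_smul, LinearMap.smul_apply, smul_eq_mul, mul_eq_zero, or_iff_left hv] at huv
      exact ne_zero_of_hm hu (by rw [huv, zero_smul])
    rw [Nat.card_eq_one_iff_exists]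
    refine ⟨⟨su3inv hF (perpV hF w), su3inv_ne_one h2 h5, su3inv_mul_self h5,
      h6 _ _ h5 hm_e0_ne (hm_e0 _), h6 _ _ h5 hw (hm_perpV w), (commute_e0_iff h2 h5).2 (Or.inr rfl),
      (commute_su3inv_iff h2 hw h5).2 (Or.inr (hm_perpV w))⟩, ?_⟩
    rintro ⟨y, hy, hy2, k1, k2, k3, k4⟩
    obtain ⟨u, hu, rfl⟩ := exists_eq_su3inv (hF := hF) h2 hy hy2
    refine Subtype.ext ((su3inv_eq_iff h2 h5 hu).2 (eq_smul_perpV h3 ?_ ?_))
    · exact hm_e0 (hF := hF) u ▸ ((commute_su3inv_iff h2 hm_e0_ne hu).1 k3).resolve_left k1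
    · exact ((commute_su3inv_iff h2 hw hu).1 k4).resolve_left k2

theorem card_all (hq : Odd q) (hF : Fintype.card F = q ^ 2) :
    Nat.card {x : SU 3 F q // x ≠ 1 ∧ x * x = 1} = q ^ 2 * (q ^ 2 - q + 1) := by
  classical
  have h2 := two_ne_zero_of_odd_q hF hq
  have hq2 := two_le_q hF
  have hpos : 0 < q ^ 2 - 1 := by
    have : 2 ^ 2 ≤ q ^ 2 := Nat.pow_le_pow_left hq2 2
    omega
  have n0 := card_nrm_add_nrm hF (s := 0) (map_zero _)
  rw [if_pos rfl] at n0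
  have hcard : Fintype.card (F × F) = q ^ 2 * q ^ 2 := by rw [Fintype.card_prod, hF]
  have h1 := card_invol (hF := hF) h2 (fun _ => True)
    (fun p a => ¬ nrm hF a = -(nrm hF p.1 + nrm hF p.2)) (fun w => by
      rw [and_true, hm_self, add_assoc, Ne, add_eq_zero_iff_eq_neg])
  simp only [and_true] at h1
  have h3 : ∀ p : F × F, #{a : F | ¬ nrm hF a = -(nrm hF p.1 + nrm hF p.2)} =
      if nrm hF p.1 + nrm hF p.2 = 0 then q ^ 2 - 1 else q ^ 2 - (q + 1) := by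
    intro p
    have h4 := card_filter_add_card_filter_not (s := univ)
      (fun a : F => nrm hF a = -(nrm hF p.1 + nrm hF p.2))
    rw [card_nrm_eq hF (by rw [map_neg, map_add, frobq_nrm, frobq_nrm]), card_univ, hF] at h4
    simp only [neg_eq_zero] at h4
    split_ifs at h4 ⊢ <;> omega
  simp only [h3] at h1
  rw [sum_ite_card, n0, hcard] at h1
  refine Nat.eq_of_mul_eq_mul_right hpos ?_
  rw [h1]
  obtain ⟨r, rfl⟩ : ∃ r, q = r + 2 := ⟨q - 2, by omega⟩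
  rw [show (r + 2) ^ 2 - 1 = r ^ 2 + 4 * r + 3 from Nat.sub_eq_of_eq_add (by ring),
    show (r + 2) ^ 2 - (r + 2 + 1) = r ^ 2 + 3 * r + 1 from Nat.sub_eq_of_eq_add (by ring),
    show (r + 2) ^ 2 - (r + 2) = r ^ 2 + 3 * r + 2 from Nat.sub_eq_of_eq_add (by ring),
    show (r + 2) ^ 2 * (r + 2) ^ 2 - (1 + (r ^ 2 + 4 * r + 3) * (r + 2 + 1)) =
      (r ^ 2 + 4 * r + 3) * ((r + 2) * (r + 1)) from Nat.sub_eq_of_eq_add (by ring)]
  ring

/-- Let q be odd, F the field with q² elements and S = SU_3(F) (determinant-one isometries of the standard Hermitian form). Then all involutions of S are conjugate; there are exactly q²(q²−q+1) of them; the centralizer of an involution has order q(q+1)(q²−1), the order of the full unitary group of degree 2; and for two distinct commuting involutions t and x there is exactly one further involution commuting with both. -/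
theorem result {F : Type*} [Field F] [Fintype F] {q : ℕ} (hq : Odd q)
    (hF : Fintype.card F = q ^ 2) (t : ↥(Cfsg.SU 3 F q)) (ht : t ≠ 1) (ht2 : t * t = 1) :
    (∀ x : ↥(Cfsg.SU 3 F q), x ≠ 1 → x * x = 1 → ∃ g : ↥(Cfsg.SU 3 F q), g * t * g⁻¹ = x) ∧
    Nat.card {x : ↥(Cfsg.SU 3 F q) // x ≠ 1 ∧ x * x = 1} = q ^ 2 * (q ^ 2 - q + 1) ∧
    Nat.card ↥(Subgroup.centralizer ({t} : Set ↥(Cfsg.SU 3 F q))) = q * (q + 1) * (q ^ 2 - 1) ∧
    ∀ x : ↥(Cfsg.SU 3 F q), x ≠ 1 → x * x = 1 → x ≠ t → Commute t x →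
      Nat.card {y : ↥(Cfsg.SU 3 F q) // y ≠ 1 ∧ y * y = 1 ∧ y ≠ t ∧ y ≠ x ∧ Commute t y ∧ Commute x y} = 1 := by
  have h2 := two_ne_zero_of_odd_q hF hq
  obtain ⟨v, hv, rfl⟩ := exists_eq_su3inv (hF := hF) h2 ht ht2
  obtain ⟨g, hg⟩ := exists_conj_e0 hv
  have h := (stmt_e0 hq hF).map (MulAut.conj g)
  rw [MulAut.conj_apply, hg] at h
  refine ⟨fun x hx hx2 => ?_, card_all hq hF, ?_, h.2⟩
  · obtain ⟨w, hw, rfl⟩ := exists_eq_su3inv (hF := hF) h2 hx hx2
    obtain ⟨g', hg'⟩ := exists_conj_e0 hw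
    exact ⟨g' * g⁻¹, by rw [← hg, ← hg']; group⟩
  · rw [← h.1]
    exact Nat.card_congr (Equiv.subtypeEquivRight fun x => Subgroup.mem_centralizer_singleton_iff)

end Cfsg.Agent.S2360
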