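import Cfsg.Statements.S2363
import Cfsg.Agent.Forms.LieBound2
import Cfsg.Agent.Forms.StdQuad

set_option autoImplicit false
open Cfsg

namespace Cfsg.Agent.S2363

/-- Let G be a finite simple group of Lie type in characteristic p and let p^k be the exact power of p dividing the order of G. Then the order of G is less than p^(3k); and unless G is isomorphic to PSL(2, F) for the field F with p^k elements, the cube of the order of G is less than p^(8k) (that is, the order is below p^(8k/3)). -/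
theorem result {G : Type*} [Group G] [Finite G] (p : ℕ) (hp : p.Prime) (hG : Cfsg.IsLieTypeChar p G) :
    Nat.card G < p ^ (3 * (Nat.card G).factorization p) ∧
      ((¬ ∃ (F : Type) (_ : Field F) (_ : Fintype F), Fintype.card F = p ^ (Nat.card G).factorization p ∧
          Nonempty (G ≃* Matrix.ProjectiveSpecialLinearGroup (Fin 2) F)) →
        Nat.card G ^ 3 < p ^ (8 * (Nat.card G).factorization p)) := by
  have : Fact p.Prime := ⟨hp⟩
  have key : Forms.Cube p G → Nat.card G < p ^ (3 * (Nat.card G).factorization p) ∧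
      ((¬ ∃ (F : Type) (_ : Field F) (_ : Fintype F), Fintype.card F = p ^ (Nat.card G).factorization p ∧
          Nonempty (G ≃* Matrix.ProjectiveSpecialLinearGroup (Fin 2) F)) →
        Nat.card G ^ 3 < p ^ (8 * (Nat.card G).factorization p)) := fun h => by
    refine ⟨lt_of_pow_lt_pow_left₀ 3 (Nat.zero_le _) (h.trans_le ?_), fun _ => h⟩
    rw [← pow_mul]
    exact Nat.pow_le_pow_right hp.pos (by omega)
  rcases hG with ⟨F, _, _, _, n, hn, -, ⟨e⟩⟩ | ⟨F, _, _, _, m, hm, -, ⟨e⟩⟩ | ⟨F, _, _, _, n, q, hF, hn, -, ⟨e⟩⟩ |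
    ⟨F, _, _, _, m, hm, hF, ⟨e⟩⟩ | ⟨F, _, _, _, m, hm, ⟨e⟩⟩ | ⟨F, _, _, _, m, a, b, hm, hab, ⟨e⟩⟩ | h |
    ⟨F, _, _, _, q, -, ⟨hF, ⟨e⟩⟩ | ⟨hF, ⟨e⟩⟩⟩ | ⟨rfl, F, _, _, m, hm, hF, ⟨e⟩⟩ |
    ⟨rfl, F, _, _, m, hm, hF, ⟨e⟩⟩ | ⟨rfl, F, _, _, m, hm, hF, ⟨e⟩⟩
  · rcases hn.eq_or_lt with rfl | hn
    · obtain ⟨h1, h2⟩ := Forms.psl_two (p := p) e
      exact ⟨h2, fun h => absurd ⟨F, _, _, h1, ⟨e⟩⟩ h⟩
    · exact key (Forms.cube_psl hn e)
  · exact key (Forms.cube_psp hm e)
  · exact key (Forms.cube_psu hF hn e)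
  · have h2 : (2 : F) ≠ 0 := Ring.two_ne_zero fun h =>
      Nat.not_even_iff_odd.2 hF (FiniteField.even_card_iff_char_two.1 h |> Nat.even_iff.2)
    exact key (Forms.cube_pomega (Forms.QOdd_nondegenerate m h2) (by simp; omega) e)
  · exact key (Forms.cube_pomega (Forms.QPlus_nondegenerate m) (by simp; omega) e)
  · exact key (Forms.cube_pomega (Forms.QMinus_nondegenerate (m - 1) hab) (by simp; omega) e)
  · exact key (Forms.cube_exc h)
  · exact key (Forms.cube_2E6 hF e)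
  · exact key (Forms.cube_3D4 hF e)
  · exact key (Forms.cube_sz hm hF e)
  · exact key (Forms.cube_2F4 hm hF e)
  · exact key (Forms.cube_2G2 hm hF e)

end Cfsg.Agent.S2363
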