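import Cfsg.Statements.S2445
import Cfsg.Agent.Ore.OreSp

set_option autoImplicit false
open Cfsg

namespace Cfsg.Agent.S2445

open Cfsg.Agent.Polar Cfsg.Agent.Ore

/-- In the symplectic group Sp(2m,F) over a finite field F (m ≥ 1), other than Sp(2,2), Sp(2,3) and Sp(4,2), every element is a commutator a·b·a⁻¹·b⁻¹ of two elements of Sp(2m,F). -/
theorem result {F : Type*} [Field F] [Fintype F] (m : ℕ) (hm : 1 ≤ m) (h1 : m = 1 → 4 ≤ Fintype.card F)
    (h2 : m = 2 → 3 ≤ Fintype.card F) : ∀ g : Matrix.symplecticGroup (Fin m) F, ∃ a b : Matrix.symplecticGroup (Fin m) F, g = a * b * a⁻¹ * b⁻¹ := by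
  intro g
  obtain ⟨m, rfl⟩ : ∃ k, m = k + 1 := ⟨m - 1, by omega⟩
  obtain ⟨x, y, h⟩ := sp_ore (spStd_nd (F := F) (m + 1)) (finrank_spStd _) (by simpa using h1)
    (fun h => h2 (by omega)) (spEquiv F _ g)
  exact ⟨(spEquiv F _).symm x, (spEquiv F _).symm y, (spEquiv F _).injective (by simpa using h)⟩

end Cfsg.Agent.S2445
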