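import Cfsg.Statements.S2451
import Cfsg.Agent.AH.F4t
import Cfsg.Agent.AH.F4c
import Cfsg.Agent.AH.E
import Cfsg.Agent.AH.TE
import Cfsg.Agent.AH.D4
import Cfsg.Agent.AH.G2
import Cfsg.Agent.AH.TF
import Cfsg.Agent.AH.Rank1
import Cfsg.Agent.AH.POm
import Cfsg.Agent.AH.PSU
import Cfsg.Agent.AH.PSp
import Cfsg.Agent.AH.PSL

set_option autoImplicit false
open Cfsg

namespace Cfsg.Agent.S2451

/-- Let G be a finite simple group of Lie type in characteristic p and let a, b, c be non-identity elements of G such that the set of products of a conjugate of a with a conjugate of b is exactly the conjugacy class of c. Then c is neither semisimple (of order prime to p) nor unipotent (of p-power order), a and b are not both semisimple, and a and b are not both unipotent. -/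
theorem result {G : Type*} [Group G] [Finite G] (p : ℕ) [Fact p.Prime] (hG : Cfsg.IsLieTypeChar p G) (a b c : G)
    (ha : a ≠ 1) (hb : b ≠ 1) (hc : c ≠ 1)
    (h : {g : G | ∃ u v : G, g = (u * a * u⁻¹) * (v * b * v⁻¹)} = {g : G | IsConj c g}) :
    p ∣ orderOf c ∧ (¬ ∃ k : ℕ, orderOf c = p ^ k) ∧ (p ∣ orderOf a ∨ p ∣ orderOf b) ∧
      ((¬ ∃ k : ℕ, orderOf a = p ^ k) ∨ (¬ ∃ k : ℕ, orderOf b = p ^ k)) := by
  refine AH.final ?_ a b c ha hb hc h
  rcases hG with h | h | h | h | h | h | ⟨F, _, _, _, ⟨h, ⟨e⟩⟩ | ⟨⟨e⟩⟩ | ⟨⟨e⟩⟩ | ⟨⟨e⟩⟩ | ⟨⟨e⟩⟩⟩ |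
    ⟨F, _, _, _, q, -, ⟨hF, ⟨e⟩⟩ | ⟨hF, ⟨e⟩⟩⟩ | ⟨rfl, h⟩ | ⟨rfl, h⟩ | ⟨rfl, h⟩
  · exact AH.mix_PSL h
  · exact AH.mix_PSp h
  · exact AH.mix_PSU h
  · exact AH.mix_POmegaOdd h
  · exact AH.mix_POmegaPlus h
  · exact AH.mix_POmegaMinus h
  · exact (AH.mix_G2 (by rwa [Nat.card_eq_fintype_card])).congr e
  · refine AH.Mix.congr ?_ e
    by_cases hF : ∀ t : F, t = 0 ∨ t = 1
    · have h2 : (2 : F) = 0 := (hF 2).resolve_right fun e => one_ne_zero (α := F) (by linear_combination e)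
      obtain rfl : p = 2 := (Nat.prime_dvd_prime_iff_eq Fact.out Nat.prime_two).1 ((CharP.cast_eq_zero_iff F p 2).1 h2)
      exact AH.mix_F42 hF
    · push Not at hF
      obtain ⟨t, h0, h1⟩ := hF
      refine AH.mix_F4 ?_
      rw [Nat.card_eq_fintype_card]
      exact Fintype.two_lt_card_iff.2 ⟨t, 0, 1, h0, h1, zero_ne_one⟩
  · exact AH.mix_E6.congr e
  · exact AH.mix_E7.congr e
  · exact AH.mix_E8.congr e
  · exact (AH.mix_2E6 (Nat.card_eq_fintype_card.trans hF) p).congr e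
  · exact (AH.mix_3D4 (Nat.card_eq_fintype_card.trans hF) p).congr e
  · exact AH.mix_Sz h
  · exact AH.mix_TF4 h
  · exact AH.mix_Ree h

end Cfsg.Agent.S2451
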