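import Cfsg.Statements.S2455
import Cfsg.Agent.SL2.Prod

set_option autoImplicit false
open Cfsg

namespace Cfsg.Agent.S2455

open Cfsg.Agent.SL2

/-- A strong covering result in the direction of Thompson's conjecture (non-identity elements) for PSL(2,q), q odd: let F be a finite field of odd characteristic p with at least 5 elements and let x ∈ PSL(2,F) have order greater than 2 and not divisible by p (so x is not unipotent). Then every non-identity element of PSL(2,F) is a product of two conjugates of x. -/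
theorem result {F : Type*} [Field F] [Fintype F] (p : ℕ) [Fact p.Prime] [CharP F p] (hp : p ≠ 2) (h5 : 5 ≤ Fintype.card F)
    (x : Matrix.ProjectiveSpecialLinearGroup (Fin 2) F) (hx2 : 2 < orderOf x) (hxp : ¬ p ∣ orderOf x) : ∀ g : Matrix.ProjectiveSpecialLinearGroup (Fin 2) F, g ≠ 1 → ∃ u v : Matrix.ProjectiveSpecialLinearGroup (Fin 2) F, g = (u * x * u⁻¹) * (v * x * v⁻¹) := by
  have h2 : (2 : F) ≠ 0 := two_ne_zero_of_char p hp
  obtain ⟨x, rfl⟩ := pr_surjective x
  have hs : ¬ IsScal x.1 := fun e => by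
    rw [pr_eq_one_iff.2 e, orderOf_one] at hx2; omega
  have hx0 : x.1.trace ≠ 0 := fun e => by
    rw [(orderOf_pr_eq_two_iff hs).2 e] at hx2; omega
  have hx : x.1.trace ^ 2 ≠ 4 := fun e => by
    rcases (Nat.dvd_prime Fact.out).1 (orderOf_pr_of_par p e) with h | h
    · omega
    · exact hxp (h ▸ dvd_rfl)
  intro g hg
  obtain ⟨g, rfl⟩ := pr_surjective g
  have hgs : ¬ IsScal g.1 := fun e => hg (pr_eq_one_iff.2 e)
  have key : ∃ y z : SLT F, g = y * z ∧ y.1.trace = x.1.trace ∧
      (z.1.trace = x.1.trace ∨ z.1.trace = -x.1.trace) := by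
    by_cases ht : g.1.trace ^ 2 = 4
    · rcases trace_eq_of_disc ht with h | h
      · obtain ⟨y, z, h1, h3, h4⟩ := exists_factor_of_conic hgs (τ₁ := x.1.trace) (τ₂ := -x.1.trace)
          (s := 1 / (2 * x.1.trace)) (R := 1 / (2 * x.1.trace)) (by rw [h]; field_simp; ring)
        exact ⟨y, z, h1, h3, Or.inr h4⟩
      · obtain ⟨y, z, h1, h3, h4⟩ := exists_factor_of_conic hgs (τ₁ := x.1.trace) (τ₂ := x.1.trace)
          (s := 1 / (2 * x.1.trace)) (R := -1 / (2 * x.1.trace)) (by rw [h]; field_simp; ring)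
        exact ⟨y, z, h1, h3, Or.inl h4⟩
    · obtain ⟨y, z, h1, h3, h4⟩ := exists_factor_of_disc ht x.1.trace x.1.trace
      exact ⟨y, z, h1, h3, Or.inl h4⟩
  obtain ⟨y, z, rfl, h1, h3⟩ := key
  obtain ⟨u, hu⟩ := pr_isConj_of_trace hx (Or.inl h1)
  obtain ⟨v, hv⟩ := pr_isConj_of_trace hx h3
  exact ⟨u, v, by rw [map_mul, hu, hv]⟩

end Cfsg.Agent.S2455
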