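import Cfsg.Statements.S2456
import Cfsg.Agent.SL2.Prod

set_option autoImplicit false
open Cfsg

namespace Cfsg.Agent.S2456

open Cfsg.Agent.SL2

/-- A strong covering result in the direction of Thompson's conjecture (non-identity elements) for PSL(2,q), q even: let F be a finite field of characteristic 2 with q ≥ 4 elements and let x ∈ PSL(2,F) have order greater than 2 and not dividing q + 1. Then every non-identity element of PSL(2,F) is a product of two conjugates of x. -/
theorem result {F : Type*} [Field F] [Fintype F] [CharP F 2] (h4 : 4 ≤ Fintype.card F)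
    (x : Matrix.ProjectiveSpecialLinearGroup (Fin 2) F) (hx2 : 2 < orderOf x) (hxq : ¬ orderOf x ∣ Fintype.card F + 1) : ∀ g : Matrix.ProjectiveSpecialLinearGroup (Fin 2) F, g ≠ 1 → ∃ u v : Matrix.ProjectiveSpecialLinearGroup (Fin 2) F, g = (u * x * u⁻¹) * (v * x * v⁻¹) := by
  have h2 : (2 : F) = 0 := by exact_mod_cast CharP.cast_eq_zero F 2
  obtain ⟨x, rfl⟩ := pr_surjective x
  have hx : x.1.trace ^ 2 ≠ 4 := fun e => by
    have := Nat.le_of_dvd two_pos (orderOf_pr_of_par 2 e)
    omega
  have hspl : Spl x.1.trace 1 := (ell_or_spl_one hx).resolve_left fun e =>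
    hxq (orderOf_pr_dvd_iff.2 (Or.inl (pow_of_ell e)))
  intro g hg
  obtain ⟨g, rfl⟩ := pr_surjective g
  have hgs : ¬ IsScal g.1 := fun e => hg (pr_eq_one_iff.2 e)
  have key : ∃ y z : SLT F, g = y * z ∧ y.1.trace = x.1.trace ∧ z.1.trace = x.1.trace := by
    by_cases ht : g.1.trace ^ 2 = 4
    · have h0 : g.1.trace = 0 := by
        rcases trace_eq_of_disc ht with h | h
        · rw [h, h2]
        · rw [h, h2, neg_zero]
      obtain ⟨a, b, -, h3, h4⟩ := hspl
      exact exists_factor_of_conic hgs (s := a) (R := 0) (by rw [← h3]; linear_combination -h4)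
    · exact exists_factor_of_disc ht x.1.trace x.1.trace
  obtain ⟨y, z, rfl, h1, h3⟩ := key
  obtain ⟨u, hu⟩ := pr_isConj_of_trace hx (Or.inl h1)
  obtain ⟨v, hv⟩ := pr_isConj_of_trace hx (Or.inl h3)
  exact ⟨u, v, by rw [map_mul, hu, hv]⟩

end Cfsg.Agent.S2456
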