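import Cfsg.Statements.S2459
import Cfsg.Agent.Fac.Three

set_option autoImplicit false
open Cfsg

namespace Cfsg.Agent.S2459

open Polynomial Module Cfsg.Agent.Fac Cfsg.Agent.GLn

universe u in
theorem fct_card_three {F V : Type u} [Field F] [Fintype F] [AddCommGroup V] [Module F V]
    [FiniteDimensional F V] (h3 : Fintype.card F = 3) (hd : finrank F V = 3) {M : End F V}
    (hM : LinearMap.det M = 1) (hns : ∀ c : F, M ≠ c • 1) (he : SL2.Ell (1 : F) (-1))
    (h30 : (3 : F) = 0) :
    Fct M ((X - C (-1)) * quad (-1) (-1)) ((X - C (-1)) * quad 1 (-1)) := by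
  have hsq : ∀ t : F, t ≠ 0 → t ^ 2 = 1 := fun t ht => by
    simpa [h3] using FiniteField.pow_card_sub_one_eq_one t ht
  have h12 : (1 : F) ≠ -1 := fun h => one_ne_zero (α := F) (by linear_combination h30 - h)
  have hb : (-1 : F) ≠ 0 := by simp
  rcases three_cases hd (M := M) (by simp [hM]) with ⟨v, hv⟩ | ⟨l, hl⟩ | ⟨ι, _, b, l, hl⟩
  · simpa [hM] using (cfct_three_host hd hv (by simp [hM]) hb he.neg he).fct
  · refine Fct.of_sim ?_ hl
    have hdet := hl.det
    rw [hM, LinearMap.det_prodMap, det_blk_upper, det_sc] at hdet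
    have hl0 : l ≠ 0 := by rintro rfl; simp at hdet
    obtain rfl : l = 1 := by rw [← hdet, ← sq, hsq l hl0, mul_one]
    set M' := (sc (1 : F)).prodMap (jb 1) with hM'
    have hd : finrank F (F × F × F) = 3 := by simp
    have hdet : LinearMap.det M' = 1 := hl.det.trans hM
    have htr : LinearMap.trace F _ M' = 3 := by
      rw [hM', LinearMap.trace_prodMap', trace_blk, trace_sc]; ring
    have hsq : ∀ x, M' (M' x) = (2 : F) • M' x - x := fun x => by
      ext <;> simp [hM'] <;> ring
    have hns : ∀ c : F, M' ≠ c • 1 := fun c h => by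
      have := LinearMap.congr_fun h (0, 0, 1)
      simp [hM'] at this
    obtain ⟨v, φ, h1, h0, h2, hns'⟩ := exists_schur_not_scalar hd.ge hns
      (injective_of_det (by simp [hdet])) one_ne_zero
    have hd' : finrank F (LinearMap.ker φ) = 2 := by
      have := finrank_ker_add_one _ φ h1; omega
    have e1 : LinearMap.det (schur M' v φ h0) = 1 * 1 := by
      have := det_schur M' v φ h1 h0
      rw [h2, hdet] at this
      simpa using this.symm
    have e2 : LinearMap.trace F _ (schur M' v φ h0) = 1 + 1 := by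
      rw [trace_schur M' v φ h1 h0, hsq, map_sub, map_smul, h1, h2, htr]
      simp only [smul_eq_mul]
      ring
    have e3 : (schur M' v φ h0).charpoly = quad (1 + 1) (1 * 1) := by rw [charpoly_two hd', e1, e2]
    obtain ⟨e, z, hez⟩ := conic_of_par (l := (1 : F)) (s := -1) (δ := -1) (s' := 1) (by simpa)
    have := fct_three_of_schur hd h1 h0 hb he.neg he (by
      simpa using exists_factor_two hd' hns' e3 hez)
    simpa [h2] using this
  · have hc : Fintype.card ι = 3 := by rw [← finrank_eq_card_basis b, hd]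
    let σ : Fin 3 ≃ ι := (Fintype.equivFinOfCardEq hc).symm
    have hp := det_of_diag b hl
    rw [hM, ← Equiv.prod_comp σ, Fin.prod_univ_three] at hp
    have hpm : ∀ j, l j = 1 ∨ l j = -1 := fun j => by
      obtain ⟨j, rfl⟩ := σ.surjective j
      refine mul_self_eq_one_iff.mp (by
        rw [← sq]
        refine hsq _ fun h0 => ?_
        fin_cases j
        · simp only [Fin.zero_eta] at h0; simp [h0] at hp
        · simp only [Fin.mk_one] at h0; simp [h0] at hp
        · simp only [Fin.reduceFinMk] at h0; simp [h0] at hp)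
    obtain ⟨i, hi, hi'⟩ : ∃ i, l (σ i) = 1 ∧ ∀ j, j ≠ i → l (σ j) = -1 := by
      have hn : ¬ (l (σ 0) = 1 ∧ l (σ 1) = 1 ∧ l (σ 2) = 1) := fun h => hns 1 (b.ext fun j => by
        obtain ⟨j, rfl⟩ := σ.surjective j
        fin_cases j <;> simp [hl, h])
      rcases hpm (σ 0) with h0 | h0 <;> rcases hpm (σ 1) with h1 | h1 <;>
        rcases hpm (σ 2) with h2 | h2
      · exact (hn ⟨h0, h1, h2⟩).elim
      · simp [h0, h1, h2, h12] at hp
      · simp [h0, h1, h2, h12] at hp
      · exact ⟨0, h0, fun j hj => by fin_cases j; exacts [(hj rfl).elim, h1, h2]⟩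
      · simp [h0, h1, h2, h12] at hp
      · exact ⟨1, h1, fun j hj => by fin_cases j; exacts [h0, (hj rfl).elim, h2]⟩
      · exact ⟨2, h2, fun j hj => by fin_cases j; exacts [h0, h1, (hj rfl).elim]⟩
      · simp [h0, h1, h2, h12] at hp
    have h1 : b.coord (σ i) (b (σ i)) = 1 := by simp
    have h2 : b.coord (σ i) (M (b (σ i))) = 1 := by simp [hl, hi]
    have h0 : b.coord (σ i) (M (b (σ i))) ≠ 0 := by simp [h2]
    have hd' : finrank F (LinearMap.ker (b.coord (σ i))) = 2 := by
      have := finrank_ker_add_one _ _ h1; omega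
    have key : M = -1 + (2 : F) • (b.coord (σ i)).smulRight (b (σ i)) := b.ext fun j => by
      obtain ⟨j, rfl⟩ := σ.surjective j
      by_cases hj : j = i
      · subst hj; simp [hl, hi, two_smul]
      · simp [hl, hi' j hj, hj]
    have e : schur M _ _ h0 = (-1 : F) • 1 := by
      ext u : 1
      have hu : b.coord (σ i) u = 0 := u.2
      have : M u = -u := by rw [key]; simp [hu]
      apply Subtype.ext
      rw [schur_val, this, map_neg, hu]
      simp
    obtain ⟨B', hB'⟩ := exists_charpoly_quad hd' (-1 : F) (-1)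
    have := fct_three_of_schur hd h1 h0 hb he.neg he ⟨B', hB', by
      rw [e, smul_mul_assoc, one_mul, charpoly_smul_two hd' hB']; simp⟩
    simpa [h2] using this

theorem lift {F : Type*} [Field F] (x : Matrix.SpecialLinearGroup (Fin 3) F)
    (h : ∀ g : Matrix.SpecialLinearGroup (Fin 3) F, (∀ c : F, slLin g ≠ c • 1) →
      ∃ u v : Matrix.SpecialLinearGroup (Fin 3) F, g = (u * x * u⁻¹) * (v * x * v⁻¹))
    (g : Matrix.ProjectiveSpecialLinearGroup (Fin 3) F) (hg : g ≠ 1) :
    ∃ u v : Matrix.ProjectiveSpecialLinearGroup (Fin 3) F,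
      g = (u * QuotientGroup.mk x * u⁻¹) * (v * QuotientGroup.mk x * v⁻¹) := by
  obtain ⟨g, rfl⟩ := QuotientGroup.mk_surjective g
  obtain ⟨u, v, rfl⟩ := h g (slLin_not_scalar hg)
  exact ⟨QuotientGroup.mk u, QuotientGroup.mk v, rfl⟩

theorem sep3 {F : Type*} [Field F] {a b c : F} (hab : a ≠ b) (hac : a ≠ c) (hbc : b ≠ c) :
    ((X - C a) * ((X - C b) * (X - C c))).Separable :=
  (separable_X_sub_C).mul (separable_X_sub_C.mul separable_X_sub_C
    (isCoprime_X_sub_C_of_isUnit_sub (sub_ne_zero.mpr hbc).isUnit))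
    ((isCoprime_X_sub_C_of_isUnit_sub (sub_ne_zero.mpr hab).isUnit).mul_right
      (isCoprime_X_sub_C_of_isUnit_sub (sub_ne_zero.mpr hac).isUnit))

theorem sep_quad {F : Type*} [Field F] [Finite F] {a s δ : F} (he : SL2.Ell s δ) :
    ((X - C a) * quad s δ).Separable :=
  separable_X_sub_C.mul (PerfectField.separable_of_irreducible (irreducible_quad he))
    ((irreducible_X_sub_C a).coprime_iff_not_dvd.mpr fun h => ell_eval_ne he a (dvd_iff_isRoot.mp h))


/-- A form of Thompson's conjecture for PSL(3,q), q > 2 (covering the non-identity elements), with a semisimple class: for F a finite field of characteristic p with more than 2 elements there is an element x of PSL(3,F) of order prime to p such that every non-identity element of PSL(3,F) is a product of two conjugates of x. -/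
theorem result {F : Type*} [Field F] [Fintype F] (p : ℕ) [Fact p.Prime] [CharP F p] (h3 : 3 ≤ Fintype.card F) :
    ∃ x : Matrix.ProjectiveSpecialLinearGroup (Fin 3) F, ¬ p ∣ orderOf x ∧ ∀ g : Matrix.ProjectiveSpecialLinearGroup (Fin 3) F, g ≠ 1 → ∃ u v : Matrix.ProjectiveSpecialLinearGroup (Fin 3) F, g = (u * x * u⁻¹) * (v * x * v⁻¹) := by
  rcases h3.eq_or_lt with h3 | h4
  · have hsq : ∀ t : F, t ≠ 0 → t ^ 2 = 1 := fun t ht => by
      simpa [← h3] using FiniteField.pow_card_sub_one_eq_one t ht
    have h30 : (3 : F) = 0 := by simpa [← h3] using FiniteField.cast_card_eq_zero F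
    have hp : p = 3 := ((Nat.prime_dvd_prime_iff_eq Fact.out Nat.prime_three).mp
      ((CharP.cast_eq_zero_iff F p 3).mp (by simpa using h30)))
    have he : SL2.Ell (1 : F) (-1) := fun r hr => by
      by_cases h0 : r = 0
      · simp [h0] at hr
      · exact h0 (by linear_combination hsq r h0 - hr)
    let x : Matrix.SpecialLinearGroup (Fin 3) F :=
      ⟨!![-1, 0, 0; 0, 0, 1; 0, 1, 1], by simp [Matrix.det_fin_three]⟩
    let y : Matrix.SpecialLinearGroup (Fin 3) F :=
      ⟨!![-1, 0, 0; 0, -1, 1; 0, 1, 0], by simp [Matrix.det_fin_three]⟩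
    have hy : x⁻¹ = y := inv_eq_of_mul_eq_one_right (Subtype.ext (by
      change x.1 * y.1 = 1
      ext i j; fin_cases i <;> fin_cases j <;> simp [x, y, Matrix.mul_apply, Fin.sum_univ_three]))
    have c1 : x.1.charpoly = (X - C (-1)) * quad 1 (-1) := by
      simp [x, Matrix.charpoly, Matrix.det_fin_three, quad]; ring
    have c2 : (x⁻¹).1.charpoly = (X - C (-1)) * quad (-1) (-1) := by
      rw [hy]; simp [y, Matrix.charpoly, Matrix.det_fin_three, quad]; ring
    refine ⟨QuotientGroup.mk x, fun h => ?_, lift x fun g hg => sl_prod_of_fct ?_ ?_ ?_⟩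
    · have h8 : orderOf (QuotientGroup.mk x : Matrix.ProjectiveSpecialLinearGroup (Fin 3) F) ∣ 8 := by
        rw [psl_orderOf_dvd_iff]
        refine ⟨1, ?_⟩
        have h4 : x.1 ^ 4 = !![1, 0, 0; 0, -1, 0; 0, 0, -1] := by
          ext i j; fin_cases i <;> fin_cases j <;>
            simp [x, pow_succ, Matrix.mul_apply, Fin.sum_univ_three] <;> grind
        rw [map_one, show 8 = 4 * 2 from rfl, pow_mul, h4, sq]
        ext i j; fin_cases i <;> fin_cases j <;> simp [Matrix.mul_apply, Fin.sum_univ_three]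
      have := h.trans h8
      rw [hp] at this
      omega
    · rw [c1, c2]
      exact fct_card_three h3.symm (by simp) (det_slLin g) hg he h30
    · rw [c1]; exact sep_quad he
    · rw [c2]; exact sep_quad he.neg
  · obtain ⟨a, h0, h1, h2⟩ := exists_sq_ne_one (F := F) h4
    have h1' : (1 : F) ≠ a⁻¹ := fun h => h1 (by rw [← inv_inv a, ← h, inv_one])
    let x : Matrix.SpecialLinearGroup (Fin 3) F :=
      ⟨Matrix.diagonal ![1, a, a⁻¹], by simp [Fin.prod_univ_three, h0]⟩
    let y : Matrix.SpecialLinearGroup (Fin 3) F :=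
      ⟨Matrix.diagonal ![1, a⁻¹, a], by simp [Fin.prod_univ_three, h0]⟩
    have hy : x⁻¹ = y := inv_eq_of_mul_eq_one_right (Subtype.ext (by
      change x.1 * y.1 = 1
      ext i j; fin_cases i <;> fin_cases j <;> simp [x, y, h0]))
    have c1 : x.1.charpoly = (X - C 1) * ((X - C a) * (X - C a⁻¹)) := by
      simp [x, Matrix.charpoly_diagonal, Fin.prod_univ_three, mul_assoc]
    have c2 : (x⁻¹).1.charpoly = (X - C 1) * ((X - C a⁻¹) * (X - C a)) := by
      rw [hy]; simp [y, Matrix.charpoly_diagonal, Fin.prod_univ_three, mul_assoc]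
    refine ⟨QuotientGroup.mk x, fun h => ?_, lift x fun g hg => sl_prod_of_fct ?_ ?_ ?_⟩
    · have h8 : orderOf (QuotientGroup.mk x : Matrix.ProjectiveSpecialLinearGroup (Fin 3) F) ∣
          Fintype.card F - 1 := by
        rw [psl_orderOf_dvd_iff]
        refine ⟨1, ?_⟩
        have := FiniteField.pow_card_sub_one_eq_one a h0
        rw [map_one]
        change (Matrix.diagonal ![1, a, a⁻¹]) ^ _ = 1
        rw [Matrix.diagonal_pow]
        ext i j; fin_cases i <;> fin_cases j <;> simp [this]
      have h5 := h.trans h8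
      obtain ⟨k, -, hk⟩ := FiniteField.card F p
      have h6 : p ∣ Fintype.card F := hk ▸ dvd_pow_self p k.ne_zero
      have h7 := (Nat.dvd_sub_iff_right (by omega) h6).mp h5
      exact (Fact.out : p.Prime).ne_one (Nat.dvd_one.mp h7)
    · rw [c1, c2]
      exact fct_three_split (by simp) hg one_ne_zero one_ne_zero h1' h1.symm h2.symm h1.symm h1' h2
        (by simp [det_slLin]) (by simp [det_slLin, h0])
    · rw [c1]; exact sep3 h1.symm h1' h2
    · rw [c2]; exact sep3 h1' h1.symm h2.symm

end Cfsg.Agent.S2459
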