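import Cfsg.Statements.S2460
import Cfsg.Agent.Ore.OreSp

set_option autoImplicit false
open Cfsg

namespace Cfsg.Agent.S2460

open Cfsg.Agent.Polar Cfsg.Agent.Ore

/-- A form of Thompson's conjecture for the simple groups PSp(4,q), q ≥ 3 (covering the non-identity elements), with a semisimple class: for F a finite field of characteristic p with at least 3 elements there is an element x of PSp(4,F) of order prime to p such that every non-identity element of PSp(4,F) is a product of two conjugates of x. -/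
theorem result {F : Type*} [Field F] [Fintype F] (p : ℕ) [Fact p.Prime] [CharP F p] (h3 : 3 ≤ Fintype.card F) :
    ∃ x : Cfsg.PSp 2 F, ¬ p ∣ orderOf x ∧ ∀ g : Cfsg.PSp 2 F, g ≠ 1 → ∃ u v : Cfsg.PSp 2 F, g = (u * x * u⁻¹) * (v * x * v⁻¹) := by
  obtain ⟨x, h1, h2, h4⟩ := sp4_class h3 (spStd_nd (F := F) 2) (finrank_spStd _)
  obtain ⟨x, rfl⟩ := (spEquiv F 2).surjective x
  refine ⟨QuotientGroup.mk x, fun h => h1 p (h.trans ?_), fun g hg => ?_⟩
  · rw [MulEquiv.orderOf_eq]
    exact orderOf_map_dvd (QuotientGroup.mk' _) x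
  obtain ⟨g, rfl⟩ := QuotientGroup.mk_surjective g
  obtain ⟨u, v, h⟩ := h4 (spEquiv F 2 g) fun ζ hζ => hg ((QuotientGroup.eq_one_iff g).mpr
    (Subgroup.mem_center_iff.mpr fun k => (spEquiv F 2).injective (PQ.iso_ext fun v => by
      simp [mul_smul, hζ, PQ.act_smul])))
  obtain ⟨w, hw⟩ := isConj_iff.mp h2
  obtain ⟨u, rfl⟩ := (spEquiv F 2).surjective u
  obtain ⟨v, rfl⟩ := (spEquiv F 2).surjective v
  obtain ⟨w, rfl⟩ := (spEquiv F 2).surjective w
  have : g = u * x * u⁻¹ * (v * w * x * (v * w)⁻¹) := (spEquiv F 2).injective (by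
    rw [h, mul_inv_rev, mul_inv_rev, ← hw]; simp [mul_assoc])
  exact ⟨QuotientGroup.mk u, QuotientGroup.mk (v * w), by rw [this]; rfl⟩

end Cfsg.Agent.S2460
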