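import Cfsg.Statements.S2462
import Cfsg.Agent.Chev.Gauss6

set_option autoImplicit false
open Cfsg Cfsg.Agent.Chev

namespace Cfsg.Agent.S2462

/-- A form of Thompson's conjecture for the triality groups ³D₄(q) (covering the non-identity elements) with a semisimple class: for q a power of the prime p and K the field with q³ elements there is an element x of ³D₄(q) (realised over K) of order prime to p such that every non-identity element of ³D₄(q) is a product of two conjugates of x. -/
theorem result {K : Type*} [Field K] [Fintype K] (p : ℕ) [Fact p.Prime] [CharP K p] (q : ℕ) (hq : IsPrimePow q) (hK : Fintype.card K = q ^ 3) :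
    ∃ x : Cfsg.Lie.twistedD4 K q, ¬ p ∣ orderOf x ∧ ∀ g : Cfsg.Lie.twistedD4 K q, g ≠ 1 → ∃ u v : Cfsg.Lie.twistedD4 K q, g = (u * x * u⁻¹) * (v * x * v⁻¹) := by
  have hF : Nat.card K = q ^ 3 := by rwa [Nat.card_eq_fintype_card]
  obtain ⟨φ, hφ⟩ := Cfsg.Agent.Tw.exists_frob K hF
  obtain ⟨x, hx, h⟩ := coverD4 hφ hF hq.one_lt p
  let e := Cfsg.Agent.Tw.eqD4 K q
  refine ⟨e x, by rwa [e.orderOf_eq], fun g hg => ?_⟩
  obtain ⟨u, v, h1⟩ := h (e.symm g) (by simpa using hg)
  exact ⟨e u, e v, by simpa using congrArg e h1⟩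

end Cfsg.Agent.S2462
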