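import Cfsg.Statements.S2463
import Cfsg.Agent.TwC.F4
import Cfsg.Agent.TitsQ.Two
import Cfsg.Agent.Tw.InvTF4
import Cfsg.Agent.Tw.Eqv

set_option autoImplicit false
open Cfsg

namespace Cfsg.Agent.S2463

open Cfsg.Agent.TwC Cfsg.Agent.Tw

/-- A form of Thompson's conjecture for the simple groups of type ²F₄ (covering the non-identity elements) with a semisimple class: if M is a large Ree group ²F₄(2^(2m+1)) with m ≥ 1, or the Tits group, then there is an element x of M of odd order such that every non-identity element of M is a product of two conjugates of x. -/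
theorem result {M : Type*} [Group M] [Finite M] (hM : Cfsg.Lie.Iso2F4 M ∨ Cfsg.Lie.IsoTits M) :
    ∃ x : M, Odd (orderOf x) ∧ ∀ g : M, g ≠ 1 → ∃ u v : M, g = (u * x * u⁻¹) * (v * x * v⁻¹) := by
  rcases hM with ⟨K, _, _, m, hm, hK, ⟨e⟩⟩ | ⟨⟨e⟩⟩
  · have h : Nat.card K = 2 ^ (2 * m + 1) := by rw [Nat.card_eq_fintype_card, hK]
    have : CharP K 2 := charP_of_card_eq_prime_pow hK
    obtain ⟨φ, -, h3, hg⟩ := goodTF4 h
    obtain ⟨x, hx, h1, h2⟩ := coverF4 h3 hg (fun _ => fixF4 hg)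
      (h ▸ lt_of_lt_of_le (by norm_num) (Nat.pow_le_pow_right two_pos (show 3 ≤ 2 * m + 1 by omega)))
    exact final ((eqF4 K (2 ^ m)).trans e.symm) hx h2 (P := Odd) (Nat.odd_iff.2 (by omega))
  · obtain ⟨γ, φ, C, -⟩ := TitsC.cert (ZMod.card 2)
    obtain ⟨x, h1, h2⟩ := TitsQ.cover (TitsQ.x_cert C)
    refine ⟨e.symm x, by rwa [MulEquiv.orderOf_eq], fun g hg => ?_⟩
    obtain ⟨u, v, h⟩ := h2 (e g) (by simpa using hg)
    exact ⟨e.symm u, e.symm v, by simpa using congrArg e.symm h⟩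

end Cfsg.Agent.S2463
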