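import Cfsg.Statements.S2467
import Cfsg.Agent.SymAlt.Orders

set_option autoImplicit false
open Cfsg

namespace Cfsg.Agent.S2467

theorem even_card_filter (c : Multiset ℕ) :
    Even (c.sum + c.card) ↔ Even (c.filter Even).card := by
  induction c using Multiset.induction_on with
  | empty => simp
  | cons a s ih =>
    rw [Multiset.sum_cons, Multiset.card_cons, Multiset.filter_cons]
    by_cases ha : Even a
    · rw [if_pos ha, Multiset.card_add, Multiset.card_singleton]
      rw [Nat.even_iff] at ha ⊢
      rw [Nat.even_iff, Nat.even_iff] at ih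
      rw [Nat.even_iff]
      omega
    · rw [if_neg ha, zero_add]
      rw [Nat.even_iff] at ha ⊢
      rw [Nat.even_iff, Nat.even_iff] at ih
      rw [Nat.even_iff]
      omega


/-- Adjacency of 2 and an odd prime in the prime graph of the alternating groups: let r be an odd prime at most n, with n ≥ 4. The alternating group of degree n has an element of order 2r if and only if r + 4 ≤ n. -/
theorem result (n r : ℕ) (hn : 4 ≤ n) (hr : r.Prime) (hr2 : r ≠ 2) (hrn : r ≤ n) :
    (2 * r ∈ Set.range (orderOf : alternatingGroup (Fin n) → ℕ)) ↔ r + 4 ≤ n := by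
  rw [SymAlt.mem_range_orderOf_alt_iff]
  have hr3 : 3 ≤ r := by
    have := hr.two_le
    omega
  constructor
  · rintro ⟨c, h1, h2, h3, h4⟩
    obtain ⟨a, ha, ha'⟩ := SymAlt.exists_mem_dvd_of_prime_dvd_lcm Nat.prime_two c
      (h4 ▸ dvd_mul_right 2 r)
    obtain ⟨b, hb, hb'⟩ := SymAlt.exists_mem_dvd_of_prime_dvd_lcm hr c (h4 ▸ dvd_mul_left r 2)
    rw [even_card_filter] at h3
    have hsplit := Multiset.filter_add_not Even c
    have hsum : (c.filter Even).sum + (c.filter (fun x => ¬ Even x)).sum = c.sum := by
      rw [← Multiset.sum_add, hsplit]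
    have hae : a ∈ c.filter Even := Multiset.mem_filter.2 ⟨ha, even_iff_two_dvd.2 ha'⟩
    have hb2 := h2 b hb
    have hrb : r ≤ b := Nat.le_of_dvd (by omega) hb'
    have hcard : 2 ≤ (c.filter Even).card := by
      have : 0 < (c.filter Even).card := Multiset.card_pos_iff_exists_mem.2 ⟨a, hae⟩
      rw [Nat.even_iff] at h3
      omega
    by_cases hbe : Even b
    · have hbe' : b ∈ c.filter Even := Multiset.mem_filter.2 ⟨hb, hbe⟩
      obtain ⟨s, hs⟩ := Multiset.exists_cons_of_mem hbe'
      have hs1 : 0 < s.card := by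
        rw [hs, Multiset.card_cons] at hcard
        omega
      obtain ⟨d, hd⟩ := Multiset.card_pos_iff_exists_mem.1 hs1
      have hd2 : 2 ≤ d := h2 d (Multiset.mem_of_mem_filter (hs ▸ Multiset.mem_cons_of_mem hd))
      have hd3 : d ≤ s.sum := Multiset.single_le_sum (fun x _ => Nat.zero_le x) d hd
      have h5 : 2 * r ∣ b := Nat.Coprime.mul_dvd_of_dvd_of_dvd
        ((Nat.coprime_primes Nat.prime_two hr).2 hr2.symm) (even_iff_two_dvd.1 hbe) hb'
      have h6 : 2 * r ≤ b := Nat.le_of_dvd (by omega) h5
      rw [hs, Multiset.sum_cons] at hsum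
      omega
    · have hbo : b ∈ c.filter (fun x => ¬ Even x) := Multiset.mem_filter.2 ⟨hb, hbe⟩
      have h5 : b ≤ (c.filter (fun x => ¬ Even x)).sum :=
        Multiset.single_le_sum (fun x _ => Nat.zero_le x) b hbo
      have h6 : (c.filter Even).card • 2 ≤ (c.filter Even).sum :=
        Multiset.card_nsmul_le_sum (fun x hx => h2 x (Multiset.mem_of_mem_filter hx))
      rw [smul_eq_mul] at h6
      omega
  · intro h
    refine ⟨{r, 2, 2}, by simp; omega, ?_, ?_, ?_⟩
    · intro a ha
      simp only [Multiset.insert_eq_cons, Multiset.mem_cons, Multiset.mem_singleton] at ha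
      rcases ha with rfl | rfl | rfl <;> omega
    · have h1 := hr.odd_of_ne_two hr2
      simp only [Multiset.insert_eq_cons, Multiset.sum_cons, Multiset.sum_singleton,
        Multiset.card_cons, Multiset.card_singleton]
      rw [Nat.odd_iff] at h1
      rw [Nat.even_iff]
      omega
    · simp only [Multiset.insert_eq_cons, Multiset.lcm_cons, Multiset.lcm_singleton, normalize_eq]
      rw [show lcm 2 2 = 2 from by decide, mul_comm]
      exact Nat.Coprime.lcm_eq_mul ((Nat.coprime_primes hr Nat.prime_two).2 hr2)

end Cfsg.Agent.S2467
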