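import Cfsg.Statements.S2474
import Cfsg.Agent.HForm.OBlk
import Cfsg.Agent.HForm.SpGraph

set_option autoImplicit false
open Cfsg

namespace Cfsg.Agent.S2474

open Cfsg.Agent.HForm Cfsg.Agent.Forms Polynomial

section
variable {F : Type*} [Field F] [Fintype F] (hF : Odd (Fintype.card F)) (p : ℕ) [hp : Fact p.Prime]
  [CharP F p] {n : ℕ} (hn : 3 ≤ n)
include hF hn

theorem o_adj_iff {r s ηk ηl : ℕ} (hr : r.Prime)
    (hs : s.Prime) (hr2 : r ≠ 2) (hs2 : s ≠ 2) (hrp : r ≠ p) (hsp : s ≠ p) (hrs : r ≠ s)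
    (hk : IsEta (orderOf ((Fintype.card F : ℕ) : ZMod r)) ηk)
    (hl : IsEta (orderOf ((Fintype.card F : ℕ) : ZMod s)) ηl) (hkl : ηk ≤ ηl) :
    r * s ∈ Set.range (orderOf : POmega F (quadFormOdd n F) → ℕ) ↔ ηl ≤ n ∧ (ηk + ηl ≤ n ∨
      ∃ t, Odd t ∧
      orderOf ((Fintype.card F : ℕ) : ZMod s) = orderOf ((Fintype.card F : ℕ) : ZMod r) * t) := by
  classical
  have hq0 : 0 < Fintype.card F := Fintype.card_pos
  have hrq := not_dvd_card (F := F) p hr hrp
  have hsq := not_dvd_card (F := F) p hs hsp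
  have hk0 := hk.pos (orderOf_pos_of_not_dvd hr hrq)
  have hl0 := hl.pos (orderOf_pos_of_not_dvd hs hsq)
  have hcop : Nat.Coprime r s := (Nat.coprime_primes hr hs).mpr hrs
  have hr3 : 2 < r := by have := hr.two_le; omega
  have hs3 : 2 < s := by have := hs.two_le; omega
  constructor
  · rintro ⟨x, hx⟩
    obtain ⟨R, h1, h2, h3, h4, -, -, -, -, h5⟩ := pomega_odd_data hF p (by omega) x
    obtain ⟨y, hy, hry⟩ := h5 r hr hrp (hx ▸ Dvd.intro s rfl)
    obtain ⟨z, hz, hsz⟩ := h5 s hs hsp (hx ▸ Dvd.intro_left r rfl)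
    exact ⟨eta_le hq0 frob_injective h1 h2 h3 hs hs2 hl hz hsz h4.le,
      eta_two hq0 frob_injective h1 h2 h3 hr hr2 hs hs2 hk hl hkl hy hry hz hsz h4.le⟩
  · rintro ⟨hln, h | ⟨t, ht, h⟩⟩
    · obtain ⟨D, h1⟩ := blk_odd hF hk0 (hk.dvd_pm hq0 hr hr2 hrq) (hr.odd_of_ne_two hr2) hr3
      obtain ⟨D', h2⟩ := blk_odd hF hl0 (hl.dvd_pm hq0 hs hs2 hsq) (hs.odd_of_ne_two hs2) hs3
      have := h1.sum hF h2
      rw [← mul_add, hcop.lcm_eq_mul] at this
      exact this.toOdd' hF (by omega) h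
    · obtain ⟨D, h1⟩ := blk_odd hF hl0 (dvd_pm_of_odd_ratio hq0 hr hr2 hs hs2 hrs hsq hl ht h)
        ((hr.odd_of_ne_two hr2).mul (hs.odd_of_ne_two hs2)) (by nlinarith)
      exact h1.toOdd' hF (by omega) hln

theorem o_adj_char_iff {r η : ℕ} (hr : r.Prime)
    (hr2 : r ≠ 2) (hrp : r ≠ p) (hk : IsEta (orderOf ((Fintype.card F : ℕ) : ZMod r)) η) :
    r * p ∈ Set.range (orderOf : POmega F (quadFormOdd n F) → ℕ) ↔ η < n := by
  classical
  have hq0 : 0 < Fintype.card F := Fintype.card_pos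
  have hrq := not_dvd_card (F := F) p hr hrp
  have hk0 := hk.pos (orderOf_pos_of_not_dvd hr hrq)
  have hcop : Nat.Coprime r p := (Nat.coprime_primes hr hp.out).mpr hrp
  have hr3 : 2 < r := by have := hr.two_le; omega
  have hp2 : p ≠ 2 := by rintro rfl; exact two_ne_zero_of_odd hF CharTwo.two_eq_zero
  constructor
  · rintro ⟨x, hx⟩
    by_contra hn
    push Not at hn
    obtain ⟨R, h1, h2, h3, h4, h6, -, h7, h8, h5⟩ := pomega_odd_data hF p (by omega) x
    obtain ⟨y, hy, hry⟩ := h5 r hr hrp (hx ▸ Dvd.intro p rfl)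
    obtain ⟨R', -, -, -, -, -, hnd⟩ := eta_top hq0 frob_injective h1 h2 h3 hr hr2 hk hy hry
      h4.le hn
    have hc := Multiset.nodup_iff_count_le_one.mp hnd
    have hro : ∀ z ∈ R, z ^ r = 1 := fun z hz => by
      apply pow_eq_one_of_pow_char_pow p (k := 1)
      rw [pow_one, ← pow_mul, ← hx, h7 z hz]
    have h0 : R.count (-1) = 0 := Multiset.count_eq_zero_of_notMem fun h => by
      have := hro _ h
      rw [(hr.odd_of_ne_two hr2).neg_one_pow] at this
      refine two_ne_zero_of_odd hF ((algebraMap F (AlgebraicClosure F)).injective ?_)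
      rw [map_ofNat, map_zero]; linear_combination -this
    have h9 := h8 r 0 hro (by simp) (fun z _ => by simpa using hc z) (by simp [h0]) (by simp [h0])
    rw [hx] at h9
    have := Nat.le_of_dvd hr.pos h9
    have := Nat.mul_le_mul_left r hp.out.two_le
    omega
  · intro hn
    obtain ⟨D, h1⟩ := blk_odd hF hk0 (hk.dvd_pm hq0 hr hr2 hrq) (hr.odd_of_ne_two hr2) hr3
    have := h1.toOdd hF p (e := 1) (j := 1) (m := n) (by omega) hn
      (by have := hp.out.two_le; simp; omega) (by simp)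
    rwa [pow_one, hcop.lcm_eq_mul] at this

theorem o_two_char : 2 * p ∈ Set.range (orderOf : POmega F (quadFormOdd n F) → ℕ) := by
  have hp2 : p ≠ 2 := by rintro rfl; exact two_ne_zero_of_odd hF CharTwo.two_eq_zero
  have := Blk.toOdd hF p (n := 1) (e := 1) (j := 1) (m := n) (blk_neg hF) (by omega) (by omega)
    (by have := hp.out.two_le; simp; omega) (by simp)
  rwa [pow_one, ((Nat.coprime_primes Nat.prime_two hp.out).mpr hp2.symm).lcm_eq_mul] at this

theorem sp_two_char : 2 * p ∈ Set.range (orderOf : PSp n F → ℕ) := by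
  have h2 := two_ne_zero_of_odd hF
  have hp2 : p ≠ 2 := by rintro rfl; exact h2 CharTwo.two_eq_zero
  obtain ⟨w, hw⟩ := (((formP_sp_jordan (F := F) p 1 (by simp) 1 1 one_pos
    (by simpa using hp.out.two_le) (by simp)).sum (formP_sp_scalar (F := F) (-1) (by simp)
      (n - 1))).congr (n' := 2 * n) (by omega) rfl (fun _ _ => Iff.rfl)).toPSp
  refine mem_range_orderOf_of_dvd ⟨w, rfl⟩ ?_
  rcases (hw _).mp dvd_rfl with h | h
  · exact ((Nat.coprime_primes Nat.prime_two hp.out).mpr hp2.symm).mul_dvd_of_dvd_of_dvd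
      (even_of_neg_one_pow h2 (h.2.resolve_left (by omega))).two_dvd (by simpa using h.1.2)
  · exact absurd (by linear_combination h.1.1 - one_pow (M := F) (orderOf w)) h2

theorem o_two_iff {s η : ℕ} (hs : s.Prime)
    (hs2 : s ≠ 2) (hsp : s ≠ p) (hk : IsEta (orderOf ((Fintype.card F : ℕ) : ZMod s)) η) :
    2 * s ∈ Set.range (orderOf : POmega F (quadFormOdd n F) → ℕ) ↔
      η < n ∨ ∃ N, TorN (Fintype.card F) n N ∧ 4 * s ∣ N := by
  classical
  have hq0 : 0 < Fintype.card F := Fintype.card_pos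
  have hsq := not_dvd_card (F := F) p hs hsp
  have hk0 := hk.pos (orderOf_pos_of_not_dvd hs hsq)
  have hs3 : 2 < s := by have := hs.two_le; omega
  have hso := hs.odd_of_ne_two hs2
  constructor
  · rintro ⟨x, hx⟩
    refine (lt_or_ge η n).imp id fun hη => ?_
    obtain ⟨R, h1, h2, h3, h4, h6, hth, h7, h8, h5⟩ := pomega_odd_data hF p (by omega) x
    obtain ⟨y, hy, hry⟩ := h5 s hs hsp (hx ▸ Dvd.intro_left 2 rfl)
    obtain ⟨R', hPM, -, hR, -, -, hnd⟩ := eta_top hq0 frob_injective h1 h2 h3 hs hs2 hk hy hry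
      h4.le hη
    have hy0 : y ≠ 0 := fun h => h3 (h ▸ hy)
    obtain ⟨N, hN, hyN⟩ := hPM.torN hy0 hq0
    obtain ⟨z, rfl⟩ : ∃ z, R' = {z} := Multiset.card_eq_one.mp (by
      have := congrArg Multiset.card hR
      rw [Multiset.card_add, card_chunk] at this; omega)
    obtain rfl : z = 1 := by
      rwa [hR, Multiset.prod_add, prod_chunk _ _ _ hy0, one_mul, Multiset.prod_singleton] at h6
    have hy1 := ne_inv_of_dvd_orderOf hy0 hs hs2 hry
    have h9 := hth.chunk hF (by omega) hN hyN hy0 hy1 hR (by simp)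
    refine ⟨N, hN, ?_⟩
    rw [← hN.two_mul hF, show 4 * s = 2 * (2 * s) by ring]
    refine Nat.mul_dvd_mul_left 2 (dvd_trans ?_ (orderOf_dvd_of_pow_eq_one h9))
    refine hso.coprime_two_left.mul_dvd_of_dvd_of_dvd ?_ hry
    by_contra hodd
    have ho : orderOf y ∣ s := by
      have := orderOf_dvd_of_pow_eq_one (h7 y hy)
      rw [hx] at this
      exact ((Nat.prime_two.coprime_iff_not_dvd.mpr hodd).symm).dvd_of_dvd_mul_left this
    have hall : ∀ z ∈ R, z ^ s = 1 := fun z hz => by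
      rw [hR] at hz
      rcases Multiset.mem_add.mp hz with hz | hz
      · exact (orderOf_of_mem_chunk frob_injective hz _).mpr (orderOf_dvd_iff_pow_eq_one.mp ho)
      · rw [Multiset.mem_singleton.mp hz, one_pow]
    have h0 : R.count (-1) = 0 := Multiset.count_eq_zero_of_notMem fun h => by
      have := hall _ h
      rw [hso.neg_one_pow] at this
      refine two_ne_zero_of_odd hF ((algebraMap F (AlgebraicClosure F)).injective ?_)
      rw [map_ofNat, map_zero]; linear_combination -this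
    have h10 := h8 s 0 hall (by simp)
      (fun z _ => by simpa using Multiset.nodup_iff_count_le_one.mp hnd z) (by simp [h0])
      (by simp [h0])
    rw [hx] at h10
    have := Nat.le_of_dvd hs.pos h10
    omega
  · rintro (h | ⟨N, hN, h⟩)
    · obtain ⟨D, h1⟩ := blk_odd hF hk0 (hk.dvd_pm hq0 hs hs2 hsq) hso hs3
      have := (blk_neg hF).sum hF h1
      rw [show 2 + 2 * η = 2 * (η + 1) by ring, hso.coprime_two_left.lcm_eq_mul] at this
      exact this.toOdd' hF (by omega) h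
    · rw [← hN.two_mul hF, show 4 * s = 2 * (2 * s) by ring] at h
      exact (blk_half hF (by omega) hN (Nat.dvd_of_mul_dvd_mul_left two_pos h)
        (Or.inr (by omega))).toOdd' hF (by omega) le_rfl

theorem sp_two_iff {s η : ℕ} (hs : s.Prime)
    (hs2 : s ≠ 2) (hsp : s ≠ p) (hk : IsEta (orderOf ((Fintype.card F : ℕ) : ZMod s)) η) :
    2 * s ∈ Set.range (orderOf : PSp n F → ℕ) ↔
      η < n ∨ ∃ N, TorN (Fintype.card F) n N ∧ 4 * s ∣ N := by
  classical
  have h2F := two_ne_zero_of_odd hF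
  have hq0 : 0 < Fintype.card F := Fintype.card_pos
  have hsq := not_dvd_card (F := F) p hs hsp
  have hk0 := hk.pos (orderOf_pos_of_not_dvd hs hsq)
  have hso := hs.odd_of_ne_two hs2
  constructor
  · rintro ⟨x, hx⟩
    refine (lt_or_ge η n).imp id fun hη => ?_
    obtain ⟨g, rfl⟩ := QuotientGroup.mk_surjective x
    obtain ⟨y, hy, hry⟩ := psp_exists_ev p g hs hs2 hsp (hx ▸ Dvd.intro_left 2 rfl)
    obtain ⟨h1, h2, h3, h4⟩ := sp_evs_facts g
    obtain ⟨R', hPM, -, hR, -, -, hnd⟩ := eta_top hq0 frob_injective h1 h2 h3 hs hs2 hk hy hry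
      (by omega : _ ≤ 2 * n + 1) hη
    have hy0 : y ≠ 0 := fun h => h3 (h ▸ hy)
    obtain ⟨N, hN, hyN⟩ := hPM.torN hy0 hq0
    obtain rfl : R' = 0 := Multiset.card_eq_zero.mp (by
      have := congrArg Multiset.card hR
      rw [Multiset.card_add, card_chunk] at this; omega)
    refine ⟨N, hN, dvd_trans ?_ (orderOf_dvd_of_pow_eq_one hyN)⟩
    refine Nat.Coprime.mul_dvd_of_dvd_of_dvd
      (show Nat.Coprime (2 ^ 2) s from hso.coprime_two_left.pow_left 2) ?_ hry
    by_contra h4'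
    have hy4 : y ^ (4 * s) = 1 := by
      have := (orderOf_mk_dvd_iff _ g _).mp hx.dvd
      rw [sp_mem_center_iff'] at this
      have h5 : (g : Matrix (Fin n ⊕ Fin n) (Fin n ⊕ Fin n) F) ^ (4 * s) = (1 : F) • 1 := by
        rw [show 4 * s = 2 * s * 2 by ring, pow_mul, ← SubmonoidClass.coe_pow]
        rcases this with h | h <;> simp [h]
      simpa using evs_pow_eq _ _ _ _ h5 y hy
    have hy2 : (y ^ s) ^ 2 = 1 := by
      rw [← pow_mul, ← orderOf_dvd_iff_pow_eq_one]
      obtain ⟨t, ht⟩ := hry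
      rw [← orderOf_dvd_iff_pow_eq_one, ht, mul_comm 4, Nat.mul_dvd_mul_iff_left hs.pos] at hy4
      rw [ht] at h4' ⊢
      refine Nat.mul_dvd_mul_left _ ?_
      have h6 := Nat.le_of_dvd (by omega) hy4
      have : t ≠ 4 := by rintro rfl; exact h4' (dvd_mul_left _ _)
      interval_cases t <;> simp_all
    obtain ⟨c, hc, hc'⟩ : ∃ c : F, (c = 1 ∨ c = -1) ∧ y ^ s = algebraMap F _ c := by
      rcases sq_eq_one_iff.mp hy2 with h | h
      · exact ⟨1, Or.inl rfl, by simp [h]⟩
      · exact ⟨-1, Or.inr rfl, by simp [h]⟩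
    have h5 := pow_eq_smul_of_evs (AlgebraicClosure F) p
      (g : Matrix (Fin n ⊕ Fin n) (Fin n ⊕ Fin n) F) s 0 c (fun z hz => by
        rw [hR, add_zero] at hz
        refine pow_eq_of_mem_chunk hz s (by rw [← map_pow, FiniteField.pow_card]) ?_ hc'
        rcases hc with rfl | rfl <;> simp)
      (by simpa using Multiset.nodup_iff_count_le_one.mp hnd)
    have h6 : orderOf (QuotientGroup.mk g : PSp n F) ∣ s := by
      rw [orderOf_mk_dvd_iff]
      exact sp_mem_center_of_smul _ c (by simpa using h5)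
    rw [hx] at h6
    have := Nat.le_of_dvd hs.pos h6
    have := hs.pos
    omega
  · rintro (h | ⟨N, hN, h⟩)
    · obtain ⟨x, hx0, hx, hPM⟩ := exists_torus_elt (F := F) (K := AlgebraicClosure F) hk0
        (hk.dvd_pm hq0 hs hs2 hsq)
      obtain ⟨δ1, h1⟩ := formP_sp_torus hk0 x hx0 hPM
      obtain ⟨w, hw⟩ := ((h1.sum (formP_sp_scalar (F := F) (-1) (by simp)
        (n - η))).congr (n' := 2 * n) (by omega) rfl (fun _ _ => Iff.rfl)).toPSp
      obtain ⟨c, hc, h2, h3⟩ : ∃ c : F, (c = 1 ∨ c = -1) ∧ x ^ orderOf w = algebraMap F _ c ∧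
          (-1) ^ orderOf w = c := by
        rcases (hw _).mp dvd_rfl with h' | h'
        · exact ⟨_, Or.inl rfl, h'.1.1, h'.2.resolve_left (by omega)⟩
        · exact ⟨_, Or.inr rfl, h'.1.1, h'.2.resolve_left (by omega)⟩
      have h4 := sign_pow_eq_one (hx ▸ hso) hc h2
      rw [h4, eq_comm, map_eq_one_iff _ (algebraMap F _).injective] at h2
      refine mem_range_orderOf_of_dvd ⟨w, rfl⟩ (hso.coprime_two_left.mul_dvd_of_dvd_of_dvd
        (even_of_neg_one_pow h2F (h3.trans h2)).two_dvd ?_)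
      rwa [← hx, orderOf_dvd_iff_pow_eq_one]
    · obtain ⟨x, hx0, hx, hPM⟩ := exists_torus_elt (F := F) (K := AlgebraicClosure F)
        (by omega : 0 < n) (t := 4 * s) (by
          rcases hN with hN | hN
          · left; rwa [← hN]
          · right; rwa [← hN])
      obtain ⟨δ1, h1⟩ := formP_sp_torus (by omega : 0 < n) x hx0 hPM
      obtain ⟨w, hw⟩ := h1.toPSp
      refine mem_range_orderOf_of_dvd ⟨w, rfl⟩ (Nat.dvd_of_mul_dvd_mul_left two_pos ?_)
      rw [← mul_assoc, show 2 * 2 * s = orderOf x by omega, orderOf_dvd_iff_pow_eq_one, mul_comm,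
        pow_mul]
      rcases (hw _).mp dvd_rfl with h' | h' <;> simp [h'.1]

end

/-- For q odd and n ≥ 3 the simple groups PΩ(2n+1,q) and PSp(2n,q) (which have the same order but different sets of element orders) have the same prime graph: for all distinct primes r, s, one of them has an element of order r·s if and only if the other does. -/
theorem result {F : Type*} [Field F] [Fintype F] (hodd : Odd (Fintype.card F)) (n : ℕ) (hn : 3 ≤ n) (r s : ℕ) (hr : r.Prime) (hs : s.Prime) (hrs : r ≠ s) :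
    (r * s ∈ Set.range (orderOf : Cfsg.POmega F (Cfsg.quadFormOdd n F) → ℕ)) ↔ (r * s ∈ Set.range (orderOf : Cfsg.PSp n F → ℕ)) := by
  obtain ⟨p, hp⟩ := CharP.exists F
  have : Fact p.Prime := ⟨CharP.char_is_prime F p⟩
  have h2 : ∀ s : ℕ, s.Prime → s ≠ 2 →
      ((2 * s ∈ Set.range (orderOf : Cfsg.POmega F (Cfsg.quadFormOdd n F) → ℕ)) ↔
        (2 * s ∈ Set.range (orderOf : Cfsg.PSp n F → ℕ))) := by
    intro s hs hs2
    by_cases hsp : s = p
    · subst hsp
      exact iff_of_true (o_two_char hodd s hn) (sp_two_char hodd s hn)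
    · obtain ⟨η, hη⟩ := exists_eta (orderOf ((Fintype.card F : ℕ) : ZMod s))
      rw [o_two_iff hodd p hn hs hs2 hsp hη, sp_two_iff hodd p hn hs hs2 hsp hη]
  by_cases hr2 : r = 2
  · subst hr2; exact h2 s hs hrs.symm
  by_cases hs2 : s = 2
  · subst hs2; rw [mul_comm]; exact h2 r hr hrs
  obtain ⟨η, hη⟩ := exists_eta (orderOf ((Fintype.card F : ℕ) : ZMod r))
  obtain ⟨η', hη'⟩ := exists_eta (orderOf ((Fintype.card F : ℕ) : ZMod s))
  by_cases hsp : s = p
  · subst hsp
    rw [o_adj_char_iff hodd s hn hr hr2 hrs hη, psp_adj_char_iff s hr hr2 hrs hη]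
  by_cases hrp : r = p
  · subst hrp
    rw [mul_comm, o_adj_char_iff hodd r hn hs hs2 hsp hη', psp_adj_char_iff r hs hs2 hsp hη']
  rcases le_total η η' with h | h
  · rw [o_adj_iff hodd p hn hr hs hr2 hs2 hrp hsp hrs hη hη' h,
      psp_adj_iff p hr hs hr2 hs2 hrp hsp hrs hη hη' h]
  · rw [mul_comm, o_adj_iff hodd p hn hs hr hs2 hr2 hsp hrp hrs.symm hη' hη h,
      psp_adj_iff p hs hr hs2 hr2 hsp hrp hrs.symm hη' hη h]

end Cfsg.Agent.S2474
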