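import Cfsg.Statements.S2476
import Cfsg.Agent.GLn.Card

set_option autoImplicit false
open Cfsg

namespace Cfsg.Agent.S2476

open Cfsg.Agent.GLn Polynomial

theorem exists_quadratic (F : Type*) [Field F] [Fintype F] :
    ∃ x : Matrix.ProjectiveSpecialLinearGroup (Fin 3) F,
      orderOf x = (Fintype.card F ^ 2 - 1) / Nat.gcd 3 (Fintype.card F - 1) := by
  have hq : 1 < Fintype.card F := Fintype.one_lt_card
  obtain ⟨K, _, _, _, φ, hφ, hK, -, -, hdet⟩ := exists_singer F 2 two_pos
  obtain ⟨x, hx0, hx⟩ := exists_orderOf_eq_of_dvd K dvd_rfl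
  rw [geom_eq_div _ _ hq] at hdet
  simp only [Finset.sum_range_succ, Finset.range_zero, Finset.sum_empty, pow_zero, zero_add,
    pow_one] at hdet
  have hd0 : (φ x).det ≠ 0 := by
    intro h
    have := hdet x
    rw [h, map_zero] at this
    exact pow_ne_zero _ hx0 this.symm
  refine exists_psl_orderOf_eq (blk (a := 2) (b := 1) rfl (φ x, algebraMap F _ (φ x).det⁻¹)) ?_ _
    fun j => ?_
  · rw [det_blk, det_algebraMap_matrix]; simp [hd0]
  simp only [blk_pow_eq_algebraMap_iff]
  have hg : Nat.gcd 3 (Fintype.card F - 1) =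
      Nat.gcd (Fintype.card F ^ 2 - 1) (Fintype.card F + 2) := by
    obtain ⟨s, hs⟩ : ∃ s, Fintype.card F = s + 2 := ⟨Fintype.card F - 2, by omega⟩
    rw [hs, show (s + 2) ^ 2 - 1 = 3 + s * (s + 2 + 2) by
      apply Nat.sub_eq_of_eq_add; ring, Nat.gcd_add_mul_right_left,
      show s + 2 + 2 = (s + 2 - 1) + 3 by omega, Nat.gcd_add_self_right]
  have hpos : 0 < Fintype.card F ^ 2 - 1 := Nat.sub_pos_of_lt (Nat.one_lt_pow two_ne_zero hq)
  rw [hg, div_gcd_dvd_iff hpos, ← hK, ← hx, orderOf_dvd_iff_pow_eq_one]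
  simp only [← map_pow]
  constructor
  · rintro ⟨c, h1, h2⟩
    rw [← φ.commutes, hφ.eq_iff] at h1
    have h3 := (algebraMap F (Matrix (Fin 1) (Fin 1) F)).injective h2
    rw [← h3, map_pow, map_inv₀, hdet, inv_pow] at h1
    rw [show (Fintype.card F + 2) * j = j + (1 + Fintype.card F) * j by ring, pow_add, h1, pow_mul,
      inv_mul_cancel₀ (pow_ne_zero _ (pow_ne_zero _ hx0))]
  · intro h
    refine ⟨_, ?_, rfl⟩
    rw [← φ.commutes, map_pow (algebraMap F K), map_inv₀, hdet, inv_pow]
    congr 1
    rw [show (Fintype.card F + 2) * j = j + (1 + Fintype.card F) * j by ring, pow_add, pow_mul] at h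
    exact eq_inv_of_mul_eq_one_left h

theorem exists_split (F : Type*) [Field F] [Fintype F] :
    ∃ x : Matrix.ProjectiveSpecialLinearGroup (Fin 3) F, orderOf x = Fintype.card F - 1 := by
  obtain ⟨l, hl0, hl⟩ := exists_orderOf_eq_of_dvd F dvd_rfl
  refine exists_psl_orderOf_eq (blk (a := 1) (b := 2) rfl (1, blk (a := 1) (b := 1) rfl
    (algebraMap F _ l, algebraMap F _ l⁻¹))) ?_ _ fun j => ?_
  · rw [det_blk, det_blk, det_algebraMap_matrix, det_algebraMap_matrix]; simp [hl0]
  simp only [blk_pow_eq_algebraMap_iff]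
  simp only [← map_pow, one_pow]
  rw [← hl, orderOf_dvd_iff_pow_eq_one]
  constructor
  · rintro ⟨c, h1, h2, -⟩
    rw [← h1, ← map_one (algebraMap F (Matrix (Fin 1) (Fin 1) F))] at h2
    exact (algebraMap F (Matrix (Fin 1) (Fin 1) F)).injective h2
  · intro h
    exact ⟨1, by simp, by simp [h], by simp [h]⟩


/-- The set of element orders of PSL(3,q): let F be a finite field of characteristic p with q elements and d = gcd(3, q − 1). The orders of elements of PSL(3,F) are exactly the divisors of (q² + q + 1)/d, of (q² − 1)/d, of q − 1, of p(q − 1)/d, and, when p = 2, of 4. -/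
theorem result {F : Type*} [Field F] [Fintype F] (p : ℕ) [Fact p.Prime] [CharP F p] :
    Set.range (orderOf : Matrix.ProjectiveSpecialLinearGroup (Fin 3) F → ℕ) =
      {m : ℕ | m ∣ (Fintype.card F ^ 2 + Fintype.card F + 1) / Nat.gcd 3 (Fintype.card F - 1) ∨
        m ∣ (Fintype.card F ^ 2 - 1) / Nat.gcd 3 (Fintype.card F - 1) ∨ m ∣ Fintype.card F - 1 ∨
        m ∣ p * (Fintype.card F - 1) / Nat.gcd 3 (Fintype.card F - 1) ∨ (p = 2 ∧ m ∣ 4)} := by
  classical
  have hp : p.Prime := Fact.out
  have hq : 1 < Fintype.card F := Fintype.one_lt_card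
  have hsing : singerOrder (Fintype.card F) 3 =
      (Fintype.card F ^ 2 + Fintype.card F + 1) / Nat.gcd 3 (Fintype.card F - 1) := by
    simp only [singerOrder, Finset.sum_range_succ, Finset.range_zero, Finset.sum_empty]
    congr 1; ring
  have hd0 : 0 < Nat.gcd 3 (Fintype.card F - 1) := Nat.gcd_pos_of_pos_left _ (by norm_num)
  obtain ⟨M, hM⟩ := Nat.gcd_dvd_right 3 (Fintype.card F - 1)
  obtain ⟨e, he⟩ := Nat.gcd_dvd_left 3 (Fintype.card F - 1)
  have hpM : p * (Fintype.card F - 1) / Nat.gcd 3 (Fintype.card F - 1) = p * M := by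
    rw [Nat.mul_div_assoc _ (Nat.gcd_dvd_right _ _)]
    congr 1
    exact Nat.div_eq_of_eq_mul_right hd0 hM
  have h3M : Fintype.card F - 1 ∣ 3 * M := by
    conv_rhs => rw [he, mul_right_comm, ← hM]
    exact dvd_mul_right _ _
  apply Set.Subset.antisymm
  swap
  · rintro m (h | h | h | h | ⟨rfl, h⟩)
    · obtain ⟨s, hs⟩ := exists_psl_singer F 3 (by norm_num)
      exact mem_range_orderOf_of_dvd' s (by rwa [hs, hsing])
    · obtain ⟨s, hs⟩ := exists_quadratic F
      exact mem_range_orderOf_of_dvd' s (by rwa [hs])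
    · obtain ⟨s, hs⟩ := exists_split F
      exact mem_range_orderOf_of_dvd' s (by rwa [hs])
    · obtain ⟨l, hl0, hl⟩ := exists_orderOf_eq_of_dvd F dvd_rfl
      obtain ⟨s, hs⟩ := exists_psl_jordan_scalar p (a := 2) (n := 3) two_pos rfl l hl0
      refine mem_range_orderOf_of_dvd' s (h.trans ?_)
      rw [hs, Nat.clog_eq_one le_rfl hp.two_le, pow_one, orderOf_pow' _ (by norm_num), hl, hpM,
        Nat.gcd_comm, Nat.div_eq_of_eq_mul_right hd0 hM, Nat.Coprime.lcm_eq_mul]
      exact (coprime_card_sub_one (F := F) p).coprime_dvd_right ⟨_, by rw [mul_comm]; exact hM⟩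
    · obtain ⟨u, hu⟩ := exists_psl_orderOf_eq_of_coprime (1 + shiftN F 3)
        (by rw [orderOf_jordan 2]; positivity)
        (by rw [orderOf_jordan 2]; exact (coprime_card_sub_one 2).pow_left _)
      refine mem_range_orderOf_of_dvd' u ?_
      rwa [hu, orderOf_jordan 2, show Nat.clog 2 3 = 2 by norm_num [Nat.clog]]
  rintro _ ⟨x, rfl⟩
  induction x using QuotientGroup.induction_on with | H g =>
  simp only [Set.mem_ofPred_eq, psl_orderOf_dvd_iff]
  set A := (g : Matrix (Fin 3) (Fin 3) F) with hA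
  have hdet : A.det = 1 := g.det_coe
  have hm := A.charpoly_monic
  have hdeg : A.charpoly.natDegree = 3 := by simp
  have hchi0 : A.charpoly.eval 0 = -1 := by
    have := Matrix.det_eq_sign_charpoly_coeff A
    rw [hdet, Fintype.card_fin, coeff_zero_eq_eval_zero] at this
    linear_combination this
  by_cases hsq : A.charpoly.Separable
  · -- semisimple: it suffices to control the eigenvalues
    have hss : ∀ (m : ℕ) (c : F), (∀ μ : AlgebraicClosure F, aeval μ A.charpoly = 0 →
        μ ^ m = algebraMap F _ c) → A ^ m = algebraMap F _ c := by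
      intro m c h
      obtain ⟨k, hk⟩ := dvd_pow_of_roots (K := AlgebraicClosure F) _ (X ^ m - C c) hm.ne_zero
        (fun μ hμ => by simp [h μ hμ])
      have hk' : A.charpoly ∣ X ^ m - C c := by
        rcases Nat.eq_zero_or_pos k with rfl | hk0
        · exact (isUnit_of_dvd_one (by simpa using hk)).dvd
        · exact (hsq.squarefree.dvd_pow_iff_dvd hk0.ne').mp hk
      obtain ⟨t, ht⟩ := hk'
      have := congrArg (aeval A) ht
      rw [map_mul, Matrix.aeval_self_charpoly, zero_mul] at this
      simpa [sub_eq_zero] using this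
    by_cases h1 : ∀ μ ν : AlgebraicClosure F, aeval μ A.charpoly = 0 → aeval ν A.charpoly = 0 →
        minpoly F ν = minpoly F μ
    · left
      obtain ⟨c, hc⟩ := exists_root_pow_singerOrder hdet h1
      rw [Fintype.card_fin, hsing] at hc
      exact ⟨c, hss _ _ hc⟩
    by_cases h2 : ∀ μ : AlgebraicClosure F, aeval μ A.charpoly = 0 → (minpoly F μ).natDegree = 1
    · right; right; left
      refine ⟨1, hss _ _ fun μ hμ => ?_⟩
      have := (pow_card_pow_sub_one_eq_one_iff (isIntegral_of_root hμ)
        (root_ne_zero (by simp [hdet]) hμ) 1).mpr (h2 μ hμ).dvd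
      rwa [pow_one] at this
    right; left
    push Not at h1 h2
    obtain ⟨μ, hμ, hμ1⟩ := h2
    have hi := isIntegral_of_root hμ
    have hμ0 : μ ≠ 0 := root_ne_zero (by simp [hdet]) hμ
    have hμ2 : (minpoly F μ).natDegree = 2 := by
      obtain ⟨ν, ν', hν, hν', hne⟩ := h1
      have h3 := minpoly.natDegree_pos (isIntegral_of_root hν)
      have h4 := minpoly.natDegree_pos (isIntegral_of_root hν')
      have h5 := minpoly.natDegree_pos hi
      by_cases h6 : minpoly F μ = minpoly F ν
      · have := natDegree_minpoly_add_le_of_root hμ hν' (h6 ▸ hne.symm)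
        rw [Fintype.card_fin] at this; omega
      · have := natDegree_minpoly_add_le_of_root hμ hν h6
        rw [Fintype.card_fin] at this; omega
    obtain ⟨f, hf⟩ := minpoly.dvd F μ hμ
    have hfm : f.Monic := (minpoly.monic hi).of_mul_monic_left (hf ▸ hm)
    have hfd : f.natDegree = 1 := by
      rw [hf, (minpoly.monic hi).natDegree_mul hfm] at hdeg; omega
    have hf' := hfm.eq_X_add_C hfd
    have hnorm := pow_geom_eq_norm hi
    rw [hμ2] at hnorm
    simp only [Finset.sum_range_succ, Finset.range_zero, Finset.sum_empty, pow_zero, zero_add,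
      pow_one, even_two, Even.neg_pow, one_pow, one_mul] at hnorm
    rw [hf, eval_mul, ← coeff_zero_eq_eval_zero, ← coeff_zero_eq_eval_zero] at hchi0
    set a := (minpoly F μ).coeff 0
    set b := f.coeff 0
    have ha0 : a ≠ 0 := by rintro h; simp [h] at hchi0
    have hb : -b = a⁻¹ := eq_inv_of_mul_eq_one_right (by linear_combination -hchi0)
    have hE : (Fintype.card F ^ 2 - 1) / Nat.gcd 3 (Fintype.card F - 1) =
        (1 + Fintype.card F) * M := by
      apply Nat.div_eq_of_eq_mul_right hd0
      rw [mul_left_comm, ← hM, add_comm, ← Nat.sq_sub_sq]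
    have haq : a ^ (Fintype.card F - 1) = 1 := FiniteField.pow_card_sub_one_eq_one a ha0
    refine ⟨a ^ M, hss _ _ fun ν hν => ?_⟩
    rw [hE]
    rw [hf, map_mul, mul_eq_zero] at hν
    rcases hν with hν | hν
    · have h3 : minpoly F μ ∣ X ^ (1 + Fintype.card F) - C a := minpoly.dvd F μ (by simp [hnorm])
      have h4 := aeval_eq_zero_of_dvd_aeval_eq_zero h3 hν
      simp only [map_sub, map_pow, aeval_X, aeval_C, sub_eq_zero] at h4
      rw [pow_mul, h4, map_pow]
    · rw [hf'] at hν
      simp only [map_add, aeval_X, aeval_C] at hν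
      rw [eq_neg_of_add_eq_zero_left hν, ← map_neg, hb, ← map_pow]
      congr 1
      obtain ⟨t, ht⟩ := h3M
      rw [inv_pow, eq_comm]
      apply eq_inv_of_mul_eq_one_left
      rw [← pow_add, show M + (1 + Fintype.card F) * M = (Fintype.card F - 1) * M + 3 * M by
        obtain ⟨s, hs⟩ : ∃ s, Fintype.card F = s + 1 := ⟨Fintype.card F - 1, by omega⟩
        rw [hs, Nat.add_sub_cancel]; ring, ht, ← mul_add, pow_mul, haq, one_pow]
  · -- a repeated eigenvalue
    obtain ⟨f, hfu, hf2⟩ : ∃ f : F[X], ¬ IsUnit f ∧ f * f ∣ A.charpoly := by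
      rw [PerfectField.separable_iff_squarefree] at hsq
      by_contra hcon
      push Not at hcon
      exact hsq fun f hf => by_contra fun hu => hcon f hu hf
    have hf0 : f ≠ 0 := by rintro rfl; exact hm.ne_zero (by simpa using hf2)
    have hfd : f.degree = 1 := by
      have h1 := natDegree_le_of_dvd hf2 hm.ne_zero
      rw [natDegree_mul hf0 hf0, hdeg] at h1
      have h2 := natDegree_pos_of_not_isUnit_of_dvd_monic hm hfu ((dvd_mul_right f f).trans hf2)
      rw [degree_eq_natDegree hf0, show f.natDegree = 1 by omega]; rfl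
    obtain ⟨c, hc⟩ := exists_root_of_degree_eq_one hfd
    obtain ⟨g, hg⟩ : (X - C c) ^ 2 ∣ A.charpoly := by
      rw [pow_two]
      exact (mul_dvd_mul (dvd_iff_isRoot.mpr hc) (dvd_iff_isRoot.mpr hc)).trans hf2
    have hgm : g.Monic := ((monic_X_sub_C c).pow 2).of_mul_monic_left (hg ▸ hm)
    have hgd : g.natDegree = 1 := by
      rw [hg, ((monic_X_sub_C c).pow 2).natDegree_mul hgm, natDegree_pow, natDegree_X_sub_C] at hdeg
      omega
    have hg' := hgm.eq_X_add_C hgd
    rw [hg, eval_mul, ← coeff_zero_eq_eval_zero g] at hchi0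
    simp only [eval_pow, eval_sub, eval_X, eval_C] at hchi0
    obtain ⟨d, hd⟩ : ∃ d, g.coeff 0 = -d := ⟨-g.coeff 0, by simp⟩
    rw [hd] at hchi0 hg'
    rw [map_neg, ← sub_eq_add_neg] at hg'
    have hcd : c ^ 2 * d = 1 := by linear_combination -hchi0
    have hc0 : c ≠ 0 := by rintro rfl; simp at hcd
    have hdM : d ^ M = c ^ M := by
      apply mul_left_cancel₀ (pow_ne_zero M (pow_ne_zero 2 hc0))
      obtain ⟨t, ht⟩ := h3M
      rw [← mul_pow, hcd, one_pow, ← mul_pow, ← pow_succ, ← pow_mul, ht, pow_mul,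
        FiniteField.pow_card_sub_one_eq_one c hc0, one_pow]
    have h1 : X - C c ∣ X ^ M - C (c ^ M) := by rw [dvd_iff_isRoot]; simp
    have h2 : X - C d ∣ X ^ M - C (c ^ M) := by rw [dvd_iff_isRoot]; simp [hdM]
    have hfin : A.charpoly ∣ (X ^ M - C (c ^ M)) ^ p →
        ∃ e : F, A ^ (p * (Fintype.card F - 1) / Nat.gcd 3 (Fintype.card F - 1)) =
          algebraMap F _ e := by
      rintro ⟨t, ht⟩
      have := congrArg (aeval A) ht
      rw [map_mul, Matrix.aeval_self_charpoly, zero_mul] at this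
      simp only [map_pow, map_sub, aeval_X, aeval_C] at this
      rw [← pow_one p, ← map_pow, sub_pow_char_pow_matrix p _ _
        (Algebra.commute_algebraMap_right _ _), sub_eq_zero, pow_one, ← pow_mul, ← map_pow] at this
      exact ⟨_, by rw [hpM, mul_comm, this]⟩
    by_cases hcd' : c = d
    · subst hcd'
      have hg3 : A.charpoly = (X - C c) ^ 3 := by rw [hg, hg']; ring
      by_cases hp2 : p = 2
      · right; right; right; right
        subst hp2
        refine ⟨rfl, _, pow_char_pow_eq_of_isNilpotent 2 (c := c) (k := 2) ⟨3, ?_⟩ (by simp)⟩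
        have := Matrix.aeval_self_charpoly A
        rw [hg3] at this
        simpa using this
      · right; right; right; left
        apply hfin
        rw [hg3]
        exact pow_dvd_pow_of_dvd_of_le h1 (by have := hp.two_le; omega)
    · right; right; right; left
      apply hfin
      rw [hg, hg']
      refine IsCoprime.mul_dvd (isCoprime_X_sub_C_of_isUnit_sub
        (IsUnit.mk0 _ (sub_ne_zero.mpr hcd'))).pow_left ?_ (h2.trans (dvd_pow_self _ hp.ne_zero))
      exact pow_dvd_pow_of_dvd_of_le h1 hp.two_le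

end Cfsg.Agent.S2476
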