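import Cfsg.Statements.S2479
import Cfsg.Agent.GLn.ClassBound

set_option autoImplicit false
open Cfsg

namespace Cfsg.Agent.S2479

open Cfsg.Agent.GLn

/-- The number of conjugacy classes of SL(n,q): for F a finite field with q elements, the number k of conjugacy classes of SL(n,F) satisfies q^(n−1) < k and k ≤ (5/2)·q^(n−1) for n ≥ 2, and k ≤ q^(n−1) + 3q^(n−2) for n ≥ 3. -/
theorem result {F : Type*} [Field F] [Fintype F] (n : ℕ) (hn : 2 ≤ n) :
    Fintype.card F ^ (n - 1) < Nat.card (ConjClasses (Matrix.SpecialLinearGroup (Fin n) F)) ∧ 2 * Nat.card (ConjClasses (Matrix.SpecialLinearGroup (Fin n) F)) ≤ 5 * Fintype.card F ^ (n - 1) ∧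
      (3 ≤ n → Nat.card (ConjClasses (Matrix.SpecialLinearGroup (Fin n) F)) ≤ Fintype.card F ^ (n - 1) + 3 * Fintype.card F ^ (n - 2)) := by
  rw [← Nat.card_eq_fintype_card]
  have h := card_conjClasses_SL_le (F := F) n
  exact ⟨pow_lt_card_conjClasses_SL hn,
    (Nat.mul_le_mul_left 2 h).trans (two_mul_tyK_le F (by omega) le_rfl _),
    fun h3 => h.trans (tyK_of_three_le F h3 le_rfl _)⟩

end Cfsg.Agent.S2479
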