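import Cfsg.Statements.S2482
import Cfsg.Agent.Forms.SpType
import Cfsg.Agent.Forms.GenCount

set_option autoImplicit false
open Cfsg

namespace Cfsg.Agent.S2482

open Polynomial Finset Module Cfsg.Agent.GLn Cfsg.Agent.Forms

section Gen

variable {α : Type*}

/-- Adding one bit: the set. -/
def bS (S : Set α) : Set (α × Bool) := {x | x.1 ∈ S}

/-- Adding one bit: the weight. -/
def bw (w : α → ℕ) (x : α × Bool) : ℕ := w x.1 + x.2.toNat

/-- Bounds on level sets. -/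
structure Bd (S : Set α) (w : α → ℕ) (q : ℝ) (k : ℕ) : Prop where
  fin : ∀ d, (Lev S w d).Finite
  le : ∀ d, ((Lev S w d).ncard : ℝ) ≤ (1 + q⁻¹) ^ k * q ^ d
  sum : ∀ y : ℝ, 0 ≤ y → q * y < 1 → ∀ D,
    ∑ d ∈ range D, ((Lev S w d).ncard : ℝ) * y ^ d ≤ (1 + y) ^ k / (1 - q * y)

theorem Bd.bit {S : Set α} {w : α → ℕ} {q : ℝ} {k : ℕ} (hq : 0 < q) (h : Bd S w q k) :
    Bd (bS S) (bw w) q (k + 1) := by
  have h0 : Lev (bS S) (bw w) 0 ⊆ (fun a => (a, false)) '' Lev S w 0 := by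
    rintro ⟨a, _ | _⟩ ⟨h1, h2⟩
    · exact ⟨a, ⟨h1, by simpa [bw] using h2⟩, rfl⟩
    · simp [bw] at h2
  have h1 : ∀ d, Lev (bS S) (bw w) (d + 1) ⊆
      (fun a => (a, false)) '' Lev S w (d + 1) ∪ (fun a => (a, true)) '' Lev S w d := by
    rintro d ⟨a, _ | _⟩ ⟨h1, h2⟩
    · exact Or.inl ⟨a, ⟨h1, by simpa [bw] using h2⟩, rfl⟩
    · exact Or.inr ⟨a, ⟨h1, by simpa [bw] using h2⟩, rfl⟩
  have c0 : ((Lev (bS S) (bw w) 0).ncard : ℝ) ≤ (Lev S w 0).ncard := by
    exact_mod_cast (Set.ncard_le_ncard h0 ((h.fin 0).image _)).trans (Set.ncard_image_le (h.fin 0))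
  have c1 : ∀ d, ((Lev (bS S) (bw w) (d + 1)).ncard : ℝ) ≤
      (Lev S w (d + 1)).ncard + (Lev S w d).ncard := fun d => by
    exact_mod_cast ((Set.ncard_le_ncard (h1 d) (((h.fin _).image _).union ((h.fin _).image _))).trans
      (Set.ncard_union_le _ _)).trans
      (add_le_add (Set.ncard_image_le (h.fin _)) (Set.ncard_image_le (h.fin _)))
  have hi := inv_pos.2 hq
  refine ⟨fun d => ?_, fun d => ?_, fun y hy hqy D => ?_⟩
  · rcases d with _ | d
    · exact ((h.fin 0).image _).subset h0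
    · exact (((h.fin _).image _).union ((h.fin _).image _)).subset (h1 d)
  · rcases d with _ | d
    · refine (c0.trans (h.le 0)).trans ?_
      gcongr
      · linarith
      · omega
    · refine ((c1 d).trans (add_le_add (h.le _) (h.le _))).trans_eq ?_
      simp only [pow_succ]; field_simp
  · refine (sum_le_sum_of_subset_of_nonneg (range_mono (Nat.le_succ D))
      fun _ _ _ => by positivity).trans ?_
    have e1 := h.sum y hy hqy (D + 1)
    have e2 := mul_le_mul_of_nonneg_left (h.sum y hy hqy D) hy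
    rw [sum_range_succ'] at e1 ⊢
    rw [mul_sum] at e2
    have e3 : ∑ d ∈ range D, ((Lev (bS S) (bw w) (d + 1)).ncard : ℝ) * y ^ (d + 1) ≤
        ∑ d ∈ range D, ((Lev S w (d + 1)).ncard : ℝ) * y ^ (d + 1) +
          ∑ d ∈ range D, y * (((Lev S w d).ncard : ℝ) * y ^ d) := by
      rw [← sum_add_distrib]
      refine sum_le_sum fun d _ => (mul_le_mul_of_nonneg_right (c1 d) (by positivity)).trans_eq ?_
      ring
    have e4 : (1 + y) ^ (k + 1) / (1 - q * y) =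
        (1 + y) ^ k / (1 - q * y) + y * ((1 + y) ^ k / (1 - q * y)) := by ring
    simp only [pow_zero, mul_one] at e1 ⊢
    linarith

theorem step_ineq {x : ℝ} (h0 : 0 < x) (h1 : x ≤ 1 / 3) (N : ℕ) (hN : 4 ≤ N) :
    (1 - 4 * x ^ N) * ((1 + x ^ (N + 1)) ^ 4 / (1 - x ^ N)) ≤ 1 - 4 * x ^ (N + 1) := by
  have h2 : x ^ N ≤ 1 / 81 := by
    calc x ^ N ≤ x ^ 4 := pow_le_pow_of_le_one h0.le (by linarith) hN
      _ ≤ (1 / 3) ^ 4 := by gcongr
      _ = _ := by norm_num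
  have h3 : 0 < x ^ N := by positivity
  have h4 : x ^ (N + 1) ≤ x ^ N / 3 := by rw [pow_succ]; nlinarith
  have h5 : 0 < x ^ (N + 1) := by positivity
  generalize x ^ (N + 1) = z at *
  generalize x ^ N = y at *
  rw [← mul_div_assoc, div_le_iff₀ (by linarith)]
  have h6 : (1 + z) ^ 4 ≤ 1 + 4 / 3 * y + y ^ 2 := by
    calc (1 + z) ^ 4 ≤ (1 + y / 3) ^ 4 := by gcongr
      _ ≤ _ := by nlinarith [mul_pos h3 h3, mul_pos h3 (mul_pos h3 h3)]
  calc (1 - 4 * y) * (1 + z) ^ 4 ≤ (1 - 4 * y) * (1 + 4 / 3 * y + y ^ 2) :=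
        mul_le_mul_of_nonneg_left h6 (by linarith)
    _ ≤ (1 - 4 * (y / 3)) * (1 - y) := by nlinarith [mul_pos h3 h3, mul_pos h3 (mul_pos h3 h3)]
    _ ≤ _ := mul_le_mul_of_nonneg_right (by linarith) (by linarith)

theorem Bd.GT_le {S : Set α} {w : α → ℕ} {a0 : α} {q : ℝ} (hq : 3 ≤ q) (h : Bd S w q 4)
    (h0 : a0 ∈ S) (hw : w a0 = 0) (N m : ℕ) : ((GT S w a0 N m).ncard : ℝ) ≤ 54 / 5 * q ^ m := by
  have hq0 : 0 < q := by linarith
  have x0 : 0 < q⁻¹ := inv_pos.2 hq0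
  have x1 : q⁻¹ ≤ 1 / 3 := by rw [one_div]; exact inv_anti₀ (by norm_num) hq
  have hφ : ∀ N, 1 ≤ N → ∀ D, ∑ d ∈ range D, ((Lev S w d).ncard : ℝ) * (q⁻¹ ^ (N + 1)) ^ d ≤
      (1 + q⁻¹ ^ (N + 1)) ^ 4 / (1 - q⁻¹ ^ N) := fun N hN D => by
    have e : q * q⁻¹ ^ (N + 1) = q⁻¹ ^ N := by rw [pow_succ]; field_simp
    have := h.sum (q⁻¹ ^ (N + 1)) (by positivity) (by
      rw [e]; exact pow_lt_one₀ x0.le (by linarith) (by omega)) D
    rwa [e] at this
  have hφ' : ∀ N, 1 ≤ N → ∀ D, ∑ d ∈ range D, ((Lev S w d).ncard : ℝ) * (q⁻¹ ^ (N + 1)) ^ d ≤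
      (1 + (1 / 3) ^ (N + 1)) ^ 4 / (1 - (1 / 3) ^ N) := fun N hN D => by
    refine (hφ N hN D).trans ?_
    have : ((1 : ℝ) / 3) ^ N < 1 := pow_lt_one₀ (by norm_num) (by norm_num) (by omega)
    gcongr
  have c1 : ∀ m, ((GT S w a0 1 m).ncard : ℝ) ≤ (4 / 3) ^ 4 * q ^ m := fun m =>
    ((Nat.cast_le.2 (ncard_GT_one_le h0 h.fin m)).trans (h.le m)).trans (by gcongr; linarith)
  have c2 := ncard_GT_step h0 h.fin hq0 c1 (hφ' 1 le_rfl)
  have c3 := ncard_GT_step h0 h.fin hq0 c2 (hφ' 2 (by norm_num))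
  have c4 := ncard_GT_step h0 h.fin hq0 c3 (hφ' 3 (by norm_num))
  refine ncard_GT_le (c := 4) (N0 := 4) h0 h.fin hw hq0 (by norm_num) (by norm_num) _
    (fun m => (c4 m).trans (mul_le_mul_of_nonneg_right ?_ (by positivity)))
    (fun N hN => hφ N (by omega)) (fun N hN => step_ineq x0 x1 N hN) N m
  have : q⁻¹ ^ 4 ≤ (1 / 3) ^ 4 := by gcongr
  norm_num at this ⊢
  linarith

theorem sum_range_even (f : ℕ → ℕ) (h : ∀ e, Odd e → f e = 0) (M : ℕ) :
    ∑ e ∈ range (2 * M), f e = ∑ j ∈ range M, f (2 * j) := by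
  induction M with
  | zero => simp
  | succ M ih =>
    rw [mul_add, mul_one, sum_range_succ _ (2 * M + 1), sum_range_succ, sum_range_succ, ih,
      h (2 * M + 1) ⟨M, rfl⟩, add_zero]

end Gen

variable {F : Type*} [Field F]

/-- The basic set of labels. -/
def S0 (F : Type*) [Field F] : Set (F[X] × ℕ × ℕ) :=
  {a | a.1.Monic ∧ a.1.reverse = a.1 ∧ Even a.1.natDegree ∧ a.1.eval 1 ≠ 0 ∧ a.1.eval (-1) ≠ 0}

/-- The basic weight. -/
noncomputable def w0 (a : F[X] × ℕ × ℕ) : ℕ := a.1.natDegree / 2 + (a.2.1 + a.2.2)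

theorem eq_of_mul_pow {p p' : F[X]} {c : F} (h : p.eval c ≠ 0) (h' : p'.eval c ≠ 0) {a a' : ℕ}
    (e : p * (X - C c) ^ a = p' * (X - C c) ^ a') : p = p' ∧ a = a' := by
  have h1 := congrArg (rootMultiplicity c) e
  rw [rootMultiplicity_mul_X_sub_C_pow (by rintro rfl; simp at h),
    rootMultiplicity_mul_X_sub_C_pow (by rintro rfl; simp at h'), rootMultiplicity_eq_zero h,
    rootMultiplicity_eq_zero h', zero_add, zero_add] at h1
  subst h1
  exact ⟨mul_right_cancel₀ (pow_ne_zero _ (X_sub_C_ne_zero c)) e, rfl⟩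

theorem reverse_sq {c : F} (hc : c * c = 1) (k : ℕ) :
    ((X - C c : F[X]) ^ (2 * k)).reverse = (X - C c) ^ (2 * k) := by
  have h1 : (X - C c : F[X]).reverse = 1 - C c * X := by
    rw [reverse, natDegree_X_sub_C, reflect_sub, reflect_C, reflect_one_X, pow_one]
  have h2 : ((X - C c : F[X]) ^ 2).reverse = (X - C c) ^ 2 := by
    rw [sq, reverse_mul_of_domain, h1]
    have : (C c * C c : F[X]) = 1 := by rw [← C_mul, hc, C_1]
    linear_combination (X ^ 2 - 1) * this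
  induction k with
  | zero => simp [reverse]
  | succ k ih => rw [mul_add, mul_one, pow_add, reverse_mul_of_domain, ih, h2]

theorem bd0 [Fintype F] (h2 : (2 : F) ≠ 0) : Bd (S0 F) w0 (Fintype.card F) 0 := by
  have hfin : ∀ d, Set.Finite {f : F[X] | f.Monic ∧ f.natDegree = 2 * d ∧ f.reverse = f} := fun d => by
    have : Set.Finite {f : F[X] | f.Monic ∧ f.natDegree = 2 * d} := finite_monic F _
    exact this.subset fun f hf => ⟨hf.1, hf.2.1⟩
  let φ : F[X] × ℕ × ℕ → F[X] := fun a => a.1 * (X - C 1) ^ (2 * a.2.1) * (X - C (-1)) ^ (2 * a.2.2)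
  have hm : ∀ d, Set.MapsTo φ (Lev (S0 F) w0 d)
      {f : F[X] | f.Monic ∧ f.natDegree = 2 * d ∧ f.reverse = f} := by
    rintro d ⟨T, a, b⟩ ⟨⟨h1, h3, h4, -⟩, h5⟩
    have m1 := (monic_X_sub_C (1 : F)).pow (2 * a)
    have m2 := (monic_X_sub_C (-1 : F)).pow (2 * b)
    refine ⟨(h1.mul m1).mul m2, ?_, ?_⟩
    · rw [(h1.mul m1).natDegree_mul m2, h1.natDegree_mul m1, natDegree_pow, natDegree_pow,
        natDegree_X_sub_C, natDegree_X_sub_C]
      obtain ⟨k, hk⟩ := h4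
      simp only [w0] at h5 hk ⊢
      omega
    · simp only [φ, reverse_mul_of_domain]
      rw [h3, reverse_sq (one_mul 1), reverse_sq (by simp)]
  have hi : Set.InjOn φ (S0 F) := by
    rintro ⟨T, a, b⟩ ⟨-, -, -, h1, h3⟩ ⟨T', a', b'⟩ ⟨-, -, -, h1', h3'⟩ e
    have k : ∀ {T : F[X]} (a : ℕ), T.eval (-1) ≠ 0 → (T * (X - C 1) ^ (2 * a)).eval (-1) ≠ 0 := by
      intro T a h
      rw [eval_mul, eval_pow, eval_sub, eval_X, eval_C]
      exact mul_ne_zero h (pow_ne_zero _ fun h => h2 (by linear_combination -h))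
    obtain ⟨e1, e2⟩ := eq_of_mul_pow (k a h3) (k a' h3') e
    obtain ⟨e3, e4⟩ := eq_of_mul_pow h1 h1' e1
    simp only at e2 e3 e4
    rw [e3, show a = a' by omega, show b = b' by omega]
  have hle : ∀ d, ((Lev (S0 F) w0 d).ncard : ℝ) ≤ (Fintype.card F : ℝ) ^ d := fun d => by
    have := Set.ncard_le_ncard_of_injOn φ (hm d) (hi.mono fun _ h => h.1) (hfin d)
    rw [← Nat.card_coe_set_eq {f : F[X] | _}] at this
    have h3 := card_palin (F := F) d
    rw [Nat.card_eq_fintype_card (α := F)] at h3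
    exact_mod_cast this.trans_eq h3
  refine ⟨fun d => Set.Finite.of_injOn (hm d) (hi.mono fun _ h => h.1) (hfin d),
    fun d => by simpa using hle d, fun y hy hqy D => ?_⟩
  rw [pow_zero, one_div]
  refine le_trans (sum_le_sum fun d _ => ?_) (sum_range_geom_le (by positivity) hqy D)
  rw [mul_pow]; gcongr; exact hle d

theorem palin_of_sd (h2 : (2 : F) ≠ 0) {T : F[X]} (h : SD (RingHom.id F) T) (h1 : T.eval 1 ≠ 0)
    (h3 : T.eval (-1) ≠ 0) : T.reverse = T ∧ Even T.natDegree := by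
  rw [SD, Polynomial.map_id, RingHom.id_apply] at h
  have k : ∀ c : F, c * c = 1 → T.reverse.eval c * c ^ T.natDegree = T.eval c := fun c hc => by
    let _ : Invertible c := ⟨c, hc, hc⟩
    exact eval₂_reverse_mul_pow (RingHom.id F) c T
  have e1 := k 1 (one_mul 1)
  rw [h, eval_mul, eval_C, one_pow, mul_one] at e1
  have e2 : T.coeff 0 = 1 := mul_right_cancel₀ h1 (by rw [e1, one_mul])
  rw [e2, C_1, one_mul] at h
  refine ⟨h, ?_⟩
  have e3 := k (-1) (by simp)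
  rw [h] at e3
  by_contra ho
  rw [(Nat.not_even_iff_odd.1 ho).neg_one_pow] at e3
  exact h3 (mul_left_cancel₀ h2 (by linear_combination -e3))

/-- Half multiplicity. -/
def jj (e : ℕ) (d : ℕ × Bool) : ℕ := if Even e then (d.1 - d.2.toNat) / 2 else d.1

/-- Parity bit. -/
def rr (d : ℕ × Bool) : Bool := decide ((d.1 - d.2.toNat) % 2 = 1)

theorem jj_even {e : ℕ} (he : Even e) {d : ℕ × Bool} (h : ValidD e d) :
    d.1 = 2 * jj e d + (rr d).toNat + d.2.toNat := by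
  obtain ⟨m, b⟩ := d
  have h1 := h.2
  rw [jj, if_pos he, rr]
  rcases b with _ | _ <;> by_cases h3 : (m - 0) % 2 = 1 <;> by_cases h4 : (m - 1) % 2 = 1 <;>
    simp_all <;> omega

theorem dimc_eq {e : ℕ} {d : ℕ × Bool} (h : ValidD e d) :
    dimc e d = 2 * (e * jj e d) + if Even e then e * ((rr d).toNat + d.2.toNat) else 0 := by
  by_cases he : Even e
  · rw [dimc, if_pos he, if_pos he]
    conv_lhs => rw [jj_even he h]
    ring
  · rw [dimc, if_neg he, if_neg he, jj, if_neg he]; ring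

theorem eq_of_jj {d d' : ℕ → ℕ × Bool} (h : ∀ e, ValidD e (d e)) (h' : ∀ e, ValidD e (d' e))
    (h1 : ∀ e, jj e (d e) = jj e (d' e)) (h2 : ∀ j, rr (d (2 * j)) = rr (d' (2 * j)))
    (h3 : ∀ j, (d (2 * j)).2 = (d' (2 * j)).2) : d = d' := by
  funext e
  rcases Nat.even_or_odd e with he | he
  · obtain ⟨j, rfl⟩ : ∃ j, e = 2 * j := he.two_dvd
    refine Prod.ext ?_ (h3 j)
    rw [jj_even he (h _), jj_even he (h' _), h1, h2, h3]
  · refine Prod.ext ?_ (((h e).1 he).trans ((h' e).1 he).symm)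
    have := h1 e
    rwa [jj, jj, if_neg (Nat.not_even_iff_odd.2 he), if_neg (Nat.not_even_iff_odd.2 he)] at this

/-- Encoding of types. -/
def enc (τ : (ℕ → F[X]) × (ℕ → ℕ × Bool) × (ℕ → ℕ × Bool)) (j : ℕ) :
    ((((F[X] × ℕ × ℕ) × Bool) × Bool) × Bool) × Bool :=
  (((((τ.1 j, jj j (τ.2.1 j), jj j (τ.2.2 j)), rr (τ.2.1 (2 * j))), (τ.2.1 (2 * j)).2),
    rr (τ.2.2 (2 * j))), (τ.2.2 (2 * j)).2)

theorem enc_inj {τ τ' : (ℕ → F[X]) × (ℕ → ℕ × Bool) × (ℕ → ℕ × Bool)}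
    (h : ∀ e, ValidD e (τ.2.1 e) ∧ ValidD e (τ.2.2 e))
    (h' : ∀ e, ValidD e (τ'.2.1 e) ∧ ValidD e (τ'.2.2 e)) (e : enc τ = enc τ') : τ = τ' := by
  have e := congrFun e
  simp only [enc, Prod.mk.injEq] at e
  exact Prod.ext (funext fun j => (e j).1.1.1.1.1) (Prod.ext
    (eq_of_jj (fun e => (h e).1) (fun e => (h' e).1) (fun j => (e j).1.1.1.1.2.1)
      (fun j => (e j).1.1.1.2) fun j => (e j).1.1.2)
    (eq_of_jj (fun e => (h e).2) (fun e => (h' e).2) (fun j => (e j).1.1.1.1.2.2)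
      (fun j => (e j).1.2) fun j => (e j).2))

theorem enc_mem (h2 : (2 : F) ≠ 0) {τ : (ℕ → F[X]) × (ℕ → ℕ × Bool) × (ℕ → ℕ × Bool)} {N n : ℕ}
    (h : ∀ e, (τ.1 e).Monic ∧ (τ.1 e).coeff 0 ≠ 0 ∧ SD (RingHom.id F) (τ.1 e) ∧
      (τ.1 e).eval 1 ≠ 0 ∧ (τ.1 e).eval (-1) ≠ 0 ∧ ValidD e (τ.2.1 e) ∧ ValidD e (τ.2.2 e))
    (h0 : ∀ e, e = 0 ∨ N < e → τ.1 e = 1 ∧ τ.2.1 e = (0, false) ∧ τ.2.2 e = (0, false))
    (hd : 2 * n = ∑ e ∈ range (N + 1),
        (e * (τ.1 e).natDegree + (dimc e (τ.2.1 e) + dimc e (τ.2.2 e)))) :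
    enc τ ∈ GT (bS (bS (bS (bS (S0 F))))) (bw (bw (bw (bw w0))))
      (((((1, 0, 0), false), false), false), false) N n := by
  have hp := fun e => palin_of_sd h2 (h e).2.2.1 (h e).2.2.2.1 (h e).2.2.2.2.1
  refine ⟨fun e => ⟨(h e).1, (hp e).1, (hp e).2, (h e).2.2.2.1, (h e).2.2.2.2.1⟩, fun e he => ?_, ?_⟩
  · obtain ⟨a1, a2, a3⟩ := h0 e he
    obtain ⟨-, b2, b3⟩ := h0 (2 * e) (by omega)
    simp [enc, a1, a2, a3, b2, b3, jj, rr]
  · let f : ℕ → ℕ := fun e => if Even e then e * ((rr (τ.2.1 e)).toNat + (τ.2.1 e).2.toNat +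
      ((rr (τ.2.2 e)).toNat + (τ.2.2 e).2.toNat)) else 0
    have e1 : ∑ e ∈ range (N + 1), f e = ∑ j ∈ range (N + 1), f (2 * j) := by
      rw [← sum_range_even f fun e he => if_neg (Nat.not_even_iff_odd.2 he)]
      refine sum_subset (range_mono (by omega)) fun e _ he => ?_
      obtain ⟨-, b2, b3⟩ := h0 e (by simp at he; omega)
      simp [f, b2, b3, rr]
    refine Nat.eq_of_mul_eq_mul_left two_pos (Nat.add_right_cancel (m := ∑ e ∈ range (N + 1), f e) ?_)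
    rw [hd]
    conv_rhs => rw [e1]
    rw [mul_sum, ← sum_add_distrib, ← sum_add_distrib]
    refine sum_congr rfl fun e _ => ?_
    obtain ⟨k, hk⟩ := (hp e).2
    rw [dimc_eq (h e).2.2.2.2.2.1, dimc_eq (h e).2.2.2.2.2.2]
    simp only [f, bw, w0, enc, hk, even_two_mul, if_true, show (k + k) / 2 = k by omega]
    split_ifs <;> ring

/-- The number of conjugacy classes of Sp(2n,q), q odd: for F a finite field of odd order q and n ≥ 1, the number k of conjugacy classes of Sp(2n,F) satisfies q^n ≤ k ≤ 10.8·q^n. -/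
theorem result {F : Type*} [Field F] [Fintype F] (hodd : Odd (Fintype.card F)) (n : ℕ) (hn : 1 ≤ n) :
    Fintype.card F ^ n ≤ Nat.card (ConjClasses (Matrix.symplecticGroup (Fin n) F)) ∧ 5 * Nat.card (ConjClasses (Matrix.symplecticGroup (Fin n) F)) ≤ 54 * Fintype.card F ^ n := by
  obtain ⟨p, hp⟩ := CharP.exists F
  have : Fact p.Prime := ⟨CharP.char_is_prime F p⟩
  have h2 := two_ne_zero_of_odd_card hodd
  refine ⟨?_, ?_⟩
  · rw [← Nat.card_eq_fintype_card, ← card_semisimple_Sp p n]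
    exact Finite.card_subtype_le _
  · obtain ⟨δ, hδ⟩ := FiniteField.exists_nonsquare (F := F) (by
      intro h; exact h2 (by have := ringChar.of_eq h; exact CharP.cast_eq_zero F 2))
    have hN : finrank F (Fin n ⊕ Fin n → F) = 2 * n := by simp [two_mul]
    choose τ h1 h3 h4 h5 using fun g : Matrix.symplecticGroup (Fin n) F =>
      exists_hasTy hodd sympB_nondegenerate sympB_self hδ hN.le (by omega) (slin_form g)
    have hq : (3 : ℝ) ≤ Fintype.card F := by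
      have := Fintype.one_lt_card (α := F)
      obtain ⟨k, hk⟩ := hodd
      exact_mod_cast (by omega : 3 ≤ Fintype.card F)
    have hq0 : (0 : ℝ) < Fintype.card F := by linarith
    have hb := ((((bd0 h2).bit hq0).bit hq0).bit hq0).bit hq0
    have h0 : (((((1, 0, 0), false), false), false), false) ∈ bS (bS (bS (bS (S0 F)))) := by
      simp [bS, S0, reverse]
    have h6 := hb.GT_le hq h0 (by simp [bw, w0]) (2 * n) n
    have : Finite _ := (GT_finite h0 hb.fin (2 * n) n).to_subtype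
    have h7 := Nat.card_le_card_of_injective
      (fun c : ConjClasses (Matrix.symplecticGroup (Fin n) F) =>
        (⟨enc (τ c.out), enc_mem h2 (h3 _) (h4 _) (hN ▸ h5 _)⟩ : GT _ _ _ (2 * n) n)) (by
        intro c c' e
        have e1 := enc_inj (fun e => (h3 _ e).2.2.2.2.2) (fun e => (h3 _ e).2.2.2.2.2)
          (congrArg Subtype.val e)
        rw [← c.out_eq, ← c'.out_eq]
        exact ConjClasses.mk_eq_mk_iff_isConj.2 (sp_isConj_of (conj_of_hasTy hodd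
          sympB_nondegenerate sympB_self hN.le (by omega) (slin_form _) (slin_form _) (h1 _)
          (e1 ▸ h1 _))))
    rw [Nat.card_coe_set_eq] at h7
    have h8 := (Nat.cast_le (α := ℝ).2 h7).trans h6
    have h9 : (5 : ℝ) * Nat.card (ConjClasses (Matrix.symplecticGroup (Fin n) F)) ≤
      54 * (Fintype.card F : ℝ) ^ n := by linarith
    exact_mod_cast h9

end Cfsg.Agent.S2482
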