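import Cfsg.Statements.S2483
import Cfsg.Agent.CovN.Main

set_option autoImplicit false
open Cfsg

namespace Cfsg.Agent.S2483

section
open Polynomial Module Cfsg.Agent.GLn Cfsg.Agent.Fac Cfsg.Agent.CovN
variable {F : Type*} [Field F] {n : ℕ}

theorem mk_eq_iff (g h : Matrix.SpecialLinearGroup (Fin n) F) :
    (QuotientGroup.mk g : Matrix.ProjectiveSpecialLinearGroup (Fin n) F) = QuotientGroup.mk h ↔ ∃ c : F, slLin h = c • slLin g := by
  rw [← inv_mul_eq_one, ← QuotientGroup.mk_inv, ← QuotientGroup.mk_mul, psl_mk_eq_one_iff]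
  refine exists_congr fun c => ⟨fun k => ?_, fun k => Matrix.toLin'.injective ?_⟩
  · have : slLin (g⁻¹ * h) = c • 1 := by rw [slLin_apply, k]; ext; simp [Algebra.algebraMap_eq_smul_one]
    rw [← mul_inv_cancel_left g h, map_mul, this]; simp
  · rw [← slLin_apply, map_mul, k, mul_smul_comm, ← map_mul]; ext; simp [Algebra.algebraMap_eq_smul_one]

theorem mk_prod {m : ℕ} (x : Matrix.SpecialLinearGroup (Fin n) F) (f : Fin m → Matrix.SpecialLinearGroup (Fin n) F) :
    (List.ofFn fun i => (QuotientGroup.mk (f i) : Matrix.ProjectiveSpecialLinearGroup (Fin n) F) * QuotientGroup.mk x *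
      (QuotientGroup.mk (f i))⁻¹).prod = QuotientGroup.mk (List.ofFn fun i => f i * x * (f i)⁻¹).prod :=
  ((map_list_prod (QuotientGroup.mk' _) _).trans (by rw [List.map_ofFn]; rfl)).symm

theorem sl_prod {m : ℕ} (g : Fin m → Matrix.SpecialLinearGroup (Fin n) F) :
    slLin (List.ofFn g).prod = (List.ofFn fun i => slLin (g i)).prod := by
  rw [map_list_prod, List.map_ofFn]; rfl

theorem cj_iff {x : Matrix.SpecialLinearGroup (Fin n) F} {A : End F (Fin n → F)} :
    Cj (slLin x) A ↔ ∃ u, slLin (u * x * u⁻¹) = A := by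
  constructor
  · rintro ⟨g, h1, h2⟩
    refine ⟨toSL g h1, ?_⟩
    rw [map_mul, map_mul, slLin_toSL, h2, mul_assoc]
    nth_rw 1 [← slLin_toSL g h1]
    rw [← map_mul, mul_inv_cancel, map_one, mul_one]
  · rintro ⟨u, rfl⟩
    exact ⟨slLin u, det_slLin u, by simp [← map_mul]⟩

end

open Polynomial Module Cfsg.Agent.GLn Cfsg.Agent.Fac Cfsg.Agent.CovN in

/-- The covering number of PSL(n,q) is n: let F be a finite field with q ≥ 4 elements and n ≥ 3. For every non-identity element x of PSL(n,F), every element of PSL(n,F) is a product of n conjugates of x; and for some non-identity x, some element is not a product of n − 1 conjugates of x. -/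
theorem result {F : Type*} [Field F] [Fintype F] (h4 : 4 ≤ Fintype.card F) (n : ℕ) (hn : 3 ≤ n) :
    (∀ x : Matrix.ProjectiveSpecialLinearGroup (Fin n) F, x ≠ 1 → ∀ g : Matrix.ProjectiveSpecialLinearGroup (Fin n) F, ∃ f : Fin n → Matrix.ProjectiveSpecialLinearGroup (Fin n) F, g = (List.ofFn fun i => f i * x * (f i)⁻¹).prod) ∧
    (∃ x : Matrix.ProjectiveSpecialLinearGroup (Fin n) F, x ≠ 1 ∧ ∃ g : Matrix.ProjectiveSpecialLinearGroup (Fin n) F, ∀ f : Fin (n - 1) → Matrix.ProjectiveSpecialLinearGroup (Fin n) F, g ≠ (List.ofFn fun i => f i * x * (f i)⁻¹).prod) := by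
  have hF : Big F 4 := big_of_card h4
  have d : finrank F (Fin n → F) = n := by simp
  constructor
  · intro x hx g
    obtain ⟨x, rfl⟩ := QuotientGroup.mk_surjective x
    obtain ⟨g, rfl⟩ := QuotientGroup.mk_surjective g
    obtain ⟨c, L, l1, l2, l3⟩ := prod_all hF (d.symm ▸ hn) (slLin_not_scalar hx) (det_slLin x) (det_slLin g)
    rw [d] at l1
    obtain ⟨a, rfl⟩ : ∃ a : Fin n → End F (Fin n → F), L = List.ofFn a :=
      ⟨fun i => L.get (i.cast l1.symm), by rw [← List.ofFn_congr l1, List.ofFn_get]⟩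
    choose f hf using fun i => cj_iff.1 (l2 _ (List.mem_ofFn.2 ⟨i, rfl⟩))
    refine ⟨fun i => QuotientGroup.mk (f i), ?_⟩
    rw [mk_prod, mk_eq_iff]
    exact ⟨c, by rw [sl_prod, ← l3]; simp only [hf]⟩
  · obtain ⟨m, rfl⟩ := Nat.exists_eq_add_of_le' hn
    let θ : (Fin (m + 3) → F) →ₗ[F] F := LinearMap.proj 0
    let u : Fin (m + 3) → F := Pi.single 1 1
    have h0 : θ u = 0 := by simp [θ, u]
    classical
    obtain ⟨t, ht⟩ : ∃ t : F, ∀ a : F, a ^ (m + 3) = 1 → 1 + t * a + (-1) ^ (m + 3) ≠ 0 := by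
      by_cases k : (1 : F) + (-1) ^ (m + 3) = 0
      · exact ⟨1, fun a ha e => by
          obtain rfl : a = 0 := by linear_combination e - k
          simp at ha⟩
      · exact ⟨0, fun a _ => by simpa using k⟩
    obtain ⟨G, hG⟩ := Ore.exists_charpoly (V := Fin (m + 3) → F) (q := X ^ (m + 3) + C t * X + C ((-1) ^ (m + 3)))
      (by monicity!; omega) (by rw [d]; compute_degree!; simp)
    have g1 : LinearMap.det G = 1 := by
      rw [LinearMap.det_eq_sign_charpoly_coeff, hG, d]
      simp [← mul_pow, -map_pow]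
    refine ⟨QuotientGroup.mk (toSL _ (det_tv h0)), fun k => ?_, QuotientGroup.mk (toSL G g1), fun f k => ?_⟩
    · obtain ⟨c, hc⟩ := (mk_eq_iff 1 _).1 k.symm
      simpa [θ, u] using congrFun (LinearMap.congr_fun hc (Pi.single 0 1)) 1
    choose f' hf using fun i => QuotientGroup.mk_surjective (f i)
    simp only [← hf] at k
    rw [mk_prod, eq_comm, mk_eq_iff, slLin_toSL] at k
    obtain ⟨c, k⟩ := k
    have c1 : c ^ (m + 3) = 1 := by
      have := congrArg LinearMap.det k
      rw [LinearMap.det_smul, det_slLin, g1, d, mul_one] at this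
      exact this.symm
    rw [sl_prod] at k
    obtain ⟨v, v0, hv⟩ := exists_fix θ u (List.ofFn fun i => slLin (f' i * toSL _ (det_tv h0) * (f' i)⁻¹)) (fun A hA => by
      obtain ⟨i, rfl⟩ := List.mem_ofFn.1 hA
      simpa only [slLin_toSL] using cj_iff (x := toSL _ (det_tv h0)) |>.2 ⟨f' i, rfl⟩) (by simp)
    exact ht c c1 (by simpa [hG, c1] using isRoot_of_eigen (f := G) (c := c) v0 (by rw [k, LinearMap.smul_apply, hv]))

end Cfsg.Agent.S2483
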