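import Cfsg.Statements.S2485
import Cfsg.Agent.SL2.More

set_option autoImplicit false
open scoped Pointwise
open Cfsg

namespace Cfsg.Agent.S2485

open Cfsg.Agent.SL2

theorem mk_neg {F : Type*} [Field F] (g : GLT F) :
    ((-g : GLT F) : GLT F ⧸ Subgroup.center (GLT F)) = g := by
  rw [QuotientGroup.eq, gl_mem_center_iff]
  simp [IsScal]

theorem isPGroup_cent {F : Type*} [Field F] [Fintype F] {k : ℕ} (hk : Fintype.card F + 1 = 2 ^ k)
    (hell : Ell (0 : F) 1) :
    IsPGroup 2 (Subgroup.centralizer ({((Matrix.SpecialLinearGroup.toGL (wS : SLT F) : GLT F) :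
      GLT F ⧸ Subgroup.center (GLT F))} : Set (GLT F ⧸ Subgroup.center (GLT F)))) := by
  rintro ⟨g, hg⟩
  obtain ⟨g, rfl⟩ := QuotientGroup.mk_surjective g
  refine ⟨k + 2, Subtype.ext ?_⟩
  rw [Subgroup.mem_centralizer_singleton_iff, ← QuotientGroup.mk_mul, ← QuotientGroup.mk_mul,
    QuotientGroup.eq, gl_mem_center_iff, isScal_iff] at hg
  obtain ⟨l, hl⟩ := hg
  have e : (wS : SLT F).1 * g.1 = l • (g.1 * (wS : SLT F).1) := by
    have : (g * Matrix.SpecialLinearGroup.toGL (wS : SLT F)).1 *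
        ((g * Matrix.SpecialLinearGroup.toGL (wS : SLT F))⁻¹ *
          (Matrix.SpecialLinearGroup.toGL (wS : SLT F) * g)).1 =
        (Matrix.SpecialLinearGroup.toGL (wS : SLT F) * g).1 := by
      rw [← Units.val_mul, mul_inv_cancel_left]
    rw [hl] at this
    simpa using this.symm
  have hd := g.det_ne_zero
  have hl2 : l ^ 2 = 1 := by
    have := congrArg Matrix.det e
    rw [Matrix.det_smul, Matrix.det_mul, Matrix.det_mul, wS.2] at this
    simp only [Fintype.card_fin, one_mul, mul_one] at this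
    exact mul_right_cancel₀ hd (this.symm.trans (one_mul _).symm)
  have e2 : (g.1 * g.1) * (wS : SLT F).1 = (wS : SLT F).1 * (g.1 * g.1) := by
    rw [← mul_assoc (wS : SLT F).1, e, smul_mul_assoc, mul_assoc g.1 (wS : SLT F).1, e, mul_smul_comm,
      smul_smul, ← sq l, hl2, one_smul, mul_assoc]
  let h : SLT F := mkSL ((g.1.det ^ 2)⁻¹ • ((g.1 * g.1) * (g.1 * g.1))) (by
    simp only [Matrix.det_smul, Matrix.det_mul, Fintype.card_fin]; field_simp)
  have hh : h ∈ Cen (wS : SLT F) := by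
    rw [mem_cent_sl]
    simp only [h, mkSL_val, smul_mul_assoc, mul_smul_comm]
    rw [mul_assoc (g.1 * g.1), e2, ← mul_assoc (g.1 * g.1), e2, mul_assoc (wS : SLT F).1]
  have h1 := congrArg Subtype.val (pow_of_mem_cent_ell (by rwa [trace_wS]) hh)
  rw [sl_pow_val, hk] at h1
  simp only [h, mkSL_val, smul_pow, sl_one_val] at h1
  rw [Subgroup.coe_pow, Subgroup.coe_one, ← QuotientGroup.mk_pow, QuotientGroup.eq_one_iff,
    gl_mem_center_iff, isScal_iff]
  refine ⟨(g.1.det ^ 2) ^ 2 ^ k, ?_⟩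
  rw [← h1, smul_smul, ← mul_pow, mul_inv_cancel₀ (pow_ne_zero 2 hd), one_pow, one_smul,
    Units.val_pow_eq_pow_val, ← sq, ← sq, ← pow_mul, ← pow_mul]
  congr 1
  ring

theorem exists_common {F : Type*} [Field F] (h2 : (2 : F) ≠ 0) (hell : Ell (0 : F) 1)
    (z1 z2 : GLT F) (t1 : z1.1.trace = 0) (d1 : z1.1.det = 1) (t2 : z2.1.trace = 0) :
    ∃ w : GLT F, ¬ IsScal w.1 ∧ (w * z1 = z1 * w ∨ w * z1 = -(z1 * w)) ∧
      (w * z2 = z2 * w ∨ w * z2 = -(z2 * w)) := by
  have hns : ∀ r : F, r ^ 2 ≠ -1 := fun r e => hell r (by rw [e]; ring)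
  rw [Matrix.trace_fin_two] at t1 t2
  rw [Matrix.det_fin_two] at d1
  have e1 : z1.1 1 1 = -z1.1 0 0 := by linear_combination t1
  have e2 : z2.1 1 1 = -z2.1 0 0 := by linear_combination t2
  rw [e1] at d1
  have hb : z1.1 0 1 ≠ 0 := fun e => hns (z1.1 0 0) (by rw [e] at d1; linear_combination -d1)
  have hc : z1.1 1 0 ≠ 0 := fun e => hns (z1.1 0 0) (by rw [e] at d1; linear_combination -d1)
  by_cases hcomm : z1 * z2 = z2 * z1
  · exact ⟨z1, fun h => hb h.1, Or.inl rfl, Or.inl hcomm⟩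
  · set w : M2 F := z1.1 * z2.1 - z2.1 * z1.1 with hw
    have hw0 : w ≠ 0 := fun e => hcomm (Units.ext (sub_eq_zero.1 e))
    have w11 : w 1 1 = -w 0 0 := by simp [hw, mul_ap]; ring
    have hort : 2 * z1.1 0 0 * w 0 0 + z1.1 0 1 * w 1 0 + z1.1 1 0 * w 0 1 = 0 := by
      simp [hw, mul_ap, e1, e2]; ring
    have hdet : w.det ≠ 0 := by
      intro e
      rw [Matrix.det_fin_two, w11] at e
      apply hw0
      have r0 : w 0 0 = 0 := by
        by_contra r0
        apply hns ((z1.1 0 1 * w 1 0 - z1.1 1 0 * w 0 1) / (2 * w 0 0))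
        field_simp
        linear_combination (z1.1 0 1 * w 1 0 + z1.1 1 0 * w 0 1 - 2 * z1.1 0 0 * w 0 0) * hort
          + 4 * z1.1 0 1 * z1.1 1 0 * e - 4 * w 0 0 ^ 2 * d1
      rw [r0] at e hort
      have r1 : w 0 1 = 0 := by
        have : (z1.1 1 0 * w 0 1) ^ 2 = 0 := by
          linear_combination z1.1 1 0 * w 0 1 * hort + z1.1 0 1 * z1.1 1 0 * e
        simpa [hc] using this
      have r2 : w 1 0 = 0 := by
        rw [r1] at hort
        simpa [hb] using hort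
      apply m2_ext <;> simp [r0, r1, r2, w11]
    refine ⟨mkGL w hdet, ?_, Or.inr (Units.ext ?_), Or.inr (Units.ext ?_)⟩
    · rintro ⟨h1, h3, h4⟩
      simp only [mkGL_val] at h1 h3 h4
      apply hdet
      have : w 0 0 = 0 := by
        apply mul_left_cancel₀ h2
        linear_combination h4 + w11
      rw [Matrix.det_fin_two, h1, this]; ring
    · simp only [Units.val_mul, mkGL_val, Units.val_neg, hw]
      apply m2_ext <;> simp [mul_ap, e1, e2] <;> ring
    · simp only [Units.val_mul, mkGL_val, Units.val_neg, hw]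
      apply m2_ext <;> simp [mul_ap, e1, e2] <;> ring

/-- Let q = 2^k − 1 ≥ 7 be a prime and let G = PGL(2,q), the general linear group of degree 2 over the field with q elements modulo its centre. Then any two Sylow 2-subgroups of G have a non-trivial intersection: for a Sylow 2-subgroup H and every x ∈ G, H ∩ H^x ≠ 1. -/
theorem result {q k : ℕ} [Fact q.Prime] (hk : q + 1 = 2 ^ k) (hq : 7 ≤ q)
    (H : Sylow 2 (GL (Fin 2) (ZMod q) ⧸ Subgroup.center (GL (Fin 2) (ZMod q))))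
    (x : GL (Fin 2) (ZMod q) ⧸ Subgroup.center (GL (Fin 2) (ZMod q))) :
    (H : Subgroup (GL (Fin 2) (ZMod q) ⧸ Subgroup.center (GL (Fin 2) (ZMod q)))) ⊓ MulAut.conj x • (H : Subgroup _) ≠ ⊥ := by
  have hcard : Fintype.card (ZMod q) = q := ZMod.card q
  have hk3 : 3 ≤ k := by
    by_contra h
    have : 2 ^ k ≤ 2 ^ 2 := Nat.pow_le_pow_right (by norm_num) (by omega)
    omega
  have hq4 : q % 4 = 3 := by
    obtain ⟨j, rfl⟩ := Nat.exists_eq_add_of_le hk3
    rw [pow_add] at hk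
    omega
  have h2 : (2 : ZMod q) ≠ 0 := two_ne_zero_of_odd (by rw [hcard, Nat.odd_iff]; omega)
  have hell : Ell (0 : ZMod q) 1 := (ell_zero_iff h2).2 (by rw [hcard, hq4])
  obtain ⟨P, hP⟩ := (isPGroup_cent (F := ZMod q) (by rw [hcard, hk]) hell).exists_le_sylow
  obtain ⟨y, hy⟩ := MulAction.exists_smul_eq
    (GL (Fin 2) (ZMod q) ⧸ Subgroup.center (GL (Fin 2) (ZMod q))) P H
  obtain ⟨y, rfl⟩ := QuotientGroup.mk_surjective y
  obtain ⟨x, rfl⟩ := QuotientGroup.mk_surjective x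
  set z0 : GLT (ZMod q) := Matrix.SpecialLinearGroup.toGL (wS : SLT (ZMod q)) with hz0
  have ht : ∀ c : GLT (ZMod q), (c * z0 * c⁻¹).1.trace = 0 := fun c => by
    rw [← gl_trace_of_isConj (isConj_iff.2 ⟨c, rfl⟩)]; exact trace_wS
  have hd : ∀ c : GLT (ZMod q), (c * z0 * c⁻¹).1.det = 1 := fun c => by
    rw [← gl_det_of_isConj (isConj_iff.2 ⟨c, rfl⟩)]; exact wS.2
  obtain ⟨w, hw, h1, h3⟩ := exists_common h2 hell _ _ (ht y) (hd y) (ht (x * y))
  have key : ∀ c : GLT (ZMod q), (w * (c * z0 * c⁻¹) = (c * z0 * c⁻¹) * w ∨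
      w * (c * z0 * c⁻¹) = -((c * z0 * c⁻¹) * w)) →
      ((c⁻¹ * w * c : GLT (ZMod q)) : GLT (ZMod q) ⧸ Subgroup.center (GLT (ZMod q))) ∈
        (P : Subgroup (GLT (ZMod q) ⧸ Subgroup.center (GLT (ZMod q)))) := by
    intro c h
    apply hP
    rw [Subgroup.mem_centralizer_singleton_iff, ← QuotientGroup.mk_mul, ← QuotientGroup.mk_mul]
    have e1 : c⁻¹ * w * c * z0 = c⁻¹ * (w * (c * z0 * c⁻¹)) * c := by group
    have e2 : z0 * (c⁻¹ * w * c) = c⁻¹ * ((c * z0 * c⁻¹) * w) * c := by group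
    rw [e1, e2]
    rcases h with h | h
    · rw [h]
    · rw [h, mul_neg, neg_mul, mk_neg]
  have hH : ∀ g, g ∈ (H : Subgroup (GLT (ZMod q) ⧸ Subgroup.center (GLT (ZMod q)))) ↔
      (y : GLT (ZMod q) ⧸ Subgroup.center (GLT (ZMod q)))⁻¹ * g * y ∈
        (P : Subgroup (GLT (ZMod q) ⧸ Subgroup.center (GLT (ZMod q)))) := by
    intro g
    rw [← hy, Sylow.coe_subgroup_smul, Subgroup.mem_pointwise_smul_iff_inv_smul_mem]
    simp
  rw [Subgroup.ne_bot_iff_exists_ne_one]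
  refine ⟨⟨w, Subgroup.mem_inf.2 ⟨?_, ?_⟩⟩, ?_⟩
  · rw [hH]; exact key y h1
  · rw [Subgroup.mem_pointwise_smul_iff_inv_smul_mem, hH]
    have := key (x * y) h3
    simpa [mul_assoc] using this
  · intro e
    have := congrArg Subtype.val e
    exact hw (gl_mem_center_iff.1 ((QuotientGroup.eq_one_iff _).1 this))

end Cfsg.Agent.S2485
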