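import Cfsg.Statements.S2486
import Cfsg.Agent.GLn.Bruhat

set_option autoImplicit false
open scoped Pointwise
open Cfsg

namespace Cfsg.Agent.S2486

open Cfsg.Agent.GLn

theorem sylow_inf_ne_bot {G : Type*} [Group G] [Finite G] (N : Subgroup G) [hN : N.Normal]
    (hidx : N.index = 2) (B : Subgroup G) (hBN : B ≤ N) (h1 : IsPGroup 2 B)
    (h2 : ∀ g ∈ N, (∀ b ∈ B, g * b * g⁻¹ ∈ B) → g ∈ B)
    (h3 : ∀ g ∈ N, ∀ g' ∈ N, (∀ b ∈ B, g * b * g⁻¹ ∈ B → b = 1) →
      (∀ b ∈ B, g' * b * g'⁻¹ ∈ B → b = 1) → ∃ b ∈ B, ∃ b' ∈ B, g' = b * g * b')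
    (H : Sylow 2 G) (x : G) : (H : Subgroup G) ⊓ MulAut.conj x • (H : Subgroup G) ≠ ⊥ := by
  obtain ⟨T, hT⟩ := h1.exists_le_sylow
  have hB : ∀ b, b ∈ B ↔ b ∈ (T : Subgroup G) ∧ b ∈ N := by
    have hU : IsPGroup 2 ↥((T : Subgroup G) ⊓ N) := T.isPGroup'.to_inf_left
    have := hU.isNilpotent
    have h4 := normalizerCondition_iff_only_full_group_self_normalizing.1
      (normalizerCondition_of_isNilpotent (G := ↥((T : Subgroup G) ⊓ N)))
      (B.subgroupOf ((T : Subgroup G) ⊓ N)) (by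
        refine le_antisymm (fun g hg => ?_) Subgroup.le_normalizer
        rw [Subgroup.mem_subgroupOf]
        refine h2 g g.2.2 fun b hb => ?_
        exact (Subgroup.mem_normalizer_iff.1 hg ⟨b, hT hb, hBN hb⟩).1 hb)
    intro b
    refine ⟨fun hb => ⟨hT hb, hBN hb⟩, fun hb => ?_⟩
    have h5 : (⟨b, hb⟩ : ↥((T : Subgroup G) ⊓ N)) ∈ B.subgroupOf ((T : Subgroup G) ⊓ N) := by
      rw [h4]; trivial
    exact h5
  obtain ⟨h, hhT, hhN⟩ : ∃ h ∈ (T : Subgroup G), h ∉ N := by
    by_contra hcon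
    push Not at hcon
    have h6 := Subgroup.index_dvd_of_le (show (T : Subgroup G) ≤ N from hcon)
    rw [hidx] at h6
    exact T.not_dvd_index h6
  have main : ∀ g ∈ N, ∃ t ∈ (T : Subgroup G), t ≠ 1 ∧ g⁻¹ * t * g ∈ (T : Subgroup G) := by
    intro g hg
    by_contra hcon
    push Not at hcon
    have k1 : ∀ b ∈ B, g * b * g⁻¹ ∈ B → b = 1 := by
      intro b hb hb'
      by_contra hb1
      refine hcon _ (hT hb') (fun h => hb1 ?_) (by simpa [mul_assoc] using hT hb)
      rw [← mul_one g⁻¹] at h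
      simpa [mul_inv_eq_iff_eq_mul] using h
    have k2 : ∀ b ∈ B, (h * g * h⁻¹) * b * (h * g * h⁻¹)⁻¹ ∈ B → b = 1 := by
      intro b hb hb'
      have hc : ∀ b ∈ B, h⁻¹ * b * h ∈ B := fun b hb => (hB _).2
        ⟨T.mul_mem (T.mul_mem (T.inv_mem hhT) (hT hb)) hhT, by
          simpa using hN.conj_mem _ (hBN hb) h⁻¹⟩
      have := k1 _ (hc b hb) (by
        have := hc _ hb'
        convert this using 1
        group)
      calc b = h * (h⁻¹ * b * h) * h⁻¹ := by group
        _ = 1 := by rw [this]; group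
    obtain ⟨b, hb, b', hb', e⟩ := h3 g hg _ (hN.conj_mem g hg h) k1 k2
    refine hcon (b⁻¹ * h) (T.mul_mem (T.inv_mem (hT hb)) hhT) (fun h' => hhN ?_) ?_
    · rw [inv_mul_eq_one] at h'
      exact h' ▸ hBN hb
    · have : g⁻¹ * (b⁻¹ * h) * g = b' * h := by
        have e2 : h * g = b * g * b' * h := by rw [← e]; group
        rw [mul_assoc, mul_assoc, e2]; group
      rw [this]
      exact T.mul_mem (hT hb') hhT
  have main2 : ∀ g : G, ∃ t ∈ (T : Subgroup G), t ≠ 1 ∧ g⁻¹ * t * g ∈ (T : Subgroup G) := by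
    intro g
    by_cases hg : g ∈ N
    · exact main g hg
    · obtain ⟨t, ht, ht1, ht2⟩ := main (g * h)
        ((Subgroup.mul_mem_iff_of_index_two hidx).2 (by simp [hg, hhN]))
      refine ⟨t, ht, ht1, ?_⟩
      have := T.mul_mem (T.mul_mem hhT ht2) (T.inv_mem hhT)
      convert this using 1
      group
  obtain ⟨y, rfl⟩ := MulAction.exists_smul_eq G T H
  obtain ⟨t, ht, ht1, ht2⟩ := main2 (y⁻¹ * x * y)
  rw [Subgroup.ne_bot_iff_exists_ne_one]
  refine ⟨⟨y * t * y⁻¹, ?_, ?_⟩, fun h' => ht1 ?_⟩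
  · rw [Sylow.coe_subgroup_smul]
    exact (Subgroup.mem_smul_pointwise_iff_exists _ _ _).2 ⟨t, ht, rfl⟩
  · rw [Sylow.coe_subgroup_smul]
    refine (Subgroup.mem_smul_pointwise_iff_exists _ _ _).2 ⟨_,
      (Subgroup.mem_smul_pointwise_iff_exists _ _ _).2 ⟨_, ht2, rfl⟩, ?_⟩
    simp only [MulAut.smul_def, MulAut.conj_apply]
    group
  · have := congrArg Subtype.val h'
    simpa [mul_inv_eq_iff_eq_mul] using this

variable {n : ℕ}

theorem isPGroup_parab (hn : 0 < n) : IsPGroup 2 (parab (ZMod 2) (Fin.val : Fin n → ℕ)) := by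
  intro g
  have : Nonempty (Fin n) := ⟨⟨0, hn⟩⟩
  have h1 : ((g : GL (Fin n) (ZMod 2)) : Matrix (Fin n) (Fin n) (ZMod 2)).IsUpperTriangular :=
    fun i j hij => g.2 hij
  have h2 := (g : GL (Fin n) (ZMod 2)).det_ne_zero
  rw [Matrix.det_of_isUpperTriangular h1, Finset.prod_ne_zero_iff] at h2
  have h3 : ∀ i, ((g : GL (Fin n) (ZMod 2)) : Matrix (Fin n) (Fin n) (ZMod 2)) i i = 1 := by
    intro i
    have := h2 i (Finset.mem_univ i)
    revert this
    generalize ((g : GL (Fin n) (ZMod 2)) : Matrix (Fin n) (Fin n) (ZMod 2)) i i = a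
    revert a
    decide
  have h4 := Matrix.aeval_self_charpoly
    ((g : GL (Fin n) (ZMod 2)) : Matrix (Fin n) (Fin n) (ZMod 2))
  rw [Matrix.charpoly_of_isUpperTriangular _ h1] at h4
  simp only [h3, Finset.prod_const, Finset.card_univ, Fintype.card_fin, map_pow, map_sub,
    Polynomial.aeval_X, map_one] at h4
  refine ⟨n, Subtype.ext (Units.ext ?_)⟩
  have h5 := sub_pow_char_pow_of_commute (p := 2) (n := n)
    (Commute.one_right ((g : GL (Fin n) (ZMod 2)) : Matrix (Fin n) (Fin n) (ZMod 2)))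
  rw [pow_eq_zero_of_le (Nat.lt_two_pow_self).le h4, one_pow, eq_comm, sub_eq_zero] at h5
  simpa using h5

/-- The transvection `1 + e_{ij}`. -/
noncomputable def tv {F : Type*} [Field F] {i j : Fin n} (h : i ≠ j) : GL (Fin n) F :=
  Matrix.GeneralLinearGroup.mkOfDetNeZero (Matrix.transvection i j 1)
    (by rw [Matrix.det_transvection_of_ne i j h]; exact one_ne_zero)

theorem tv_apply {F : Type*} [Field F] {i j : Fin n} (h : i ≠ j) (k l : Fin n) :
    ((tv h : GL (Fin n) F) : Matrix (Fin n) (Fin n) F) k l =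
      (if k = l then 1 else 0) + if i = k ∧ j = l then 1 else 0 := by
  simp [tv, Matrix.transvection, Matrix.one_apply, Matrix.single_apply]

theorem tv_ne_one {F : Type*} [Field F] {i j : Fin n} (h : i ≠ j) : (tv h : GL (Fin n) F) ≠ 1 := by
  intro h'
  have := tv_apply (F := F) h i j
  rw [h'] at this
  simp [h] at this

theorem tv_mem_iff {F : Type*} [Field F] {i j : Fin n} (h : i ≠ j) :
    (tv h : GL (Fin n) F) ∈ parab F Fin.val ↔ i < j := by
  constructor
  · intro h'
    by_contra h2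
    have h3 : j < i := lt_of_le_of_ne (not_lt.1 h2) h.symm
    have := tv_apply (F := F) h i j
    rw [h' h3] at this
    simp [h] at this
  · intro h' k l hkl
    rw [tv_apply, if_neg, if_neg, add_zero]
    · rintro ⟨rfl, rfl⟩
      exact absurd h' (not_lt.2 (le_of_lt hkl))
    · rintro rfl
      exact lt_irrefl _ hkl

theorem conj_tv {F : Type*} [Field F] {i j : Fin n} (h : i ≠ j) (π : Equiv.Perm (Fin n)) :
    permGL F π * tv h * (permGL F π)⁻¹ = tv (π.injective.ne h) := by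
  rw [← map_inv]
  ext k l
  rw [Units.val_mul, Units.val_mul, mul_permGL_apply, permGL_mul_apply, tv_apply, tv_apply]
  simp only [EmbeddingLike.apply_eq_iff_eq, Equiv.Perm.eq_inv_iff_eq]
  rw [show π (π⁻¹ k) = k from π.apply_symm_apply k]

theorem perm_eq_one_of_strictMono {π : Equiv.Perm (Fin n)} (h : StrictMono π) : π = 1 := by
  have := Subsingleton.elim (h.orderIsoOfSurjective π π.surjective) (OrderIso.refl _)
  ext i
  exact congrArg Fin.val (DFunLike.congr_fun this i)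

theorem mem_parab_of_norm {F : Type*} [Field F] (g : GL (Fin n) F)
    (hg : ∀ b ∈ parab F Fin.val, g * b * g⁻¹ ∈ parab F Fin.val) : g ∈ parab F Fin.val := by
  obtain ⟨b, hb, π, u, hu, -, e⟩ := bruhat g
  have e2 : permGL F π = b⁻¹ * g * u := by rw [mul_assoc, e]; group
  have h1 : π = 1 := perm_eq_one_of_strictMono fun i j hij => by
    rw [← tv_mem_iff (F := F) (π.injective.ne hij.ne), ← conj_tv hij.ne, e2]
    have := Subgroup.mul_mem _ (Subgroup.mul_mem _ (Subgroup.inv_mem _ hb) (hg _ (Subgroup.mul_mem _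
      (Subgroup.mul_mem _ hu ((tv_mem_iff hij.ne).2 hij)) (Subgroup.inv_mem _ hu)))) hb
    convert this using 1
    group
  rw [h1, map_one, mul_one] at e
  rw [← mul_inv_cancel_right g u, e]
  exact Subgroup.mul_mem _ hb (Subgroup.inv_mem _ hu)

theorem exists_rev {F : Type*} [Field F] (g : GL (Fin n) F)
    (hg : ∀ b ∈ parab F Fin.val, g * b * g⁻¹ ∈ parab F Fin.val → b = 1) :
    ∃ b ∈ parab F Fin.val, ∃ u ∈ parab F Fin.val, g * u = b * permGL F Fin.revPerm := by
  obtain ⟨b, hb, π, u, hu, -, e⟩ := bruhat g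
  have e2 : permGL F π = b⁻¹ * g * u := by rw [mul_assoc, e]; group
  have h1 : Fin.revPerm * π = 1 := perm_eq_one_of_strictMono fun i j hij => by
    simp only [Equiv.Perm.coe_mul, Function.comp_apply, Fin.revPerm_apply, Fin.rev_lt_rev]
    by_contra h2
    have h3 : π i < π j := lt_of_le_of_ne (not_lt.1 h2) (π.injective.ne hij.ne)
    rw [← tv_mem_iff (F := F) (π.injective.ne hij.ne), ← conj_tv hij.ne, e2] at h3
    have h4 := hg _ (Subgroup.mul_mem _
      (Subgroup.mul_mem _ hu ((tv_mem_iff hij.ne).2 hij)) (Subgroup.inv_mem _ hu)) (by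
      have := Subgroup.mul_mem _ (Subgroup.mul_mem _ hb h3) (Subgroup.inv_mem _ hb)
      convert this using 1
      group)
    exact tv_ne_one (F := F) hij.ne (by simpa [mul_inv_eq_iff_eq_mul] using h4)
  have h2 : π = Fin.revPerm := by
    rw [eq_inv_of_mul_eq_one_right h1]; rfl
  exact ⟨b, hb, u, hu, h2 ▸ e⟩

/-- Let n ≥ 4 and let G be a finite group with a normal subgroup N of index 2 isomorphic to SL(n,2) and with trivial centralizer in G (so G is the extension of the simple group L_n(2) by its inverse-transpose automorphism, its full automorphism group). Then any two Sylow 2-subgroups of G have a non-trivial intersection: for a Sylow 2-subgroup H and every x ∈ G, H ∩ H^x ≠ 1. -/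
theorem result {G : Type*} [Group G] [Finite G] {n : ℕ} (hn : 4 ≤ n) (N : Subgroup G) [N.Normal]
    (e : N ≃* Matrix.SpecialLinearGroup (Fin n) (ZMod 2)) (hidx : N.index = 2)
    (hC : Subgroup.centralizer (N : Set G) = ⊥)
    (H : Sylow 2 G) (x : G) :
    (H : Subgroup G) ⊓ MulAut.conj x • (H : Subgroup G) ≠ ⊥ := by
  let φ : N →* GL (Fin n) (ZMod 2) := Matrix.SpecialLinearGroup.toGL.comp e.toMonoidHom
  have hinj : Function.Injective φ := Matrix.SpecialLinearGroup.toGL_injective.comp e.injective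
  have hsurj : Function.Surjective φ := by
    intro g
    have h1 : (g : Matrix (Fin n) (Fin n) (ZMod 2)).det = 1 := by
      have := g.det_ne_zero
      revert this
      generalize (g : Matrix (Fin n) (Fin n) (ZMod 2)).det = a
      revert a
      decide
    exact ⟨e.symm ⟨g, h1⟩, Units.ext (congrArg Subtype.val (e.apply_symm_apply ⟨g, h1⟩))⟩
  have hmem : ∀ g : N, (g : G) ∈ ((parab (ZMod 2) Fin.val).comap φ).map N.subtype ↔
      φ g ∈ parab (ZMod 2) Fin.val := fun g => Subgroup.mem_map_iff_mem N.subtype_injective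
  refine sylow_inf_ne_bot N hidx (((parab (ZMod 2) Fin.val).comap φ).map N.subtype)
    (Subgroup.map_subtype_le _)
    (((isPGroup_parab (by omega)).comap_of_injective φ hinj).map _) ?_ ?_ H x
  · intro g hg h
    refine (hmem ⟨g, hg⟩).2 (mem_parab_of_norm _ fun b hb => ?_)
    obtain ⟨b, rfl⟩ := hsurj b
    rw [← map_inv, ← map_mul, ← map_mul, ← hmem]
    exact h _ ((hmem b).2 hb)
  · have key : ∀ g : N, (∀ b ∈ ((parab (ZMod 2) Fin.val).comap φ).map N.subtype,
        g * b * g⁻¹ ∈ ((parab (ZMod 2) Fin.val).comap φ).map N.subtype → b = 1) →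
        ∃ b ∈ parab (ZMod 2) Fin.val, ∃ u ∈ parab (ZMod 2) Fin.val,
          φ g * u = b * permGL (ZMod 2) Fin.revPerm := by
      intro g h
      refine exists_rev _ fun b hb hb' => ?_
      obtain ⟨b, rfl⟩ := hsurj b
      rw [← map_inv, ← map_mul, ← map_mul, ← hmem] at hb'
      rw [(Subtype.ext (h _ ((hmem b).2 hb) hb') : b = 1), map_one]
    intro g hg g' hg' h h'
    obtain ⟨b, hb, u, hu, e1⟩ := key ⟨g, hg⟩ h
    obtain ⟨b', hb', u', hu', e2⟩ := key ⟨g', hg'⟩ h'
    obtain ⟨c, hc⟩ := hsurj (b' * b⁻¹)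
    obtain ⟨d, hd⟩ := hsurj (u * u'⁻¹)
    refine ⟨c, (hmem c).2 (hc ▸ Subgroup.mul_mem _ hb' (Subgroup.inv_mem _ hb)), d,
      (hmem d).2 (hd ▸ Subgroup.mul_mem _ hu (Subgroup.inv_mem _ hu')), ?_⟩
    have : (⟨g', hg'⟩ : N) = c * ⟨g, hg⟩ * d := by
      apply hinj
      rw [map_mul, map_mul, hc, hd]
      calc φ ⟨g', hg'⟩ = (φ ⟨g', hg'⟩ * u') * u'⁻¹ := by group
        _ = b' * b⁻¹ * (b * permGL (ZMod 2) Fin.revPerm) * u'⁻¹ := by rw [e2]; group
        _ = _ := by rw [← e1]; group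
    exact congrArg Subtype.val this

end Cfsg.Agent.S2486
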