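import Cfsg.Statements.S2487
import Cfsg.Agent.Forms.OrthGroup
import Cfsg.Agent.Forms.StdQuad

set_option autoImplicit false
open scoped Pointwise
open Cfsg

namespace Cfsg.Agent.S2487

open Cfsg.Agent.Forms Module

theorem exists_fix {F V : Type*} [Field F] [AddCommGroup V] [Module F V] [FiniteDimensional F V]
    {Q : QuadraticForm F V} (hB : (pol Q).Nondegenerate) (W : Submodule F V)
    (hW : finrank F W + 2 ≤ finrank F V) :
    ∃ f : V →ₗ[F] V, (∀ x, Q (f x) = Q x) ∧ f ≠ LinearMap.id ∧ ∀ w ∈ W, f w = w := by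
  have hX : 2 ≤ finrank F ((pol Q).orthogonal W) := by
    rw [LinearMap.BilinForm.finrank_orthogonal hB]; omega
  by_cases h : ∃ v ∈ (pol Q).orthogonal W, Q v ≠ 0
  · obtain ⟨v, hv, hv0⟩ := h
    exact ⟨refl Q v, refl_quad hv0, refl_ne_id hB hv0, fun w hw => refl_of_perp (hv w hw)⟩
  · push Not at h
    obtain ⟨a, ha, ha0⟩ := exists_mem_notMem_span hX 0
    obtain ⟨b, hb, hb0⟩ := exists_mem_notMem_span hX a
    refine ⟨siegel₀ Q a b, siegel₀_quad (h a ha) (h b hb) (le_orthogonal_of_singular h ha b hb),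
      fun h' => ?_, fun w hw => ?_⟩
    · have h1 : ∃ x, pol Q x a ≠ 0 := by
        by_contra h2
        push Not at h2
        exact ha0 (by rw [hB.2 a h2]; exact Submodule.zero_mem _)
      obtain ⟨x, hx⟩ := h1
      have h2 := siegel₀_apply (Q := Q) a b x
      rw [h', LinearMap.id_apply, add_sub_assoc, left_eq_add, sub_eq_zero] at h2
      refine hb0 (Submodule.mem_span_singleton.2 ⟨(pol Q x a)⁻¹ * pol Q x b, ?_⟩)
      rw [mul_smul, h2, smul_smul, inv_mul_cancel₀ hx, one_smul]
    · rw [siegel₀_apply, show Q.polarBilin w a = 0 from ha w hw,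
        show Q.polarBilin w b = 0 from hb w hw]
      simp

variable {F : Type*} [Field F] {m : ℕ}

/-- The pointwise stabilizer of the basis vectors `e_j`, `j ≠ i`. -/
def Z (F : Type*) [Field F] (i : Fin m) : Subgroup (isometryGroup F (QPlus m F)) where
  carrier := {k | ∀ j ≠ i, olin k (Pi.single (.inl j) 1) = Pi.single (.inl j) 1}
  one_mem' := fun j _ => by rw [olin_one]; rfl
  mul_mem' := fun {a b} ha hb j hj => by rw [olin_mul_apply, hb j hj, ha j hj]
  inv_mem' := fun {a} ha j hj => by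
    conv_lhs => rw [← ha j hj]
    rw [olin_inv_apply]

theorem eq_zero_or_one [Fintype F] (hF : Fintype.card F = 2) (a : F) : a = 0 ∨ a = 1 := by
  have := FiniteField.pow_card a
  rw [hF, sq] at this
  by_cases h : a = 0
  · exact Or.inl h
  · exact Or.inr (mul_left_cancel₀ h (by rw [this, mul_one]))

theorem isPGroup_Z [Fintype F] (hF : Fintype.card F = 2) (i : Fin m) : IsPGroup 2 (Z F i) := by
  have h01 := eq_zero_or_one hF
  have h2 : (1 : F) + 1 = 0 := by
    rcases h01 (1 + 1) with h | h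
    · exact h
    · simp at h
  have h2' : ∀ x : Fin m ⊕ Fin m → F, x + x = 0 := fun x => by
    rw [← two_smul F, ← one_add_one_eq_two, h2, zero_smul]
  have hA : ∀ k ∈ Z F i, ∀ a : Fin m ⊕ Fin m → F, (∀ j, a (.inr j) = 0) → a (.inl i) = 0 →
      olin k a = a := by
    intro k hk a h1 h2
    have e : a = ∑ j, a (.inl j) • Pi.single (.inl j) 1 := by
      funext l
      rcases l with l | l
      · simp [Finset.sum_apply, Pi.single_apply]
      · simp [Finset.sum_apply, h1]
    rw [e, map_sum]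
    refine Finset.sum_congr rfl fun j _ => ?_
    by_cases hj : j = i
    · rw [hj, h2, zero_smul, map_zero]
    · rw [map_smul, hk j hj]
  have hP : ∀ k ∈ Z F i, ∀ y : Fin m ⊕ Fin m → F, ∀ j ≠ i, olin k y (.inr j) = y (.inr j) := by
    intro k hk y j hj
    have := polar_of_isometry (olin_quad k) y (Pi.single (.inl j) 1)
    rw [hk j hj] at this
    have h3 : ∀ y : Fin m ⊕ Fin m → F,
        pol (QPlus m F) y (Pi.single (.inl j) 1) = y (.inr j) := by
      intro y
      rw [pol_QPlus]
      simp [Pi.single_apply]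
    rwa [show (QPlus m F).polarBilin = pol (QPlus m F) from rfl, h3, h3] at this
  have hQ : ∀ y : Fin m ⊕ Fin m → F, (∀ j ≠ i, y (.inr j) = 0) →
      QPlus m F y = y (.inl i) * y (.inr i) := by
    intro y hy
    rw [QPlus_apply, Finset.sum_eq_single i (fun j _ hj => by rw [hy j hj, mul_zero]) (by simp)]
  have hB : ∀ y z : Fin m ⊕ Fin m → F, (∀ j ≠ i, y (.inr j) = 0) → (∀ j ≠ i, z (.inr j) = 0) →
      pol (QPlus m F) y z = y (.inl i) * z (.inr i) + y (.inr i) * z (.inl i) := by
    intro y z hy hz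
    rw [pol_QPlus, Finset.sum_eq_single i
      (fun j _ hj => by rw [hy j hj, hz j hj, mul_zero, zero_mul, add_zero]) (by simp)]
  have hz : ∀ k ∈ Z F i, ∀ y : Fin m ⊕ Fin m → F, (∀ j ≠ i, y (.inr j) = 0) →
      ((y (.inl i) = 0 ∧ y (.inr i) = 0) ↔ (olin k y (.inl i) = 0 ∧ olin k y (.inr i) = 0)) := by
    have key : ∀ k ∈ Z F i, ∀ y : Fin m ⊕ Fin m → F, (∀ j ≠ i, y (.inr j) = 0) →
        (y (.inl i) = 0 ∧ y (.inr i) = 0) → olin k y = y := by
      intro k hk y hy h
      refine hA k hk y (fun j => ?_) h.1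
      by_cases hj : j = i
      · rw [hj, h.2]
      · exact hy j hj
    intro k hk y hy
    refine ⟨fun h => by rwa [key k hk y hy h], fun h => ?_⟩
    have := olin_inj k (key k hk _ (fun j hj => by rw [hP k hk y j hj, hy j hj]) h)
    rwa [this] at h
  have hsq : ∀ k ∈ Z F i, ∀ y : Fin m ⊕ Fin m → F, (∀ j ≠ i, y (.inr j) = 0) →
      olin k (olin k y) (.inl i) = y (.inl i) ∧ olin k (olin k y) (.inr i) = y (.inr i) := by
    intro k hk y hy
    have hy1 : ∀ j ≠ i, olin k y (.inr j) = 0 := fun j hj => by rw [hP k hk y j hj, hy j hj]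
    have hy2 : ∀ j ≠ i, olin k (olin k y) (.inr j) = 0 := fun j hj => by
      rw [hP k hk _ j hj, hy1 j hj]
    have e1 := olin_quad k y
    have e2 := olin_quad k (olin k y)
    have e3 := polar_of_isometry (olin_quad k) y (olin k y)
    have e4 := hz k hk y hy
    have e5 := hz k hk _ hy1
    rw [hQ _ hy, hQ _ hy1] at e1
    rw [hQ _ hy1, hQ _ hy2] at e2
    rw [show (QPlus m F).polarBilin = pol (QPlus m F) from rfl, hB _ _ hy hy1, hB _ _ hy1 hy2] at e3
    generalize y (.inl i) = a1 at *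
    generalize y (.inr i) = a2 at *
    generalize olin k (olin k y) (.inl i) = c1 at *
    generalize olin k (olin k y) (.inr i) = c2 at *
    generalize olin k y (.inl i) = b1 at *
    generalize olin k y (.inr i) = b2 at *
    rcases h01 a1 with rfl | rfl <;> rcases h01 a2 with rfl | rfl <;>
      rcases h01 b1 with rfl | rfl <;> rcases h01 b2 with rfl | rfl <;>
      rcases h01 c1 with rfl | rfl <;> rcases h01 c2 with rfl | rfl <;>
      simp only [mul_zero, mul_one, zero_add, add_zero, and_self, one_ne_zero,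
        zero_ne_one, and_true, and_false, iff_false, iff_true, not_true] at e1 e2 e3 e4 e5 ⊢
  rintro ⟨k, hk⟩
  refine ⟨3, Subtype.ext (olin_injective (LinearMap.ext fun y => ?_))⟩
  have ht : k * k ∈ Z F i := (Z F i).mul_mem hk hk
  set t := k * k with htk
  obtain ⟨u, hu⟩ : ∃ u, u = olin t y - y := ⟨_, rfl⟩
  have hu1 : ∀ j ≠ i, u (.inr j) = 0 := fun j hj => by
    rw [hu, Pi.sub_apply, hP t ht y j hj, sub_self]
  obtain ⟨a, ha⟩ : ∃ a, a = olin t u - u := ⟨_, rfl⟩
  have ha1 : olin t a = a := by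
    have := hsq k hk u hu1
    rw [← olin_mul_apply] at this
    refine hA t ht a (fun j => ?_) (by rw [ha, Pi.sub_apply, this.1, sub_self])
    by_cases hj : j = i
    · rw [hj, ha, Pi.sub_apply, this.2, sub_self]
    · rw [ha, Pi.sub_apply, hP t ht u j hj, sub_self]
  have e1 : olin t y = y + u := by rw [hu]; abel
  have e2 : olin t u = u + a := by rw [ha]; abel
  have e3 : olin t (olin t y) = y + a := by
    rw [e1, map_add, e1, e2, ← add_assoc, add_assoc y, h2', add_zero]
  have e4 : k ^ 2 ^ 3 = t * t * (t * t) := by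
    rw [htk, show 2 ^ 3 = 8 from rfl]
    simp only [pow_succ, pow_zero, one_mul, mul_assoc]
  change olin (k ^ 2 ^ 3) y = olin 1 y
  rw [e4, olin_mul_apply (t * t), olin_mul_apply t t, olin_mul_apply t t, e3, map_add, map_add, e3, ha1, ha1,
    add_assoc, h2', add_zero, olin_one, LinearMap.id_apply]

/-- Let m ≥ 4 and let G be the full isometry group of the hyperbolic quadratic form x₁y₁ + ⋯ + x_m y_m on the 2m-dimensional space over the field with 2 elements (the orthogonal group O⁺(2m,2), which contains Ω⁺(2m,2) with index 2). Then any two Sylow 2-subgroups of G have a non-trivial intersection: for a Sylow 2-subgroup H and every x ∈ G, H ∩ H^x ≠ 1. -/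
theorem result {F : Type*} [Field F] [Fintype F] (hF : Fintype.card F = 2) {m : ℕ} (hm : 4 ≤ m)
    (H : Sylow 2 (Cfsg.isometryGroup F (Cfsg.quadFormPlus m F)))
    (x : Cfsg.isometryGroup F (Cfsg.quadFormPlus m F)) :
    (H : Subgroup (Cfsg.isometryGroup F (Cfsg.quadFormPlus m F))) ⊓ MulAut.conj x • (H : Subgroup _) ≠ ⊥ := by
  classical
  revert H x
  change ∀ (H : Sylow 2 (isometryGroup F (QPlus m F))) (x : isometryGroup F (QPlus m F)),
    (H : Subgroup (isometryGroup F (QPlus m F))) ⊓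
      MulAut.conj x • (H : Subgroup (isometryGroup F (QPlus m F))) ≠ ⊥
  intro H x
  let i : Fin m := ⟨0, by omega⟩
  obtain ⟨T, hT⟩ := (isPGroup_Z hF i).exists_le_sylow
  obtain ⟨y, rfl⟩ := MulAction.exists_smul_eq (isometryGroup F (QPlus m F)) T H
  let w : {j : Fin m // j ≠ i} ⊕ {j : Fin m // j ≠ i} → (Fin m ⊕ Fin m → F) :=
    Sum.elim (fun j => olin y (Pi.single (.inl j) 1)) (fun j => olin (x * y) (Pi.single (.inl j) 1))
  have hw : finrank F (Submodule.span F (Set.range w)) + 2 ≤ finrank F (Fin m ⊕ Fin m → F) := by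
    have h1 := finrank_range_le_card (R := F) w
    rw [Set.finrank] at h1
    simp only [Fintype.card_sum, Fintype.card_subtype_compl, Fintype.card_fin,
      Fintype.card_unique, finrank_fintype_fun_eq_card] at h1 ⊢
    omega
  obtain ⟨f, hf, hf1, hf2⟩ := exists_fix (QPlus_nondegenerate m) _ hw
  obtain ⟨s, rfl⟩ := exists_olin_eq (QPlus_nondegenerate m) hf
  have key : ∀ g : isometryGroup F (QPlus m F),
      (∀ j ≠ i, olin s (olin g (Pi.single (.inl j) 1)) = olin g (Pi.single (.inl j) 1)) →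
      g⁻¹ * s * g ∈ (T : Subgroup _) := by
    intro g hg
    refine hT fun j hj => ?_
    rw [olin_mul_apply, olin_mul_apply, hg j hj, olin_inv_apply]
  rw [Subgroup.ne_bot_iff_exists_ne_one]
  refine ⟨⟨s, ?_, ?_⟩, fun h' => hf1 ?_⟩
  · rw [Sylow.coe_subgroup_smul]
    refine (Subgroup.mem_smul_pointwise_iff_exists _ _ _).2 ⟨_, key y fun j hj =>
      hf2 _ (Submodule.subset_span ⟨.inl ⟨j, hj⟩, rfl⟩), ?_⟩
    simp only [MulAut.smul_def, MulAut.conj_apply]
    group
  · rw [Sylow.coe_subgroup_smul]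
    refine (Subgroup.mem_smul_pointwise_iff_exists _ _ _).2 ⟨_,
      (Subgroup.mem_smul_pointwise_iff_exists _ _ _).2 ⟨_, key (x * y) fun j hj =>
      hf2 _ (Submodule.subset_span ⟨.inr ⟨j, hj⟩, rfl⟩), rfl⟩, ?_⟩
    simp only [MulAut.smul_def, MulAut.conj_apply]
    group
  · rw [show s = 1 from congrArg Subtype.val h', olin_one]

end Cfsg.Agent.S2487
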