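import Cfsg.Statements.S2488
import Mathlib.Tactic
import Mathlib.GroupTheory.Perm.Centralizer

set_option autoImplicit false
open scoped Pointwise
open Cfsg

namespace Cfsg.Agent.S2488

open Subgroup Equiv Equiv.Perm

set_option maxRecDepth 100000 in
theorem c1 : (Finset.univ.filter (fun w : Perm (Fin 6) => sign w = 1 ∧ w * w = 1 ∧ w ≠ 1 ∧
    (swap 0 1 * swap 2 3 * w) ^ 5 = 1)).card = 17 := by decide +kernel

set_option maxRecDepth 100000 in
theorem c2 : (Finset.univ.filter (fun w : Perm (Fin 6) => sign w = 1 ∧ w * w = 1 ∧ w ≠ 1 ∧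
    ¬ (swap 0 1 * swap 2 3 * w) ^ 5 = 1)).card = 28 := by decide +kernel

set_option maxRecDepth 100000 in
theorem c3 : (Finset.univ.filter (fun w : Perm (Fin 6) => sign w = 1 ∧ w * w = 1 ∧ w ≠ 1)).card
    = 45 := by decide +kernel

theorem ct (w : Perm (Fin 6)) (h1 : sign w = 1) (h2 : w * w = 1) (h3 : w ≠ 1) :
    w.cycleType = {2, 2} := by
  have : Fact (Nat.Prime 2) := ⟨Nat.prime_two⟩
  have h4 := cycleType_of_pow_prime_eq_one (p := 2) (σ := w) (by rw [pow_two, h2])
  have h5 := w.sum_cycleType_le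
  have h6 := card_cycleType_pos.2 h3
  rw [sign_of_cycleType, neg_one_pow_eq_one_iff_even (by decide), Nat.even_iff] at h1
  rw [h4, Multiset.sum_replicate, smul_eq_mul] at h5 h1
  rw [Multiset.card_replicate] at h1
  simp only [Fintype.card_fin] at h5
  have h7 : w.cycleType.card = 2 := by omega
  rw [h4, h7]
  rfl

theorem conjA (w w' : alternatingGroup (Fin 6)) (h2 : w * w = 1) (h3 : w ≠ 1) (h2' : w' * w' = 1)
    (h3' : w' ≠ 1) : IsConj w w' := by
  have a1 := ct w w.2 (congrArg Subtype.val h2) (fun h => h3 (Subtype.ext h))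
  have a2 := ct w' w'.2 (congrArg Subtype.val h2') (fun h => h3' (Subtype.ext h))
  apply alternatingGroup.isConj_of
  · rw [isConj_iff_cycleType_eq, a1, a2]
  · rw [← sum_cycleType, a1]; simp


/-- Let G be a finite group with a normal subgroup N of index 4 isomorphic to the alternating group of degree 6 and with trivial centralizer in G (so G is the full automorphism group of A₆). Then any two Sylow 2-subgroups of G have a non-trivial intersection: for a Sylow 2-subgroup H and every x ∈ G, H ∩ H^x ≠ 1. -/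
theorem result {G : Type*} [Group G] [Finite G] (N : Subgroup G) [N.Normal]
    (e : N ≃* alternatingGroup (Fin 6)) (hidx : N.index = 4)
    (hC : Subgroup.centralizer (N : Set G) = ⊥)
    (H : Sylow 2 G) (x : G) :
    (H : Subgroup G) ⊓ MulAut.conj x • (H : Subgroup G) ≠ ⊥ := by
  classical
  let z1 : alternatingGroup (Fin 6) := ⟨swap 0 1 * swap 2 3, mem_alternatingGroup.2 (by decide)⟩
  have hz1 : z1 * z1 = 1 := Subtype.ext (by decide)
  have hz1' : z1 ≠ 1 := fun h => absurd (congrArg Subtype.val h) (by decide)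
  set z : G := (e.symm z1).1 with hz
  have hzN : z ∈ N := (e.symm z1).2
  have hA : Nat.card (alternatingGroup (Fin 6)) = 360 := by
    rw [nat_card_alternatingGroup]; simp [Nat.factorial]
  have hG : Nat.card G = 1440 := by
    rw [← N.index_mul_card, hidx, Nat.card_congr e.toEquiv, hA]
  have hcount : ∀ (P : G → Prop) (Q : Perm (Fin 6) → Prop) [DecidablePred Q],
      (∀ w : N, P w ↔ Q (e w)) →
      Nat.card {w : G // w ∈ N ∧ w * w = 1 ∧ w ≠ 1 ∧ P w} =
      (Finset.univ.filter (fun w : Perm (Fin 6) => sign w = 1 ∧ w * w = 1 ∧ w ≠ 1 ∧ Q w)).card := by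
    intro P Q _ hPQ
    rw [← Fintype.card_subtype, ← Nat.card_eq_fintype_card]
    refine Nat.card_congr ⟨fun w => ⟨e ⟨w.1, w.2.1⟩, (e ⟨w.1, w.2.1⟩).2, ?_, ?_, (hPQ _).1 w.2.2.2.2⟩,
      fun w => ⟨(e.symm ⟨w.1, w.2.1⟩ : N), (e.symm ⟨w.1, w.2.1⟩).2, ?_, ?_,
        (hPQ _).2 (by simpa using w.2.2.2.2)⟩, fun w => ?_, fun w => ?_⟩
    · rw [← Subgroup.coe_mul, ← map_mul, show (⟨w.1, w.2.1⟩ * ⟨w.1, w.2.1⟩ : N) = 1 from
        Subtype.ext w.2.2.1, map_one, Subgroup.coe_one]
    · intro h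
      have : e ⟨w.1, w.2.1⟩ = 1 := Subtype.ext h
      rw [map_eq_one_iff _ e.injective] at this
      exact w.2.2.2.1 (congrArg Subtype.val this)
    · rw [← Subgroup.coe_mul, ← map_mul, show (⟨w.1, w.2.1⟩ * ⟨w.1, w.2.1⟩ :
        alternatingGroup (Fin 6)) = 1 from Subtype.ext w.2.2.1, map_one, Subgroup.coe_one]
    · intro h
      have : e.symm ⟨w.1, w.2.1⟩ = 1 := Subtype.ext h
      rw [map_eq_one_iff _ e.symm.injective] at this
      exact w.2.2.2.1 (congrArg Subtype.val this)
    · exact Subtype.ext (congrArg (fun t : N => (t : G)) (e.symm_apply_apply ⟨w.1, w.2.1⟩))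
    · exact Subtype.ext (congrArg (fun t : alternatingGroup (Fin 6) => (t : Perm (Fin 6)))
        (e.apply_symm_apply ⟨w.1, w.2.1⟩))
  have hzz : z * z = 1 := by
    rw [hz, ← Subgroup.coe_mul, ← map_mul, hz1, map_one, Subgroup.coe_one]
  have hz1'' : z ≠ 1 := fun h => hz1' (by
    have : e.symm z1 = 1 := Subtype.ext h
    rwa [map_eq_one_iff _ e.symm.injective] at this)
  have hconj : ∀ y : G, y * z * y⁻¹ ∈ N ∧ y * z * y⁻¹ * (y * z * y⁻¹) = 1 ∧ y * z * y⁻¹ ≠ 1 := by
    intro y
    refine ⟨Subgroup.Normal.conj_mem inferInstance _ hzN y, ?_, ?_⟩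
    · calc _ = y * (z * z) * y⁻¹ := by group
        _ = 1 := by rw [hzz]; group
    · intro h
      apply hz1''
      calc z = y⁻¹ * (y * z * y⁻¹) * y := by group
        _ = 1 := by rw [h]; group
  have h5 : ∀ w : N, (z * w) ^ 5 = 1 ↔ (swap 0 1 * swap 2 3 * (e w : Perm (Fin 6))) ^ 5 = 1 := by
    intro w
    have e1 : (z * w) ^ 5 = ((e.symm z1 * w) ^ 5 : N) := by simp [hz]
    have e2 : (swap 0 1 * swap 2 3 * (e w : Perm (Fin 6))) ^ 5 =
        (e ((e.symm z1 * w) ^ 5)).1 := by simp [z1]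
    rw [e1, e2, OneMemClass.coe_eq_one, OneMemClass.coe_eq_one, map_eq_one_iff _ e.injective]
  have hC32 : Nat.card (centralizer ({z} : Set G)) = 32 := by
    have i1 : (centralizer ({z} : Set G)).index = 45 := by
      have i2 := MulAction.index_stabilizer (ConjAct G) z
      have i3 : (centralizer ({z} : Set G)).index = (MulAction.stabilizer (ConjAct G) z).index := by
        rw [Subgroup.centralizer_eq_comap_stabilizer]
        exact Subgroup.index_comap_of_surjective _ ConjAct.toConjAct.surjective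
      rw [i3, i2, ← c3, ← Nat.card_coe_set_eq]
      have := hcount (fun _ => True) (fun _ => True) (fun _ => Iff.rfl)
      simp only [and_true] at this
      rw [← this]
      apply Nat.card_congr
      apply Equiv.subtypeEquivRight
      intro w
      rw [ConjAct.mem_orbit_conjAct, isConj_comm, isConj_iff]
      constructor
      · rintro ⟨y, rfl⟩
        exact hconj y
      · rintro ⟨h1, h2, h3⟩
        have := conjA z1 (e ⟨w, h1⟩) hz1 hz1' (by
          rw [← map_mul, show (⟨w, h1⟩ * ⟨w, h1⟩ : N) = 1 from Subtype.ext h2, map_one]) (by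
          rw [ne_eq, map_eq_one_iff _ e.injective]
          exact fun h => h3 (congrArg Subtype.val h))
        obtain ⟨c, hc⟩ := isConj_iff.1 this
        refine ⟨(e.symm c : N), ?_⟩
        have := congrArg (fun t => ((e.symm t : N) : G)) hc
        simpa [hz] using this
    have := (centralizer ({z} : Set G)).index_mul_card
    rw [i1, hG] at this
    omega
  have key : ∀ y : G, centralizer ({z} : Set G) ⊓ centralizer ({y * z * y⁻¹} : Set G) ≠ ⊥ := by
    intro y hbot
    let f : centralizer ({z} : Set G) → {w : G // w ∈ N ∧ w * w = 1 ∧ w ≠ 1 ∧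
        ((z * w) ^ 5 = 1 ↔ (z * (y * z * y⁻¹)) ^ 5 = 1)} := fun h =>
      ⟨(h * y) * z * (h * y)⁻¹, (hconj _).1, (hconj _).2.1, (hconj _).2.2, by
        have hh : z * h = h * z := h.2 z rfl
        have : z * ((h * y) * z * (h * y)⁻¹) = h * (z * (y * z * y⁻¹)) * (h : G)⁻¹ := by
          rw [← mul_assoc (h : G), ← hh]; group
        rw [this, conj_pow, mul_inv_eq_one, mul_eq_left]⟩
    have hf : Function.Injective f := by
      intro a b hab
      have h1 : (a * y) * z * (a * y)⁻¹ = (b * y) * z * (b * y)⁻¹ := congrArg Subtype.val hab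
      have h2 : (b : G)⁻¹ * a ∈ centralizer ({z} : Set G) ⊓ centralizer ({y * z * y⁻¹} : Set G) := by
        refine ⟨Subgroup.mul_mem _ (Subgroup.inv_mem _ b.2) a.2, ?_⟩
        rintro _ rfl
        calc y * z * y⁻¹ * ((b : G)⁻¹ * a) = (b : G)⁻¹ * ((b * y) * z * (b * y)⁻¹) * a := by group
          _ = _ := by rw [← h1]; group
      rw [hbot, mem_bot, inv_mul_eq_one] at h2
      exact Subtype.ext h2.symm
    have hle := Nat.card_le_card_of_injective f hf
    rw [hC32] at hle
    by_cases h : (z * (y * z * y⁻¹)) ^ 5 = 1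
    · simp only [h, iff_true] at hle
      rw [hcount (fun w => (z * w) ^ 5 = 1) (fun w => (swap 0 1 * swap 2 3 * w) ^ 5 = 1) h5, c1] at hle
      omega
    · simp only [h, iff_false] at hle
      rw [hcount (fun w => ¬ (z * w) ^ 5 = 1) (fun w => ¬ (swap 0 1 * swap 2 3 * w) ^ 5 = 1)
        (fun w => not_congr (h5 w)), c2] at hle
      omega
  let T : Sylow 2 G := Sylow.ofCard (centralizer ({z} : Set G)) (by
    rw [hC32, hG, show (1440 : ℕ) = 2 ^ 5 * 45 by norm_num,
      Nat.factorization_mul (by norm_num) (by norm_num),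
      Nat.prime_two.factorization_pow, Finsupp.add_apply, Finsupp.single_eq_same,
      Nat.factorization_eq_zero_of_not_dvd (by norm_num)]
    norm_num)
  obtain ⟨g, rfl⟩ := MulAction.exists_smul_eq G T H
  intro hbot
  apply key (g⁻¹ * x * g)
  rw [eq_bot_iff]
  rintro a ⟨ha1, ha2⟩
  have : g * a * g⁻¹ ∈ ((g • T : Sylow 2 G) : Subgroup G) ⊓
      MulAut.conj x • ((g • T : Sylow 2 G) : Subgroup G) := by
    refine ⟨⟨a, ha1, rfl⟩, ⟨g * ((g⁻¹ * x * g)⁻¹ * a * (g⁻¹ * x * g)) * g⁻¹,
      ⟨(g⁻¹ * x * g)⁻¹ * a * (g⁻¹ * x * g), ?_, rfl⟩, ?_⟩⟩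
    · rintro _ rfl
      have := ha2 _ rfl
      calc z * ((g⁻¹ * x * g)⁻¹ * a * (g⁻¹ * x * g))
          = (g⁻¹ * x * g)⁻¹ * (g⁻¹ * x * g * z * (g⁻¹ * x * g)⁻¹ * a) * (g⁻¹ * x * g) := by group
        _ = _ := by rw [this]; group
    · change x * _ * x⁻¹ = _
      group
  rw [hbot, mem_bot, mul_inv_eq_one, mul_eq_left] at this
  exact this

end Cfsg.Agent.S2488
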