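import Cfsg.Statements.S2490
import Cfsg.Agent.KG.Ord7920

set_option autoImplicit false
open Cfsg

namespace Cfsg.Agent.S2490

/-- Let G be a finite group of order 7920 = 2⁴·3²·5·11 (the order of the smallest Mathieu group) and suppose its prime graph (vertices the prime divisors of the order, distinct p, q joined when there is an element of order pq) is disconnected: the prime divisors split into two non-empty parts with no element of order pq for p in one part and q in the other. Then G is simple. -/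
theorem result {G : Type*} [Group G] [Finite G] (hord : Nat.card G = 7920)
    (hdisc : (∃ A : Set ℕ, (∃ a ∈ A, a.Prime ∧ a ∣ Nat.card G) ∧ (∃ b ∉ A, b.Prime ∧ b ∣ Nat.card G) ∧
      ∀ a ∈ A, ∀ b ∉ A, a.Prime → b.Prime → a ∣ Nat.card G → b ∣ Nat.card G → ¬ ∃ g : G, orderOf g = a * b)) :
    IsSimpleGroup G := by
  obtain ⟨A, ⟨a, ha, ha1, ha2⟩, ⟨b, hb, hb1, hb2⟩, h⟩ := hdisc
  have key : ∀ (g : G) (a b : ℕ), a.Prime → b.Prime → a ∣ orderOf g → b ∣ orderOf g → a ∈ A → b ∈ A :=
    fun g a b h1 h2 h3 h4 h5 => by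
    by_contra h6
    have h7 := Nat.Coprime.mul_dvd_of_dvd_of_dvd ((Nat.coprime_primes h1 h2).2 fun e => h6 (e ▸ h5)) h3 h4
    exact h a h5 b h6 h1 h2 (h3.trans (orderOf_dvd_natCard g)) (h4.trans (orderOf_dvd_natCard g))
      ⟨_, orderOf_pow_orderOf_div (orderOf_pos g).ne' h7⟩
  by_cases h11 : 11 ∈ A
  · exact KG.PG.isSimpleGroup (f := (· ∈ A)) key hord h11 ⟨b, hb1, hord ▸ hb2, hb⟩
  · exact KG.PG.isSimpleGroup (f := (· ∉ A)) (fun g a b h1 h2 h3 h4 => mt (key g b a h2 h1 h4 h3)) hord h11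
      ⟨a, ha1, hord ▸ ha2, not_not.2 ha⟩

end Cfsg.Agent.S2490
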