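import Cfsg.Statements.S2493
import Cfsg.Agent.PermB.DCov

set_option autoImplicit false
open Cfsg

namespace Cfsg.Agent.S2493


/-- Let n ≥ 5 and let G be a finite perfect group whose centre has order 2 with G/Z(G) isomorphic to the alternating group of degree n (the double cover of the alternating group). Then every element of G is a commutator. -/
theorem result {G : Type*} [Group G] [Finite G] (hperf : commutator G = ⊤) {n : ℕ} (hn : 5 ≤ n)
    (hZ : Nat.card (Subgroup.center G) = 2) (e : G ⧸ Subgroup.center G ≃* alternatingGroup (Fin n))
    (g : G) :
    ∃ a b : G, a * b * a⁻¹ * b⁻¹ = g := by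
  exact Cfsg.Agent.PermB.comm_of_double_cover hperf hn hZ e g

end Cfsg.Agent.S2493
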