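import Cfsg.Statements.S2495
import Cfsg.Agent.GLn.Card

set_option autoImplicit false
open Cfsg

namespace Cfsg.Agent.S2495

open Cfsg.Agent.GLn Polynomial

theorem arith {q m : ℕ} (hq : 3 ≤ q) (hm : 0 < m) :
    q ^ m + 1 ∣ singerOrder q (2 * m) ↔ padicValNat 2 (q - 1) < padicValNat 2 (2 * m) := by
  have hd0 : 0 < Nat.gcd (2 * m) (q - 1) := Nat.gcd_pos_of_pos_left _ (by omega)
  have h1 := singerOrder_mul q (2 * m) (by omega)
  rw [mul_comm 2 m, geom_mul q m 2 (by omega), mul_comm m 2] at h1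
  simp only [Finset.sum_range_succ, Finset.range_zero, Finset.sum_empty, pow_zero, zero_add,
    pow_one] at h1
  rw [← Nat.mul_dvd_mul_iff_right hd0, h1, add_comm 1, mul_comm _ (q ^ m + 1),
    Nat.mul_dvd_mul_iff_left (by positivity),
    ((geom_modEq q m (by omega)).of_dvd (Nat.gcd_dvd_right (2 * m) _)).dvd_iff dvd_rfl]
  have hq1 : q - 1 ≠ 0 := by omega
  rw [← Nat.factorization_le_iff_dvd hd0.ne' hm.ne', Nat.factorization_gcd (by omega) hq1,
    Nat.factorization_mul two_ne_zero hm.ne', ← Nat.factorization_def _ Nat.prime_two,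
    ← Nat.factorization_def _ Nat.prime_two, Nat.factorization_mul two_ne_zero hm.ne',
    Nat.prime_two.factorization]
  constructor
  · intro h
    have := h 2
    simp only [Finsupp.inf_apply, Finsupp.coe_add, Pi.add_apply, Finsupp.single_eq_same] at this ⊢
    omega
  · intro h r
    simp only [Finsupp.inf_apply, Finsupp.coe_add, Pi.add_apply, Finsupp.single_eq_same] at h ⊢
    by_cases hr : r = 2
    · subst hr
      simp only [Finsupp.single_eq_same]
      omega
    · rw [Finsupp.single_eq_of_ne hr]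
      omega


/-- Let q be an odd prime power, n ≥ 4 even, and L = PSL(n,q). Then L has an element of order q^(n/2) + 1 if and only if the 2-part of n exceeds the 2-part of q − 1. -/
theorem result {F : Type*} [Field F] [Fintype F] {q : ℕ} (hF : Fintype.card F = q) (hodd : Odd q)
    {n : ℕ} (hn : 4 ≤ n) (heven : Even n) :
    (∃ g : Matrix.ProjectiveSpecialLinearGroup (Fin n) F, orderOf g = q ^ (n / 2) + 1) ↔
      padicValNat 2 (q - 1) < padicValNat 2 n := by
  classical
  obtain ⟨m, rfl⟩ : ∃ m, n = 2 * m := ⟨n / 2, by obtain ⟨k, hk⟩ := heven; omega⟩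
  have hq1 : 1 < q := hF ▸ Fintype.one_lt_card
  have hq3 : 3 ≤ q := by obtain ⟨k, hk⟩ := hodd; omega
  rw [Nat.mul_div_cancel_left _ two_pos, ← arith hq3 (by omega)]
  subst hF
  constructor
  swap
  · intro h
    obtain ⟨s, hs⟩ := exists_psl_singer F (2 * m) (by omega)
    exact mem_range_orderOf_of_dvd' s (hs ▸ h)
  rintro ⟨x, hx⟩
  obtain ⟨p, hp⟩ := CharP.exists F
  have : Fact p.Prime := ⟨CharP.char_is_prime F p⟩
  have hp' : p.Prime := Fact.out
  set q := Fintype.card F with hq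
  have hcop : ∀ k, Nat.Coprime (q ^ m + 1) (p ^ k) := by
    intro k
    apply Nat.Coprime.pow_right
    rw [Nat.coprime_comm, hp'.coprime_iff_not_dvd]
    intro hd
    have h1 : p ∣ q ^ m := (char_dvd_card p).trans (dvd_pow_self _ (by omega))
    exact hp'.one_lt.ne' (Nat.dvd_one.mp ((Nat.dvd_add_right h1).mp hd))
  have hk : Fintype.card (Fin (2 * m)) ≤ p ^ Nat.clog p (2 * m) := by
    rw [Fintype.card_fin]; exact Nat.le_pow_clog hp'.one_lt _
  induction x using QuotientGroup.induction_on with | H g =>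
  by_cases h : ∀ μ ν : AlgebraicClosure F,
      aeval μ (g : Matrix (Fin (2 * m)) (Fin (2 * m)) F).charpoly = 0 →
      aeval ν (g : Matrix (Fin (2 * m)) (Fin (2 * m)) F).charpoly = 0 → minpoly F ν = minpoly F μ
  · have := psl_orderOf_dvd_of_primary p g h hk
    rw [hx, Fintype.card_fin] at this
    exact (hcop _).dvd_of_dvd_mul_right this
  exfalso
  push Not at h
  obtain ⟨μ, ν, hμ, hν, hne⟩ := h
  have hlt : ∀ ξ : AlgebraicClosure F,
      aeval ξ (g : Matrix (Fin (2 * m)) (Fin (2 * m)) F).charpoly = 0 →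
      (minpoly F ξ).natDegree < 2 * m := by
    intro ξ hξ
    have h1 := minpoly.natDegree_pos (isIntegral_of_root hμ)
    have h2 := minpoly.natDegree_pos (isIntegral_of_root hν)
    by_cases h3 : minpoly F ξ = minpoly F μ
    · have := natDegree_minpoly_add_le_of_root hξ hν (h3 ▸ hne.symm)
      rw [Fintype.card_fin] at this; omega
    · have := natDegree_minpoly_add_le_of_root hξ hμ h3
      rw [Fintype.card_fin] at this; omega
  obtain ⟨c, hc⟩ := (psl_orderOf_dvd_iff g _).mp hx.dvd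
  let Φ : ℕ := ((cyclotomic (2 * m) ℤ).eval (q : ℤ)).natAbs
  have hΦ : ∀ e, e ∣ 2 * m → e < 2 * m → (q ^ e - 1) * Φ ∣ q ^ (2 * m) - 1 := by
    intro e he he'
    have h1 := map_dvd (evalRingHom (q : ℤ))
      (X_pow_sub_one_mul_cyclotomic_dvd_X_pow_sub_one_of_dvd ℤ
        (Nat.mem_properDivisors.mpr ⟨he, he'⟩))
    have h2 := Int.natAbs_dvd_natAbs.mpr h1
    simp only [coe_evalRingHom, eval_mul, eval_sub, eval_pow, eval_X, eval_one, Int.natAbs_mul]
      at h2
    have h3 : ∀ j, ((q : ℤ) ^ j - 1).natAbs = q ^ j - 1 := by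
      intro j
      have : 1 ≤ q ^ j := Nat.one_le_pow _ _ (by omega)
      zify [this]
      rw [abs_of_nonneg (by exact_mod_cast (by omega : (0 : ℤ) ≤ ((q ^ j : ℕ) : ℤ) - 1))]
    rwa [h3, h3] at h2
  have hΦ2 : 2 < Φ := by
    have := sub_one_lt_natAbs_cyclotomic_eval (n := 2 * m) (q := q) (by omega) (by omega)
    omega
  have hsq : q ^ (2 * m) - 1 = (q ^ m - 1) * (q ^ m + 1) := by
    rw [mul_comm 2 m, pow_mul, mul_comm, ← Nat.sq_sub_sq]
  have hqm : 1 < q ^ m := Nat.one_lt_pow (by omega) hq1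
  have hΦ1 : Φ ∣ q ^ m + 1 := by
    have := hΦ m (dvd_mul_left _ _) (by omega)
    rwa [hsq, Nat.mul_dvd_mul_iff_left (by omega)] at this
  obtain ⟨R, hR⟩ : Φ ∣ q ^ (2 * m) - 1 := (dvd_mul_left _ _).trans (hΦ 1 (one_dvd _) (by omega))
  have hroot : ∀ ξ : AlgebraicClosure F,
      aeval ξ (g : Matrix (Fin (2 * m)) (Fin (2 * m)) F).charpoly = 0 →
      ξ ^ R = algebraMap F _ 1 := by
    intro ξ hξ
    have hi := isIntegral_of_root hξ
    have h0 : ξ ≠ 0 := root_ne_zero (by simp) hξ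
    have h1 := root_pow_eq_of_pow_eq _ hc hξ
    have hc0 : c ≠ 0 := by
      rintro rfl
      rw [map_zero] at h1
      exact pow_ne_zero _ h0 h1
    have h2 : (minpoly F ξ).natDegree ∣ 2 * m := by
      rw [← pow_card_pow_sub_one_eq_one_iff hi h0, ← hq, hsq, mul_comm, pow_mul, h1, ← map_pow]
      obtain ⟨t, ht⟩ : q - 1 ∣ q ^ m - 1 := by simpa using Nat.sub_dvd_pow_sub_pow q 1 m
      rw [ht, pow_mul, FiniteField.pow_card_sub_one_eq_one c hc0, one_pow, map_one]
    have h3 := hΦ _ h2 (hlt ξ hξ)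
    rw [hR, mul_comm Φ, Nat.mul_dvd_mul_iff_right (by omega)] at h3
    obtain ⟨t, ht⟩ := h3
    rw [ht, pow_mul, (pow_card_pow_sub_one_eq_one_iff hi h0 _).mpr dvd_rfl, one_pow, map_one]
  have h4 := (psl_orderOf_dvd_iff g _).mpr ⟨_, pow_mul_char_pow_eq_of_roots p _ hroot hk⟩
  rw [hx] at h4
  obtain ⟨t, ht⟩ := (hcop _).dvd_of_dvd_mul_right h4
  rw [ht, hsq, mul_comm (q ^ m + 1) t, ← mul_assoc] at hR
  have h5 : Φ ∣ q ^ m - 1 := ⟨t, Nat.eq_of_mul_eq_mul_right (by positivity) hR⟩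
  have h6 := Nat.dvd_sub hΦ1 h5
  rw [show q ^ m + 1 - (q ^ m - 1) = 2 by omega] at h6
  exact absurd (Nat.le_of_dvd two_pos h6) (by omega)

end Cfsg.Agent.S2495
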