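import Cfsg.Statements.S2496
import Cfsg.Agent.HForm.USpec

set_option autoImplicit false
open Cfsg

namespace Cfsg.Agent.S2496

open Cfsg.Agent.HForm Polynomial

theorem ua_two_mul (q h : ℕ) : ua q (2 * h) = ua q h * ((-(q : ℤ)) ^ h + 1).natAbs := by
  rw [ua, ua, ← Int.natAbs_mul]; congr 1; ring

theorem arith {q m : ℕ} (hq : 2 ≤ q) (hm : 0 < m) :
    ((-(q : ℤ)) ^ m + 1).natAbs ∣ uA q (2 * m) ↔ padicValNat 2 (q + 1) < padicValNat 2 (2 * m) := by
  have hd0 : 0 < Nat.gcd (2 * m) (q + 1) := Nat.gcd_pos_of_pos_left _ (by omega)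
  have hN : 0 < ((-(q : ℤ)) ^ m + 1).natAbs := by
    have := ua_pos hq (by omega : 0 < 2 * m)
    rw [ua_two_mul] at this
    exact Nat.pos_of_mul_pos_left this
  have h1 : uT q (2 * m) = ((-(q : ℤ)) ^ m + 1).natAbs * uT q m := by
    apply Nat.eq_of_mul_eq_mul_right (by omega : 0 < q + 1)
    rw [uT_mul, ua_two_mul, mul_assoc, uT_mul, mul_comm]
  rw [← Nat.mul_dvd_mul_iff_right hd0, uA_mul, h1, Nat.mul_dvd_mul_iff_left hN]
  have h2 : Nat.gcd (2 * m) (q + 1) ∣ uT q m ↔ Nat.gcd (2 * m) (q + 1) ∣ m := by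
    have h3 := Nat.gcd_dvd_right (2 * m) (q + 1)
    constructor
    · intro h
      exact ((gcd_uT q m) ▸ Nat.dvd_gcd h h3).trans (Nat.gcd_dvd_left _ _)
    · intro h
      exact ((gcd_uT q m).symm ▸ Nat.dvd_gcd h h3).trans (Nat.gcd_dvd_left _ _)
  rw [h2]
  have hq1 : q + 1 ≠ 0 := by omega
  rw [← Nat.factorization_le_iff_dvd hd0.ne' hm.ne', Nat.factorization_gcd (by omega) hq1,
    Nat.factorization_mul two_ne_zero hm.ne', ← Nat.factorization_def _ Nat.prime_two,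
    ← Nat.factorization_def _ Nat.prime_two, Nat.factorization_mul two_ne_zero hm.ne',
    Nat.prime_two.factorization]
  constructor
  · intro h
    have := h 2
    simp only [Finsupp.inf_apply, Finsupp.coe_add, Pi.add_apply, Finsupp.single_eq_same] at this ⊢
    omega
  · intro h r
    simp only [Finsupp.inf_apply, Finsupp.coe_add, Pi.add_apply, Finsupp.single_eq_same] at h ⊢
    by_cases hr : r = 2
    · subst hr
      simp only [Finsupp.single_eq_same]
      omega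
    · rw [Finsupp.single_eq_of_ne hr]
      omega

theorem two_lt_cyc {q n : ℕ} (hq : 3 ≤ q) (hn : 3 ≤ n) :
    2 < ((cyclotomic n ℤ).eval (-(q : ℤ))).natAbs := by
  have hζ := Complex.isPrimitiveRoot_exp n (by omega)
  have h1 : (((cyclotomic n ℤ).eval (-(q : ℤ)) : ℤ) : ℂ) =
      ∏ μ ∈ primitiveRoots n ℂ, (-(q : ℂ) - μ) := by
    have := eval₂_at_apply (p := cyclotomic n ℤ) (Int.castRingHom ℂ) (-(q : ℤ))
    rw [eval₂_eq_eval_map, map_cyclotomic, cyclotomic_eq_prod_X_sub_primitiveRoots hζ,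
      eval_prod] at this
    simpa using this.symm
  have h2 : (2 : ℝ) ^ (primitiveRoots n ℂ).card ≤ ‖∏ μ ∈ primitiveRoots n ℂ, (-(q : ℂ) - μ)‖ := by
    rw [norm_prod, ← Finset.prod_const]
    refine Finset.prod_le_prod (fun _ _ => by norm_num) fun μ hμ => ?_
    have h3 : ‖μ‖ = 1 := ((mem_primitiveRoots (by omega)).mp hμ).norm'_eq_one (by omega)
    have h4 := norm_sub_norm_le (-(q : ℂ)) μ
    rw [norm_neg, Complex.norm_natCast, h3] at h4
    have : (3 : ℝ) ≤ q := by exact_mod_cast hq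
    linarith
  rw [← h1, hζ.card_primitiveRoots, Complex.norm_intCast, ← Int.cast_abs, Int.abs_eq_natAbs,
    Int.cast_natCast] at h2
  have h3 : 2 ≤ n.totient := by
    have h4 := Nat.totient_even (by omega : 2 < n)
    have h5 := Nat.totient_pos.mpr (by omega : 0 < n)
    obtain ⟨k, hk⟩ := h4; omega
  have h4 : (2 : ℝ) ^ 2 ≤ 2 ^ n.totient := pow_le_pow_right₀ (by norm_num) h3
  have h5 : (4 : ℝ) ≤ ((cyclotomic n ℤ).eval (-(q : ℤ))).natAbs := by linarith
  have : 4 ≤ ((cyclotomic n ℤ).eval (-(q : ℤ))).natAbs := by exact_mod_cast h5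
  omega

/-- Let q be an odd prime power, n ≥ 4 even, and U = PSU(n,q) (realised over the field with q² elements). Then U has an element of order q^(n/2) + (−1)^(n/2) — that is, q^(n/2) + 1 when n/2 is even and q^(n/2) − 1 when n/2 is odd — if and only if the 2-part of n exceeds the 2-part of q + 1. -/
theorem result {F : Type*} [Field F] [Fintype F] {q : ℕ} (hF : Fintype.card F = q ^ 2) (hodd : Odd q)
    {n : ℕ} (hn : 4 ≤ n) (heven : Even n) :
    (∃ g : Cfsg.PSU n F q, orderOf g = if Even (n / 2) then q ^ (n / 2) + 1 else q ^ (n / 2) - 1) ↔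
      padicValNat 2 (q + 1) < padicValNat 2 n := by
  classical
  obtain ⟨m, rfl⟩ : ∃ m, n = 2 * m := ⟨n / 2, by obtain ⟨k, hk⟩ := heven; omega⟩
  have hq := two_le_of_sq hF
  have hq3 : 3 ≤ q := by obtain ⟨k, hk⟩ := hodd; omega
  have hN : (if Even m then q ^ m + 1 else q ^ m - 1) = ((-(q : ℤ)) ^ m + 1).natAbs := by
    have h2 : ((q : ℤ) ^ m) = ((q ^ m : ℕ) : ℤ) := by push_cast; rfl
    have : 1 ≤ q ^ m := Nat.one_le_pow _ _ (by omega)
    split_ifs with h
    · rw [h.neg_pow, h2]; omega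
    · rw [(Nat.not_even_iff_odd.mp h).neg_pow, h2]; omega
  rw [Nat.mul_div_cancel_left _ two_pos, ← arith hq (by omega), hN]
  constructor
  swap
  · exact mem_range_orderOf_of_dvd (uA_mem hF (by omega))
  rintro ⟨x, hx⟩
  obtain ⟨p, -, hp, hc, -, -⟩ := exists_char_pow_of_sq hF
  have := Fact.mk hp
  obtain ⟨N, hN'⟩ : ∃ N, N = ((-(q : ℤ)) ^ m + 1).natAbs := ⟨_, rfl⟩
  have hsq := ua_two_mul q m
  rw [← hN'] at hx hsq ⊢
  have hcop : ∀ k, Nat.Coprime N (p ^ k) := fun k =>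
    Nat.Coprime.pow_right _ ((hp.coprime_iff_not_dvd.mpr fun h =>
      not_dvd_ua hp (char_dvd_q hF p) (by omega) (by omega : 0 < 2 * m)
        (hsq ▸ h.mul_left _)).symm)
  induction x using QuotientGroup.induction_on with | H g =>
  obtain ⟨hR, h0, hcard, -⟩ := su_evs (K := AlgebraicClosure F) hF g
  have hk : ∀ z, ((g.1 : Matrix (Fin (2 * m)) (Fin (2 * m)) F).charpoly.aroots
      (AlgebraicClosure F)).count z ≤ p ^ Nat.clog p (2 * m) := fun z =>
    (Multiset.count_le_card _ _).trans (hcard.trans_le (Nat.le_pow_clog hp.one_lt _))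
  by_cases h : ∃ (μ d : ℕ) (ξ : AlgebraicClosure F), (uf q)^[d] ξ = ξ ∧
      (g.1 : Matrix (Fin (2 * m)) (Fin (2 * m)) F).charpoly.aroots (AlgebraicClosure F) =
        μ • orb (uf q) d ξ
  · obtain ⟨μ, d, ξ, h1, h2⟩ := h
    have := psu_primary hF (by omega) p g h1 h2 hk
    rw [hx] at this
    exact (hcop _).dvd_of_dvd_mul_right this
  exfalso
  obtain ⟨c, hc⟩ := (psu_dvd_iff hF (by omega) g _).mp hx.dvd
  have he := evs_pow_eq (AlgebraicClosure F) _ _ _ hc
  let Φ : ℕ := ((cyclotomic (2 * m) ℤ).eval (-(q : ℤ))).natAbs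
  have hΦ : ∀ e, e ∣ 2 * m → e < 2 * m → ua q e * Φ ∣ ua q (2 * m) := by
    intro e he he'
    have h1 := map_dvd (evalRingHom (-(q : ℤ)))
      (X_pow_sub_one_mul_cyclotomic_dvd_X_pow_sub_one_of_dvd ℤ
        (Nat.mem_properDivisors.mpr ⟨he, he'⟩))
    have h2 := Int.natAbs_dvd_natAbs.mpr h1
    simp only [coe_evalRingHom, eval_mul, eval_sub, eval_pow, eval_X, eval_one, Int.natAbs_mul]
      at h2
    exact h2
  have hΦ2 : 2 < Φ := two_lt_cyc hq3 (by omega)
  have ham := ua_pos hq (by omega : 0 < m)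
  have hΦ1 : Φ ∣ N := by
    have := hΦ m (dvd_mul_left _ _) (by omega)
    rwa [hsq, Nat.mul_dvd_mul_iff_left ham] at this
  obtain ⟨T, hT⟩ : Φ ∣ ua q (2 * m) := (dvd_mul_left _ _).trans (hΦ 1 (one_dvd _) (by omega))
  have h4 := psu_dvd_of_evs hF (by omega) p g (M := T) (c := (1 : AlgebraicClosure F)) (by simp)
    (fun ξ hξ => by
      have hξ0 : ξ ≠ 0 := fun h => h0 (h ▸ hξ)
      obtain ⟨d, R', hd, hfix, -, hRR, -, -⟩ := exists_orb (uinv_injective hF) hR hξ
      have hR0 : R' ≠ 0 := fun h' => h ⟨_, d, ξ, hfix, by simpa [h'] using hRR⟩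
      have hμ := Multiset.count_pos.mpr hξ
      have hdn : d < 2 * m := by
        have h1 := congrArg Multiset.card hRR
        rw [Multiset.card_add, Multiset.card_nsmul, card_orb, hcard] at h1
        have h2 := Multiset.card_pos.mpr hR0
        have h3 := Nat.le_mul_of_pos_left d hμ
        omega
      have h2 : (uf q)^[2 * m] ξ = ξ := by
        obtain ⟨t, ht⟩ := succ_dvd_ua q m
        rw [uf_iterate_eq_iff hξ0, hsq, ht, show (q + 1) * t * N = N * (q + 1) * t by ring,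
          pow_mul, pow_mul, he ξ hξ, norm_one_of_const hR h0 hξ he, one_pow]
      have h3 : (uf q)^[Nat.gcd d (2 * m)] ξ = ξ := Function.IsPeriodicPt.gcd hfix h2
      have h5 := hΦ _ (Nat.gcd_dvd_right d (2 * m))
        ((Nat.le_of_dvd hd (Nat.gcd_dvd_left _ _)).trans_lt hdn)
      rw [hT, mul_comm Φ, Nat.mul_dvd_mul_iff_right (by omega)] at h5
      obtain ⟨t, ht⟩ := h5
      rw [ht, pow_mul, (uf_iterate_eq_iff hξ0).mp h3, one_pow]) hk
  rw [hx] at h4
  obtain ⟨t, ht⟩ := (hcop _).dvd_of_dvd_mul_right h4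
  have hN0 : 0 < N := hx ▸ orderOf_pos _
  rw [ht, hsq, mul_comm N t, ← mul_assoc] at hT
  have h5 : Φ ∣ ua q m := ⟨t, Nat.eq_of_mul_eq_mul_right hN0 hT⟩
  rw [hN'] at hΦ1
  have h6 := dvd_sub (Int.natCast_dvd.mpr hΦ1) (Int.natCast_dvd.mpr h5)
  rw [show (-(q : ℤ)) ^ m + 1 - ((-(q : ℤ)) ^ m - 1) = ((2 : ℕ) : ℤ) by push_cast; ring,
    Int.natCast_dvd_natCast] at h6
  exact absurd (Nat.le_of_dvd two_pos h6) (by omega)

end Cfsg.Agent.S2496
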