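import Cfsg.Statements.S2503
import Cfsg.Agent.SL2.More

set_option autoImplicit false
open Cfsg

namespace Cfsg.Agent.S2503

open Cfsg.Agent.SL2

/-- The upper unitriangular subgroup as the range of a homomorphism. -/
def upHom {F : Type*} [Field F] : Multiplicative F →* SLT F where
  toFun a := upT a.toAdd
  map_one' := upT_zero
  map_mul' a b := upT_add a.toAdd b.toAdd

theorem key {F : Type*} [Field F] [Finite F] (h2 : (2 : F) = 0) {t : F} (ht : Ell t 1) (g : SLT F) :
    ∃ a ∈ Cen (cmp t), ∃ b : F, ∃ c ∈ Cen (cmp t), g = a * upT b * c := by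
  set s' := g * cmp t * g⁻¹ with hs'
  have htr : s'.1 0 0 + s'.1 1 1 = t := by
    rw [← Matrix.trace_fin_two, hs', sl_trace_conj, trace_cmp]
  have hN : ∀ X y : F, (X ≠ 0 ∨ y ≠ 0) → X ^ 2 + t * X * y + y ^ 2 ≠ 0 := by
    intro X y h e
    by_cases hy : y = 0
    · subst hy
      simp at h e
      exact h e
    · apply ht (-X / y)
      field_simp
      linear_combination e
  obtain ⟨X0, y0, h0, h1⟩ : ∃ X0 y0 : F, (X0 ≠ 0 ∨ y0 ≠ 0) ∧
      (s'.1 1 0 + 1) * X0 ^ 2 + (s'.1 0 1 + 1) * y0 ^ 2 = 0 := by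
    by_cases h : s'.1 1 0 + 1 = 0
    · exact ⟨1, 0, Or.inl one_ne_zero, by simp [h]⟩
    · obtain ⟨r, hr⟩ := isSquare_of_two_eq_zero h2 ((s'.1 0 1 + 1) / (s'.1 1 0 + 1))
      refine ⟨r, 1, Or.inr one_ne_zero, ?_⟩
      rw [sq r, ← hr]
      field_simp
      linear_combination (s'.1 0 1 + 1) * h2
  obtain ⟨r, hr⟩ := isSquare_of_two_eq_zero h2 (X0 ^ 2 + t * X0 * y0 + y0 ^ 2)
  have hr0 : r ≠ 0 := by
    rintro rfl
    exact hN X0 y0 h0 (by simpa using hr)
  obtain ⟨X, y, e1, e2⟩ : ∃ X y : F, X ^ 2 + t * X * y + y ^ 2 = 1 ∧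
      (s'.1 1 0 + 1) * X ^ 2 + (s'.1 0 1 + 1) * y ^ 2 = 0 :=
    ⟨X0 / r, y0 / r, by field_simp; linear_combination hr, by field_simp; linear_combination h1⟩
  let a : SLT F := mkSL !![X - t * y, -y; y, X] (by
    simp only [Matrix.det_fin_two_of]; linear_combination e1 - t * X * y * h2)
  have ha : a ∈ Cen (cmp t) := by
    rw [mem_cent_sl]
    apply m2_ext <;> simp [a, cmp_val, mul_ap] <;> ring
  set m := a * s' * a⁻¹ with hm
  have hm10 : m.1 1 0 = 1 := by
    rw [hm, sl_mul_val, sl_mul_val, sl_inv_val]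
    simp only [mul_ap]
    simp [a]
    linear_combination e1 + e2 + X * y * htr - (X ^ 2 + y ^ 2 + s'.1 0 1 * y ^ 2 + s'.1 1 1 * X * y) * h2
  have hmtr : m.1 0 0 + m.1 1 1 = t := by
    rw [← Matrix.trace_fin_two, hm, sl_trace_conj, Matrix.trace_fin_two, htr]
  have hmd := sl_det m
  have e : m = upT (m.1 0 0) * cmp t * (upT (m.1 0 0))⁻¹ := by
    rw [← upT_neg]
    apply sl_ext
    apply m2_ext <;> simp [upT_val, cmp_val, mul_ap, hm10]
    · rw [hm10] at hmd
      linear_combination -hmd + m.1 0 0 * hmtr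
    · linear_combination hmtr
  refine ⟨a⁻¹, inv_mem ha, m.1 0 0, (upT (m.1 0 0))⁻¹ * a * g, ?_, by group⟩
  rw [mem_cen']
  calc _ = (upT (m.1 0 0))⁻¹ * m * upT (m.1 0 0) := by rw [hm, hs']; group
    _ = _ := by nth_rewrite 2 [e]; group

/-- Let F be a finite field with q = 2^t ≥ 4 elements and L = PSL(2,F). Then L has a cyclic subgroup A of order q + 1 and an elementary abelian 2-subgroup B of order q such that L = ABA: every element of L is a product a·b·a' with a, a' ∈ A and b ∈ B. -/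
theorem result {F : Type*} [Field F] [Fintype F]
    (h2 : 2 ∣ Fintype.card F) (h4 : 4 ≤ Fintype.card F) :
    ∃ A B : Subgroup (Matrix.ProjectiveSpecialLinearGroup (Fin 2) F),
      IsCyclic A ∧ Nat.card A = Fintype.card F + 1 ∧ IsMulCommutative B ∧ (∀ b ∈ B, b * b = 1) ∧
        Nat.card B = Fintype.card F ∧
        ∀ g : Matrix.ProjectiveSpecialLinearGroup (Fin 2) F, ∃ a ∈ A, ∃ b ∈ B, ∃ c ∈ A, g = a * b * c := by
  have h2' : (2 : F) = 0 := two_eq_zero_of_even h2
  obtain ⟨t, ht⟩ := exists_ell (F := F)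
  have hell : Ell (cmp t).1.trace 1 := by rwa [trace_cmp]
  have hinj := pr_injective h2'
  have hup : Function.Injective (pr.comp (upHom (F := F))) :=
    hinj.comp (upT_injective.comp Multiplicative.toAdd.injective)
  refine ⟨(Cen (cmp t)).map pr, (pr.comp upHom).range, ?_, ?_, inferInstance, ?_, ?_, ?_⟩
  · have := isCyclic_cent_ell hell
    exact isCyclic_of_surjective _ (Subgroup.equivMapOfInjective _ _ hinj).surjective
  · rw [← Nat.card_congr (Subgroup.equivMapOfInjective _ _ hinj).toEquiv, card_cent_ell hell]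
  · rintro _ ⟨b, rfl⟩
    rw [← map_mul]
    have : b * b = 1 := by
      apply Multiplicative.toAdd.injective
      simp only [toAdd_mul, toAdd_one]
      linear_combination b.toAdd * h2'
    rw [this, map_one]
  · rw [← Nat.card_congr (MonoidHom.ofInjective hup).toEquiv, Nat.card_eq_fintype_card]
    simp
  · intro g
    obtain ⟨g, rfl⟩ := pr_surjective g
    obtain ⟨a, ha, b, c, hc, rfl⟩ := key h2' ht g
    exact ⟨pr a, Subgroup.mem_map_of_mem _ ha, pr (upT b), ⟨Multiplicative.ofAdd b, rfl⟩, pr c,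
      Subgroup.mem_map_of_mem _ hc, by simp⟩

end Cfsg.Agent.S2503
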