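import Cfsg.Statements.S2506
import Cfsg.Agent.PermB.Prod

set_option autoImplicit false
open scoped Pointwise
open Cfsg

namespace Cfsg.Agent.S2506


/-- In the alternating group of any degree, any two abelian subgroups of the largest possible order (among abelian subgroups) are conjugate. -/
theorem result (n : ℕ)
    (A B : Subgroup (alternatingGroup (Fin n))) (hA : IsMulCommutative A) (hB : IsMulCommutative B)
    (hAmax : ∀ C : Subgroup (alternatingGroup (Fin n)), IsMulCommutative C → Nat.card C ≤ Nat.card A)
    (hBmax : ∀ C : Subgroup (alternatingGroup (Fin n)), IsMulCommutative C → Nat.card C ≤ Nat.card B) :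
    ∃ g : alternatingGroup (Fin n), B = MulAut.conj g • A := by
  have hAB : Nat.card A = Nat.card B := le_antisymm (hBmax A hA) (hAmax B hB)
  obtain ⟨C, c1, c2⟩ := PermB.exists_alt_mm n
  have ha : PermB.mm n ≤ Nat.card A := c2 ▸ hAmax C c1
  by_cases h2 : n ≤ 2
  · have : Subsingleton (alternatingGroup (Fin n)) := by
      interval_cases n <;> exact ⟨by decide⟩
    exact ⟨1, Subsingleton.elim _ _⟩
  by_cases h5 : n = 5
  · subst h5
    have : Fact (Nat.Prime 5) := ⟨by norm_num⟩
    have hle := (PermB.isGreatest_alt 5 (by decide)).2 ⟨A, hA, rfl⟩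
    have e5 : PermB.mm 5 = 5 := rfl
    have hc : Nat.card (alternatingGroup (Fin 5)) = 60 := by
      rw [nat_card_alternatingGroup]; simp; decide
    have hf : (Nat.card (alternatingGroup (Fin 5))).factorization 5 = 1 := by
      rw [hc, show 60 = 5 * 12 by norm_num, Nat.factorization_mul (by decide) (by decide)]
      simp [Nat.Prime.factorization_self, this.out, Nat.factorization_eq_zero_of_not_dvd]
    let P := Sylow.ofCard A (p := 5) (by rw [hf]; omega)
    let Q := Sylow.ofCard B (p := 5) (by rw [hf]; omega)
    obtain ⟨g, hg⟩ := MulAction.exists_smul_eq (alternatingGroup (Fin 5)) P Q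
    exact ⟨g, (congrArg Sylow.toSubgroup hg).symm⟩
  obtain ⟨g, hg, h⟩ := PermB.exists_even_conj (A.map (alternatingGroup (Fin n)).subtype)
    (B.map (alternatingGroup (Fin n)).subtype) (Subgroup.map_subtype_le _)
    (Subgroup.map_subtype_le _) (by simp; omega) (by simp; omega) (by simp; omega)
    (by simpa using h5) (by rwa [Subgroup.card_subtype, Fintype.card_fin])
    (by rwa [Subgroup.card_subtype, Fintype.card_fin, ← hAB])
  refine ⟨⟨g, hg⟩, ?_⟩
  set A' := MulAut.conj (⟨g, hg⟩ : alternatingGroup (Fin n)) • A with hA'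
  have hc : Nat.card A' = Nat.card A := by
    rw [hA']; exact (Nat.card_congr (Subgroup.equivSMul _ A).toEquiv).symm
  have hcomm : ∀ a ∈ A', ∀ b ∈ B, a * b = b * a := by
    rintro _ ⟨a, haA, rfl⟩ b hb
    exact Subtype.ext (h a ⟨a, haA, rfl⟩ b ⟨b, hb, rfl⟩)
  have hA'c : IsMulCommutative A' := Subgroup.map_isMulCommutative _ _
  have hle : A' ≤ B := by
    intro a haA
    have : IsMulCommutative (Subgroup.closure (insert a (B : Set (alternatingGroup (Fin n))))) := by
      apply Subgroup.isMulCommutative_closure
      rintro x (rfl | hx) y (rfl | hy)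
      · rfl
      · exact hcomm _ haA _ hy
      · exact (hcomm _ haA _ hx).symm
      · exact setLike_mul_comm hx hy
    have h1 : B ≤ Subgroup.closure (insert a (B : Set (alternatingGroup (Fin n)))) :=
      fun x hx => Subgroup.subset_closure (Or.inr hx)
    rw [Subgroup.eq_of_le_of_card_ge h1 (hBmax _ this)]
    exact Subgroup.subset_closure (Or.inl rfl)
  exact (Subgroup.eq_of_le_of_card_ge hle (by omega)).symm

end Cfsg.Agent.S2506
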