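import Cfsg.Statements.S2507
import Cfsg.Agent.SL2.Index

set_option autoImplicit false
open Cfsg

namespace Cfsg.Agent.S2507

open Cfsg.Agent.SL2

/-- Let F be a finite field with q = 2^f ≥ 4 elements. The conjugacy class sizes of PSL(2,F) are exactly 1, q(q − 1), q² − 1 and q(q + 1). -/
theorem result {F : Type*} [Field F] [Fintype F]
    (h2 : 2 ∣ Fintype.card F) (h4 : 4 ≤ Fintype.card F) :
    Set.range (fun g : (Matrix.ProjectiveSpecialLinearGroup (Fin 2) F) => (Subgroup.centralizer ({g} : Set (Matrix.ProjectiveSpecialLinearGroup (Fin 2) F))).index) =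
      {1, Fintype.card F * (Fintype.card F - 1), Fintype.card F ^ 2 - 1, Fintype.card F * (Fintype.card F + 1)} := by
  have h2' : (2 : F) = 0 := two_eq_zero_of_even h2
  ext m
  simp only [Set.mem_range, Set.mem_insert_iff, Set.mem_singleton_iff]
  constructor
  · rintro ⟨x, rfl⟩
    obtain ⟨g, rfl⟩ := pr_surjective x
    by_cases hs : IsScal g.1
    · exact Or.inl (index_cent_pr_of_isScal hs)
    right
    rw [index_cent_pr_of_trace_ne (Or.inr h2')]
    by_cases hg : g.1.trace ^ 2 = 4
    · exact Or.inr (Or.inl (index_cen_par_even h2' hs hg))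
    · rcases ell_or_spl_one hg with h | h
      · exact Or.inl (index_cen_ell h)
      · exact Or.inr (Or.inr (index_cen_spl h))
  · rintro (rfl | rfl | rfl | rfl)
    · exact ⟨pr 1, index_cent_pr_of_isScal isScal_one⟩
    · obtain ⟨s, hs, -⟩ := exists_ell_generator (F := F)
      exact ⟨pr s, by rw [index_cent_pr_of_trace_ne (Or.inr h2'), index_cen_ell hs]⟩
    · exact ⟨pr (upT 1), by
        rw [index_cent_pr_of_trace_ne (Or.inr h2'),
          index_cen_par_even h2' (by simp [isScal_upT]) (by rw [trace_upT]; norm_num)]⟩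
    · obtain ⟨s, hs, -⟩ := exists_spl_generator h4
      exact ⟨pr s, by rw [index_cent_pr_of_trace_ne (Or.inr h2'), index_cen_spl hs]⟩

end Cfsg.Agent.S2507
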