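import Cfsg.Statements.S2510
import Cfsg.Agent.GLn.Spectrum

set_option autoImplicit false
open Cfsg

namespace Cfsg.Agent.S2510

open Cfsg.Agent.GLn Polynomial

theorem dich {F : Type*} [Field F] [Fintype F] (p : ℕ) [Fact p.Prime] [CharP F p] {n r : ℕ}
    (hr : r.Prime) (hrq : r ∣ Fintype.card F - 1) (hrn : ¬ r ∣ n) {k : ℕ} (hk : n ≤ p ^ k)
    (x : Matrix.ProjectiveSpecialLinearGroup (Fin n) F) :
    (∃ x' : Matrix.ProjectiveSpecialLinearGroup (Fin n) F,
      orderOf x ∣ orderOf x' ∧ r ∣ orderOf x') ∨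
      orderOf x ∣ singerOrder (Fintype.card F) n * p ^ k := by
  induction x using QuotientGroup.induction_on with | H g =>
  by_cases h : ∀ μ ν : AlgebraicClosure F,
      aeval μ (g : Matrix (Fin n) (Fin n) F).charpoly = 0 →
      aeval ν (g : Matrix (Fin n) (Fin n) F).charpoly = 0 → minpoly F ν = minpoly F μ
  · right
    simpa using psl_orderOf_dvd_of_primary p g h (k := k) (by simpa using hk)
  left
  push Not at h
  obtain ⟨μ, ν, hμ, hν, hne⟩ := h
  obtain ⟨l, -, hl⟩ := exists_orderOf_eq_of_dvd F hrq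
  obtain ⟨t, htc, ht⟩ := exists_commute_of_not_primary g hμ hν hne hr (by simpa using hrn) hl
  by_cases hx : r ∣ orderOf (QuotientGroup.mk g : Matrix.ProjectiveSpecialLinearGroup (Fin n) F)
  · exact ⟨_, dvd_rfl, hx⟩
  have hc : Commute (QuotientGroup.mk t : Matrix.ProjectiveSpecialLinearGroup (Fin n) F)
      (QuotientGroup.mk g) := htc.map (QuotientGroup.mk' _)
  have := hc.orderOf_mul_eq_mul_orderOf_of_coprime
    (by rw [ht]; exact (Nat.Prime.coprime_iff_not_dvd hr).mpr hx)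
  refine ⟨QuotientGroup.mk t * QuotientGroup.mk g, ?_, ?_⟩
  · rw [this]; exact dvd_mul_left _ _
  · rw [this, ht]; exact dvd_mul_right _ _

theorem orderOf_mult_dvd {m r : ℕ} (w : Multiplicative (Fin m → ZMod r)) : orderOf w ∣ r := by
  rw [orderOf_dvd_iff_pow_eq_one]
  apply Multiplicative.toAdd.injective
  ext i
  simp


/-- Let F be a finite field with q = p^a elements, n ≥ 2 (with q ≥ 4 when n = 2), L = PSL(n, F), and let r be a prime dividing q − 1 and not dividing n. Then for every m the direct product L × L × L × (ℤ/r)^m has the same set of element orders as L × L × L; and if n − 1 ≠ p^j for every j ≥ 0 (so never when n = 2, since 1 = p^0), then already L × L × (ℤ/r)^m has the same set of element orders as L × L. -/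
theorem result {F : Type*} [Field F] [Fintype F] (p a n r m : ℕ) (hp : p.Prime) (ha : 1 ≤ a) (hF : Fintype.card F = p ^ a)
    (hn : 2 ≤ n) (hn2 : n = 2 → 4 ≤ Fintype.card F) (hr : r.Prime) (hrq : r ∣ Fintype.card F - 1) (hrn : ¬ r ∣ n) :
    Set.range (orderOf : Matrix.ProjectiveSpecialLinearGroup (Fin n) F × Matrix.ProjectiveSpecialLinearGroup (Fin n) F × Matrix.ProjectiveSpecialLinearGroup (Fin n) F × Multiplicative (Fin m → ZMod r) → ℕ) =
      Set.range (orderOf : Matrix.ProjectiveSpecialLinearGroup (Fin n) F × Matrix.ProjectiveSpecialLinearGroup (Fin n) F × Matrix.ProjectiveSpecialLinearGroup (Fin n) F → ℕ) ∧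
    ((¬ ∃ j : ℕ, n - 1 = p ^ j) →
      Set.range (orderOf : Matrix.ProjectiveSpecialLinearGroup (Fin n) F × Matrix.ProjectiveSpecialLinearGroup (Fin n) F × Multiplicative (Fin m → ZMod r) → ℕ) =
        Set.range (orderOf : Matrix.ProjectiveSpecialLinearGroup (Fin n) F × Matrix.ProjectiveSpecialLinearGroup (Fin n) F → ℕ)) := by
  classical
  have : Fact p.Prime := ⟨hp⟩
  have : CharP F p := by
    obtain ⟨p', hp'⟩ := CharP.exists F
    obtain ⟨e, hp'', he⟩ := FiniteField.card F p'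
    have : p' ∣ p ^ a := by rw [← hF, he]; exact dvd_pow_self p' e.ne_zero
    rwa [← (Nat.prime_dvd_prime_iff_eq hp'' hp).mp (hp''.dvd_of_dvd_pow this)]
  have : NeZero r := ⟨hr.ne_zero⟩
  have hq : 1 < Fintype.card F := Fintype.one_lt_card
  obtain ⟨s, hs⟩ := exists_psl_singer F n (by omega)
  obtain ⟨l, hl0, hl⟩ := exists_orderOf_eq_of_dvd F hrq
  obtain ⟨w, hw⟩ := exists_psl_jordan_scalar p (a := n - 1) (n := n) (by omega) (by omega) l hl0
  have hln : orderOf (l ^ n) = r := by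
    rw [← hl]
    apply Nat.Coprime.orderOf_pow
    rw [hl]; exact (Nat.Prime.coprime_iff_not_dvd hr).mpr hrn
  rw [hln] at hw
  have hcop : ∀ k, Nat.Coprime (singerOrder (Fintype.card F) n) (p ^ k) := by
    intro k
    apply Nat.Coprime.pow_right
    apply Nat.Coprime.coprime_dvd_left (singerOrder_dvd _ _ hq.le)
    rw [Nat.coprime_comm, hp.coprime_iff_not_dvd]
    intro hd
    have h1 : p ∣ Fintype.card F ^ n := by
      rw [hF, ← pow_mul]; exact dvd_pow_self _ (by positivity)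
    have h2 := Nat.dvd_sub h1 hd
    rw [Nat.sub_sub_self (Nat.one_le_pow _ _ (by omega))] at h2
    exact hp.one_lt.ne' (Nat.dvd_one.mp h2)
  constructor
  · obtain ⟨u, hu⟩ : ∃ u : Matrix.ProjectiveSpecialLinearGroup (Fin n) F,
        orderOf u = p ^ Nat.clog p n := by
      obtain ⟨u, hu⟩ := exists_psl_orderOf_eq_of_coprime (1 + shiftN F n)
        (by rw [orderOf_jordan p]; exact pow_ne_zero _ hp.ne_zero) (by
          rw [orderOf_jordan p]
          apply Nat.Coprime.pow_left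
          rw [hp.coprime_iff_not_dvd]
          intro hd
          have h1 : p ∣ Fintype.card F := by rw [hF]; exact dvd_pow_self _ (by positivity)
          have h2 := Nat.dvd_sub h1 hd
          rw [Nat.sub_sub_self hq.le] at h2
          exact hp.one_lt.ne' (Nat.dvd_one.mp h2))
      exact ⟨u, by rw [hu, orderOf_jordan p]⟩
    apply Set.Subset.antisymm
    · rintro _ ⟨⟨x, y, z, v⟩, rfl⟩
      have hv := orderOf_mult_dvd v
      have hk : n ≤ p ^ Nat.clog p n := Nat.le_pow_clog hp.one_lt n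
      suffices ∃ x' y' z' : Matrix.ProjectiveSpecialLinearGroup (Fin n) F,
          orderOf x ∣ orderOf (x', y', z') ∧ orderOf y ∣ orderOf (x', y', z') ∧
          orderOf z ∣ orderOf (x', y', z') ∧ r ∣ orderOf (x', y', z') by
        obtain ⟨x', y', z', h1, h2, h3, h4⟩ := this
        refine mem_range_orderOf_of_dvd' (x', y', z') ?_
        simp only [Prod.orderOf_mk, Nat.lcm_dvd_iff] at *
        exact ⟨h1, h2, h3, hv.trans h4⟩
      have d1 : ∀ a b c : ℕ, a ∣ a.lcm (b.lcm c) := fun a b c => Nat.dvd_lcm_left _ _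
      have d2 : ∀ a b c : ℕ, b ∣ a.lcm (b.lcm c) := fun a b c =>
        (Nat.dvd_lcm_left _ _).trans (Nat.dvd_lcm_right _ _)
      have d3 : ∀ a b c : ℕ, c ∣ a.lcm (b.lcm c) := fun a b c =>
        (Nat.dvd_lcm_right _ _).trans (Nat.dvd_lcm_right _ _)
      simp only [Prod.orderOf_mk]
      rcases dich p hr hrq hrn hk x with ⟨x', h1, h2⟩ | hx
      · exact ⟨x', y, z, h1.trans (d1 ..), d2 .., d3 .., h2.trans (d1 ..)⟩
      rcases dich p hr hrq hrn hk y with ⟨y', h1, h2⟩ | hy
      · exact ⟨x, y', z, d1 .., h1.trans (d2 ..), d3 .., h2.trans (d2 ..)⟩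
      rcases dich p hr hrq hrn hk z with ⟨z', h1, h2⟩ | hz
      · exact ⟨x, y, z', d1 .., d2 .., h1.trans (d3 ..), h2.trans (d3 ..)⟩
      have hE : singerOrder (Fintype.card F) n * p ^ Nat.clog p n ∣
          (orderOf s).lcm ((orderOf u).lcm (orderOf w)) :=
        (hcop _).mul_dvd_of_dvd_of_dvd (hs ▸ d1 ..) (hu ▸ d2 ..)
      exact ⟨s, u, w, hx.trans hE, hy.trans hE, hz.trans hE,
        (hw ▸ Nat.dvd_lcm_right _ _ : r ∣ orderOf w).trans (d3 ..)⟩
    · rintro _ ⟨⟨x, y, z⟩, rfl⟩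
      exact ⟨(x, y, z, 1), by simp [Prod.orderOf_mk]⟩
  · intro hj
    apply Set.Subset.antisymm
    · rintro _ ⟨⟨x, y, v⟩, rfl⟩
      have hv := orderOf_mult_dvd v
      have hk : n ≤ p ^ Nat.clog p (n - 1) := by
        have h1 := Nat.le_pow_clog hp.one_lt (n - 1)
        have h2 : n - 1 ≠ p ^ Nat.clog p (n - 1) := fun h => hj ⟨_, h⟩
        omega
      suffices ∃ x' y' : Matrix.ProjectiveSpecialLinearGroup (Fin n) F,
          orderOf x ∣ orderOf (x', y') ∧ orderOf y ∣ orderOf (x', y') ∧ r ∣ orderOf (x', y') by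
        obtain ⟨x', y', h1, h2, h4⟩ := this
        refine mem_range_orderOf_of_dvd' (x', y') ?_
        simp only [Prod.orderOf_mk, Nat.lcm_dvd_iff] at *
        exact ⟨h1, h2, hv.trans h4⟩
      have d1 : ∀ a b : ℕ, a ∣ a.lcm b := fun a b => Nat.dvd_lcm_left _ _
      have d2 : ∀ a b : ℕ, b ∣ a.lcm b := fun a b => Nat.dvd_lcm_right _ _
      simp only [Prod.orderOf_mk]
      rcases dich p hr hrq hrn hk x with ⟨x', h1, h2⟩ | hx
      · exact ⟨x', y, h1.trans (d1 ..), d2 .., h2.trans (d1 ..)⟩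
      rcases dich p hr hrq hrn hk y with ⟨y', h1, h2⟩ | hy
      · exact ⟨x, y', d1 .., h1.trans (d2 ..), h2.trans (d2 ..)⟩
      have hE : singerOrder (Fintype.card F) n * p ^ Nat.clog p (n - 1) ∣
          (orderOf s).lcm (orderOf w) :=
        (hcop _).mul_dvd_of_dvd_of_dvd (hs ▸ d1 ..) ((hw ▸ d1 .. : _ ∣ orderOf w).trans (d2 ..))
      exact ⟨s, w, hx.trans hE, hy.trans hE,
        (hw ▸ Nat.dvd_lcm_right _ _ : r ∣ orderOf w).trans (d2 ..)⟩
    · rintro _ ⟨⟨x, y⟩, rfl⟩
      exact ⟨(x, y, 1), by simp [Prod.orderOf_mk]⟩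

end Cfsg.Agent.S2510
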