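import Cfsg.Statements.S2511
import Cfsg.Agent.HForm.USpec
import Cfsg.Agent.HForm.Absorb

set_option autoImplicit false
open Cfsg

namespace Cfsg.Agent.S2511

open Cfsg.Agent.HForm Polynomial

theorem absorb2 {L Z : Type*} [Group L] [Finite L] [Group Z] (r : ℕ) (hZ : ∀ z : Z, z ^ r = 1)
    (E : ℕ) (hd : ∀ x : L, (∃ x' : L, orderOf x ∣ orderOf x' ∧ r ∣ orderOf x') ∨ orderOf x ∣ E)
    (s w : L) (hE : E ∣ (orderOf s).lcm (orderOf w)) (hw : r ∣ orderOf w) :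
    Set.range (orderOf : L × L × Z → ℕ) = Set.range (orderOf : L × L → ℕ) := by
  apply Set.Subset.antisymm
  · rintro _ ⟨⟨x, y, v⟩, rfl⟩
    have hv : orderOf v ∣ r := orderOf_dvd_of_pow_eq_one (hZ v)
    suffices ∃ x' y' : L,
        orderOf x ∣ orderOf (x', y') ∧ orderOf y ∣ orderOf (x', y') ∧ r ∣ orderOf (x', y') by
      obtain ⟨x', y', h1, h2, h4⟩ := this
      refine mem_range_orderOf_of_dvd ⟨(x', y'), rfl⟩ ?_
      simp only [Prod.orderOf_mk, Nat.lcm_dvd_iff] at *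
      exact ⟨h1, h2, hv.trans h4⟩
    have d1 : ∀ a b : ℕ, a ∣ a.lcm b := fun a b => Nat.dvd_lcm_left _ _
    have d2 : ∀ a b : ℕ, b ∣ a.lcm b := fun a b => Nat.dvd_lcm_right _ _
    simp only [Prod.orderOf_mk]
    rcases hd x with ⟨x', h1, h2⟩ | hx
    · exact ⟨x', y, h1.trans (d1 ..), d2 .., h2.trans (d1 ..)⟩
    rcases hd y with ⟨y', h1, h2⟩ | hy
    · exact ⟨x, y', d1 .., h1.trans (d2 ..), h2.trans (d2 ..)⟩
    exact ⟨s, w, hx.trans hE, hy.trans hE, hw.trans (d2 ..)⟩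
  · rintro _ ⟨⟨x, y⟩, rfl⟩
    exact ⟨(x, y, 1), by simp [Prod.orderOf_mk]⟩

theorem absorb3 {L Z : Type*} [Group L] [Finite L] [Group Z] (r : ℕ) (hZ : ∀ z : Z, z ^ r = 1)
    (E : ℕ) (hd : ∀ x : L, (∃ x' : L, orderOf x ∣ orderOf x' ∧ r ∣ orderOf x') ∨ orderOf x ∣ E)
    (s u w : L) (hE : E ∣ (orderOf s).lcm (orderOf u)) (hw : r ∣ orderOf w) :
    Set.range (orderOf : L × L × L × Z → ℕ) = Set.range (orderOf : L × L × L → ℕ) := by
  apply Set.Subset.antisymm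
  · rintro _ ⟨⟨x, y, z, v⟩, rfl⟩
    have hv : orderOf v ∣ r := orderOf_dvd_of_pow_eq_one (hZ v)
    suffices ∃ x' y' z' : L,
        orderOf x ∣ orderOf (x', y', z') ∧ orderOf y ∣ orderOf (x', y', z') ∧
        orderOf z ∣ orderOf (x', y', z') ∧ r ∣ orderOf (x', y', z') by
      obtain ⟨x', y', z', h1, h2, h3, h4⟩ := this
      refine mem_range_orderOf_of_dvd ⟨(x', y', z'), rfl⟩ ?_
      simp only [Prod.orderOf_mk, Nat.lcm_dvd_iff] at *
      exact ⟨h1, h2, h3, hv.trans h4⟩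
    have d1 : ∀ a b c : ℕ, a ∣ a.lcm (b.lcm c) := fun a b c => Nat.dvd_lcm_left _ _
    have d2 : ∀ a b c : ℕ, b ∣ a.lcm (b.lcm c) := fun a b c =>
      (Nat.dvd_lcm_left _ _).trans (Nat.dvd_lcm_right _ _)
    have d3 : ∀ a b c : ℕ, c ∣ a.lcm (b.lcm c) := fun a b c =>
      (Nat.dvd_lcm_right _ _).trans (Nat.dvd_lcm_right _ _)
    simp only [Prod.orderOf_mk]
    rcases hd x with ⟨x', h1, h2⟩ | hx
    · exact ⟨x', y, z, h1.trans (d1 ..), d2 .., d3 .., h2.trans (d1 ..)⟩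
    rcases hd y with ⟨y', h1, h2⟩ | hy
    · exact ⟨x, y', z, d1 .., h1.trans (d2 ..), d3 .., h2.trans (d2 ..)⟩
    rcases hd z with ⟨z', h1, h2⟩ | hz
    · exact ⟨x, y, z', d1 .., d2 .., h1.trans (d3 ..), h2.trans (d3 ..)⟩
    have hE' : E ∣ (orderOf s).lcm ((orderOf u).lcm (orderOf w)) :=
      hE.trans (Nat.lcm_dvd (d1 ..) (d2 ..))
    exact ⟨s, u, w, hx.trans hE', hy.trans hE', hz.trans hE', hw.trans (d3 ..)⟩
  · rintro _ ⟨⟨x, y, z⟩, rfl⟩
    exact ⟨(x, y, z, 1), by simp [Prod.orderOf_mk]⟩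

theorem dich {F : Type*} [Field F] [Fintype F] {q : ℕ} (hF : Fintype.card F = q ^ 2) (p : ℕ)
    [hp : Fact p.Prime] [CharP F p] {n r : ℕ} (hn : 3 ≤ n)
    (hr : r.Prime) (hrq : r ∣ q + 1) (hrn : ¬ r ∣ n) {k : ℕ} (hk : n ≤ p ^ k) (x : PSU n F q) :
    (∃ x' : PSU n F q, orderOf x ∣ orderOf x' ∧ r ∣ orderOf x') ∨ orderOf x ∣ uA q n * p ^ k := by
  classical
  by_cases hrx : r ∣ orderOf x
  · exact Or.inl ⟨x, dvd_rfl, hrx⟩
  induction x using QuotientGroup.induction_on with | H g =>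
  obtain ⟨τ, hτ⟩ := exists_tau hF F
  obtain ⟨hR, h0, hcard, hprod⟩ := su_evs (K := AlgebraicClosure F) hF g
  obtain ⟨R, hRg⟩ : ∃ R, R = (g.1 : Matrix (Fin n) (Fin n) F).charpoly.aroots
    (AlgebraicClosure F) := ⟨_, rfl⟩
  rw [← hRg] at hR h0 hcard hprod
  obtain ⟨j, hj, hj'⟩ := exists_min_pow_count R p hp.out.two_le
  obtain ⟨y, hy, hyj⟩ : ∃ y ∈ R, j = 0 ∨ p ^ (j - 1) < R.count y := by
    rcases hj' with h | ⟨y, hy, h⟩
    · obtain ⟨y, hy⟩ := Multiset.card_pos_iff_exists_mem.mp (by omega : 0 < R.card)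
      exact ⟨y, hy, Or.inl h⟩
    · exact ⟨y, hy, Or.inr h⟩
  obtain ⟨d, R', hd, hfix, hnd, hRR, hR', -⟩ := exists_orb (uinv_injective hF) hR hy
  by_cases hR0 : R' = 0
  · right
    refine psu_primary hF hn p g hfix (μ := R.count y) (by rw [← hRg]; simpa [hR0] using hRR)
      fun z => ?_
    rw [← hRg]
    exact (Multiset.count_le_card _ _).trans (hcard ▸ hk)
  left
  have hy0 : y ≠ 0 := fun h => h0 (h ▸ hy)
  have hμ := Multiset.count_pos.mpr hy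
  have hsub : ∀ z ∈ R', z ∈ R := fun z hz => hRR ▸ Multiset.mem_add.mpr (Or.inr hz)
  obtain ⟨δ1, hδ1, h1⟩ := formP_u_primary hF hτ p hy0 hd hμ hfix hnd (hj y) hyj
  obtain ⟨δ2, hδ2, h2⟩ := formP_u_ss hF hτ R' hR' (fun h => h0 (hsub 0 h))
  obtain ⟨ω, hω, hω1⟩ := exists_norm_one_order hF hrq
  have hω0 : ω ≠ 0 := by rintro rfl; simp at hω1
  have hc : R.count y * d + R'.card = n := by
    rw [← hcard]; conv_rhs => rw [hRR]
    rw [Multiset.card_add, Multiset.card_nsmul, card_orb]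
  obtain ⟨a, ha⟩ : ∃ a, a = R.count y * d := ⟨_, rfl⟩
  obtain ⟨b, hb⟩ : ∃ b, b = R'.card := ⟨_, rfl⟩
  rw [← ha] at h1 hc
  rw [← hb] at h2 hc
  have hδ : δ1 * δ2 = 1 := by
    apply (algebraMap F (AlgebraicClosure F)).injective
    rw [map_mul, hδ1, hδ2, ← Multiset.prod_add, ← hRR, hprod, map_one]
  obtain ⟨w, hw⟩ := (((h1.smul (ω ^ b) (by
      rw [mul_tau_eq_one_iff hτ, ← pow_mul, mul_comm, pow_mul, hω1, one_pow])).sum
    (h2.smul (ω⁻¹ ^ a) (by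
      rw [mul_tau_eq_one_iff hτ, ← pow_mul, mul_comm, pow_mul, inv_pow, hω1, inv_one,
        one_pow]))).congr hc (δ' := 1) (by
      rw [← pow_mul, ← pow_mul, mul_comm b a, inv_pow]
      field_simp
      exact hδ) (fun _ _ => Iff.rfl)).toPSU hF hτ hn
  obtain ⟨c, ⟨hc1, hc2⟩, hc3⟩ := (hw _).mp dvd_rfl
  obtain ⟨m, hm⟩ : ∃ m, m = orderOf w := ⟨_, rfl⟩
  rw [← hm] at hc1 hc2 hc3
  obtain ⟨z, hz⟩ := Multiset.exists_mem_of_ne_zero hR0
  obtain ⟨c0, hc0⟩ := (psu_dvd_iff hF hn g _).mp dvd_rfl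
  have he := evs_pow_eq (AlgebraicClosure F) _ _ _ hc0
  rw [← hRg] at he
  obtain ⟨t, ht⟩ : ∃ t, t = orderOf (QuotientGroup.mk g : PSU n F q) := ⟨_, rfl⟩
  rw [← ht] at he hrx ⊢
  have hz0 : z ≠ 0 := fun h => h0 (hsub 0 (h ▸ hz))
  have hrm : r ∣ m := by
    have e1 := hc1 y (self_mem_orb hd y)
    have e2 := hc3 z hz
    have hcc : c ≠ 0 := by
      rintro rfl
      simp [hz0] at e2
    have e3 : (y ^ m) ^ t = (z ^ m) ^ t := by
      rw [← pow_mul, ← pow_mul, mul_comm, pow_mul, pow_mul, he y hy, he z (hsub z hz)]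
    rw [e1, e2, ← map_pow, ← map_pow] at e3
    have e4 := (algebraMap F (AlgebraicClosure F)).injective e3
    have e5 : ω ^ (n * m * t) = 1 := by
      rw [← hc]
      simp only [div_pow, inv_pow, ← pow_mul] at e4
      field_simp at e4
      rw [← pow_add] at e4
      rw [show (a + b) * m * t = b * m * t + a * m * t by ring]
      exact e4.symm
    rw [← orderOf_dvd_iff_pow_eq_one, hω] at e5
    rcases (hr.dvd_mul).mp e5 with h | h
    · exact ((hr.dvd_mul).mp h).resolve_left hrn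
    · exact absurd h hrx
  have hωm : ω ^ m = 1 := by rw [← orderOf_dvd_iff_pow_eq_one, hω]; exact hrm
  refine ⟨w, ?_, hm ▸ hrm⟩
  rw [← hm]
  rw [← pow_mul, mul_comm b m, pow_mul, hωm, one_pow, div_one] at hc1
  rw [← pow_mul, mul_comm a m, pow_mul, inv_pow, hωm, inv_one, one_pow, div_one] at hc3
  obtain ⟨M, hM⟩ := hc2
  have hall : ∀ u ∈ R, u ^ m = algebraMap F _ c := by
    intro u hu
    rw [hRR, Multiset.mem_add, Multiset.mem_nsmul_of_ne_zero hμ.ne'] at hu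
    exact hu.elim (hc1 u) (hc3 u)
  have : CharP (AlgebraicClosure F) p := inferInstance
  have hall' : ∀ u ∈ R, u ^ M = y ^ M := by
    intro u hu
    apply (iterateFrobenius (AlgebraicClosure F) p j).injective
    rw [iterateFrobenius_def, iterateFrobenius_def, ← pow_mul, ← pow_mul, mul_comm, ← hM,
      hall u hu, hall y hy]
  rw [ht, hM, mul_comm]
  exact psu_dvd_of_evs hF hn p g (norm_one_of_const hR h0 hy hall') (hRg ▸ hall') (hRg ▸ hj)

/-- Let F be a finite field with q² elements, q = p^a, n ≥ 3 with (n, q) ≠ (3, 2), L = PSU(n, q) realised over F, and let r be a prime dividing q + 1 and not dividing n. Then for every m the direct product L × L × L × (ℤ/r)^m has the same set of element orders as L × L × L; and if n − 1 is not a power of p, then already L × L × (ℤ/r)^m has the same set of element orders as L × L. -/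
theorem result {F : Type*} [Field F] [Fintype F] (p a n q r m : ℕ) (hp : p.Prime) (ha : 1 ≤ a) (hq : q = p ^ a) (hF : Fintype.card F = q ^ 2)
    (hn : 3 ≤ n) (hn3 : ¬ (n = 3 ∧ q = 2)) (hr : r.Prime) (hrq : r ∣ q + 1) (hrn : ¬ r ∣ n) :
    Set.range (orderOf : Cfsg.PSU n F q × Cfsg.PSU n F q × Cfsg.PSU n F q × Multiplicative (Fin m → ZMod r) → ℕ) = Set.range (orderOf : Cfsg.PSU n F q × Cfsg.PSU n F q × Cfsg.PSU n F q → ℕ) ∧
    ((¬ ∃ j : ℕ, n - 1 = p ^ j) →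
      Set.range (orderOf : Cfsg.PSU n F q × Cfsg.PSU n F q × Multiplicative (Fin m → ZMod r) → ℕ) = Set.range (orderOf : Cfsg.PSU n F q × Cfsg.PSU n F q → ℕ)) := by
  have := Fact.mk hp
  have : CharP F p := charP_of_card_eq_prime_pow (by rw [hF, hq, ← pow_mul])
  obtain ⟨τ, hτ⟩ := exists_tau hF F
  have hq2 := two_le_of_sq hF
  obtain ⟨s, hs⟩ := uA_mem hF hn
  obtain ⟨ω, hω, hω1⟩ := exists_norm_one_order hF hrq
  have hω0 : ω ≠ 0 := by rintro rfl; simp at hω1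
  have hcl : ∀ e, 1 < e → p ^ (Nat.clog p e - 1) < e := fun e he =>
    Nat.pow_pred_clog_lt_self hp.one_lt he
  obtain ⟨u, hu⟩ := ((formP_u_jordan (tau_tau hF hτ) (exists_tau_ne hF hτ) p 1 (by simp) n
    (Nat.clog p n) (by omega) (Nat.le_pow_clog hp.one_lt n) (Or.inr (hcl n (by omega)))).congr rfl
      (one_pow _) (fun _ _ => Iff.rfl)).toPSU hF hτ hn
  obtain ⟨w, hw⟩ := (((formP_u_jordan (tau_tau hF hτ) (exists_tau_ne hF hτ) p ω
    ((mul_tau_eq_one_iff hτ ω).mpr hω1) (n - 1)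
    (Nat.clog p (n - 1)) (by omega) (Nat.le_pow_clog hp.one_lt _)
    (Or.inr (hcl _ (by omega)))).sum (formP_scalar (tau_tau hF hτ) (ω⁻¹ ^ (n - 1)) (by
      rw [mul_tau_eq_one_iff hτ, ← pow_mul, mul_comm, pow_mul, inv_pow, hω1, inv_one,
        one_pow]) 1)).congr (n' := n) (by omega)
      (δ' := 1) (by simp [hω0]) (fun _ _ => Iff.rfl)).toPSU hF hτ hn
  obtain ⟨-, -, hu1⟩ := (hu _).mp dvd_rfl
  obtain ⟨c, ⟨hw1, hw2⟩, hw3⟩ := (hw _).mp dvd_rfl
  have hwr : r ∣ orderOf w := by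
    have e := hw3.resolve_left one_ne_zero
    rw [← hw1, inv_pow, inv_pow, ← pow_mul, inv_eq_iff_eq_inv,
      ← mul_eq_one_iff_eq_inv₀ (pow_ne_zero _ hω0), ← pow_add, ← orderOf_dvd_iff_pow_eq_one, hω,
      show (n - 1) * orderOf w + orderOf w = n * orderOf w by
        rw [← Nat.succ_mul]; congr 1; omega] at e
    exact (hr.dvd_mul.mp e).resolve_left hrn
  have hcop : ∀ k, Nat.Coprime (uA q n) (p ^ k) := fun k =>
    Nat.Coprime.pow_right _ ((hp.coprime_iff_not_dvd.mpr fun h =>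
      not_dvd_ua hp (char_dvd_q hF p) (by omega) (by omega : 0 < n)
        (h.trans (uA_dvd_ua q n))).symm)
  refine ⟨absorb3 r (zmod_pow_eq_one m r) _
    (dich hF p hn hr hrq hrn (Nat.le_pow_clog hp.one_lt n)) s u w
    ((hcop _).mul_dvd_of_dvd_of_dvd (hs ▸ Nat.dvd_lcm_left _ _)
      (hu1.trans (Nat.dvd_lcm_right _ _))) hwr, fun hj => ?_⟩
  have hk : n ≤ p ^ Nat.clog p (n - 1) := by
    have h1 := Nat.le_pow_clog hp.one_lt (n - 1)
    have h2 : n - 1 ≠ p ^ Nat.clog p (n - 1) := fun h => hj ⟨_, h⟩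
    omega
  exact absorb2 r (zmod_pow_eq_one m r) _ (dich hF p hn hr hrq hrn hk) s w
    ((hcop _).mul_dvd_of_dvd_of_dvd (hs ▸ Nat.dvd_lcm_left _ _)
      (hw2.trans (Nat.dvd_lcm_right _ _))) hwr

end Cfsg.Agent.S2511
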