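import Cfsg.Statements.S2512
import Cfsg.Agent.HForm.SpSpec
import Cfsg.Agent.HForm.Absorb

set_option autoImplicit false
open Cfsg

namespace Cfsg.Agent.S2512

open Cfsg.Agent.HForm Polynomial

theorem tri {F : Type*} [Field F] [Fintype F] (p n : ℕ) [hp : Fact p.Prime] [CharP F p]
    (hodd : Odd (Fintype.card F)) (hn : 1 ≤ n) (x : PSp n F) (hx : ¬ 2 ∣ orderOf x) :
    2 * orderOf x ∈ Set.range (orderOf : PSp n F → ℕ) ∨
      (orderOf x ∣ Fintype.card F ^ n - 1 ∨ orderOf x ∣ Fintype.card F ^ n + 1) ∨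
      ((∃ j, 2 * n - 1 = p ^ j) ∧ ∃ j, orderOf x = p ^ j) := by
  classical
  have hxo : Odd (orderOf x) := Nat.odd_iff.mpr (by omega)
  obtain ⟨g, rfl, hg⟩ := psp_lift_odd x hxo
  set t := orderOf (QuotientGroup.mk g : PSp n F) with ht
  set K := AlgebraicClosure F
  set q := Fintype.card F with hq
  set R := (g : Matrix (Fin n ⊕ Fin n) (Fin n ⊕ Fin n) F).charpoly.aroots K with hR
  have h2F := two_ne_zero_of_odd hodd
  have h2K : (2 : K) ≠ 0 := by
    rw [← map_ofNat (algebraMap F K) 2]; simpa using h2F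
  have hp2 : p ≠ 2 := by
    rintro rfl; exact h2F CharTwo.two_eq_zero
  have hpodd := hp.out.odd_of_ne_two hp2
  have hinj : Function.Injective (fun y : K => y ^ q) := frob_injective
  have hfrob : R.map (fun y => y ^ q) = R := aroots_frob _
  have hinv : R.map (·⁻¹) = R := sp_evs_inv K g
  have hcard : R.card = 2 * n := by rw [hR, card_evs]; simp [two_mul]
  have h0 : (0 : K) ∉ R := zero_notMem_evs K _
    (by rw [SymplecticGroup.det_eq_one g.2]; exact one_ne_zero)
  have hRt : ∀ y ∈ R, y ^ t = 1 := fun y hy => by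
    simpa using evs_pow_eq K _ t 1 (by simpa using hg) y hy
  have hsign : ∀ y ∈ R, ∀ (o : ℕ) (c : F), (c = 1 ∨ c = -1) → y ^ o = algebraMap F K c →
      y ^ o = 1 := by
    intro y hy o c hc h
    refine pow_eq_one_of_odd hxo (hRt y hy) ?_
    rw [mul_comm, pow_mul, h]
    rcases hc with rfl | rfl <;> simp
  have hone : ∀ y ∈ R, y = y⁻¹ → y = 1 := by
    intro y hy h
    have := hsign y hy 1
    rcases eq_one_or_neg_one_of_eq_inv (fun h => h0 (h ▸ hy)) h with h | h
    · exact h
    · simpa using this (-1) (Or.inr rfl) (by simp [h])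
  have hmem : ∀ y ∈ R, y ∈ core R ∨ y = 1 := fun y hy => by
    by_cases h : y = y⁻¹
    · exact Or.inr (hone y hy h)
    · exact Or.inl (mem_core.mpr ⟨hy, h⟩)
  have hfinal : ∀ (y : PSp n F) (k : ℕ), (∀ z, R.count z ≤ p ^ k) → p ^ k ∣ orderOf y →
      (∀ z ∈ core R, z ^ orderOf y = 1) → Even (orderOf y) →
      2 * t ∈ Set.range (orderOf : PSp n F → ℕ) := by
    intro y k hk h1 h2 h3
    refine mem_range_orderOf_of_dvd ⟨y, rfl⟩ ?_
    refine Nat.Coprime.mul_dvd_of_dvd_of_dvd hxo.coprime_two_left h3.two_dvd ?_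
    refine psp_dvd_iff g _ (pow_eq_one_of_evs (K := K) p _ _ k (fun z hz => ?_) h1 hk)
    rcases hmem z hz with h | rfl
    · exact h2 z h
    · simp
  have hS := core_frob hinj hfrob
  have hS' := core_inv hinv
  have hSne : ∀ x ∈ core R, x ≠ x⁻¹ := fun x hx => (mem_core.mp hx).2
  obtain ⟨-, D, hD⟩ := prod_eq_one_of_inv _ (core R) rfl hS' hSne
  have hev : ∀ T : Multiset K, (∀ x ∈ T, x ≠ x⁻¹) → ∀ x, x = x⁻¹ → Even (T.count x) := by
    intro T hT x hx
    rw [Multiset.count_eq_zero_of_notMem (fun h => hT x h hx)]; exact Even.zero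
  obtain ⟨k, hk, hk'⟩ := exists_min_pow_count R p hp.out.two_le
  rcases Nat.eq_zero_or_pos k with rfl | hk0
  · -- semisimple with distinct eigenvalues
    have h1R : (1 : K) ∉ R := by
      intro h1
      have h3 := card_core_add_count_le R (x := 1) (by simp)
      have h4 := Multiset.count_pos.mpr h1
      have h5 : R ≤ core R + {1} := by
        rw [Multiset.le_iff_subset (Multiset.nodup_iff_count_le_one.mpr (by simpa using hk))]
        intro y hy
        rcases hmem y hy with h | rfl
        · exact Multiset.mem_add.mpr (Or.inl h)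
        · simp
      have := Multiset.card_le_card h5
      simp at this; omega
    have hRc : ∀ y ∈ R, y ∈ core R := fun y hy => (hmem y hy).resolve_right (fun h => h1R (h ▸ hy))
    have hDn : (core R).card = 2 * n := by
      apply le_antisymm (hcard ▸ Multiset.card_le_card (core_le R))
      rw [← hcard]
      refine Multiset.card_le_card ?_
      rw [Multiset.le_iff_subset (Multiset.nodup_iff_count_le_one.mpr (by simpa using hk))]
      exact hRc
    obtain ⟨y, hy⟩ := Multiset.card_pos_iff_exists_mem.mp (by omega : 0 < (core R).card)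
    have hy0 : y ≠ 0 := fun h => h0 (h ▸ (mem_core.mp hy).1)
    obtain ⟨d, hd, hPM, -, -, hle⟩ := exists_chunk hinj hS hS' hy (hSne y hy)
    rw [Multiset.count_eq_one_of_mem (core_nodup R) hy, one_nsmul] at hle
    obtain ⟨S', hS'eq⟩ := Multiset.le_iff_exists_add.mp hle
    have hcS : 2 * d + S'.card = 2 * n := by rw [← hDn, hS'eq, Multiset.card_add, card_chunk]
    by_cases hS'0 : S' = 0
    · right; left
      have hdn : d = n := by simp [hS'0] at hcS; omega
      subst hdn
      have key : ∀ o, y ^ o = 1 → t ∣ o := by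
        intro o ho
        refine psp_dvd_iff g _ (pow_eq_one_of_evs (K := K) p _ _ 0 (fun z hz => ?_) (by simp) hk)
        have := hRc z hz
        rw [hS'eq, hS'0, add_zero] at this
        rwa [orderOf_of_mem_chunk hinj this]
      exact (hPM.pow_eq_one hy0 Fintype.card_pos).imp (key _) (key _)
    · left
      have hS'sub : ∀ z ∈ S', z ∈ core R := fun z hz => hS'eq ▸ Multiset.mem_add.mpr (Or.inr hz)
      obtain ⟨δ1, h1⟩ := formP_sp_torus (F := F) hd y hy0 hPM
      obtain ⟨δ2, h2⟩ := formP_sp_ss (F := F) S' (map_eq_of_add (hS'eq ▸ hS) (chunk_frob hPM))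
        (map_eq_of_add (hS'eq ▸ hS') (chunk_inv _ _ _))
        (fun h => h0 (mem_core.mp (hS'sub 0 h)).1) (hev S' fun z hz => hSne z (hS'sub z hz))
      obtain ⟨w, hw⟩ := (((h1.smul (-1) (by simp)).sum h2).congr hcS rfl
        (fun _ _ => Iff.rfl)).toPSp
      obtain ⟨c, hc, hW⟩ : ∃ c : F, (c = 1 ∨ c = -1) ∧
          (y ^ orderOf w = algebraMap F K (c / (-1) ^ orderOf w) ∧
            ∀ z ∈ S', z ^ orderOf w = algebraMap F K c) := by
        rcases (hw _).mp dvd_rfl with h | h
        · exact ⟨1, Or.inl rfl, h.1.1, h.2⟩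
        · exact ⟨-1, Or.inr rfl, h.1.1, h.2⟩
      obtain ⟨z, hz⟩ := Multiset.exists_mem_of_ne_zero hS'0
      have hc1 : c = 1 := by
        apply (algebraMap F K).injective
        rw [← hW.2 z hz, map_one]
        exact hsign z (mem_core.mp (hS'sub z hz)).1 _ c hc (hW.2 z hz)
      subst hc1
      have hy1 : y ^ orderOf w = 1 := by
        refine hsign y (mem_core.mp hy).1 _ _ ?_ hW.1
        rcases neg_one_pow_eq_or F (orderOf w) with h | h <;> simp [h]
      refine hfinal w 0 hk (by simp) (fun z hz => ?_) ?_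
      · rw [hS'eq, Multiset.mem_add] at hz
        rcases hz with hz | hz
        · rwa [orderOf_of_mem_chunk hinj hz]
        · simpa using hW.2 z hz
      · refine even_of_neg_one_pow h2F ?_
        have := hW.1
        rw [hy1, ← map_one (algebraMap F K)] at this
        have := (algebraMap F K).injective this
        rw [one_div] at this
        exact inv_eq_one.mp this.symm
  · obtain ⟨y, hyR, hy⟩ := hk'.resolve_left hk0.ne'
    obtain ⟨e, he⟩ : Even (p ^ (k - 1) + 1) := hpodd.pow.add_one
    have hpk : 0 < p ^ (k - 1) := pow_pos hp.out.pos _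
    have hDe : D + e ≤ n := by
      rcases hmem y hyR with h | rfl
      · have := card_core_add_two_count_le hinv (hSne y h) hyR
        omega
      · have := card_core_add_count_le R (x := 1) (by simp)
        omega
    by_cases hbad : core R = 0 ∧ e = n
    · right; right
      refine ⟨⟨k - 1, by omega⟩, ?_⟩
      have : t ∣ p ^ k := by
        refine psp_dvd_iff g _ (pow_eq_one_of_evs (K := K) p _ _ k (fun z hz => ?_) dvd_rfl hk)
        rcases hmem z hz with h | rfl
        · simp [hbad.1] at h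
        · simp
      obtain ⟨j, -, hj⟩ := (Nat.dvd_prime_pow hp.out).mp this
      exact ⟨j, hj⟩
    left
    obtain ⟨δ1, h1⟩ := formP_sp_ss (F := F) (core R) hS hS' (fun h => h0 (mem_core.mp h).1)
      (hev _ hSne)
    have h2 := formP_sp_jordan (F := F) p (-1) (by simp) e k (by omega) (by
      have : p ^ k = p ^ (k - 1) * p := by rw [← pow_succ]; congr 1; omega
      have := hp.out.two_le
      nlinarith) (by omega)
    have h3 := formP_sp_scalar (F := F) 1 (by simp) (n - D - e)
    obtain ⟨w, hw⟩ := (((h1.sum h2).sum h3).congr (n' := 2 * n) (by omega) rfl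
        (fun _ _ => Iff.rfl)).toPSp
    obtain ⟨c, hc, hW1, hW2, hW3⟩ : ∃ c : F, (c = 1 ∨ c = -1) ∧
          (∀ z ∈ core R, z ^ orderOf w = algebraMap F K c) ∧
            ((-1) ^ orderOf w = c ∧ p ^ k ∣ orderOf w) ∧ (n - D - e = 0 ∨ 1 ^ orderOf w = c) := by
      rcases (hw _).mp dvd_rfl with h | h
      · exact ⟨1, Or.inl rfl, h.1.1, h.1.2, h.2⟩
      · exact ⟨-1, Or.inr rfl, h.1.1, h.1.2, h.2⟩
    have hc1 : c = 1 := by
      by_cases hc0 : core R = 0
      · have hD0 : D = 0 := by simp [hc0] at hD; omega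
        rcases hW3 with h | h
        · exact absurd ⟨hc0, by omega⟩ hbad
        · simpa using h.symm
      · obtain ⟨z, hz⟩ := Multiset.exists_mem_of_ne_zero hc0
        apply (algebraMap F K).injective
        rw [← hW1 z hz, map_one]
        exact hsign z (mem_core.mp hz).1 _ c hc (hW1 z hz)
    subst hc1
    exact hfinal w k hk hW2.2 (fun z hz => by simpa using hW1 z hz)
      (even_of_neg_one_pow h2F hW2.1)

/-- Let F be a finite field of odd order q = p^a, n ≥ 2 (with q ≥ 3 automatic), and L = PSp(2n, F). Then for every m the direct product L × L × L × (ℤ/2)^m has the same set of element orders as L × L × L; and if 2n − 1 is not a power of p, then already L × L × (ℤ/2)^m has the same set of element orders as L × L. -/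
theorem result {F : Type*} [Field F] [Fintype F] (p a n m : ℕ) (hp : p.Prime) (ha : 1 ≤ a) (hF : Fintype.card F = p ^ a) (hodd : Odd (Fintype.card F))
    (hn : 2 ≤ n) :
    Set.range (orderOf : Cfsg.PSp n F × Cfsg.PSp n F × Cfsg.PSp n F × Multiplicative (Fin m → ZMod 2) → ℕ) = Set.range (orderOf : Cfsg.PSp n F × Cfsg.PSp n F × Cfsg.PSp n F → ℕ) ∧
    ((¬ ∃ j : ℕ, 2 * n - 1 = p ^ j) →
      Set.range (orderOf : Cfsg.PSp n F × Cfsg.PSp n F × Multiplicative (Fin m → ZMod 2) → ℕ) = Set.range (orderOf : Cfsg.PSp n F × Cfsg.PSp n F → ℕ)) := by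
  have := Fact.mk hp
  have : CharP F p := charP_of_card_eq_prime_pow hF
  have h2F := two_ne_zero_of_odd hodd
  set Q := Fintype.card F ^ n with hQ
  have hQodd : Odd Q := hodd.pow
  obtain ⟨B, hB⟩ := hQodd
  have hB1 := psp_half_torus (F := F) (by omega : 0 < n) B (Or.inl (by omega))
  have hB2 := psp_half_torus (F := F) (by omega : 0 < n) (B + 1) (Or.inr (by omega))
  have h2 : 2 ∈ Set.range (orderOf : PSp n F → ℕ) := by
    obtain ⟨w, hw⟩ := (((formP_sp_scalar (F := F) (-1) (by simp) 1).sum
      (formP_sp_scalar (F := F) 1 (by simp) (n - 1))).congr (n' := 2 * n) (by omega) rfl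
        (fun _ _ => Iff.rfl)).toPSp
    refine mem_range_orderOf_of_dvd ⟨w, rfl⟩ (Even.two_dvd (even_of_neg_one_pow h2F ?_))
    rcases (hw _).mp dvd_rfl with h | h
    · simpa using h.1
    · rcases h.2 with h | h
      · omega
      · exact absurd (by linear_combination h - one_pow (M := F) (orderOf w)) h2F
  obtain ⟨A, hA, hAB⟩ : ∃ A ∈ Set.range (orderOf : PSp n F → ℕ), ∀ t, ¬ 2 ∣ t →
      (t ∣ Q - 1 ∨ t ∣ Q + 1) → 2 * t ∈ Set.range (orderOf : PSp n F → ℕ) ∨ t ∣ A := by
    have hcop : ∀ t, ¬ 2 ∣ t → Nat.Coprime t 2 := fun t ht =>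
      ((Nat.Prime.coprime_iff_not_dvd Nat.prime_two).mpr ht).symm
    have e1 : Q - 1 = 2 * B := by omega
    have e2 : Q + 1 = 2 * (B + 1) := by omega
    rw [e1, e2]
    rcases Nat.even_or_odd B with hBe | hBo
    · refine ⟨B + 1, hB2, fun t ht h => h.imp (fun h => ?_) (fun h => ?_)⟩
      · exact mem_range_orderOf_of_dvd hB1 ((hcop t ht).symm.mul_dvd_of_dvd_of_dvd hBe.two_dvd
          ((hcop t ht).dvd_of_dvd_mul_left h))
      · exact (hcop t ht).dvd_of_dvd_mul_left h
    · refine ⟨B, hB1, fun t ht h => h.symm.imp (fun h => ?_) (fun h => ?_)⟩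
      · exact mem_range_orderOf_of_dvd hB2 ((hcop t ht).symm.mul_dvd_of_dvd_of_dvd
          hBo.add_one.two_dvd ((hcop t ht).dvd_of_dvd_mul_left h))
      · exact (hcop t ht).dvd_of_dvd_mul_left h
  refine absorb 2 p A Nat.prime_two hA h2 _ (fun x hx => ?_) (zmod_pow_eq_one m 2)
  rcases tri p n hodd (by omega) x hx with h | h | h
  · exact Or.inl h
  · exact (hAB _ hx h).imp id Or.inl
  · exact Or.inr (Or.inr h)

end Cfsg.Agent.S2512
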