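import Cfsg.Statements.S2513
import Cfsg.Agent.GLn.Blocks

set_option autoImplicit false
open Cfsg

namespace Cfsg.Agent.S2513

open Cfsg.Agent.GLn Polynomial

theorem range_eq {G : Type*} [Group G] [Finite G] (E : ℕ) (y : G) (hy : orderOf y = E)
    (h : ∀ x : G, x ^ E = 1) : Set.range (orderOf : G → ℕ) = {m | m ∣ E} := by
  ext m
  constructor
  · rintro ⟨x, rfl⟩; exact orderOf_dvd_of_pow_eq_one (h x)
  · intro hm; exact mem_range_orderOf_of_dvd' y (hy ▸ hm)

theorem exists_good {F : Type*} [Field F] [Fintype F] (hF : Fintype.card F = 2) (n : ℕ)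
    (hn : 2 ≤ n) : ∃ E : ℕ, (∀ x : Matrix.ProjectiveSpecialLinearGroup (Fin n) F, x ^ E = 1) ∧
      ∀ k, (n + 3) / 2 ≤ k → ∃ y : Fin k → Matrix.ProjectiveSpecialLinearGroup (Fin n) F,
        orderOf y = E := by
  classical
  obtain ⟨p, hp⟩ := CharP.exists F
  have : Fact p.Prime := ⟨CharP.char_is_prime F p⟩
  have hp2 : p = 2 := by
    obtain ⟨e, -, he⟩ := FiniteField.card F p
    have : p ∣ 2 := by rw [← hF, he]; exact dvd_pow_self p e.ne_zero
    exact (Nat.prime_dvd_prime_iff_eq Fact.out Nat.prime_two).mp this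
  subst hp2
  let m : ℕ := (Finset.Icc 1 n).lcm fun d => 2 ^ d - 1
  have hodd : ∀ d, 1 ≤ d → Nat.Coprime (2 ^ d - 1) 2 := by
    intro d hd
    rw [Nat.coprime_two_right]
    exact Nat.Even.sub_odd Nat.one_le_two_pow ((Nat.even_pow' (by omega)).mpr even_two) odd_one
  have hm2 : Nat.Coprime m 2 := by
    apply Nat.Coprime.coprime_dvd_left (Finset.lcm_dvd_prod _ _)
    exact Nat.Coprime.prod_left fun d hd => hodd d (Finset.mem_Icc.mp hd).1
  have hall : ∀ x : Matrix.ProjectiveSpecialLinearGroup (Fin n) F,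
      x ^ (m * 2 ^ Nat.clog 2 n) = 1 := by
    intro x
    induction x using QuotientGroup.induction_on with | H g =>
    rw [psl_mk_pow_eq_one_iff]
    refine ⟨_, pow_mul_char_pow_eq_of_roots 2 (K := AlgebraicClosure F) (c := 1) _ ?_
      (by rw [Fintype.card_fin]; exact Nat.le_pow_clog one_lt_two _)⟩
    intro μ hμ
    have hi := isIntegral_of_root hμ
    have h0 : μ ≠ 0 := root_ne_zero (by simp) hμ
    have h1 := (pow_card_pow_sub_one_eq_one_iff hi h0 _).mpr dvd_rfl
    have hle := natDegree_minpoly_le_of_root hμ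
    rw [Fintype.card_fin] at hle
    have : 2 ^ (minpoly F μ).natDegree - 1 ∣ m :=
      Finset.dvd_lcm (f := fun d => 2 ^ d - 1) (Finset.mem_Icc.mpr ⟨minpoly.natDegree_pos hi, hle⟩)
    rw [hF] at h1
    obtain ⟨c, hc⟩ := this
    rw [hc, pow_mul, h1, one_pow, map_one]
  refine ⟨m * 2 ^ Nat.clog 2 n, hall, fun k hk => ?_⟩
  have hsing : ∀ d, 1 ≤ d → d ≤ n → ∃ x : Matrix.ProjectiveSpecialLinearGroup (Fin n) F,
      orderOf x = 2 ^ d - 1 := by
    intro d hd hdn
    obtain ⟨A, hA⟩ := exists_matrix_orderOf_eq F (d := d) (m := 2 ^ d - 1) hd (by rw [hF])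
    have h1 : orderOf (blk (Nat.add_sub_cancel' hdn) (A, 1)) = 2 ^ d - 1 := by
      rw [orderOf_blk, hA]; simp
    have h2 : 2 ^ d - 1 ≠ 0 := by
      have : 2 ^ 1 ≤ 2 ^ d := Nat.pow_le_pow_right (by norm_num) hd
      omega
    obtain ⟨x, hx⟩ := exists_psl_orderOf_eq_of_coprime (blk (Nat.add_sub_cancel' hdn) (A, 1))
      (by rwa [h1]) (by rw [hF]; simp)
    exact ⟨x, hx.trans h1⟩
  choose! s hs using hsing
  obtain ⟨u, hu⟩ := exists_psl_orderOf_eq_of_coprime (1 + shiftN F n)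
    (by rw [orderOf_jordan 2]; positivity) (by rw [hF]; simp)
  rw [orderOf_jordan 2] at hu
  let y : Fin k → Matrix.ProjectiveSpecialLinearGroup (Fin n) F :=
    fun i => if i.val = 0 then u else s (n + 1 - i.val)
  refine ⟨y, Nat.dvd_antisymm (orderOf_dvd_of_pow_eq_one (funext fun i => hall _)) ?_⟩
  have hy : ∀ i, orderOf (y i) ∣ orderOf y := fun i =>
    orderOf_dvd_of_pow_eq_one (congrFun (pow_orderOf_eq_one y) i)
  refine Nat.Coprime.mul_dvd_of_dvd_of_dvd (hm2.pow_right _) ?_ ?_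
  · refine Finset.lcm_dvd fun d hd => ?_
    obtain ⟨hd1, hdn⟩ := Finset.mem_Icc.mp hd
    -- a multiple of `d` in `(n/2, n]`
    have h1 : d * (n / d) ≤ n := Nat.mul_div_le n d
    have h2 : n < d * (n / d) + d := by
      have := Nat.mod_add_div n d; have := Nat.mod_lt n hd1; omega
    have h3 : d ≤ d * (n / d) := Nat.le_mul_of_pos_right _ (Nat.div_pos hdn hd1)
    have h4 := hy ⟨n + 1 - d * (n / d), by omega⟩
    simp only [y] at h4
    rw [if_neg (by omega), show n + 1 - (n + 1 - d * (n / d)) = d * (n / d) by omega,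
      hs _ (by omega) h1] at h4
    refine Dvd.dvd.trans ?_ h4
    exact Nat.pow_sub_one_dvd_pow_sub_one 2 (dvd_mul_right _ _)
  · have := hy ⟨0, by omega⟩
    simpa [y, hu] using this


/-- Let F be the field with two elements, n ≥ 2, L = PSL(n, F) and k₀ = ⌊(n + 3)/2⌋. Then for every k ≥ k₀ the direct product of k copies of L has the same set of element orders as the direct product of k₀ copies of L. -/
theorem result {F : Type*} [Field F] [Fintype F] (hF : Fintype.card F = 2) (n k : ℕ) (hn : 2 ≤ n) (hk : (n + 3) / 2 ≤ k) :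
    Set.range (orderOf : (Fin k → Matrix.ProjectiveSpecialLinearGroup (Fin n) F) → ℕ) = Set.range (orderOf : (Fin ((n + 3) / 2) → Matrix.ProjectiveSpecialLinearGroup (Fin n) F) → ℕ) := by
  obtain ⟨E, hE, h⟩ := exists_good hF n hn
  obtain ⟨y, hy⟩ := h k hk
  obtain ⟨y', hy'⟩ := h _ le_rfl
  rw [range_eq E y hy (fun x => funext fun i => hE _),
    range_eq E y' hy' (fun x => funext fun i => hE _)]

end Cfsg.Agent.S2513
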