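import Cfsg.Statements.S2514

set_option autoImplicit false
open Cfsg

namespace Cfsg.Agent.S2514

/-- every element order divides a maximal element order -/
theorem exists_max {X : Type*} [Group X] [Finite X] (x : X) :
    ∃ n ∈ {n : ℕ | n ∈ Set.range (orderOf : X → ℕ) ∧ ∀ m ∈ Set.range (orderOf : X → ℕ), n ∣ m → m = n},
      orderOf x ∣ n := by
  have hfin : {m : ℕ | m ∈ Set.range (orderOf : X → ℕ) ∧ orderOf x ∣ m}.Finite :=
    (Set.finite_range _).subset fun m hm => hm.1
  obtain ⟨n, hn, hmax⟩ := hfin.exists_maximalFor id _ ⟨orderOf x, ⟨x, rfl⟩, dvd_rfl⟩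
  refine ⟨n, ⟨hn.1, fun m hm hnm => ?_⟩, hn.2⟩
  have hpos : 0 < m := by obtain ⟨y, rfl⟩ := hm; exact orderOf_pos y
  have h1 : n ≤ m := Nat.le_of_dvd hpos hnm
  have h2 := hmax ⟨hm, hn.2.trans hnm⟩ h1
  exact le_antisymm h2 h1

theorem exists_of_dvd {X : Type*} [Group X] [Finite X] (x : X) {d : ℕ} (hd : d ∣ orderOf x) :
    ∃ y : X, orderOf y = d := by
  obtain ⟨c, hc⟩ := hd
  have hpos := orderOf_pos x
  have hc0 : c ≠ 0 := by rintro rfl; rw [mul_zero] at hc; omega
  refine ⟨x ^ c, ?_⟩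
  rw [orderOf_pow' x hc0, hc, Nat.gcd_eq_right (Dvd.intro_left d rfl), Nat.mul_div_cancel _ (Nat.pos_of_ne_zero hc0)]

/-- For a finite group X write μ(X) for the set of element orders of X that are maximal under divisibility. Let G and H be finite groups and k ≥ 1 such that μ(H) ⊆ μ(G) and μ(G) has fewer than k elements outside μ(H). Then the direct product of k copies of G has the same set of element orders as the direct product of k − 1 copies of G with H. -/
theorem result {G H : Type*} [Group G] [Finite G] [Group H] [Finite H] (k : ℕ) (hk : 1 ≤ k)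
    (hsub : {n : ℕ | n ∈ Set.range (orderOf : H → ℕ) ∧ ∀ m ∈ Set.range (orderOf : H → ℕ), n ∣ m → m = n} ⊆ {n : ℕ | n ∈ Set.range (orderOf : G → ℕ) ∧ ∀ m ∈ Set.range (orderOf : G → ℕ), n ∣ m → m = n})
    (hfew : ({n : ℕ | n ∈ Set.range (orderOf : G → ℕ) ∧ ∀ m ∈ Set.range (orderOf : G → ℕ), n ∣ m → m = n} \ {n : ℕ | n ∈ Set.range (orderOf : H → ℕ) ∧ ∀ m ∈ Set.range (orderOf : H → ℕ), n ∣ m → m = n}).ncard < k) :
    Set.range (orderOf : (Fin k → G) → ℕ) = Set.range (orderOf : (Fin (k - 1) → G) × H → ℕ) := by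
  classical
  obtain ⟨j, rfl⟩ : ∃ j, k = j + 1 := ⟨k - 1, by omega⟩
  set μG := {n : ℕ | n ∈ Set.range (orderOf : G → ℕ) ∧ ∀ m ∈ Set.range (orderOf : G → ℕ), n ∣ m → m = n}
  set μH := {n : ℕ | n ∈ Set.range (orderOf : H → ℕ) ∧ ∀ m ∈ Set.range (orderOf : H → ℕ), n ∣ m → m = n}
  have hfinG : μG.Finite := (Set.finite_range _).subset fun m hm => hm.1
  apply le_antisymm
  · rintro _ ⟨x, rfl⟩
    choose n hn hdvd using fun i => exists_max (x i)
    choose y hy using fun i => (hn i).1
    -- it suffices to find an element whose order is a multiple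
    suffices h : ∃ z : (Fin (j + 1 - 1) → G) × H, ∀ i, n i ∣ orderOf z by
      obtain ⟨z, hz⟩ := h
      apply exists_of_dvd z
      rw [orderOf_dvd_iff_pow_eq_one]
      funext i
      exact orderOf_dvd_iff_pow_eq_one.mp ((hdvd i).trans (hz i))
    have aux : ∀ (i0 : Fin (j + 1)) (h : H), (n i0 ∣ orderOf h ∨ ∃ i1, i1 ≠ i0 ∧ n i1 = n i0) →
        ∃ z : (Fin (j + 1 - 1) → G) × H, ∀ i, n i ∣ orderOf z := by
      intro i0 h hh
      refine ⟨(fun a : Fin j => y (i0.succAbove a), h), ?_⟩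
      have h1 : ∀ i, i ≠ i0 → n i ∣ orderOf ((fun a : Fin j => y (i0.succAbove a), h) : (Fin (j + 1 - 1) → G) × H) := by
        intro i hi
        obtain ⟨a, rfl⟩ := Fin.exists_succAbove_eq hi
        rw [← hy, orderOf_dvd_iff_pow_eq_one]
        have := pow_orderOf_eq_one ((fun a : Fin j => y (i0.succAbove a), h) : (Fin (j + 1 - 1) → G) × H)
        exact congrFun (congrArg Prod.fst this) a
      intro i
      by_cases hi : i = i0
      · subst hi
        rcases hh with hh | ⟨i1, hi1, he⟩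
        · refine hh.trans ?_
          rw [orderOf_dvd_iff_pow_eq_one]
          have := pow_orderOf_eq_one ((fun a : Fin j => y (i.succAbove a), h) : (Fin (j + 1 - 1) → G) × H)
          exact congrArg Prod.snd this
        · rw [← he]; exact h1 i1 hi1
      · exact h1 i hi
    by_cases hex : ∃ i0, n i0 ∈ μH
    · obtain ⟨i0, ⟨h, hh⟩, -⟩ := hex
      exact aux i0 h (Or.inl (hh ▸ dvd_rfl))
    · push Not at hex
      by_cases hinj : Function.Injective n
      · exfalso
        have h2 : Set.range n ⊆ μG \ μH := by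
          rintro _ ⟨i, rfl⟩; exact ⟨hn i, hex i⟩
        have h3 := Set.ncard_le_ncard h2 (hfinG.subset Set.sdiff_subset)
        rw [Set.ncard_range_of_injective hinj] at h3
        simp at h3
        omega
      · rw [Function.not_injective_iff] at hinj
        obtain ⟨a, b, hab, hne⟩ := hinj
        exact aux b 1 (Or.inr ⟨a, hne, hab⟩)
  · rintro _ ⟨⟨x, h⟩, rfl⟩
    obtain ⟨n, hn, hdvd⟩ := exists_max h
    obtain ⟨g, hg⟩ := (hsub hn).1
    apply exists_of_dvd (Fin.cons g x : Fin (j + 1) → G)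
    rw [orderOf_dvd_iff_pow_eq_one]
    have := pow_orderOf_eq_one (Fin.cons g x : Fin (j + 1) → G)
    refine Prod.ext ?_ ?_
    · funext a
      exact congrFun this (Fin.succ a)
    · have h0 := congrFun this 0
      simp only [Pi.pow_apply, Fin.cons_zero, Pi.one_apply] at h0
      simp only [Prod.pow_snd, Prod.snd_one]
      rw [← orderOf_dvd_iff_pow_eq_one] at h0 ⊢
      exact hdvd.trans (hg ▸ h0)

end Cfsg.Agent.S2514
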