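import Cfsg.Statements.S2515
import Cfsg.Agent.SL2.More

set_option autoImplicit false
open Cfsg

namespace Cfsg.Agent.S2515

open Cfsg.Agent.SL2 Matrix

section
variable {F : Type} [Field F] [Fact (Nat.Prime 3)] [CharP F 3]

noncomputable def ph : SLT F →* SLT F := Matrix.SpecialLinearGroup.map (frobenius F 3)

noncomputable def rho : ℤˣ × SLT F →* Module.End F (M2 F) where
  toFun k := k.1 • (LinearMap.mulLeft F k.2.1 * LinearMap.mulRight F (ph k.2⁻¹).1)
  map_one' := by ext1 X; simp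
  map_mul' a b := by ext1 X; simp [mul_assoc, smul_smul, mul_comm]

theorem rho_apply (k : ℤˣ × SLT F) (X : M2 F) : rho k X = k.1 • (k.2.1 * (X * (ph k.2⁻¹).1)) := rfl

theorem ph_neg_one : ph (-1 : SLT F) = -1 := sl_ext (by ext i j; fin_cases i <;> fin_cases j <;> simp [ph])

theorem rho_scal {g : SLT F} (h : g = 1 ∨ g = -1) : rho (1, g) = 1 := by
  ext1 X
  rcases h with rfl | rfl
  · simp [rho_apply]
  · rw [rho_apply, inv_neg_one, ph_neg_one]; simp

omit [Fact (Nat.Prime 3)] in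
theorem three : (3 : F) = 0 := by simpa using CharP.cast_eq_zero F 3

omit [Fact (Nat.Prime 3)] in
theorem two : (2 : F) ≠ 0 := fun e => one_ne_zero (α := F) (by linear_combination three (F := F) - e)

theorem fpf (hn : ¬ IsSquare (-1 : F)) {k : ℤˣ × SLT F} (h0 : k.2.1.trace ≠ 0) (h1 : k.2.1.trace ^ 2 ≠ 4) {X : M2 F}
    (h : rho k X = X) : X = 0 := by
  obtain ⟨e, g⟩ := k
  have h2 : (e : F) • (g.1 * X) = X * (ph g).1 := by
    conv_rhs => rw [← h, rho_apply, smul_mul_assoc, mul_assoc, mul_assoc, ← Matrix.SpecialLinearGroup.coe_mul, ← map_mul]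
    simp [Units.smul_def, Int.cast_smul_eq_zsmul]
  have he : (e : F) * e = 1 := by rcases Int.units_eq_one_or e with rfl | rfl <;> simp
  have ht : (ph g).1.trace = g.1.trace ^ 3 := by
    rw [← frobenius_def]; simp [ph, trace_fin_two]
  have h3 : (g.1.trace - e * g.1.trace ^ 3) • (g.1 * X) = 0 := by
    have a1 := congrArg (· * (ph g).1) h2
    simp only [smul_mul_assoc, mul_assoc] at a1
    rw [← h2, mul_smul_comm, smul_smul, he, one_smul, ← mul_assoc, sl_cayley, sl_cayley, mul_sub, mul_smul_comm, ← h2, ht,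
      smul_smul, sub_mul, smul_mul_assoc] at a1
    rw [sub_smul, mul_comm, sub_eq_zero]
    simpa using a1
  have h4 : g.1.trace - e * g.1.trace ^ 3 ≠ 0 := fun h4 => by
    have h5 : g.1.trace ^ 2 = e := mul_left_cancel₀ h0 (by linear_combination -e * h4 - g.1.trace ^ 3 * he)
    rcases Int.units_eq_one_or e with rfl | rfl
    · exact h1 (by rw [h5]; simp; linear_combination -three (F := F))
    · exact hn ⟨g.1.trace, by rw [← pow_two, h5]; simp⟩
  have h5 := congrArg ((g⁻¹).1 * ·) ((smul_eq_zero.1 h3).resolve_left h4)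
  simpa only [← mul_assoc, ← Matrix.SpecialLinearGroup.coe_mul, inv_mul_cancel, Matrix.SpecialLinearGroup.coe_one, one_mul,
    mul_zero] using h5

def Af (T : Module.End F (M2 F)) (h : Equiv.Perm (M2 F)) : Prop := ∃ B, ∀ X, h X = T X + B

omit [Fact (Nat.Prime 3)] [CharP F 3] in
theorem Af.mul {T T' : Module.End F (M2 F)} {h h' : Equiv.Perm (M2 F)} (a : Af T h) (b : Af T' h') : Af (T * T') (h * h') := by
  obtain ⟨B, a⟩ := a
  obtain ⟨B', b⟩ := b
  exact ⟨T B' + B, fun X => by simp [a, b, add_assoc]⟩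

omit [Fact (Nat.Prime 3)] [CharP F 3] in
theorem Af.pow {T : Module.End F (M2 F)} {h : Equiv.Perm (M2 F)} (a : Af T h) (n : ℕ) : Af (T ^ n) (h ^ n) := by
  induction n with
  | zero => exact ⟨0, by simp⟩
  | succ n ih => rw [pow_succ, pow_succ]; exact ih.mul a

theorem Af.inv {k : ℤˣ × SLT F} {h : Equiv.Perm (M2 F)} (a : Af (rho k) h) : Af (rho k⁻¹) h⁻¹ := by
  obtain ⟨B, a⟩ := a
  refine ⟨-rho k⁻¹ B, fun X => ?_⟩
  rw [Equiv.Perm.inv_eq_iff_eq, a, ← sub_eq_add_neg, ← map_sub, ← Module.End.mul_apply, ← map_mul]; simp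

omit [Fact (Nat.Prime 3)] in
theorem Af.cube {h : Equiv.Perm (M2 F)} (a : Af 1 h) : h ^ 3 = 1 := by
  obtain ⟨B, a⟩ := a
  ext1 X
  have : B + B + B = 0 := by rw [← two_smul F, ← one_smul F B, smul_smul, ← add_smul, show (2 : F) * 1 + 1 = 0 by
    linear_combination three (F := F), zero_smul]
  simp [pow_succ, a, add_assoc, ← this]

omit [Fact (Nat.Prime 3)] in
theorem Af.pow_three {T : Module.End F (M2 F)} {h : Equiv.Perm (M2 F)} (a : Af T h) {n : ℕ} (e : T ^ n = 1) :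
    h ^ (n * 3) = 1 := by
  rw [pow_mul]; exact (e ▸ a.pow n).cube

omit [Fact (Nat.Prime 3)] [CharP F 3] in
theorem Af.pow_fpf {T : Module.End F (M2 F)} {h : Equiv.Perm (M2 F)} (a : Af T h) {n : ℕ} (e : T ^ n = 1)
    (f : ∀ X, T X = X → X = 0) : h ^ n = 1 := by
  obtain ⟨B', b⟩ := a.pow n
  obtain ⟨B, a⟩ := a
  have i : Function.Injective (1 - T : Module.End F (M2 F)) :=
    (injective_iff_map_eq_zero _).2 fun X hX => f X (sub_eq_zero.1 hX).symm
  obtain ⟨X, hX⟩ := LinearMap.injective_iff_surjective.1 i B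
  have h1 : h X = X := by rw [a, ← hX]; simp
  have h2 := b X
  rw [Equiv.Perm.pow_apply_eq_self_of_apply_eq_self h1, e] at h2
  ext1 Y
  rw [b, e, left_eq_add.1 h2]; simp

def HH (F : Type) [Field F] [CharP F 3] : Subgroup (Equiv.Perm (M2 F)) where
  carrier := {h | ∃ k, Af (rho k) h}
  one_mem' := ⟨1, 0, by simp⟩
  mul_mem' := by rintro a b ⟨k, ha⟩ ⟨l, hb⟩; exact ⟨k * l, map_mul (rho (F := F)) k l ▸ ha.mul hb⟩
  inv_mem' := by rintro a ⟨k, ha⟩; exact ⟨_, ha.inv⟩

noncomputable def el (k : ℤˣ × SLT F) (B : M2 F) : HH F :=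
  ⟨⟨fun X => rho k X + B, fun X => rho k⁻¹ (X - B), fun X => by
    simp [← Module.End.mul_apply, ← map_mul], fun X => by
    simp only [← Module.End.mul_apply, ← map_mul]; simp⟩, k, B, fun _ => rfl⟩

theorem af_el (k : ℤˣ × SLT F) (B : M2 F) : ∀ X, (el k B).1 X = rho k X + B := fun _ => rfl

theorem el_pow (k : ℤˣ × SLT F) (n : ℕ) : el k 0 ^ n = el (k ^ n) 0 := by
  induction n with
  | zero => ext1; ext1 X; simp [af_el]
  | succ n ih => rw [pow_succ, ih, pow_succ]; ext1; ext1 X; simp [af_el]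

theorem el_eq_one {k : ℤˣ × SLT F} : el k 0 = 1 ↔ rho k = 1 :=
  ⟨fun h => LinearMap.ext fun X => by simpa [af_el] using congrArg (fun z : HH F => z.1 X) h,
    fun h => by ext1; ext1 X; simp [af_el, h]⟩

theorem rho_pow {k : ℤˣ × SLT F} {n : ℕ} (h : Even n) (h' : k.2 ^ (n * 2) = 1) : rho k ^ n = 1 := by
  rw [← map_pow, show k ^ n = (1, k.2 ^ n) from Prod.ext (by simp [Int.units_pow_eq_pow_mod_two, Nat.even_iff.1 h]) rfl]
  exact rho_scal (sl_isScal_iff.1 (isScal_of_sq_eq_one two (by rw [← pow_two, ← pow_mul, h'])))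

theorem rho_neg {g : SLT F} (h3 : g ^ 3 = 1 ∨ g ^ 3 = -1) : rho (-1, g) ^ 3 = -1 := by
  rw [← map_pow, show ((-1 : ℤˣ), g) ^ 3 = (-1, 1) * (1, g ^ 3) from Prod.ext (show (-1 : ℤˣ) ^ 3 = -1 * 1 by decide) (by simp), map_mul, rho_scal h3]
  ext1 X; simp [rho_apply]

theorem bound [Fintype F] (hq : Fintype.card F % 4 = 3) (h : HH F) :
    orderOf h ∣ 6 ∨ orderOf h ∣ 9 ∨ orderOf h ∣ Fintype.card F - 1 ∨ orderOf h ∣ (Fintype.card F + 1) / 2 := by
  have hn : ¬ IsSquare (-1 : F) := by rw [FiniteField.isSquare_neg_one_iff, not_not]; exact hq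
  simp only [← Subgroup.orderOf_coe, orderOf_dvd_iff_pow_eq_one]
  obtain ⟨h, k, a⟩ := h
  by_cases h0 : k.2.1.trace = 0
  · exact Or.inl (a.pow_three (rho_pow even_two (pow_four_of_trace_zero h0)))
  by_cases h1 : k.2.1.trace ^ 2 = 4
  · have h3 := orderOf_pr_dvd_iff.1 (orderOf_pr_of_par 3 h1)
    obtain ⟨e, g⟩ := k
    rcases Int.units_eq_one_or e with rfl | rfl
    · exact Or.inr (Or.inl (a.pow_three (n := 3) (by rw [← map_pow, Prod.pow_mk, one_pow, rho_scal h3])))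
    · have h4 := rho_neg h3
      refine Or.inl (a.pow_fpf (by rw [show 6 = 3 * 2 by rfl, pow_mul, h4]; ext1 X; simp [pow_two]) fun X hX => ?_)
      have h5 : (rho (-1, g) ^ 3) X = X := by simp [pow_succ, hX]
      rw [h4, LinearMap.neg_apply, Module.End.one_apply, neg_eq_iff_add_eq_zero, ← two_smul F] at h5
      exact (smul_eq_zero.1 h5).resolve_left two
  rcases ell_or_spl_one h1 with h2 | h2
  · refine Or.inr (Or.inr (Or.inr (a.pow_fpf (rho_pow (Nat.even_iff.2 (by omega)) ?_) fun X => fpf hn h0 h1)))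
    rw [Nat.div_mul_cancel (by omega), pow_of_ell h2]
  · exact Or.inr (Or.inr (Or.inl (a.pow_fpf (rho_pow (Nat.even_iff.2 (by omega)) (by rw [pow_mul, pow_of_spl h2, one_pow]))
      fun X => fpf hn h0 h1)))

theorem ph_upT (b : F) : ph (upT b) = upT (b ^ 3) :=
  sl_ext (by ext i j; fin_cases i <;> fin_cases j <;> simp [ph, upT_val, frobenius_def])

theorem scal_of_rho {g : SLT F} (h : rho (1, g) = 1) : IsScal g.1 := by
  have k : ∀ X : M2 F, g.1 * X = X * (ph g).1 := fun X => by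
    conv_rhs => rw [← Module.End.one_apply (R := F) X, ← h, rho_apply, one_smul, mul_assoc, mul_assoc,
      ← Matrix.SpecialLinearGroup.coe_mul, ← map_mul]
    simp
  have e := k 1
  rw [mul_one, one_mul] at e
  exact isScal_of_comm fun x => by rw [k, ← e]

omit [Fact (Nat.Prime 3)] in
theorem upT_cube : upT (1 : F) ^ 3 = 1 := sl_pow_char_of_trace_two 3 (by simp [upT_val, trace_fin_two]; norm_num)

theorem ex6 : orderOf (el (-1, upT (1 : F)) 0) = 6 := by
  have h3 := rho_neg (Or.inl (upT_cube (F := F)))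
  have a1 : orderOf (el (-1, upT (1 : F)) 0) ∣ 6 := by
    rw [orderOf_dvd_iff_pow_eq_one, el_pow, el_eq_one, map_pow, show 6 = 3 * 2 by rfl, pow_mul, h3]; ext1 X; simp [pow_two]
  have a2 : ¬ orderOf (el (-1, upT (1 : F)) 0) ∣ 3 := by
    rw [orderOf_dvd_iff_pow_eq_one, el_pow, el_eq_one, map_pow, h3]
    intro h
    have := congrArg (fun T : Module.End F (M2 F) => T 1 0 0) h
    simp at this
    exact two (F := F) (by linear_combination -this)
  have a3 : ¬ orderOf (el (-1, upT (1 : F)) 0) ∣ 2 := by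
    rw [orderOf_dvd_iff_pow_eq_one, el_pow, el_eq_one, Prod.pow_mk, Int.units_sq, pow_two, ← upT_add]
    exact fun h => two (F := F) (by linear_combination isScal_upT.1 (scal_of_rho h))
  have := Nat.le_of_dvd (by norm_num) a1
  interval_cases orderOf (el (-1, upT (1 : F)) 0) <;> simp_all

theorem ex9 : orderOf (el (1, upT (1 : F)) !![0, 0; 1, 0]) = 9 := by
  have a : Af (rho (1, upT (1 : F))) (el (1, upT (1 : F)) !![0, 0; 1, 0]).1 := ⟨_, af_el _ _⟩
  refine orderOf_eq_prime_pow (p := 3) (n := 1) (fun h => ?_) (Subtype.ext (a.pow_three (n := 3) ?_))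
  · have := congrArg (fun z : HH F => z.1 0 0 1) h
    simp only [pow_succ, pow_zero, one_mul, Subgroup.coe_mul, Equiv.Perm.mul_apply, af_el, rho_apply, ← upT_neg, ph_upT,
      upT_val] at this
    norm_num [Matrix.mul_apply, Fin.sum_univ_two] at this
    exact one_ne_zero (α := F) (by linear_combination -this + 2 * three (F := F))
  · rw [← map_pow, Prod.pow_mk, one_pow, upT_cube, rho_scal (Or.inl rfl)]

theorem exm [Fintype F] (hq : Fintype.card F % 4 = 3) : ∃ h : HH F, Fintype.card F - 1 ∣ orderOf h := by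
  have hn : ¬ IsSquare (-1 : F) := by rw [FiniteField.isSquare_neg_one_iff, not_not]; exact hq
  obtain ⟨c, hc⟩ := exists_unit_generator (F := F)
  have h1 : ¬ IsSquare (c : F) := by
    rintro ⟨r, hr⟩
    have hr0 : r ≠ 0 := by rintro rfl; simp at hr
    have : c ^ ((Fintype.card F - 1) / 2) = 1 := Units.ext (by
      rw [Units.val_pow_eq_pow_val, hr, ← pow_two, ← pow_mul, Nat.mul_div_cancel' (by omega),
        FiniteField.pow_card_sub_one_eq_one r hr0, Units.val_one])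
    have := Nat.le_of_dvd (by omega) (orderOf_dvd_of_pow_eq_one this)
    omega
  obtain ⟨b, hb⟩ := isSquare_mul_of_not hn h1
  have hb0 : b ≠ 0 := by rintro rfl; simp at hb
  refine ⟨el (-1, dg (Units.mk0 b hb0)⁻¹) 0, ?_⟩
  have k : rho (-1, dg (Units.mk0 b hb0)⁻¹) !![1, 0; 0, 0] = (c : F) • !![1, 0; 0, 0] := by
    have e : (ph (dg (Units.mk0 b hb0)⁻¹)⁻¹).1 = !![b ^ 3, 0; 0, (b ^ 3)⁻¹] := by
      rw [← dgHom_apply, ← map_inv, inv_inv, dgHom_apply]
      ext i j
      fin_cases i <;> fin_cases j <;> simp [ph, dg_val, frobenius_def]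
    rw [rho_apply, e]
    ext i j
    fin_cases i <;> fin_cases j <;> simp [dg_val]
    field_simp; linear_combination hb
  have k2 : ∀ n, (rho (-1, dg (Units.mk0 b hb0)⁻¹) ^ n) !![1, 0; 0, 0] = (c : F) ^ n • !![1, 0; 0, 0] := fun n => by
    induction n with
    | zero => simp
    | succ n ih => rw [pow_succ, Module.End.mul_apply, k, map_smul, ih, smul_smul, pow_succ']
  rw [← hc, orderOf_dvd_iff_pow_eq_one]
  have := pow_orderOf_eq_one (el (-1, dg (Units.mk0 b hb0)⁻¹) 0)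
  rw [el_pow, el_eq_one, map_pow] at this
  have h2 := congrFun (congrFun (k2 (orderOf (el (-1, dg (Units.mk0 b hb0)⁻¹) 0))) 0) 0
  rw [this] at h2
  exact Units.ext (by simpa using h2.symm)

theorem exp [Fintype F] : ∃ h : HH F, (Fintype.card F + 1) / 2 ∣ orderOf h := by
  obtain ⟨g, -, hg⟩ := exists_ell_generator (F := F)
  refine ⟨el (1, g) 0, ?_⟩
  have := pow_orderOf_eq_one (el (1, g) 0)
  rw [el_pow, el_eq_one, Prod.pow_mk, one_pow] at this
  have h2 := sq_eq_one_of_isScal (scal_of_rho this)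
  rw [← pow_mul, ← orderOf_dvd_iff_pow_eq_one, hg] at h2
  have h3 := odd_of_two_ne_zero (two (F := F))
  refine Nat.dvd_of_mul_dvd_mul_right two_pos ?_
  rwa [Nat.div_mul_cancel (even_iff_two_dvd.1 h3.add_one)]

def PP (F : Type) [Field F] [CharP F 3] : Subgroup (HH F) where
  carrier := {h | Af 1 h.1}
  one_mem' := ⟨0, by simp⟩
  mul_mem' := fun ha hb => by simpa using Af.mul ha hb
  inv_mem' := fun {a} ha => by simpa using Af.inv (k := 1) (h := a.1) (by simpa using ha)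

end


/-- Let q = 3^α with α ≥ 3 odd. There is a finite group H having a non-trivial normal 3-subgroup and whose element orders maximal under divisibility are exactly 6, 9, q − 1 and (q + 1)/2. -/
theorem result (α : ℕ) (hα : 3 ≤ α) (hodd : Odd α) :
    ∃ (H : Type) (_ : Group H) (_ : Fintype H), (∃ P : Subgroup H, P.Normal ∧ P ≠ ⊥ ∧ IsPGroup 3 ↥P) ∧
      {n : ℕ | n ∈ Set.range (orderOf : H → ℕ) ∧ ∀ m ∈ Set.range (orderOf : H → ℕ), n ∣ m → m = n} = ({6, 9, 3 ^ α - 1, (3 ^ α + 1) / 2} : Set ℕ) := by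
  have : Fact (Nat.Prime 3) := ⟨Nat.prime_three⟩
  have := Fintype.ofFinite (GaloisField 3 α)
  have hF : Fintype.card (GaloisField 3 α) = 3 ^ α := by
    rw [← Nat.card_eq_fintype_card, GaloisField.card 3 α (by omega)]
  have h8 : 3 ^ α % 8 = 3 := by
    obtain ⟨k, rfl⟩ := hodd
    rw [pow_succ, pow_mul, Nat.mul_mod, Nat.pow_mod]; simp
  have h27 : 3 ^ 3 ≤ 3 ^ α := Nat.pow_le_pow_right (by norm_num) hα
  have h3 : 3 ∣ 3 ^ α := dvd_pow_self 3 (by omega)
  have hq : Fintype.card (GaloisField 3 α) % 4 = 3 := by omega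
  refine ⟨HH (GaloisField 3 α), inferInstance, Fintype.ofFinite _, ⟨PP _, ⟨?_⟩, ?_, ?_⟩, ?_⟩
  · rintro n hn ⟨g, k, hg⟩
    have := (hg.mul hn).mul hg.inv
    rwa [mul_one, ← map_mul, mul_inv_cancel, map_one] at this
  · intro h
    have : el 1 1 ∈ PP (GaloisField 3 α) := ⟨1, fun X => by simp [af_el]⟩
    rw [h, Subgroup.mem_bot] at this
    simpa [af_el] using congrArg (fun z : HH (GaloisField 3 α) => z.1 0) this
  · exact fun g => ⟨1, Subtype.ext (Subtype.ext (Af.cube g.2))⟩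
  have b := bound hq
  obtain ⟨x, hx⟩ := exm hq
  obtain ⟨y, hy⟩ := exp (F := GaloisField 3 α)
  rw [hF] at b hx hy
  generalize 3 ^ α = q at *
  have anti : ∀ n ∈ ({6, 9, q - 1, (q + 1) / 2} : Set ℕ), ∀ m ∈ ({6, 9, q - 1, (q + 1) / 2} : Set ℕ), n ∣ m → m = n := by
    rintro n (rfl | rfl | rfl | rfl) m (rfl | rfl | rfl | rfl) h <;> first
      | rfl
      | omega
      | (have := Nat.le_of_dvd (by omega) h; omega)
      | (have := Nat.le_of_dvd two_pos (show (q + 1) / 2 ∣ 2 by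
          have := Nat.dvd_sub (Dvd.intro_left 2 rfl) h
          rwa [show 2 * ((q + 1) / 2) - (q - 1) = 2 by omega] at this); omega)
  have b' : ∀ h : HH (GaloisField 3 α), ∃ m ∈ ({6, 9, q - 1, (q + 1) / 2} : Set ℕ), orderOf h ∣ m := fun h => by
    simpa using b h
  have c : ∀ n ∈ ({6, 9, q - 1, (q + 1) / 2} : Set ℕ), ∃ h : HH (GaloisField 3 α), n ∣ orderOf h := by
    rintro n (rfl | rfl | rfl | rfl)
    exacts [⟨_, ex6.symm.dvd⟩, ⟨_, ex9.symm.dvd⟩, ⟨x, hx⟩, ⟨y, hy⟩]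
  have d : ∀ n ∈ ({6, 9, q - 1, (q + 1) / 2} : Set ℕ), ∀ h : HH (GaloisField 3 α), n ∣ orderOf h → orderOf h = n :=
    fun n hn h e => by
      obtain ⟨m, hm, e'⟩ := b' h
      exact Nat.dvd_antisymm (anti n hn m hm (e.trans e') ▸ e') e
  ext n
  constructor
  · rintro ⟨⟨h, rfl⟩, hn⟩
    obtain ⟨m, hm, e⟩ := b' h
    obtain ⟨h', e'⟩ := c m hm
    rw [← hn _ ⟨h', rfl⟩ (e.trans e'), d m hm h' e']; exact hm
  · intro hn
    obtain ⟨h, e⟩ := c n hn
    exact ⟨⟨h, d n hn h e⟩, by rintro _ ⟨h', rfl⟩ e'; exact d n hn h' e'⟩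

end Cfsg.Agent.S2515
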