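import Cfsg.Statements.S2519
import Cfsg.Agent.Lang.SpecG2

set_option autoImplicit false
open Cfsg

namespace Cfsg.Agent.S2519

open Cfsg.Agent.Lang Cfsg.Agent.Chev Cfsg.Agent.RGD

theorem eq_of_dvd_of_lt {a b : ℕ} (h : a ∣ b) (h0 : 0 < b) (h1 : b < 2 * a) : b = a := by
  obtain ⟨c, rfl⟩ := h
  rcases c with _ | _ | c
  · omega
  · simp
  · nlinarith

theorem anti {p q : ℕ} (hp : p.Prime) (hq : p ∣ q) (h5 : 5 ≤ q) {S : Set ℕ}
    (hS : S ⊆ {p * (q + 1), p * (q - 1), q ^ 2 - 1, q ^ 2 + q + 1, q ^ 2 - q + 1, p ^ 2}) :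
    ∀ a ∈ S, ∀ b ∈ S, a ∣ b → b = a := by
  have h1 : 5 * q ≤ q ^ 2 := by nlinarith
  have h2 : p ∣ q ^ 2 := hq.trans (dvd_pow_self q two_ne_zero)
  have h3 := hp.one_lt
  have h4 := Nat.le_of_dvd (by omega) hq
  have a0 : ∀ {x}, p ∣ x → ¬ p ∣ x + 1 := fun h e => hp.not_dvd_one ((Nat.dvd_add_right h).1 e)
  have a1 : ∀ {x}, 0 < x → p ∣ x → ¬ p ∣ x - 1 := fun h0 h e => a0 e (by rwa [Nat.sub_add_cancel h0])
  have key : ∀ x, x = q ^ 2 - 1 ∨ x = q ^ 2 + q + 1 ∨ x = q ^ 2 - q + 1 → ¬ p ∣ x := by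
    rintro _ (rfl | rfl | rfl)
    exacts [a1 (by omega) h2, a0 (dvd_add h2 hq), a0 (Nat.dvd_sub h2 hq)]
  have k1 : ∀ {x y}, x = q ^ 2 - 1 ∨ x = q ^ 2 + q + 1 ∨ x = q ^ 2 - q + 1 → x ∣ p * y → 0 < y → y ≤ q + 1 → False :=
    fun h e h0 h' => by
      have := Nat.le_of_dvd h0 (((hp.coprime_iff_not_dvd.2 (key _ h)).symm).dvd_of_dvd_mul_left e)
      omega
  have k2 : ∀ {x y}, x = q ^ 2 - 1 ∨ x = q ^ 2 + q + 1 ∨ x = q ^ 2 - q + 1 → ¬ p * y ∣ x :=
    fun h e => key _ h (dvd_of_mul_right_dvd e)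
  have k3 : ∀ {x y}, x = q + 1 ∨ x = q - 1 ∨ x = p → y = q + 1 ∨ y = q - 1 ∨ y = p → p * x ∣ p * y → p * y = p * x := by
    intro x y hx hy e
    replace e := Nat.dvd_of_mul_dvd_mul_left hp.pos e
    congr 1
    have := Nat.le_of_dvd (by omega) e
    rcases hx with rfl | rfl | rfl <;> rcases hy with rfl | rfl | rfl
    any_goals omega
    · exact eq_of_dvd_of_lt e (by omega) (by omega)
    · exact eq_of_dvd_of_lt e (by omega) (by omega)
    · exact absurd e (a0 hq)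
    · exact absurd e (a1 (by omega) hq)
  intro a ha b hb e
  replace ha := hS ha
  replace hb := hS hb
  simp only [Set.mem_insert_iff, Set.mem_singleton_iff, sq p] at ha hb
  rcases ha with rfl | rfl | rfl | rfl | rfl | rfl <;> rcases hb with rfl | rfl | rfl | rfl | rfl | rfl <;>
    first
    | rfl
    | exact k3 (by simp) (by simp) e
    | exact absurd e (k2 (by simp))
    | exact (k1 (by simp) e (by omega) (by omega)).elim
    | exact eq_of_dvd_of_lt e (by omega) (by omega)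


/-- Let F be a finite field of odd order q = p^a ≥ 5. The element orders of the Chevalley group G₂(F) that are maximal under divisibility are exactly p(q + 1), p(q − 1), q² − 1, q² + q + 1, q² − q + 1, together with p² when p is 3 or 5. -/
theorem result {F : Type*} [Field F] [Fintype F] (p a : ℕ) (hp : p.Prime) (hp2 : p ≠ 2) (ha : 1 ≤ a) (hF : Fintype.card F = p ^ a) (hq5 : 5 ≤ Fintype.card F) :
    {n : ℕ | n ∈ Set.range (orderOf : ↥(Cfsg.Lie.chevG2.group F) → ℕ) ∧ ∀ m ∈ Set.range (orderOf : ↥(Cfsg.Lie.chevG2.group F) → ℕ), n ∣ m → m = n} =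
      ({p * (p ^ a + 1), p * (p ^ a - 1), p ^ (2 * a) - 1, p ^ (2 * a) + p ^ a + 1, p ^ (2 * a) - p ^ a + 1} : Set ℕ) ∪
        (if p = 3 ∨ p = 5 then ({p ^ 2} : Set ℕ) else ∅) := by
  have := Fact.mk hp
  have h2 : CharP F p := charP_of_card_eq_prime_pow hF
  rw [hF] at hq5
  rw [← Nat.card_eq_fintype_card] at hF
  obtain ⟨e1, e2, e3, e4, e5⟩ := g2_orders p hF
  simp only [pow_mul']
  refine maximal_eq ?_ ?_ (anti hp (dvd_pow_self p (by omega)) hq5 ?_)
  · rintro _ ⟨x, rfl⟩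
    rcases g2_bound p hF x with h | h | h | h | h | h | h
    exacts [⟨_, by simp, h⟩, ⟨_, by simp, h⟩, ⟨_, by simp, h⟩, ⟨_, by simp, h⟩, ⟨_, by simp, h⟩, absurd h.1 hp2,
      ⟨_, by simp [h.1], h.2⟩]
  · rintro n ((rfl | rfl | rfl | rfl | rfl) | h)
    exacts [e5, e4, e1, e2, e3, by
      split_ifs at h with h3
      · obtain rfl : n = p ^ 2 := h
        rcases h3 with rfl | rfl
        exacts [g2_order_unip 3 regG2_three, g2_order_unip 5 regG2_five]
      · exact h.elim]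
  · split_ifs <;> intro n <;> simp only [Set.mem_union, Set.mem_insert_iff, Set.mem_singleton_iff,
      Set.mem_empty_iff_false] <;> tauto

end Cfsg.Agent.S2519
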