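import Cfsg.Statements.S2520
import Cfsg.Agent.Lang.SpecG2

set_option autoImplicit false
open Cfsg

namespace Cfsg.Agent.S2520

open Cfsg.Agent.Lang Cfsg.Agent.Chev Cfsg.Agent.RGD


/-- Let F be a finite field with q = 2^a ≥ 4 elements and G₂(F) the Chevalley group of type G₂ over it. Every element order of G₂(F) maximal under divisibility lies in the set {8, 12, 2(q + 1), 2(q − 1), q² − 1, q² + q + 1, q² − q + 1}, and every member of that set is an element order of G₂(F). -/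
theorem result {F : Type*} [Field F] [Fintype F] (a : ℕ) (ha : 2 ≤ a) (hF : Fintype.card F = 2 ^ a) :
    {n : ℕ | n ∈ Set.range (orderOf : ↥(Cfsg.Lie.chevG2.group F) → ℕ) ∧ ∀ m ∈ Set.range (orderOf : ↥(Cfsg.Lie.chevG2.group F) → ℕ), n ∣ m → m = n} ⊆ ({8, 12, 2 * (2 ^ a + 1), 2 * (2 ^ a - 1), 2 ^ (2 * a) - 1, 2 ^ (2 * a) + 2 ^ a + 1, 2 ^ (2 * a) - 2 ^ a + 1} : Set ℕ) ∧
    ({8, 12, 2 * (2 ^ a + 1), 2 * (2 ^ a - 1), 2 ^ (2 * a) - 1, 2 ^ (2 * a) + 2 ^ a + 1, 2 ^ (2 * a) - 2 ^ a + 1} : Set ℕ) ⊆ Set.range (orderOf : ↥(Cfsg.Lie.chevG2.group F) → ℕ) := by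
  have h2 : CharP F 2 := charP_of_card_eq_prime_pow hF
  rw [← Nat.card_eq_fintype_card] at hF
  obtain ⟨e1, e2, e3, e4, e5⟩ := g2_orders 2 hF
  simp only [pow_mul']
  have key : ({8, 12, 2 * (2 ^ a + 1), 2 * (2 ^ a - 1), (2 ^ a) ^ 2 - 1, (2 ^ a) ^ 2 + 2 ^ a + 1,
      (2 ^ a) ^ 2 - 2 ^ a + 1} : Set ℕ) ⊆ Set.range (orderOf : ↥(Cfsg.Lie.chevG2.group F) → ℕ) := by
    rintro n (rfl | rfl | rfl | rfl | rfl | rfl | rfl)
    exacts [g2_order_unip 2 regG2_two, g2_order_12, e5, e4, e1, e2, e3]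
  refine ⟨maximal_subset ?_ key, key⟩
  rintro _ ⟨x, rfl⟩
  simp only [Set.mem_insert_iff, Set.mem_singleton_iff, exists_eq_or_imp, exists_eq_left]
  have := g2_bound 2 hF x
  tauto

end Cfsg.Agent.S2520
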