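import Cfsg.Statements.S2521

set_option autoImplicit false
open Cfsg

namespace Cfsg.Agent.S2521

/-- Let B be a finite group that is the semidirect product of a nilpotent normal subgroup U by an abelian subgroup T (U ∩ T = 1, UT = B), and let t ∈ T have centralizer exactly T. Then every element of the coset tU is conjugate to t in B: for each u ∈ U there is b ∈ B with b t b⁻¹ = t u. -/
theorem result {B : Type*} [Group B] [Finite B] (U T : Subgroup B) [U.Normal] (hU : Group.IsNilpotent ↥U) (hT : IsMulCommutative ↥T)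
    (hcompl : Subgroup.IsComplement' U T) (t : B) (ht : t ∈ T) (hreg : Subgroup.centralizer ({t} : Set B) = T) (u : B) (hu : u ∈ U) :
    ∃ b : B, b * t * b⁻¹ = t * u := by
  have hN : U.Normal := inferInstance
  let φ : U → U := fun b => ⟨t⁻¹ * b * t * (b : B)⁻¹, by
    refine U.mul_mem ?_ (U.inv_mem b.2)
    have := hN.conj_mem _ b.2 t⁻¹
    simpa using this⟩
  have hinj : Function.Injective φ := by
    intro a b hab
    have h1 : t⁻¹ * a * t * (a : B)⁻¹ = t⁻¹ * b * t * (b : B)⁻¹ := congrArg Subtype.val hab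
    have h2 : (b : B)⁻¹ * a ∈ T := by
      rw [← hreg, Subgroup.mem_centralizer_singleton_iff]
      have h3 : (a : B) * t * (a : B)⁻¹ = b * t * (b : B)⁻¹ := by
        calc (a : B) * t * (a : B)⁻¹ = t * (t⁻¹ * a * t * (a : B)⁻¹) := by group
          _ = t * (t⁻¹ * b * t * (b : B)⁻¹) := by rw [h1]
          _ = _ := by group
      calc (b : B)⁻¹ * a * t = (b : B)⁻¹ * (a * t * (a : B)⁻¹) * a := by group
        _ = (b : B)⁻¹ * (b * t * (b : B)⁻¹) * a := by rw [h3]
        _ = _ := by group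
    have h4 : (b : B)⁻¹ * a ∈ U := U.mul_mem (U.inv_mem b.2) a.2
    have h5 : (b : B)⁻¹ * a ∈ U ⊓ T := ⟨h4, h2⟩
    rw [hcompl.disjoint.eq_bot, Subgroup.mem_bot, inv_mul_eq_one] at h5
    exact Subtype.ext h5.symm
  obtain ⟨b, hb⟩ := Finite.surjective_of_injective hinj ⟨u, hu⟩
  refine ⟨b, ?_⟩
  have h1 : t⁻¹ * b * t * (b : B)⁻¹ = u := congrArg Subtype.val hb
  rw [← h1]; group

end Cfsg.Agent.S2521
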