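import Cfsg.Statements.S2522
import Cfsg.Agent.Fac.LevU

set_option autoImplicit false
open Cfsg

namespace Cfsg.Agent.S2522

open Cfsg.Agent.Fac Cfsg.Agent.GLn Polynomial Module

section
variable {K V : Type*} [Field K] [AddCommGroup V] [Module K V]

theorem nd_of_fun {f : End K V} (θ : V →ₗ[K] K) (h : ∀ (c : K) u, f u = c • u → θ u = 0 → u = 0) : ND f := fun c => by
  by_cases h0 : ∃ w, w ≠ 0 ∧ f w = c • w
  · obtain ⟨w, w0, hw⟩ := h0
    have h1 : θ w ≠ 0 := fun e => w0 (h c w hw e)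
    exact ⟨w, fun u hu => ⟨θ u / θ w, sub_eq_zero.1 (h c _ (by simp [hu, hw, smul_sub, smul_comm c]) (by simp [h1]))⟩⟩
  · exact ⟨0, fun u hu => ⟨0, by_contra fun e => h0 ⟨u, by simpa using e, hu⟩⟩⟩

theorem charpoly_iff [FiniteDimensional K V] {f : End K V} :
    f.charpoly = (X - C 1) ^ finrank K V ↔ IsNilpotent (f - (1 : K) • 1) := by
  rw [LinearMap.isNilpotent_iff_charpoly, LinearMap.charpoly_sub_smul]
  refine ⟨fun h => by simp [h], fun h => ?_⟩
  have := congrArg (·.comp (X - C 1)) h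
  simpa [comp_assoc] using this

end

/-- Let K be a field with at least four elements (finite or infinite), n ≥ 3, and J ∈ GL(n, K) the regular unipotent matrix (ones on the diagonal and the superdiagonal, zeros elsewhere). Then every non-scalar g ∈ GL(n, K) with det g = 1 is a product of two GL(n, K)-conjugates of J. -/
theorem result {K : Type*} [Field K] (hK : 4 ≤ Cardinal.mk K) (n : ℕ) (hn : 3 ≤ n) (J g : GL (Fin n) K)
    (hJ : ∀ i j : Fin n, (J : Matrix (Fin n) (Fin n) K) i j = if i = j then 1 else if j.val = i.val + 1 then 1 else 0)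
    (hg : ¬ ∃ c : K, (g : Matrix (Fin n) (Fin n) K) = c • (1 : Matrix (Fin n) (Fin n) K))
    (hdet : (g : Matrix (Fin n) (Fin n) K).det = 1) :
    ∃ x y : GL (Fin n) K, g = (x * J * x⁻¹) * (y * J * y⁻¹) := by
  have hB : Big K 4 := by
    obtain ⟨s, hs⟩ := Cardinal.le_mk_iff_exists_set.1 hK
    have : s.Finite := Set.finite_coe_iff.1 (Cardinal.lt_aleph0_iff_finite.1 (hs ▸ Cardinal.natCast_lt_aleph0 (n := 4)))
    refine ⟨this.toFinset, le_of_eq ?_⟩
    have e : Nat.card s = 4 := by rw [Nat.card, hs]; simp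
    rw [← e, Nat.card_coe_set_eq, Set.ncard_eq_toFinset_card s this]
  obtain ⟨B, b1, b2, b3, b4⟩ := fct_unip hB one_ne_zero (M := Matrix.toLin' g.1) (by rw [LinearMap.det_toLin', hdet])
    (fun c hc => hg ⟨c, Matrix.toLin'.injective (by rw [hc, map_smul, Matrix.toLin'_one]; rfl)⟩)
  have e1 : Matrix.toLin' J.1 * Matrix.toLin' (J⁻¹).1 = 1 := by
    rw [Module.End.mul_eq_comp, ← Matrix.toLin'_mul, ← Units.val_mul, mul_inv_cancel, Units.val_one, Matrix.toLin'_one]; rfl
  have e2 : Matrix.toLin' (J⁻¹).1 * Matrix.toLin' J.1 = 1 := by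
    rw [Module.End.mul_eq_comp, ← Matrix.toLin'_mul, ← Units.val_mul, inv_mul_cancel, Units.val_one, Matrix.toLin'_one]; rfl
  have k : ∀ (c : K) u, Matrix.toLin' J.1 u = c • u → u ⟨0, by omega⟩ = 0 → u = 0 := fun c u hu h0 => by
    have : ∀ i (hi : i < n), u ⟨i, hi⟩ = 0 := fun i => by
      induction i with
      | zero => exact fun _ => h0
      | succ i ih =>
        intro hi
        have := congrFun hu ⟨i, by omega⟩
        rw [Matrix.toLin'_apply, Matrix.mulVec, dotProduct, Finset.sum_eq_single ⟨i + 1, hi⟩ (fun j _ hj => ?_) (by simp)] at this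
        · simpa [hJ, ih] using this
        · rw [hJ]; split_ifs with h1 h2
          · simp [← h1, ih]
          · exact absurd (Fin.ext h2) hj
          · simp
    exact funext fun i => this i.1 i.2
  have n1 : ND (Matrix.toLin' J.1) := nd_of_fun (LinearMap.proj (⟨0, by omega⟩ : Fin n)) fun c u hu h0 => k c u hu h0
  have n2 : ND (Matrix.toLin' (J⁻¹).1) := nd_of_fun (LinearMap.proj (⟨0, by omega⟩ : Fin n)) fun c u hu h0 => by
    have h1 : u = c • Matrix.toLin' J.1 u := by rw [← map_smul, ← hu, ← Module.End.mul_apply, e1]; rfl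
    by_cases hc : c = 0
    · simpa [hc] using h1
    · exact k c⁻¹ u (by rw [eq_inv_smul_iff₀ hc, ← h1]) h0
  have c1 : (Matrix.toLin' J.1).charpoly = (X - C 1) ^ finrank K (Fin n → K) := by
    rw [Matrix.charpoly_toLin', Matrix.charpoly_of_isUpperTriangular _ (fun i j hij => by
      have : j < i := hij
      rw [hJ, if_neg this.ne', if_neg (by omega)])]
    simp [hJ]
  have c2 : (Matrix.toLin' (J⁻¹).1).charpoly = (X - C 1) ^ finrank K (Fin n → K) := by
    rw [charpoly_iff] at c1 ⊢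
    generalize Matrix.toLin' (J⁻¹).1 = A at *
    have : A - (1 : K) • 1 = A * -(Matrix.toLin' J.1 - (1 : K) • 1) := by
      simp [mul_sub, e2]
    rw [this]
    exact Commute.isNilpotent_mul_left (by simp [Commute, SemiconjBy, mul_sub, sub_mul, e1, e2]) c1.neg
  have s : Simple ((X - C 1) ^ finrank K (Fin n → K) : K[X]) :=
    simple_of_splits (pow_ne_zero _ (X_sub_C_ne_zero 1)) ((Splits.X_sub_C 1).pow _)
  have s1 := sim_of_nd n1 b2 (c1.trans b4.symm) (c1 ▸ s)
  have s2 := sim_of_nd n2 b1 (c2.trans b3.symm) (c2 ▸ s)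
  rw [← Matrix.toLin'_toMatrix' B] at s1 s2
  rw [Module.End.mul_eq_comp, ← Matrix.toLin'_mul] at s1
  obtain ⟨x, hx⟩ := isConj_iff_sim.2 s1
  obtain ⟨y, hy⟩ := isConj_iff_sim.2 s2
  refine ⟨x, y, ?_⟩
  have h3 : (y * J⁻¹ * y⁻¹).1 = LinearMap.toMatrix' B := by
    rw [Units.val_mul, Units.val_mul, hy.eq, mul_assoc, Units.mul_inv, mul_one]
  have h4 : x * J * x⁻¹ = g * (y * J⁻¹ * y⁻¹) := Units.ext (by
    rw [Units.val_mul g, h3, Units.val_mul, Units.val_mul, hx.eq, mul_assoc, Units.mul_inv, mul_one])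
  rw [h4]; group

end Cfsg.Agent.S2522
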