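import Cfsg.Statements.S2524
import Cfsg.Agent.Forms.WeilChar

set_option autoImplicit false
open Cfsg

namespace Cfsg.Agent.S2524

open Cfsg.Agent.Forms Cfsg.Agent.CharLib Module

theorem card_eq_two {α : Type*} {p : α → Prop} {a b : α} (hab : a ≠ b) (ha : p a) (hb : p b)
    (h : ∀ x, p x → x = a ∨ x = b) : Nat.card {x // p x} = 2 :=
  Nat.card_eq_two_iff.2 ⟨⟨a, ha⟩, ⟨b, hb⟩, fun h => hab (congrArg Subtype.val h),
    Set.eq_univ_of_forall fun x => (h x.1 x.2).imp Subtype.ext Subtype.ext⟩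

/-- Let F be a finite field of odd order q and G = Sp(2n, F) with n ≥ 2. Then G has exactly four irreducible complex characters of degree (q^n + 1)/2 or (q^n − 1)/2 (two of each), and every other non-principal irreducible character has degree at least (q^n − 1)(q^n − q)/(2(q + 1)). -/
theorem result {F : Type*} [Field F] [Fintype F] (hodd : Odd (Fintype.card F)) (n : ℕ) (hn : 2 ≤ n) :
    Nat.card {χ : Cfsg.IrrCharacter ↥(Matrix.symplecticGroup (Fin n) F) // (χ : ↥(Matrix.symplecticGroup (Fin n) F) → ℂ) 1 = (((Fintype.card F) ^ n + 1 : ℕ) : ℂ) / 2} = 2 ∧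
    Nat.card {χ : Cfsg.IrrCharacter ↥(Matrix.symplecticGroup (Fin n) F) // (χ : ↥(Matrix.symplecticGroup (Fin n) F) → ℂ) 1 = (((Fintype.card F) ^ n - 1 : ℕ) : ℂ) / 2} = 2 ∧
    ∀ χ : Cfsg.IrrCharacter ↥(Matrix.symplecticGroup (Fin n) F),
      (χ : ↥(Matrix.symplecticGroup (Fin n) F) → ℂ) 1 ≠ 1 →
      (χ : ↥(Matrix.symplecticGroup (Fin n) F) → ℂ) 1 ≠ (((Fintype.card F) ^ n + 1 : ℕ) : ℂ) / 2 →
      (χ : ↥(Matrix.symplecticGroup (Fin n) F) → ℂ) 1 ≠ (((Fintype.card F) ^ n - 1 : ℕ) : ℂ) / 2 →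
      (((Fintype.card F) ^ n - 1 : ℕ) : ℝ) * (((Fintype.card F) ^ n - Fintype.card F : ℕ) : ℝ) / (2 * ((Fintype.card F : ℕ) + 1 : ℝ)) ≤ ‖(χ : ↥(Matrix.symplecticGroup (Fin n) F) → ℂ) 1‖ := by
  classical
  have h2 := two_ne_zero_of_odd_card hodd
  have := Fintype.ofFinite (Matrix.symplecticGroup (Fin n) F)
  obtain ⟨ψ, hψ⟩ := exists_addChar_ne_one (F := F)
  obtain ⟨ν, hν⟩ := FiniteField.exists_nonsquare (F := F) fun h => h2 ((ringChar.spec F 2).2 h.dvd)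
  have hψ' : ψ.mulShift ν ≠ 1 :=
    AddChar.IsPrimitive.of_ne_one hψ (by rintro rfl; exact hν ⟨0, by simp⟩)
  obtain ⟨ω₁, hω₁, hJ₁, hω₁'⟩ := exists_weil_EG (n := n) h2 hψ
  obtain ⟨ω₂, hω₂, hJ₂, hω₂'⟩ := exists_weil_EG (n := n) h2 hψ'
  obtain ⟨hE₁, hO₁⟩ := weil_irreducible (by omega) h2 hψ hω₁ hJ₁
  obtain ⟨hE₂, hO₂⟩ := weil_irreducible (by omega) h2 hψ' hω₂ hJ₂
  set q := Fintype.card F with hq
  have hq3 : 3 ≤ q := by
    have := Fintype.one_lt_card (α := F)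
    obtain ⟨r, hr⟩ := hodd
    omega
  have hQ : q * q ≤ q ^ n := by
    rw [← pow_two]
    exact Nat.pow_le_pow_right (by omega) hn
  have hQ1 : 1 ≤ q ^ n := by nlinarith
  have hE : ∀ {ω : Representation ℂ (Matrix.symplecticGroup (Fin n) F) ((Fin n → F) → ℂ)}
      (hJ : ∀ g, ω g * parity n F = parity n F * ω g),
      (weilSub hJ 1).toRepresentation.character 1 = ((q ^ n + 1 : ℕ) : ℂ) / 2 := fun hJ => by
    rw [Representation.char_one, Nat.cast_add, Nat.cast_pow, Nat.cast_one]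
    exact finrank_parSp h2 (by simp)
  have hO : ∀ {ω : Representation ℂ (Matrix.symplecticGroup (Fin n) F) ((Fin n → F) → ℂ)}
      (hJ : ∀ g, ω g * parity n F = parity n F * ω g),
      (weilSub hJ (-1)).toRepresentation.character 1 = ((q ^ n - 1 : ℕ) : ℂ) / 2 := fun hJ => by
    rw [Representation.char_one, Nat.cast_sub hQ1, Nat.cast_pow, Nat.cast_one, sub_eq_add_neg]
    exact finrank_parSp h2 (by simp)
  have hEO : ((q ^ n + 1 : ℕ) : ℂ) / 2 ≠ ((q ^ n - 1 : ℕ) : ℂ) / 2 := fun h => by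
    have := Nat.cast_injective ((div_left_inj' two_ne_zero).1 h)
    omega
  have key : ∀ χ : IrrCharacter (Matrix.symplecticGroup (Fin n) F), ∃ k : ℕ, χ.1 1 = k ∧
      (k = 1 ∨ (q ^ n - 1) * (q ^ n - q) ≤ 2 * (q + 1) * k ∨ χ = ⟨_, hE₁⟩ ∨ χ = ⟨_, hO₁⟩ ∨
        χ = ⟨_, hE₂⟩ ∨ χ = ⟨_, hO₂⟩) := by
    rintro ⟨_, k, ρ, hρ, rfl⟩
    have h1 : ρ.character 1 = k := by simp
    refine ⟨k, h1, ?_⟩
    have h0 : k ≠ 0 := by
      rintro rfl
      exact isIrr_one_ne_zero (isIrrCharacter_character ρ) (by simpa using h1)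
    by_contra h
    simp only [not_or] at h
    obtain ⟨h3, h4, h5, h6, h7, h8⟩ := h
    obtain ⟨ψ', hψ', h⟩ := weil_classify hn h2 hψ hν ρ (by omega) (by simpa using h4)
    simp only [List.mem_cons, List.not_mem_nil, or_false] at hψ'
    rcases hψ' with rfl | rfl
    · obtain ⟨Θ, hΘ⟩ := h ω₁ hJ₁ hω₁'
      have := inner_ne_zero_of_factor ω₁ ρ (isIrrCharacter_character ρ) Θ hΘ
      rw [character_eq_add_of_isCompl ω₁ (weilSub hJ₁ 1) (weilSub hJ₁ (-1)) isCompl_parSp] at this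
      exact (eq_or_eq_of_inner_add_ne_zero (isIrrCharacter_character ρ) hE₁ hO₁ this).elim
        (fun h => h5 (Subtype.ext h)) fun h => h6 (Subtype.ext h)
    · obtain ⟨Θ, hΘ⟩ := h ω₂ hJ₂ hω₂'
      have := inner_ne_zero_of_factor ω₂ ρ (isIrrCharacter_character ρ) Θ hΘ
      rw [character_eq_add_of_isCompl ω₂ (weilSub hJ₂ 1) (weilSub hJ₂ (-1)) isCompl_parSp] at this
      exact (eq_or_eq_of_inner_add_ne_zero (isIrrCharacter_character ρ) hE₂ hO₂ this).elim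
        (fun h => h7 (Subtype.ext h)) fun h => h8 (Subtype.ext h)
  have hsmall : ∀ k N : ℕ, (k : ℂ) = (N : ℂ) / 2 → q ^ n - 1 ≤ N → N ≤ q ^ n + 1 →
      ¬k = 1 ∧ ¬(q ^ n - 1) * (q ^ n - q) ≤ 2 * (q + 1) * k := by
    intro k N h h1 h3
    have h4 : N = 2 * k := Nat.cast_injective (R := ℂ) (by push_cast; linear_combination -2 * h)
    obtain ⟨a, ha⟩ : ∃ a, q ^ n = q + (q + 3) + a := Nat.exists_eq_add_of_le (by nlinarith)
    refine ⟨by rintro rfl; omega, not_le.2 ?_⟩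
    rw [ha] at h3 hQ ⊢
    rw [show q + (q + 3) + a - 1 = 2 * q + 2 + a by omega, show q + (q + 3) + a - q = q + 3 + a by omega]
    nlinarith
  refine ⟨card_eq_two (a := ⟨_, hE₁⟩) (b := ⟨_, hE₂⟩) (fun h => weil_char_ne hn h2 hψ hν hJ₁ hJ₂ hω₁'
      hω₂' (by simp) (congrArg Subtype.val h)) (hE hJ₁) (hE hJ₂) fun χ hχ => ?_,
    card_eq_two (a := ⟨_, hO₁⟩) (b := ⟨_, hO₂⟩) (fun h => weil_char_ne hn h2 hψ hν hJ₁ hJ₂ hω₁'
      hω₂' (by simp) (congrArg Subtype.val h)) (hO hJ₁) (hO hJ₂) fun χ hχ => ?_,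
    fun χ h1 h3 h4 => ?_⟩
  · obtain ⟨k, hk, h⟩ := key χ
    obtain ⟨h1, h3⟩ := hsmall k _ (hk.symm.trans hχ) (by omega) le_rfl
    rcases h with h | h | h | rfl | h | rfl
    exacts [absurd h h1, absurd h h3, Or.inl h, absurd (hχ.symm.trans (hO hJ₁)) hEO, Or.inr h,
      absurd (hχ.symm.trans (hO hJ₂)) hEO]
  · obtain ⟨k, hk, h⟩ := key χ
    obtain ⟨h1, h3⟩ := hsmall k _ (hk.symm.trans hχ) le_rfl (by omega)
    rcases h with h | h | rfl | h | rfl | h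
    exacts [absurd h h1, absurd h h3, absurd ((hE hJ₁).symm.trans hχ) hEO, Or.inl h,
      absurd ((hE hJ₂).symm.trans hχ) hEO, Or.inr h]
  · obtain ⟨k, hk, h⟩ := key χ
    rcases h with rfl | h | rfl | rfl | rfl | rfl
    · exact absurd (hk.trans Nat.cast_one) h1
    · rw [hk, Complex.norm_natCast, div_le_iff₀ (by positivity), mul_comm (k : ℝ)]
      exact_mod_cast h
    exacts [absurd (hE hJ₁) h3, absurd (hO hJ₁) h4, absurd (hE hJ₂) h3, absurd (hO hJ₂) h4]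

end Cfsg.Agent.S2524
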