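import Cfsg.Statements.S2525
import Cfsg.Agent.Lang.SpecF4

set_option autoImplicit false
open Cfsg

namespace Cfsg.Agent.S2525

open Cfsg.Agent.Lang Cfsg.Agent.Chev Cfsg.Agent.RGD


/-- Let F be a finite field with q = 2^n elements and G = F₄(F). For an odd prime r let e(r, q) be the multiplicative order of q modulo r. Two distinct primes r, s dividing the order of G are non-adjacent in the prime graph of G (no element of order rs) if and only if, up to swapping r and s, either r = 2 and e(s, q) ∈ {8, 12}, or r, s are both odd with k = e(r, q) < l = e(s, q) and one of: l ∈ {8, 12}; l = 6 and k ∈ {3, 4}; l = 4 and k = 3. -/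
theorem result {F : Type*} [Field F] [Fintype F] (n : ℕ) (hn : 1 ≤ n) (hF : Fintype.card F = 2 ^ n)
    (r s : ℕ) (hr : r.Prime) (hs : s.Prime) (hrs : r ≠ s) (hrG : r ∣ Nat.card ↥(Cfsg.Lie.chevF4.group F)) (hsG : s ∣ Nat.card ↥(Cfsg.Lie.chevF4.group F)) :
    (¬ ∃ x : ↥(Cfsg.Lie.chevF4.group F), orderOf x = r * s) ↔
      ((r = 2 ∧ orderOf ((Fintype.card F : ℕ) : ZMod s) ∈ ({8, 12} : Finset ℕ)) ∨ (s = 2 ∧ orderOf ((Fintype.card F : ℕ) : ZMod r) ∈ ({8, 12} : Finset ℕ)) ∨
       (r ≠ 2 ∧ s ≠ 2 ∧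
         ((orderOf ((Fintype.card F : ℕ) : ZMod r) < orderOf ((Fintype.card F : ℕ) : ZMod s) ∧ (orderOf ((Fintype.card F : ℕ) : ZMod s) ∈ ({8, 12} : Finset ℕ) ∨ (orderOf ((Fintype.card F : ℕ) : ZMod s) = 6 ∧ orderOf ((Fintype.card F : ℕ) : ZMod r) ∈ ({3, 4} : Finset ℕ)) ∨ (orderOf ((Fintype.card F : ℕ) : ZMod s) = 4 ∧ orderOf ((Fintype.card F : ℕ) : ZMod r) = 3))) ∨
          (orderOf ((Fintype.card F : ℕ) : ZMod s) < orderOf ((Fintype.card F : ℕ) : ZMod r) ∧ (orderOf ((Fintype.card F : ℕ) : ZMod r) ∈ ({8, 12} : Finset ℕ) ∨ (orderOf ((Fintype.card F : ℕ) : ZMod r) = 6 ∧ orderOf ((Fintype.card F : ℕ) : ZMod s) ∈ ({3, 4} : Finset ℕ)) ∨ (orderOf ((Fintype.card F : ℕ) : ZMod r) = 4 ∧ orderOf ((Fintype.card F : ℕ) : ZMod s) = 3)))))) := by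
  have h2 : CharP F 2 := charP_of_card_eq_prime_pow hF
  rw [← Nat.card_eq_fintype_card]
  rcases eq_or_ne r 2 with rfl | h3
  · have := f4_ord hs hrs.symm hsG
    rw [f4_two hs hrs.symm]
    simp only [List.mem_cons, List.not_mem_nil, Finset.mem_insert, Finset.mem_singleton, hrs.symm, ne_eq, true_and,
      false_and, not_true_eq_false, or_false] at this ⊢
    omega
  rcases eq_or_ne s 2 with rfl | h4
  · have := f4_ord hr h3 hrG
    rw [mul_comm, f4_two hr h3]
    simp only [List.mem_cons, List.not_mem_nil, Finset.mem_insert, Finset.mem_singleton, h3, ne_eq, true_and,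
      false_and, and_false, not_true_eq_false, or_false, false_or] at this ⊢
    omega
  have := Fact.mk hr
  have := Fact.mk hs
  obtain ⟨a1, a2, a3, a4, a5, -⟩ := ord_f4 h3 (q := Nat.card F)
  obtain ⟨b1, b2, b3, b4, b5, -⟩ := ord_f4 h4 (q := Nat.card F)
  have a := f4_ord hr h3 hrG
  have b := f4_ord hs h4 hsG
  rw [f4_odd hr hs h4 h3 hrs]
  simp only [List.mem_cons, List.not_mem_nil, Finset.mem_insert, Finset.mem_singleton, or_false, exists_eq_or_imp,
    exists_eq_left, a1, a2, a3, a4, a5, b1, b2, b3, b4, b5, h3, h4, false_and, false_or, ne_eq, not_false_eq_true,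
    true_and] at a b ⊢
  generalize orderOf (Nat.card F : ZMod r) = x at *
  generalize orderOf (Nat.card F : ZMod s) = y at *
  rcases a with rfl | rfl | rfl | rfl | rfl | rfl | rfl <;> rcases b with rfl | rfl | rfl | rfl | rfl | rfl | rfl <;>
    simp

end Cfsg.Agent.S2525
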